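import Cfsg.Statements.S3378
import Cfsg.Agent.Pres.A5
import Cfsg.Agent.Pres.SL2
import Cfsg.Agent.Pres.Order60

set_option autoImplicit false
open Cfsg

namespace Cfsg.Agent.S3378

open Matrix MatrixGroups

/-- The relators. -/
abbrev R : Set (FreeGroup (Fin 3)) :=
  {FreeGroup.of (0 : Fin 3) ^ 3, FreeGroup.of (1 : Fin 3) ^ 5, FreeGroup.of (2 : Fin 3) ^ 2,
    (FreeGroup.of (2 : Fin 3))⁻¹ * FreeGroup.of 0 * FreeGroup.of 2 * (FreeGroup.of (0 : Fin 3))⁻¹,
    (FreeGroup.of (2 : Fin 3))⁻¹ * FreeGroup.of 1 * FreeGroup.of 2 * (FreeGroup.of (1 : Fin 3))⁻¹,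
    (FreeGroup.of (0 : Fin 3) * FreeGroup.of 1) ^ 2 * (FreeGroup.of (2 : Fin 3))⁻¹}

theorem exists_hom {H : Type*} [Group H] (x y z : H) (hx : x ^ 3 = 1) (hy : y ^ 5 = 1)
    (hz : z ^ 2 = 1) (hxz : x * z = z * x) (hyz : y * z = z * y) (hxy : (x * y) ^ 2 = z) :
    ∃ φ : PresentedGroup R →* H, φ (PresentedGroup.of 0) = x ∧ φ (PresentedGroup.of 1) = y ∧
      φ (PresentedGroup.of 2) = z := by
  have hl : ∀ r ∈ R, FreeGroup.lift ![x, y, z] r = 1 := by
    rintro r (rfl | rfl | rfl | rfl | rfl | rfl)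
    · simpa using hx
    · simpa using hy
    · simpa using hz
    · simp [mul_assoc]; rw [← mul_assoc x, hxz]; group
    · simp [mul_assoc]; rw [← mul_assoc y, hyz]; group
    · simp [hxy]
  exact ⟨PresentedGroup.toGroup hl, PresentedGroup.toGroup.of hl, PresentedGroup.toGroup.of hl,
    PresentedGroup.toGroup.of hl⟩

theorem card_pres : Finite (PresentedGroup R) ∧ Nat.card (PresentedGroup R) ≤ 120 := by
  let x : PresentedGroup R := PresentedGroup.of 0
  let y : PresentedGroup R := PresentedGroup.of 1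
  let z : PresentedGroup R := PresentedGroup.of 2
  have hx : x ^ 3 = 1 := PresentedGroup.one_of_mem (rels := R) (Or.inl rfl)
  have hy : y ^ 5 = 1 := PresentedGroup.one_of_mem (rels := R) (Or.inr (Or.inl rfl))
  have hz : z ^ 2 = 1 := PresentedGroup.one_of_mem (rels := R) (Or.inr (Or.inr (Or.inl rfl)))
  have hxz : z⁻¹ * x * z * x⁻¹ = 1 :=
    PresentedGroup.one_of_mem (rels := R) (Or.inr (Or.inr (Or.inr (Or.inl rfl))))
  have hyz : z⁻¹ * y * z * y⁻¹ = 1 :=
    PresentedGroup.one_of_mem (rels := R) (Or.inr (Or.inr (Or.inr (Or.inr (Or.inl rfl)))))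
  have hxy : (x * y) ^ 2 * z⁻¹ = 1 :=
    PresentedGroup.one_of_mem (rels := R) (Or.inr (Or.inr (Or.inr (Or.inr (Or.inr rfl)))))
  have hc : z ∈ Subgroup.center (PresentedGroup R) := by
    rw [Subgroup.mem_center_iff]
    intro g
    have : g ∈ Subgroup.centralizer {z} := by
      apply PresentedGroup.generated_by
      intro j
      rw [Subgroup.mem_centralizer_singleton_iff]
      fin_cases j
      · change x * z = z * x
        calc x * z = z * (z⁻¹ * x * z * x⁻¹) * x := by group
          _ = z * x := by rw [hxz, mul_one]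
      · change y * z = z * y
        calc y * z = z * (z⁻¹ * y * z * y⁻¹) * y := by group
          _ = z * y := by rw [hyz, mul_one]
      · rfl
    exact Subgroup.mem_centralizer_singleton_iff.1 this
  let Z := Subgroup.zpowers z
  have hZ : Z.Normal := ⟨fun n hn g => by
    rw [Subgroup.mem_center_iff.1 (Subgroup.zpowers_le.2 hc hn) g]; simpa using hn⟩
  have hzq : (QuotientGroup.mk' Z) z = 1 := (QuotientGroup.eq_one_iff _).2 (Subgroup.mem_zpowers z)
  obtain ⟨φ, h1, h2⟩ := Pres.exists_hom_a5 (QuotientGroup.mk' Z x) (QuotientGroup.mk' Z y)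
    (by rw [← map_pow, hx, map_one]) (by rw [← map_pow, hy, map_one])
    (by rw [← map_mul, ← map_pow, mul_inv_eq_one.1 hxy, hzq])
  have hs : Function.Surjective φ := by
    intro q
    obtain ⟨g, rfl⟩ := QuotientGroup.mk'_surjective Z q
    have : g ∈ φ.range.comap (QuotientGroup.mk' Z) := by
      apply PresentedGroup.generated_by
      intro j
      fin_cases j
      · exact ⟨_, h1⟩
      · exact ⟨_, h2⟩
      · exact ⟨1, by rw [map_one]; exact hzq.symm⟩
    exact this
  have hfq : Finite (PresentedGroup R ⧸ Z) := Finite.of_surjective _ hs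
  have hcq : Z.index ≤ 60 := by
    have := Nat.card_le_card_of_surjective _ hs
    rwa [nat_card_alternatingGroup, Nat.card_eq_fintype_card (α := Fin 5), Fintype.card_fin] at this
  have ho : orderOf z ∣ 2 := orderOf_dvd_of_pow_eq_one hz
  have hfz : Finite Z := by
    have : IsOfFinOrder z := isOfFinOrder_iff_pow_eq_one.2 ⟨2, by norm_num, hz⟩
    exact this.finite_zpowers
  have hcz : Nat.card Z ≤ 2 := by
    rw [Nat.card_zpowers]
    exact Nat.le_of_dvd (by norm_num) ho
  refine ⟨Finite.of_equiv _ (Subgroup.groupEquivQuotientProdSubgroup (s := Z)).symm, ?_⟩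
  rw [← Z.card_mul_index]
  exact Nat.mul_le_mul hcz hcq

theorem equiv_of_gen {H : Type*} [Group H] (hH : Nat.card H = 120) (x y z : H) (hx : x ^ 3 = 1)
    (hy : y ^ 5 = 1) (hz : z ^ 2 = 1) (hxz : x * z = z * x) (hyz : y * z = z * y)
    (hxy : (x * y) ^ 2 = z) (hgen : ∀ K : Subgroup H, x ∈ K → y ∈ K → z ∈ K → K = ⊤) :
    Nonempty (PresentedGroup R ≃* H) := by
  obtain ⟨φ, h1, h2, h3⟩ := exists_hom x y z hx hy hz hxz hyz hxy
  have hs : Function.Surjective φ :=
    MonoidHom.range_eq_top.1 (hgen _ ⟨_, h1⟩ ⟨_, h2⟩ ⟨_, h3⟩)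
  have := card_pres.1
  exact ⟨MulEquiv.ofBijective φ (hs.bijective_of_nat_card_le (hH ▸ card_pres.2))⟩

instance fact5 : Fact (Nat.Prime 5) := ⟨by norm_num⟩

theorem pres_sl : Nonempty (PresentedGroup R ≃* SL(2, ZMod 5)) := by
  have hc : Nat.card SL(2, ZMod 5) = 120 := by
    rw [Nat.card_eq_fintype_card]
    decide +kernel
  let x : SL(2, ZMod 5) := ⟨!![0, 4; 1, 4], by decide +kernel⟩
  refine equiv_of_gen hc x (Pres.sl2u 1) (-1) (by decide +kernel) (by decide +kernel)
    (by decide +kernel) (by simp) (by simp) (by decide +kernel) ?_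
  intro K hx hy _
  have hu : ∀ t : ZMod 5, Pres.sl2u t ∈ K := by
    have : ∀ t : ZMod 5, Pres.sl2u t = Pres.sl2u 1 ^ t.val := by decide +kernel
    intro t
    rw [this]
    exact K.pow_mem hy _
  apply Pres.sl2_eq_top K hu
  have : ∀ t : ZMod 5, Pres.sl2l t = (x * Pres.sl2u 1) * Pres.sl2u (-t) * (x * Pres.sl2u 1)⁻¹ := by
    decide +kernel
  intro t
  rw [this]
  exact K.mul_mem (K.mul_mem (K.mul_mem hx hy) (hu _)) (K.inv_mem (K.mul_mem hx hy))

theorem pres_G (G : Type*) [Group G] [Finite G] (hG : Nat.card G = 120) (hs : ¬ Group.IsSolvable G)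
    (hQ : ∀ P : Sylow 2 G, Nonempty ((P : Subgroup G) ≃* QuaternionGroup 2)) :
    Nonempty (PresentedGroup R ≃* G) := by
  classical
  have huniq : ∀ P : Sylow 2 G, ∃ z ∈ (P : Subgroup G), z ≠ 1 ∧ z * z = 1 ∧
      ∀ g ∈ (P : Subgroup G), g ≠ 1 → g = z ∨ g * g = z := by
    intro P
    obtain ⟨e⟩ := hQ P
    have h1 : ∀ g : QuaternionGroup 2, g ≠ 1 → g = QuaternionGroup.a 2 ∨
      g * g = QuaternionGroup.a 2 := by decide
    refine ⟨e.symm (QuaternionGroup.a 2), (e.symm _).2, ?_, ?_, ?_⟩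
    · intro h
      have : e.symm (QuaternionGroup.a 2) = 1 := Subtype.ext h
      rw [MulEquiv.map_eq_one_iff] at this
      exact absurd this (by decide)
    · rw [← Subgroup.coe_mul, ← map_mul, show (QuaternionGroup.a 2 * QuaternionGroup.a 2 :
        QuaternionGroup 2) = 1 by decide, map_one, Subgroup.coe_one]
    · intro g hg hg1
      rcases h1 (e ⟨g, hg⟩) (by
        rw [Ne, MulEquiv.map_eq_one_iff]
        exact fun h => hg1 (congrArg Subtype.val h)) with h | h
      · left; rw [← h]; simp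
      · right; rw [← h, ← map_mul]; simp
  obtain ⟨P5⟩ : Nonempty (Sylow 5 G) := inferInstance
  have c5 : Nat.card P5 = 5 := by
    rw [P5.card_eq_multiplicity, hG]
    decide +kernel
  have i5 : (P5 : Subgroup G).index = 24 := by
    have := (P5 : Subgroup G).card_mul_index
    rw [c5, hG] at this
    omega
  have n5 : Nat.card (Sylow 5 G) = 6 := by
    have h1 := P5.card_dvd_index
    have h2 := card_sylow_modEq_one 5 G
    have h3 : Nat.card (Sylow 5 G) ≠ 1 := by
      intro h
      have : Subsingleton (Sylow 5 G) := (Nat.card_eq_one_iff_unique.1 h).1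
      have hn := P5.normal_of_subsingleton
      apply hs
      rw [Group.isSolvable_iff_subgroup_quotient (P5 : Subgroup G)]
      constructor
      · apply Pres.solvable_of_card_dvd_120 <;> rw [c5] <;> norm_num
      · apply Pres.solvable_of_card_dvd_120 <;> change _root_.id (_ : Prop) <;>
          rw [id, show Nat.card (G ⧸ (P5 : Subgroup G)) = 24 from i5] <;> norm_num
    rw [i5] at h1
    have hle := Nat.le_of_dvd (by norm_num) h1
    unfold Nat.ModEq at h2
    generalize Nat.card (Sylow 5 G) = n at *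
    interval_cases n <;> simp_all
  let K := (MulAction.toPermHom G (Sylow 5 G)).ker
  obtain ⟨S⟩ : Nonempty (Sylow 2 G) := inferInstance
  obtain ⟨z, hzS, hz1, hzz, hz⟩ := huniq S
  have cS : Nat.card S = 8 := by
    rw [S.card_eq_multiplicity, hG]
    decide +kernel
  have hzK : z ∈ K := by
    rw [MonoidHom.mem_ker]
    ext1 Q
    have h1 := (MulAction.stabilizer (S : Subgroup G) Q).card_mul_index
    have h2 : (MulAction.stabilizer (S : Subgroup G) Q).index ≤ 6 := by
      rw [MulAction.index_stabilizer, ← n5]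
      exact Set.ncard_le_card _
    have h3 : MulAction.stabilizer (S : Subgroup G) Q ≠ ⊥ := by
      intro h
      rw [h, Subgroup.index_bot] at h2
      change Nat.card S ≤ 6 at h2
      omega
    obtain ⟨⟨g, hg⟩, hg1⟩ := Subgroup.ne_bot_iff_exists_ne_one.1 h3
    have hg' : (g : G) • Q = Q := hg
    change z • Q = Q
    rcases hz g g.2 (fun h => hg1 (Subtype.ext (Subtype.ext h))) with h | h
    · rw [← h, hg']
    · rw [← h, mul_smul, hg', hg']
  have hKN : K ≤ Subgroup.normalizer (P5 : Set G) := by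
    intro g hg
    rw [← Sylow.smul_eq_iff_mem_normalizer]
    exact DFunLike.congr_fun (MonoidHom.mem_ker.1 hg) P5
  have cK : Nat.card K = 2 := by
    have h1 := Subgroup.card_dvd_of_le hKN
    have h2 := (Subgroup.normalizer (P5 : Set G)).card_mul_index
    rw [← P5.card_eq_index_normalizer, n5, hG] at h2
    have h3 : Nat.card (Subgroup.normalizer (P5 : Set G)) = 20 := by omega
    rw [h3] at h1
    have h4 : Nat.card K ≠ 1 := fun h => hz1 (by
      rw [← Subgroup.mem_bot, ← Subgroup.card_eq_one.1 h]; exact hzK)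
    have h5 := K.card_mul_index
    rw [hG] at h5
    have hle := Nat.le_of_dvd (by norm_num) h1
    have hK : Group.IsSolvable K := by
      apply Pres.solvable_of_card_dvd_120 (h1.trans (by norm_num)) <;> omega
    by_contra hne
    apply hs
    rw [Group.isSolvable_iff_subgroup_quotient K]
    refine ⟨hK, Pres.solvable_of_card_dvd_120 ⟨_, h5.symm.trans (mul_comm _ _)⟩ ?_ ?_⟩
    · intro h; change K.index = 60 at h; rw [h] at h5; omega
    · intro h; change K.index = 120 at h; rw [h] at h5; omega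
  have hK : ∀ g ∈ K, g = 1 ∨ g = z := by
    intro g hg
    obtain ⟨y, -, hy⟩ := (Nat.card_eq_two_iff' (1 : K)).1 cK
    by_cases h : g = 1
    · exact Or.inl h
    · right
      have h1 := hy ⟨g, hg⟩ (fun h' => h (congrArg Subtype.val h'))
      have h2 := hy ⟨z, hzK⟩ (fun h' => hz1 (congrArg Subtype.val h'))
      exact congrArg Subtype.val (h1.trans h2.symm)
  have hzc : ∀ g : G, g * z = z * g := by
    intro g
    rcases hK _ (Subgroup.Normal.conj_mem inferInstance z hzK g) with h | h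
    · exact absurd (by simpa using h) hz1
    · rw [← mul_inv_eq_iff_eq_mul, h]
  have cq : Nat.card (G ⧸ K) = 60 := by
    have h5 := K.card_mul_index
    rw [hG, cK] at h5
    change K.index = 60
    omega
  obtain ⟨e⟩ := Pres.equiv_alt5_of_card_60 cq (fun h => hs (by
    rw [Group.isSolvable_iff_subgroup_quotient K]
    refine ⟨?_, h⟩
    apply Pres.solvable_of_card_dvd_120 <;> rw [cK] <;> norm_num))
  let π : G →* alternatingGroup (Fin 5) := e.toMonoidHom.comp (QuotientGroup.mk' K)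
  have hπ : Function.Surjective π := e.surjective.comp (QuotientGroup.mk'_surjective K)
  have hker : ∀ g, π g = 1 → g = 1 ∨ g = z := by
    intro g hg
    apply hK
    rwa [MonoidHom.comp_apply, MulEquiv.coe_toMonoidHom, MulEquiv.map_eq_one_iff,
      QuotientGroup.mk'_apply, QuotientGroup.eq_one_iff] at hg
  have hker2 : ∀ g, π g = 1 → g ^ 2 = 1 := by
    intro g hg
    rcases hker g hg with rfl | rfl
    · simp
    · rw [pow_two, hzz]
  obtain ⟨x₀, hx₀⟩ := hπ Pres.a5x
  obtain ⟨y₀, hy₀⟩ := hπ Pres.a5y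
  have hx : π (x₀ ^ 4) = Pres.a5x := by
    rw [map_pow, hx₀, pow_succ, Pres.a5x_cube, one_mul]
  have hy : π (y₀ ^ 6) = Pres.a5y := by
    rw [map_pow, hy₀, pow_succ, Pres.a5y_pow, one_mul]
  refine equiv_of_gen hG (x₀ ^ 4) (y₀ ^ 6) z ?_ ?_ (by rw [pow_two, hzz]) (hzc _) (hzc _) ?_ ?_
  · have := hker2 (x₀ ^ 3) (by rw [map_pow, hx₀, Pres.a5x_cube])
    calc (x₀ ^ 4) ^ 3 = ((x₀ ^ 3) ^ 2) ^ 2 := by group
      _ = 1 := by rw [this, one_pow]
  · have := hker2 (y₀ ^ 5) (by rw [map_pow, hy₀, Pres.a5y_pow])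
    calc (y₀ ^ 6) ^ 5 = ((y₀ ^ 5) ^ 2) ^ 3 := by group
      _ = 1 := by rw [this, one_pow]
  · set u := x₀ ^ 4 * y₀ ^ 6 with hu
    have hπu : π u = Pres.a5x * Pres.a5y := by rw [hu, map_mul, hx, hy]
    rcases hker (u ^ 2) (by rw [map_pow, hπu, Pres.a5xy_sq]) with h | h
    · exfalso
      have hp : IsPGroup 2 (Subgroup.zpowers u) := by
        apply IsPGroup.of_card_dvd_pow (n := 1)
        rw [Nat.card_zpowers]
        exact orderOf_dvd_of_pow_eq_one h
      obtain ⟨S', hS'⟩ := hp.exists_le_sylow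
      obtain ⟨g, hg⟩ := MulAction.exists_smul_eq G S S'
      have hzS' : z ∈ (S' : Subgroup G) := by
        rw [← hg, Sylow.coe_subgroup_smul]
        have := Subgroup.smul_mem_pointwise_smul z (MulAut.conj g) _ hzS
        simpa [hzc g] using this
      obtain ⟨z', -, hz1', -, hz'⟩ := huniq S'
      have hu1 : u ≠ 1 := fun h => Pres.a5xy_ne (by rw [← hπu, h, map_one])
      have e1 : u = z' := by
        rcases hz' u (hS' (Subgroup.mem_zpowers u)) hu1 with h1 | h1
        · exact h1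
        · rw [← pow_two, h] at h1; exact absurd h1.symm hz1'
      have e2 : z = z' := by
        rcases hz' z hzS' hz1 with h1 | h1
        · exact h1
        · rw [hzz] at h1; exact absurd h1.symm hz1'
      apply Pres.a5xy_ne
      rw [← hπu, e1, ← e2]
      change e (QuotientGroup.mk' K z) = 1
      rw [QuotientGroup.mk'_apply, (QuotientGroup.eq_one_iff z).2 hzK, map_one]
    · exact h
  · intro L h1 h2 h3
    have h4 : L.map π = ⊤ := by
      rw [eq_top_iff, ← Pres.a5_closure, Subgroup.closure_le]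
      rintro _ (rfl | rfl)
      · exact ⟨_, h1, hx⟩
      · exact ⟨_, h2, hy⟩
    rw [eq_top_iff]
    intro g _
    obtain ⟨l, hl, hlg⟩ : π g ∈ L.map π := by rw [h4]; trivial
    rcases hker (l⁻¹ * g) (by rw [map_mul, map_inv, hlg, inv_mul_cancel]) with h | h
    · rw [← inv_mul_eq_one.1 h]; exact hl
    · exact (L.mul_mem_cancel_left (L.inv_mem hl)).1 (h ▸ h3)

/-- Every non-solvable group of order 120 whose Sylow 2-subgroups are quaternion of order 8 is isomorphic to SL(2,5), and SL(2,5) has the presentation ⟨x, y, z | x³ = y⁵ = z² = 1, z⁻¹xz = x, z⁻¹yz = y, (xy)² = z⟩. -/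
theorem result :
    (∀ (G : Type*) [Group G] [Finite G], Nat.card G = 120 → ¬ Group.IsSolvable G →
      (∀ P : Sylow 2 G, Nonempty ((P : Subgroup G) ≃* QuaternionGroup 2)) →
      Nonempty (G ≃* Matrix.SpecialLinearGroup (Fin 2) (ZMod 5))) ∧
    Nonempty (PresentedGroup ({FreeGroup.of (0 : Fin 3) ^ 3, FreeGroup.of (1 : Fin 3) ^ 5, FreeGroup.of (2 : Fin 3) ^ 2,
        (FreeGroup.of (2 : Fin 3))⁻¹ * FreeGroup.of 0 * FreeGroup.of 2 * (FreeGroup.of (0 : Fin 3))⁻¹,
        (FreeGroup.of (2 : Fin 3))⁻¹ * FreeGroup.of 1 * FreeGroup.of 2 * (FreeGroup.of (1 : Fin 3))⁻¹,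
        (FreeGroup.of (0 : Fin 3) * FreeGroup.of 1) ^ 2 * (FreeGroup.of (2 : Fin 3))⁻¹} : Set (FreeGroup (Fin 3)))
      ≃* Matrix.SpecialLinearGroup (Fin 2) (ZMod 5)) := by
  refine ⟨fun G _ _ hG hs hQ => ?_, pres_sl⟩
  obtain ⟨e⟩ := pres_G G hG hs hQ
  obtain ⟨e'⟩ := pres_sl
  exact ⟨e.symm.trans e'⟩

end Cfsg.Agent.S3378
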