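import Cfsg.Statements.S3332
import Cfsg.Agent.Bender.General

set_option autoImplicit false
open Cfsg

namespace Cfsg.Agent.S3332

/-- Let G be a finite group of 2-rank at least 4 with O_{2'}(G) = 1 whose Sylow 2-subgroup S has a normal abelian subgroup of rank at least 3 that is its own centralizer in S. If the centralizer of every involution of G is solvable, then O_{2'}(C_G(t)) = 1 for every involution t of G. -/
theorem result {G : Type*} [Group G] [Finite G]
    (hrank : ¬ Cfsg.PRankLE 2 3 G) (hO : Cfsg.oddCore G = ⊥) (S : Sylow 2 G)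
    (A : Subgroup G) (hAS : A ≤ S) (hAn : (A.subgroupOf S).Normal) (hAc : IsMulCommutative A)
    (hAself : (S : Subgroup G) ⊓ Subgroup.centralizer (A : Set G) = A) (hA3 : ¬ Cfsg.PRankLE 2 2 A)
    (hsol : ∀ t : G, orderOf t = 2 → Group.IsSolvable (Subgroup.centralizer ({t} : Set G))) :
    ∀ t : G, orderOf t = 2 → Cfsg.oddCore (Subgroup.centralizer ({t} : Set G)) = ⊥ := by
  exact Bender.s3332_of_general Bender.genHyp hO S A hAS hAn hAc hA3 hsol

end Cfsg.Agent.S3332
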