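import Cfsg.Statements.S3341
import Cfsg.Agent.Char.SelfCentNine
import Cfsg.Agent.Perm2.SimpleCent

set_option autoImplicit false
open Cfsg

namespace Cfsg.Agent.S3341

/-- Let G be a finite simple group whose Sylow 3-subgroup S is elementary abelian of order 9, such that G has more than one conjugacy class of elements of order 3 and C_G(s) = S for every non-identity s in S. Then G is isomorphic to the alternating group of degree 6. -/
theorem result {G : Type*} [Group G] [Finite G] [IsSimpleGroup G]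
    (P : Sylow 3 G) (S : Subgroup G) (hSP : S = P) (hcomm : IsMulCommutative S) (hexp : ∀ a ∈ S, a ^ 3 = 1)
    (hcard : Nat.card S = 9)
    (hclasses : ∃ a b : G, orderOf a = 3 ∧ orderOf b = 3 ∧ ∀ g : G, g * a * g⁻¹ ≠ b)
    (hcent : ∀ s ∈ S, s ≠ 1 → Subgroup.centralizer ({s} : Set G) = S) :
    Nonempty (G ≃* alternatingGroup (Fin 6)) := by
  subst hSP
  have : Fact (Nat.Prime 3) := ⟨Nat.prime_three⟩
  have hbot : (P : Subgroup G) ≠ ⊥ := fun h => by rw [h] at hcard; simp at hcard
  have hnn : ¬ (P : Subgroup G).Normal := fun hn => by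
    rcases hn.eq_bot_or_eq_top with h | h
    · exact hbot h
    · have : IsMulCommutative G := ⟨⟨fun a b => congrArg Subtype.val
        (hcomm.is_comm.comm (⟨a, h ▸ Subgroup.mem_top a⟩ : (P : Subgroup G))
          ⟨b, h ▸ Subgroup.mem_top b⟩)⟩⟩
      have h2 := (Group.is_simple_iff_prime_card (α := G)).mp inferInstance
      rw [h, Subgroup.card_top] at hcard
      rw [hcard] at h2
      norm_num at h2
  rcases Char.selfcent_nine P hcard hexp hcent with h | h | h | h
  · refine absurd ?_ (Perm2.not_normalizer_le_centralizer_of_simple (fun hc => hnn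
      ⟨fun n hn g => by rw [mul_comm' g n]; simpa using hn⟩) P hbot)
    rw [h]
    exact fun a ha b hb => congrArg Subtype.val
      (hcomm.is_comm.comm (⟨b, hb⟩ : (P : Subgroup G)) ⟨a, ha⟩)
  · exact absurd h hnn
  · exact h
  · exfalso
    obtain ⟨a, b, ha, hb, hab⟩ := hclasses
    have h1 : ∀ x : G, orderOf x = 3 → ∃ s ∈ (P : Subgroup G), s ≠ 1 ∧ IsConj x s := by
      intro x hx
      have hp : IsPGroup 3 (Subgroup.zpowers x) :=
        IsPGroup.of_card (n := 1) (by rw [Nat.card_zpowers, hx, pow_one])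
      obtain ⟨R, hR⟩ := hp.exists_le_sylow
      obtain ⟨g, hg⟩ := MulAction.exists_smul_eq G R P
      refine ⟨g * x * g⁻¹, ?_, fun h => ?_, isConj_iff.mpr ⟨g, rfl⟩⟩
      · rw [← hg]
        exact ⟨x, hR (Subgroup.mem_zpowers x), rfl⟩
      · rw [conj_eq_one_iff] at h
        rw [h, orderOf_one] at hx
        omega
    obtain ⟨s, hs, hs1, has⟩ := h1 a ha
    obtain ⟨t, ht, ht1, hbt⟩ := h1 b hb
    obtain ⟨g, hg⟩ := isConj_iff.mp ((has.trans (h s hs t ht hs1 ht1)).trans hbt.symm)
    exact hab g hg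

end Cfsg.Agent.S3341
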