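import Cfsg.Statements.S3349


set_option autoImplicit false
open Cfsg

namespace Cfsg.Agent.S3349

/-- Let Q be a finite extraspecial p-group and α an automorphism of Q fixing every element of some maximal abelian subgroup of Q. Then the order of α is a power of p. -/
theorem result {Q : Type*} [Group Q] [Finite Q]
    (p : ℕ) [Fact p.Prime] (hQ : Cfsg.IsExtraspecial p Q) (α : MulAut Q)
    (A : Subgroup Q) (hA : IsMulCommutative A) (hmax : ∀ B : Subgroup Q, A ≤ B → IsMulCommutative B → B = A)
    (hfix : ∀ a ∈ A, α a = a) :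
    ∃ k : ℕ, orderOf α = p ^ k := by
  obtain ⟨⟨hp, -, hcomm⟩, -⟩ := hQ
  have hAc : ∀ a ∈ A, ∀ b ∈ A, a * b = b * a := fun a ha b hb => setLike_mul_comm ha hb
  have hC : ∀ c : Q, (∀ a ∈ A, a * c = c * a) → c ∈ A := by
    intro c hc
    have h1 : IsMulCommutative (Subgroup.closure (insert c (A : Set Q))) := by
      apply Subgroup.isMulCommutative_closure
      rintro x (rfl | hx) y (rfl | hy)
      · rfl
      · exact (hc y hy).symm
      · exact hc x hx
      · exact hAc x hx y hy
    rw [← hmax _ (fun a ha => Subgroup.subset_closure (Set.mem_insert_of_mem _ ha)) h1]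
    exact Subgroup.subset_closure (Set.mem_insert _ _)
  have hN : ∀ x : Q, ∀ a ∈ A, x * a * x⁻¹ ∈ A := by
    intro x a ha
    have h1 : x * a * x⁻¹ * a⁻¹ ∈ Subgroup.center Q := by
      rw [← hcomm]
      exact Subgroup.commutator_mem_commutator (Subgroup.mem_top x) (Subgroup.mem_top a)
    have h2 := hC _ (fun b _ => Subgroup.mem_center_iff.1 h1 b)
    simpa using A.mul_mem h2 ha
  have hc : ∀ x : Q, x⁻¹ * α x ∈ A := by
    intro x
    apply hC
    intro a ha
    have h1 := hfix _ (hN x a ha)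
    rw [map_mul, map_mul, map_inv, hfix a ha] at h1
    calc a * (x⁻¹ * α x) = x⁻¹ * (x * a * x⁻¹) * α x := by group
      _ = x⁻¹ * α x * a := by rw [← h1]; group
  have hpow : ∀ (k : ℕ) (x : Q), (α ^ k) x = x * (x⁻¹ * α x) ^ k := by
    intro k x
    induction k with
    | zero => simp
    | succ k ih =>
      rw [pow_succ', MulAut.mul_apply, ih, map_mul, map_pow, hfix _ (hc x), pow_succ',
        ← mul_assoc, mul_inv_cancel_left]
  obtain ⟨n, hn⟩ := IsPGroup.iff_card.1 hp
  have h1 : α ^ (p ^ n) = 1 := by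
    ext x
    rw [hpow, ← hn, pow_card_eq_one', mul_one, MulAut.one_apply]
  obtain ⟨k, -, hk⟩ := (Nat.dvd_prime_pow (Fact.out : p.Prime)).1 (orderOf_dvd_of_pow_eq_one h1)
  exact ⟨k, hk⟩

end Cfsg.Agent.S3349
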