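import Cfsg.Statements.S3365
import Cfsg.Agent.Fix4.Four

set_option autoImplicit false
open Cfsg

namespace Cfsg.Agent.S3365

/-- Finite simple groups acting with fixity 4. Let G be a finite non-abelian simple group acting faithfully and transitively on a finite set so that every non-identity element fixes at most 4 points and some non-identity element fixes exactly 4 (fixity 4). Let P be a Sylow 3-subgroup, S a Sylow 2-subgroup, f the largest number of fixed points of an involution of G, and a a point. Then one of the following holds: (1) f ≥ 1 and G has a strongly embedded subgroup; (2) 1 ≤ f ≤ 3 and S is dihedral or semidihedral; (3) f = 4 and G has sectional 2-rank at most 4; (4) the point stabilizer G_a has odd order divisible by 3 and either G has a strongly 3-embedded subgroup (a proper subgroup H of order divisible by 3 such that H ∩ gHg⁻¹ has order prime to 3 for every element g outside H), or |P| = 3 and a Sylow 2-subgroup of N_G(P) has order at most 4, or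 P is elementary abelian of order 9, or P is extraspecial of order 27 and exponent 3, or P is isomorphic to a Sylow 3-subgroup of Sym(9) (the wreath product C₃ ≀ C₃); (5) G_a has order prime to 6. -/
theorem result {G Ω : Type*} [Group G] [Finite G] [IsSimpleGroup G] (hna : ¬ IsMulCommutative G)
    [MulAction G Ω] [FaithfulSMul G Ω] [Finite Ω] (htrans : MulAction.IsPretransitive G Ω)
    (hfix : ∀ g : G, g ≠ 1 → Nat.card (MulAction.fixedBy Ω g) ≤ 4)
    (hfix4 : ∃ g : G, g ≠ 1 ∧ Nat.card (MulAction.fixedBy Ω g) = 4)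
    (P : Sylow 3 G) (S : Sylow 2 G) (f : ℕ)
    (hf : ∀ g : G, orderOf g = 2 → Nat.card (MulAction.fixedBy Ω g) ≤ f)
    (hf' : ∃ g : G, orderOf g = 2 ∧ Nat.card (MulAction.fixedBy Ω g) = f) (a : Ω) :
    (1 ≤ f ∧ ∃ H : Subgroup G, Cfsg.IsStronglyEmbedded H) ∨
    (1 ≤ f ∧ f ≤ 3 ∧ ((∃ n : ℕ, Nonempty ((S : Subgroup G) ≃* DihedralGroup n)) ∨ Cfsg.IsQuasiDihedral (S : Subgroup G))) ∨
    (f = 4 ∧ Cfsg.SectionalPRankLE 2 4 G) ∨
    (Odd (Nat.card (MulAction.stabilizer G a)) ∧ 3 ∣ Nat.card (MulAction.stabilizer G a) ∧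
      ((∃ H : Subgroup G, H ≠ ⊤ ∧ 3 ∣ Nat.card H ∧ ∀ g : G, g ∉ H → ¬ 3 ∣ Nat.card ↥(H ⊓ H.map (MulAut.conj g).toMonoidHom)) ∨
       (Nat.card P = 3 ∧ ∀ T : Sylow 2 (Subgroup.normalizer ((P : Subgroup G) : Set G)), Nat.card T ≤ 4) ∨
       (Nat.card P = 9 ∧ ∀ x ∈ (P : Subgroup G), x ^ 3 = 1) ∨
       (Nat.card P = 27 ∧ Cfsg.IsExtraspecial 3 (P : Subgroup G) ∧ ∀ x ∈ (P : Subgroup G), x ^ 3 = 1) ∨
       (∃ T : Sylow 3 (Equiv.Perm (Fin 9)), Nonempty ((P : Subgroup G) ≃* (T : Subgroup (Equiv.Perm (Fin 9))))))) ∨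
    (Nat.card (MulAction.stabilizer G a)).Coprime 6 := by
  have hG : _root_.commutator G = ⊤ := by
    rcases (inferInstance : (_root_.commutator G).Normal).eq_bot_or_eq_top with h | h
    · refine absurd ⟨⟨fun x y => ?_⟩⟩ hna
      rw [commutator_eq_bot_iff_center_eq_top] at h
      exact Subgroup.mem_center_iff.1 (h ▸ Subgroup.mem_top y) x
    · exact h
  by_cases h2 : 2 ∣ Nat.card (MulAction.stabilizer G a)
  · obtain ⟨t, ht⟩ := exists_prime_orderOf_dvd_card' 2 h2
    rw [← Subgroup.orderOf_coe] at ht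
    have h1 : 1 ≤ f := by
      refine le_trans ?_ (hf _ ht)
      have : Nonempty (MulAction.fixedBy Ω (t : G)) := ⟨⟨a, t.2⟩⟩
      exact Nat.card_pos
    by_cases hSE : ∃ H : Subgroup G, Cfsg.IsStronglyEmbedded H
    · exact Or.inl ⟨h1, hSE⟩
    by_cases h3 : f ≤ 3
    · exact Or.inr (Or.inl ⟨h1, h3, (Fix4.two_small hG (fun x hx => (hf x hx).trans h3) ht t.2
        S).resolve_left hSE⟩)
    obtain ⟨s, hs, hsf⟩ := hf'
    have h4 : f = 4 := by
      have := hfix s (fun e => by rw [e, orderOf_one] at hs; omega)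
      omega
    exact Or.inr (Or.inr (Or.inl ⟨h4, Fix4.sectionalPRankLE (Fix4.rk_reduction hfix
      (Fix4.rk_end hG hfix hs (hsf.trans h4) hSE))⟩))
  have hodd : Odd (Nat.card (MulAction.stabilizer G a)) :=
    Nat.not_even_iff_odd.1 fun h => h2 (even_iff_two_dvd.1 h)
  by_cases h3 : 3 ∣ Nat.card (MulAction.stabilizer G a)
  · refine Or.inr (Or.inr (Or.inr (Or.inl ⟨hodd, h3, ?_⟩)))
    rcases Fix4.three_case hG hfix (fun b g hg => by
      obtain ⟨k, rfl⟩ := MulAction.exists_smul_eq G a b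
      have h1 : k⁻¹ * g * k⁻¹⁻¹ ∈ MulAction.stabilizer G a := by
        rw [MulAction.mem_stabilizer_iff, inv_inv, mul_smul, mul_smul, hg, inv_smul_smul]
      have h2 := hodd.of_dvd_nat ((MulAction.stabilizer G a).orderOf_dvd_natCard h1)
      rwa [show orderOf (k⁻¹ * g * k⁻¹⁻¹) = orderOf g from (MulAut.conj k⁻¹).orderOf_eq g] at h2)
      h3 P with h | h
    · exact Or.inl h
    · exact Or.inr (Or.inr (Or.inl h))
  · refine Or.inr (Or.inr (Or.inr (Or.inr ?_)))
    exact Nat.Coprime.mul_right ((Nat.Prime.coprime_iff_not_dvd Nat.prime_two).2 h2).symm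
      ((Nat.Prime.coprime_iff_not_dvd Nat.prime_three).2 h3).symm

end Cfsg.Agent.S3365
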