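import Cfsg.Statements.S3366
import Cfsg.Agent.P43.Sp

set_option autoImplicit false
open Cfsg

namespace Cfsg.Agent.S3366

/-- Let X be a finite group with O₃(X) extraspecial of order 27 and exponent 3, X/O₃(X) isomorphic to SL(2,3), O₂(X) = 1, and a Sylow 3-subgroup of X containing an elementary abelian subgroup of order 27. Then X is isomorphic to the centralizer in PSp(4,3) of a 3-central element of order 3 (an element of order 3 in the centre of a Sylow 3-subgroup). -/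
theorem result {X : Type*} [Group X] [Finite X]
    (hR : Cfsg.IsExtraspecial 3 (Cfsg.pCore 3 X)) (hRcard : Nat.card (Cfsg.pCore 3 X) = 27)
    (hRexp : ∀ r ∈ Cfsg.pCore 3 X, r ^ 3 = 1)
    (e : X ⧸ Cfsg.pCore 3 X ≃* Matrix.SpecialLinearGroup (Fin 2) (ZMod 3))
    (hO2 : Cfsg.pCore 2 X = ⊥)
    (hE : ∃ E : Subgroup X, IsMulCommutative E ∧ (∀ a ∈ E, a ^ 3 = 1) ∧ Nat.card E = 27)
    (F : Type*) [Field F] [Fintype F] (hF : Fintype.card F = 3) :
    ∃ (c : Cfsg.PSp 2 F) (S : Sylow 3 (Cfsg.PSp 2 F)), orderOf c = 3 ∧ c ∈ (S : Subgroup (Cfsg.PSp 2 F)) ∧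
      c ∈ Subgroup.centralizer ((S : Subgroup (Cfsg.PSp 2 F)) : Set (Cfsg.PSp 2 F)) ∧
      Nonempty (X ≃* Subgroup.centralizer ({c} : Set (Cfsg.PSp 2 F))) := by
  obtain ⟨E, h1, h2, h3⟩ := hE
  obtain ⟨φ⟩ := P43.equiv_M648 hR hRcard hRexp (e.toMonoidHom.comp (QuotientGroup.mk' _))
    (e.surjective.comp (QuotientGroup.mk'_surjective _))
    (by rw [← MonoidHom.comap_ker, (MonoidHom.ker_eq_bot_iff _).2 e.injective,
      MonoidHom.comap_bot, QuotientGroup.ker_mk']) hO2 h1 h2 h3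
  have : Fact (Nat.Prime 3) := ⟨Nat.prime_three⟩
  let κ := ZMod.ringEquivOfPrime F Nat.prime_three hF
  obtain ⟨S, a, b⟩ := P43.exists_sylow κ.toRingHom
  exact ⟨_, S, P43.orderOf_c0 _, a, b, ⟨φ.symm.trans ((MonoidHom.ofInjective (P43.ΨM_inj _)).trans
    (MulEquiv.subgroupCongr (P43.ΨM_range _ κ.surjective)))⟩⟩

end Cfsg.Agent.S3366
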