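import Cfsg.Statements.S3376
import Cfsg.Agent.Local.FPF
import Cfsg.Agent.Perm1.PrimeOrderPerm

set_option autoImplicit false
open Cfsg

namespace Cfsg.Agent.S3376

open Subgroup Cfsg.Agent.Local

theorem equiv_centralizer {G : Type*} [Group G] [Finite G] (K : Subgroup G) (hK : K.index = 9)
    (hc : K.normalCore = ⊥) {z : G} (hz : ∀ g, g * z = z * g) (h3 : z ^ 3 = 1) (hzK : z ∉ K)
    (hG : Nat.card G = 162) (c : Equiv.Perm (Fin 9)) (hc3 : c ^ 3 = 1) (hs : c.support.card = 9) :
    Nonempty (G ≃* centralizer ({c} : Set (Equiv.Perm (Fin 9)))) := by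
  classical
  have := Fintype.ofFinite (G ⧸ K)
  have hfix : ∀ x : G ⧸ K, z • x ≠ x := by
    intro x
    obtain ⟨g, rfl⟩ := QuotientGroup.mk_surjective x
    intro h
    have h' : ((z * g : G) : G ⧸ K) = g := h
    rw [eq_comm, QuotientGroup.eq, ← hz, inv_mul_cancel_left] at h'
    exact hzK h'
  have hcard : Fintype.card (G ⧸ K) = 9 := by rw [← Nat.card_eq_fintype_card]; exact hK
  obtain ⟨e, he⟩ := Perm1.exists_equiv_of_pow_eq_one Nat.prime_three
    (σ := MulAction.toPermHom G (G ⧸ K) z) (τ := c) (by rw [← map_pow, h3, map_one]) hc3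
    (by simpa using hcard) (by
      rw [hs, ← hcard, Finset.card_eq_iff_eq_univ, Finset.eq_univ_iff_forall]
      exact fun x => Equiv.Perm.mem_support.2 (hfix x))
  let f : G →* Equiv.Perm (Fin 9) := e.permCongrHom.toMonoidHom.comp (MulAction.toPermHom G (G ⧸ K))
  have hf : Function.Injective f := e.permCongrHom.injective.comp (by
    rw [← MonoidHom.ker_eq_bot_iff, ← normalCore_eq_ker, hc])
  have hfz : f z = c := by
    ext x
    obtain ⟨y, rfl⟩ := e.surjective x
    rw [← he]
    simp [f]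
  have hm : ∀ g, f g ∈ centralizer ({c} : Set (Equiv.Perm (Fin 9))) := fun g => by
    rw [mem_centralizer_singleton_iff, ← hfz, ← map_mul, ← map_mul, hz]
  have : Fact (Nat.Prime 3) := ⟨Nat.prime_three⟩
  have ct := Equiv.Perm.cycleType_of_pow_prime_eq_one hc3
  have cs := Equiv.Perm.sum_cycleType c
  rw [ct, hs, Multiset.sum_replicate, smul_eq_mul] at cs
  rw [show c.cycleType.card = 3 by omega] at ct
  refine ⟨MulEquiv.ofBijective (f.codRestrict _ hm) ((Nat.bijective_iff_injective_and_card _).2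
    ⟨fun a b h => hf (congrArg Subtype.val h), ?_⟩)⟩
  rw [hG, Equiv.Perm.nat_card_centralizer, ct]
  decide

/-- Let G be a group of order 162 = 3⁴·2 with Sylow 3-subgroup S and Sylow 2-subgroup T, having an elementary abelian normal subgroup J of order 27, such that Z = Z(S) has order 3, Z centralizes T, and C_S(T) ≠ S. Then G is isomorphic to the centralizer in Sym(9) of a product of three disjoint 3-cycles. -/
theorem result {G : Type*} [Group G] [Finite G] (hG : Nat.card G = 162)
    (S : Sylow 3 G) (T : Sylow 2 G) (J : Subgroup G) [hJn : J.Normal] (hJcomm : IsMulCommutative J)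
    (hJexp : ∀ a ∈ J, a ^ 3 = 1) (hJcard : Nat.card J = 27)
    (Z : Subgroup G) (hZ : Z = (S : Subgroup G) ⊓ Subgroup.centralizer ((S : Subgroup G) : Set G)) (hZcard : Nat.card Z = 3)
    (hZT : Z ≤ Subgroup.centralizer ((T : Subgroup G) : Set G))
    (hST : (S : Subgroup G) ⊓ Subgroup.centralizer ((T : Subgroup G) : Set G) ≠ S) :
    Nonempty (G ≃* Subgroup.centralizer ({Equiv.swap (0 : Fin 9) 1 * Equiv.swap 1 2 * Equiv.swap 3 4 * Equiv.swap 4 5 * Equiv.swap 6 7 * Equiv.swap 7 8} : Set (Equiv.Perm (Fin 9)))) := by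
  classical
  have h3 : Fact (Nat.Prime 3) := ⟨Nat.prime_three⟩
  have hS : Nat.card S = 81 := by
    rw [S.card_eq_multiplicity, hG, show 162 = 3 ^ 4 * 2 from rfl, Nat.factorization_mul (by norm_num)
      (by norm_num), Nat.Prime.factorization_pow Nat.prime_three, Nat.prime_two.factorization]
    simp
  have hT : Nat.card T = 2 := by
    rw [T.card_eq_multiplicity, hG, show 162 = 3 ^ 4 * 2 from rfl, Nat.factorization_mul (by norm_num)
      (by norm_num), Nat.Prime.factorization_pow Nat.prime_three, Nat.prime_two.factorization]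
    simp
  have hi : (S : Subgroup G).index = 2 := by
    have := (S : Subgroup G).card_mul_index
    rw [hS, hG] at this
    omega
  have hSn : (S : Subgroup G).Normal := normal_of_index_eq_two hi
  have hdis : ∀ x ∈ (S : Subgroup G), x ∈ (T : Subgroup G) → x = 1 := fun x h1 h2 =>
    eq_one_of_mem_of_coprime (by rw [hS, hT]; norm_num) h1 h2
  have htop : (S : Subgroup G) ⊔ T = ⊤ := by
    apply eq_top_of_card_eq
    rw [card_sup_of_disjoint (by rw [normalizer_eq_top]; exact le_top) (disjoint_def.2 (hdis _)), hS,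
      hT, hG]
  obtain ⟨z, hzZ, hz3⟩ := exists_mem_orderOf_eq_of_dvd_card Nat.prime_three hZcard.symm.dvd
  have hz1 : z ≠ 1 := fun h => by simp [h] at hz3
  have hzc : ∀ g, g * z = z * g := fun g => by
    have : (⊤ : Subgroup G) ≤ centralizer {z} := by
      rw [← htop, sup_le_iff]
      exact ⟨fun s hs => mem_centralizer_singleton_iff.2 ((hZ ▸ hzZ).2 s hs),
        fun s hs => mem_centralizer_singleton_iff.2 (hZT hzZ s hs)⟩
    exact mem_centralizer_singleton_iff.1 (this (mem_top g))
  have hmin : ∀ N : Subgroup G, N.Normal → N ⊓ S ≠ ⊥ → z ∈ N := fun N hN hb => by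
    obtain ⟨y, hy, hy1, hyc⟩ := exists_ne_one_mem_centralizer_of_isPGroup (K := N ⊓ S) S.2
      (by rw [normalizer_eq_top]; exact le_top) (by
        obtain ⟨k, hk⟩ := (S.2.to_le (inf_le_right : N ⊓ S ≤ S)).exists_card_eq
        rw [hk]
        refine dvd_pow_self 3 fun h0 => hb ?_
        rw [h0, pow_zero] at hk
        exact card_eq_one.1 hk)
    have hyZ : y ∈ Z := hZ ▸ ⟨hy.2, hyc⟩
    have : N ⊓ Z = Z := by
      apply eq_of_le_of_card_ge inf_le_right
      have h1 := card_dvd_of_le (inf_le_right : N ⊓ Z ≤ Z)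
      rw [hZcard, Nat.dvd_prime Nat.prime_three] at h1
      rcases h1 with h1 | h1
      · exact absurd (mem_bot.1 (card_eq_one.1 h1 ▸ (⟨hy.1, hyZ⟩ : y ∈ N ⊓ Z))) hy1
      · omega
    exact (this.ge hzZ).1
  have hJS : J ≤ S := by
    have : IsPGroup 3 J := IsPGroup.of_card (n := 3) hJcard
    exact this.le_sylow_of_normal S
  have hzJ : z ∈ J := hmin J hJn (by
    rw [inf_of_le_left hJS]
    rintro rfl
    simp at hJcard)
  obtain ⟨t, htT, ht2⟩ := exists_mem_orderOf_eq_of_dvd_card Nat.prime_two hT.symm.dvd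
  have hTt : ∀ a ∈ (T : Subgroup G), a = 1 ∨ a = t := by
    have : zpowers t = T := eq_of_le_of_card_ge (zpowers_le.2 htT) (by rw [Nat.card_zpowers, ht2, hT])
    intro a ha
    rw [← this, mem_zpowers_iff_mem_range_orderOf, ht2] at ha
    simpa [Finset.range_add_one, eq_comm, or_comm] using ha
  have htt : t * t = 1 := by rw [← sq, ← ht2, pow_orderOf_eq_one]
  let _ : CommGroup J := { mul_comm := hJcomm.is_comm.comm }
  have : NeZero (Monoid.exponent J) := ⟨Monoid.exponent_ne_zero_of_finite⟩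
  obtain ⟨φ, hφ⟩ := CommGroup.exists_apply_ne_one_of_hasEnoughRootsOfUnity J ℂ
    (a := ⟨z, hzJ⟩) (fun h => hz1 (congrArg Subtype.val h))
  let ψ : J →* ℂˣ := φ * φ.comp (MulAut.conjNormal t).toMonoidHom
  have hψ3 : ∀ x, ψ x ^ 3 = 1 := fun x => by
    rw [← map_pow, show x ^ 3 = 1 from Subtype.ext (hJexp x x.2), map_one]
  have hψz : ψ ⟨z, hzJ⟩ ≠ 1 := fun h => hφ (by
    have e : MulAut.conjNormal t (⟨z, hzJ⟩ : J) = ⟨z, hzJ⟩ := Subtype.ext (by simp [hzc t])
    have h' : φ ⟨z, hzJ⟩ * φ (MulAut.conjNormal t (⟨z, hzJ⟩ : J)) = 1 := h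
    have h2 : φ ⟨z, hzJ⟩ ^ 3 = 1 := by
      rw [← map_pow, show (⟨z, hzJ⟩ : J) ^ 3 = 1 from Subtype.ext (hJexp z hzJ), map_one]
    rw [e] at h'
    rwa [pow_succ, sq, h', one_mul] at h2)
  have hr : Nat.card ψ.range = 3 := by
    have h1 : Nat.card ψ.range ∣ 3 := by
      have : Finite ψ.range := Finite.of_surjective _ ψ.rangeRestrict_surjective
      rw [← IsCyclic.exponent_eq_card]
      apply Monoid.exponent_dvd_of_forall_pow_eq_one
      rintro ⟨_, x, rfl⟩
      exact Subtype.ext (hψ3 x)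
    rcases (Nat.dvd_prime Nat.prime_three).1 h1 with h1 | h1
    · exact absurd (mem_bot.1 (card_eq_one.1 h1 ▸ (⟨_, rfl⟩ : ψ ⟨z, hzJ⟩ ∈ ψ.range))) hψz
    · exact h1
  let W : Subgroup G := ψ.ker.map J.subtype
  have hW : Nat.card W = 9 := by
    have := ψ.ker.card_mul_index
    rw [index_ker, hr, hJcard] at this
    rw [card_subtype]
    omega
  have hWJ : W ≤ J := map_subtype_le _
  have hTW : (T : Subgroup G) ≤ normalizer (W : Set G) := fun a ha => by
    rcases hTt a ha with rfl | rfl
    · exact one_mem _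
    · refine mem_normalizer_of_conj_mem ?_
      rintro _ ⟨x, hx, rfl⟩
      refine ⟨MulAut.conjNormal a x, ?_, rfl⟩
      have h' : φ x * φ (MulAut.conjNormal a x) = 1 := hx
      show φ (MulAut.conjNormal a x) * φ (MulAut.conjNormal a (MulAut.conjNormal a x)) = 1
      rw [← MulAut.mul_apply, ← map_mul MulAut.conjNormal, htt, map_one, MulAut.one_apply,
        mul_comm, h']
  have hK : Nat.card ↥(W ⊔ T) = 18 := by
    rw [card_sup_of_disjoint hTW (disjoint_def.2 fun h => hdis _ (hJS (hWJ h))), hW, hT]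
  have hzK : z ∉ W ⊔ T := fun h => by
    obtain ⟨w, hw, a, ha, e⟩ := (mem_sup_of_right_le_normalizer hTW).1 h
    have : a = 1 := hdis a (by
      rw [← eq_inv_mul_iff_mul_eq] at e
      rw [e]
      exact hJS (mul_mem (inv_mem (hWJ hw)) hzJ)) ha
    rw [this, mul_one] at e
    obtain ⟨x, hx, rfl⟩ := hw
    exact hψz (by rw [← MonoidHom.mem_ker.1 hx]; congr 1; exact Subtype.ext e.symm)
  refine equiv_centralizer (W ⊔ T) ?_ ?_ hzc (by rw [← hz3, pow_orderOf_eq_one]) hzK hG _
    (by decide) (by decide)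
  · have := (W ⊔ T).card_mul_index
    rw [hK, hG] at this
    omega
  · have hb : (W ⊔ T).normalCore ⊓ S = ⊥ := by
      by_contra hb
      exact hzK (normalCore_le _ (hmin _ inferInstance hb))
    rw [eq_bot_iff]
    intro x hx
    by_contra hx1
    apply hST
    have hcomm : ∀ s ∈ (S : Subgroup G), Commute x s := fun s hs =>
      commute_of_normal_of_disjoint _ _ inferInstance hSn (disjoint_iff.2 hb) x s hx hs
    obtain ⟨w, hw, a, ha, e⟩ := (mem_sup_of_right_le_normalizer hTW).1 (normalCore_le _ hx)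
    have hwS := hJS (hWJ hw)
    have hxS : x ∉ (S : Subgroup G) := fun h => hx1 (hb ▸ (⟨hx, h⟩ : x ∈ (W ⊔ T).normalCore ⊓ S))
    have hx2 : x * x = 1 := mem_bot.1 (hb ▸ (⟨mul_mem hx hx, mul_self_mem_of_index_two hi x⟩ :
      x * x ∈ (W ⊔ T).normalCore ⊓ S))
    rcases hTt a ha with rfl | rfl
    · exact absurd (by rw [← e, mul_one]; exact hwS) hxS
    · have h1 : w * w = 1 := by
        have := (hcomm w hwS).eq
        rw [← e] at this hx2
        have h4 : a * w = w * a := mul_left_cancel (a := w) (by rw [← mul_assoc, this])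
        rwa [mul_assoc, ← mul_assoc a, h4, mul_assoc, htt, mul_one] at hx2
      have h2 : w = 1 := by
        have := hJexp w (hWJ hw)
        rwa [pow_succ, sq, h1, one_mul] at this
      rw [h2, one_mul] at e
      refine inf_of_le_left fun s hs b hb => ?_
      rcases hTt b hb with rfl | rfl
      · simp
      · exact e ▸ (hcomm s hs).eq

end Cfsg.Agent.S3376
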