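import Cfsg.Statements.S3385
import Cfsg.Agent.Perm2.Sims3

set_option autoImplicit false
open Cfsg

namespace Cfsg.Agent.S3385


/-- Sims' Theorem on primitive groups with a suborbit of length 3. Let G be a finite group acting faithfully and primitively on a set Ω, and suppose the stabilizer of a point a has an orbit of length 3 on Ω. Then the stabilizer of a has order 2^k · 3 for some k ≤ 4. -/
theorem result {G : Type*} [Group G] [Finite G] {Ω : Type*} [MulAction G Ω] [FaithfulSMul G Ω]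
    (hprim : MulAction.IsPreprimitive G Ω) (a b : Ω)
    (h3 : Nat.card (MulAction.orbit (MulAction.stabilizer G a) b) = 3) :
    ∃ k : ℕ, k ≤ 4 ∧ Nat.card ↥(MulAction.stabilizer G a) = 2 ^ k * 3 := by
  rcases Perm2.Sims.sims hprim h3 with ⟨⟨e⟩⟩ | ⟨⟨e⟩⟩ | ⟨⟨e⟩⟩ | ⟨⟨e⟩⟩ | ⟨⟨e⟩⟩ <;> rw [Nat.card_congr e.toEquiv]
  · exact ⟨0, by decide, by simp⟩
  · exact ⟨1, by decide, by rw [Nat.card_eq_fintype_card]; rfl⟩
  · exact ⟨2, by decide, DihedralGroup.nat_card⟩
  · exact ⟨3, by decide, by rw [Nat.card_eq_fintype_card]; rfl⟩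
  · exact ⟨4, by decide, by rw [Nat.card_eq_fintype_card]; rfl⟩

end Cfsg.Agent.S3385
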