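import Cfsg.Statements.S3389
import Cfsg.Agent.Perm1.Count

set_option autoImplicit false
open Cfsg

namespace Cfsg.Agent.S3389

open MulAction

theorem center_free {G : Type*} [Group G] {Ω : Type*} [MulAction G Ω] [FaithfulSMul G Ω]
    (htr : MulAction.IsPretransitive G Ω) (z : G) (hz : z ∈ Subgroup.center G) (ω : Ω) (h : z • ω = ω) :
    z = 1 := by
  apply FaithfulSMul.eq_of_smul_eq_smul (α := Ω)
  intro ω'
  obtain ⟨g, rfl⟩ := htr.exists_smul_eq ω ω'
  rw [one_smul, ← mul_smul, ← Subgroup.mem_center_iff.mp hz g, mul_smul, h]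

theorem card_dvd_of_free {H : Type*} [Group H] [Finite H] {X : Type*} [Finite X] [MulAction H X]
    (h : ∀ (g : H) (x : X), g • x = x → g = 1) : Nat.card H ∣ Nat.card X := by
  classical
  have := Fintype.ofFinite H
  have h1 := Perm1.sum_fixedBy H X
  rw [Finset.sum_eq_single 1] at h1
  · rw [fixedBy_one_eq_univ, Nat.card_univ] at h1
    rw [h1]; exact Dvd.intro_left _ rfl
  · intro g _ hg
    have : IsEmpty (fixedBy X g) := ⟨fun x => hg (h g x.1 x.2)⟩
    simp
  · simp

theorem exists_swap {G : Type*} [Group G] [Finite G] {Ω : Type*} [Finite Ω] [MulAction G Ω]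
    (htr : MulAction.IsPretransitive G Ω)
    (hfix : ∀ g : G, g ≠ 1 → Nat.card (MulAction.fixedBy Ω g) ≤ 2) (g : G) (hg : g ≠ 1)
    (α β : Ω) (hαβ : α ≠ β) (hα : g • α = α) (hβ : g • β = β) :
    ∃ x : G, x • α = β ∧ x • β = α := by
  classical
  obtain ⟨x, hx⟩ := htr.exists_smul_eq β α
  set γ := x • α with hγ
  have hγα : γ ≠ α := by
    intro h
    rw [hγ, ← hx, smul_left_cancel_iff] at h
    exact hαβ (hx ▸ h)
  set M := stabilizer G α
  by_cases hc : ∃ m : M, m • β = γ
  · obtain ⟨m, hm⟩ := hc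
    refine ⟨x⁻¹ * m, ?_, ?_⟩
    · rw [mul_smul, show (m : G) • α = α from m.2, inv_smul_eq_iff, hx]
    · rw [mul_smul, show (m : G) • β = γ from hm, inv_smul_eq_iff]
  exfalso
  have := Fintype.ofFinite M
  have h1 := Perm1.sum_fixedBy M (orbit M β)
  have h2 := Perm1.sum_fixedBy M (orbit M γ)
  have : Nonempty (orbit M β) := ⟨⟨β, mem_orbit_self β⟩⟩
  have : Nonempty (orbit M γ) := ⟨⟨γ, mem_orbit_self γ⟩⟩
  rw [Perm1.card_quotient_eq_one inferInstance, one_mul] at h1 h2
  have h3 : ∀ m : M, m ≠ 1 → Nat.card (fixedBy (orbit M β) m) + Nat.card (fixedBy (orbit M γ) m) ≤ 1 := by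
    intro m hm
    have hm' : (m : G) ≠ 1 := fun h => hm (Subtype.ext h)
    have h4 := hfix m hm'
    let f : Option (fixedBy (orbit M β) m ⊕ fixedBy (orbit M γ) m) → fixedBy Ω (m : G) := fun o =>
      match o with
      | none => ⟨α, m.2⟩
      | some (Sum.inl y) => ⟨y.1.1, congrArg Subtype.val y.2⟩
      | some (Sum.inr y) => ⟨y.1.1, congrArg Subtype.val y.2⟩
    have hβo : ∀ y : orbit M β, (y : Ω) ≠ α := by
      rintro ⟨_, ⟨m', rfl⟩⟩ h
      apply hαβ
      have h' : (m' : G) • β = α := h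
      rw [← show (m' : G) • α = α from m'.2, smul_left_cancel_iff] at h'
      exact h'.symm
    have hγo : ∀ y : orbit M γ, (y : Ω) ≠ α := by
      rintro ⟨_, ⟨m', rfl⟩⟩ h
      apply hγα
      have h' : (m' : G) • γ = α := h
      rw [← show (m' : G) • α = α from m'.2, smul_left_cancel_iff] at h'
      exact h'
    have hβγ : ∀ (y : orbit M β) (y' : orbit M γ), (y : Ω) ≠ y' := by
      rintro ⟨_, ⟨m1, rfl⟩⟩ ⟨_, ⟨m2, rfl⟩⟩ h
      apply hc
      refine ⟨m2⁻¹ * m1, ?_⟩
      have h' : m1 • β = m2 • γ := h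
      rw [mul_smul, h', inv_smul_smul]
    have hf : Function.Injective f := by
      rintro (_ | y | y) (_ | y' | y') h0 <;> have h := congrArg Subtype.val h0
      · rfl
      · exact absurd h.symm (hβo _)
      · exact absurd h.symm (hγo _)
      · exact absurd h (hβo _)
      · rw [Subtype.ext (Subtype.ext h : y.1 = y'.1)]
      · exact absurd h (hβγ _ _)
      · exact absurd h (hγo _)
      · exact absurd h.symm (hβγ _ _)
      · rw [Subtype.ext (Subtype.ext h : y.1 = y'.1)]
    have h5 := Nat.card_le_card_of_injective f hf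
    rw [Finite.card_option, Nat.card_sum] at h5
    omega
  have h6 : ∑ m : M, (Nat.card (fixedBy (orbit M β) m) + Nat.card (fixedBy (orbit M γ) m)) = 2 * Nat.card M := by
    rw [Finset.sum_add_distrib, h1, h2]; ring
  rw [← Finset.add_sum_erase _ _ (Finset.mem_univ 1)] at h6
  have h7 : ∑ m ∈ Finset.univ.erase (1 : M), (Nat.card (fixedBy (orbit M β) m) + Nat.card (fixedBy (orbit M γ) m)) ≤
      ∑ m ∈ Finset.univ.erase (1 : M), 1 := Finset.sum_le_sum (fun m hm => h3 m (Finset.ne_of_mem_erase hm))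
  rw [← Finset.card_eq_sum_ones, Finset.card_erase_of_mem (Finset.mem_univ _), Finset.card_univ,
    ← Nat.card_eq_fintype_card] at h7
  rw [fixedBy_one_eq_univ, fixedBy_one_eq_univ, Nat.card_univ, Nat.card_univ] at h6
  have h8 : ∀ δ : Ω, (∃ m : M, m ≠ 1 ∧ m • δ = δ) → 2 * Nat.card (orbit M δ) ≤ Nat.card M := by
    rintro δ ⟨m, hm1, hm⟩
    have h9 := (stabilizer M δ).card_mul_index
    rw [index_stabilizer, ← Nat.card_coe_set_eq] at h9
    have : Nontrivial (stabilizer M δ) := ⟨⟨⟨m, hm⟩, 1, fun h => hm1 (congrArg Subtype.val h)⟩⟩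
    have := Finite.one_lt_card (α := stabilizer M δ)
    rw [← h9]
    exact Nat.mul_le_mul_right _ this
  have h9 := h8 β ⟨⟨g, hα⟩, fun h => hg (congrArg Subtype.val h), hβ⟩
  have h10 := h8 γ ⟨⟨x * g * x⁻¹, by
      rw [mem_stabilizer_iff, mul_smul, mul_smul, ← hx, inv_smul_smul, hβ]⟩, fun h => hg (by
        have h' : x * g * x⁻¹ = 1 := congrArg Subtype.val h
        simpa using h'), by
      change (x * g * x⁻¹) • γ = γ
      rw [mul_smul, mul_smul, hγ, inv_smul_smul, hα]⟩
  have : 0 < Nat.card M := Nat.card_pos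
  omega


/-- Let G be a finite group acting faithfully and transitively on a finite set Ω with fixity k ≥ 1: every non-identity element fixes at most k points and some non-identity element fixes exactly k points. Then |Z(G)| divides k; if k = 2 then |G| is even; and for every prime p > k dividing |G| and every point α, either p does not divide |G_α| or G_α contains a Sylow p-subgroup of G. -/
theorem result {G : Type*} [Group G] [Finite G] {Ω : Type*} [Fintype Ω] [MulAction G Ω] [FaithfulSMul G Ω]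
    (htr : MulAction.IsPretransitive G Ω) (k : ℕ) (hk : 1 ≤ k)
    (hfix : ∀ g : G, g ≠ 1 → Nat.card (MulAction.fixedBy Ω g) ≤ k) (hex : ∃ g : G, g ≠ 1 ∧ Nat.card (MulAction.fixedBy Ω g) = k) :
    Nat.card (Subgroup.center G) ∣ k ∧ (k = 2 → 2 ∣ Nat.card G) ∧
      ∀ (p : ℕ), p.Prime → k < p → p ∣ Nat.card G → ∀ α : Ω,
        ¬ p ∣ Nat.card (MulAction.stabilizer G α) ∨ ¬ p ∣ (MulAction.stabilizer G α).index := by
  obtain ⟨g, hg1, hgk⟩ := hex
  refine ⟨?_, ?_, ?_⟩
  · rw [← hgk]
    letI : MulAction (Subgroup.center G) (MulAction.fixedBy Ω g) :=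
      { smul := fun z x => ⟨(z : G) • (x : Ω), by
          rw [mem_fixedBy, ← mul_smul, Subgroup.mem_center_iff.mp z.2 g, mul_smul, x.2]⟩
        one_smul := fun x => Subtype.ext (one_smul G (x : Ω))
        mul_smul := fun a b x => Subtype.ext (mul_smul (a : G) (b : G) (x : Ω)) }
    apply card_dvd_of_free
    intro z x h
    exact Subtype.ext (center_free htr z z.2 x (congrArg Subtype.val h))
  · rintro rfl
    obtain ⟨a, b, hab, -⟩ := Nat.card_eq_two_iff.mp hgk
    have hab' : (a : Ω) ≠ b := fun h => hab (Subtype.ext h)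
    obtain ⟨x, hx1, hx2⟩ := exists_swap htr hfix g hg1 a b hab' a.2 b.2
    by_contra hodd
    have hodd' : Odd (orderOf x) := by
      rw [← Nat.not_even_iff_odd, even_iff_two_dvd]
      exact fun h => hodd (h.trans (orderOf_dvd_natCard x))
    obtain ⟨j, hj⟩ := hodd'
    have h1 : (x ^ 2) ∈ stabilizer G (a : Ω) := by
      rw [mem_stabilizer_iff, pow_two, mul_smul, hx1, hx2]
    have h2 := (stabilizer G (a : Ω)).pow_mem h1 j
    have h3 : x ^ (2 * j + 1) • (a : Ω) = a := by rw [← hj, pow_orderOf_eq_one, one_smul]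
    rw [pow_succ', mul_smul, pow_mul, mem_stabilizer_iff.mp h2, hx1] at h3
    exact hab' h3.symm
  · intro p hp hkp hpG α
    by_contra hcon
    push Not at hcon
    obtain ⟨h1, h2⟩ := hcon
    have := Fact.mk hp
    obtain ⟨c, hc⟩ := exists_prime_orderOf_dvd_card' p h1
    have hcG : orderOf (c : G) = p := by rw [Subgroup.orderOf_coe, hc]
    have hc1 : (c : G) ≠ 1 := by
      intro h
      rw [h, orderOf_one] at hcG
      exact hp.one_lt.ne hcG
    rw [index_stabilizer_of_transitive] at h2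
    have hP : IsPGroup p (Subgroup.zpowers (c : G)) := by
      apply IsPGroup.of_card (n := 1)
      rw [Nat.card_zpowers, hcG, pow_one]
    have h3 := hP.card_modEq_card_fixedPoints Ω
    have h4 : fixedPoints (Subgroup.zpowers (c : G)) Ω = fixedBy Ω (c : G) := by
      ext ω
      simp only [mem_fixedPoints, mem_fixedBy]
      constructor
      · intro h; exact h ⟨c, Subgroup.mem_zpowers _⟩
      · rintro h ⟨_, ⟨k, rfl⟩⟩
        exact (stabilizer G ω).zpow_mem h k
    rw [h4] at h3
    have h5 := (h3.dvd_iff (dvd_refl p)).mp h2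
    have : Nonempty (fixedBy Ω (c : G)) := ⟨⟨α, c.2⟩⟩
    have h6 := Nat.le_of_dvd Nat.card_pos h5
    have h7 := hfix c hc1
    omega

end Cfsg.Agent.S3389
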