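import Cfsg.Statements.S3390
import Cfsg.Agent.Fix4.Two
import Cfsg.Agent.Fix4.TwoGrp

set_option autoImplicit false
open Cfsg

namespace Cfsg.Agent.S3390

open Subgroup MulAction Cfsg.Agent.Fix4
open scoped Pointwise

theorem transfer_two {G : Type*} [Group G] [Finite G] {S D : Subgroup G} (hS : Odd S.index)
    (h2 : D.relIndex S = 2)
    (hf : ∀ g, ∀ x ∈ S, g⁻¹ * x * g ∈ S → (g⁻¹ * x * g ∈ D ↔ x ∈ D)) :
    ∃ M : Subgroup G, M.index = 2 ∧ ∀ x ∈ S, x ∈ M ↔ x ∈ D := by
  classical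
  have hmul := fun a b => mul_mem_iff_of_index_two (H := D.subgroupOf S) h2 (a := a) (b := b)
  let φ : S →* ℤˣ :=
    { toFun := fun x => if x ∈ D.subgroupOf S then 1 else -1
      map_one' := by simp
      map_mul' := fun a b => by
        by_cases ha : a ∈ D.subgroupOf S <;> by_cases hb : b ∈ D.subgroupOf S <;>
          simp [hmul, ha, hb] }
  have key : ∀ u (hu : u ∈ S), MonoidHom.transfer φ u = φ ⟨u, hu⟩ := by
    intro u hu
    have := Fintype.ofFinite (Quotient (orbitRel (zpowers u) (G ⧸ S)))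
    have h0 : φ ⟨u, hu⟩ = φ ⟨u, hu⟩ ^ S.index := by
      rcases Int.units_eq_one_or (φ ⟨u, hu⟩) with h | h
      · rw [h, one_pow]
      · rw [h, hS.neg_one_pow]
    rw [MonoidHom.transfer_eq_prod_quotient_orbitRel_zpowers_quot, h0,
      index_eq_sum_minimalPeriod S u, ← Finset.prod_pow_eq_pow_sum]
    refine Finset.prod_congr rfl fun q _ => ?_
    suffices H : ∀ n (g : G), ∀ h5 : g⁻¹ * u ^ n * g ∈ S, φ ⟨_, h5⟩ = φ ⟨u, hu⟩ ^ n from
      H _ _ _
    intro n g h5
    rw [← map_pow]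
    have h6 := hf g _ (pow_mem hu n) h5
    change (if g⁻¹ * u ^ n * g ∈ D then (1 : ℤˣ) else -1) = if u ^ n ∈ D then (1 : ℤˣ) else -1
    simp only [h6]
  have hk : ∀ x ∈ S, x ∈ (MonoidHom.transfer φ).ker ↔ x ∈ D := by
    intro x hx
    rw [MonoidHom.mem_ker, key x hx]
    change (if x ∈ D then (1 : ℤˣ) else -1) = 1 ↔ _
    by_cases h : x ∈ D <;> simp [h]
  refine ⟨(MonoidHom.transfer φ).ker, ?_, hk⟩
  have h1 : (MonoidHom.transfer φ).range = ⊤ := by
    rw [eq_top_iff]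
    intro v _
    rcases Int.units_eq_one_or v with rfl | rfl
    · exact one_mem _
    · obtain ⟨u, hu, huD⟩ : ∃ u ∈ S, u ∉ D := by
        by_contra hn
        push Not at hn
        rw [relIndex_eq_one.2 hn] at h2
        omega
      refine ⟨u, ?_⟩
      rw [key u hu]
      exact if_neg huD
  rw [index_ker, h1, card_top, Nat.card_eq_fintype_card, Fintype.card_units_int]

variable {G : Type*} [Group G] {Ω : Type*} [MulAction G Ω] [Finite G] [Finite Ω]

omit [Finite G] in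
theorem dvd_of_nofix {p : ℕ} [Fact p.Prime] {X : Subgroup G} (hX : IsPGroup p X) {Γ : Set Ω}
    (h : ∀ x ∈ X, ∀ c ∈ Γ, x • c ∈ Γ) (hn : ∀ c ∈ Γ, c ∉ fp Ω X) : p ∣ Γ.ncard := by
  let A : SubMulAction X Ω := ⟨Γ, fun x c hc => h x x.2 c hc⟩
  by_contra hd
  obtain ⟨c, hc⟩ := hX.nonempty_fixed_point_of_prime_not_dvd_card A hd
  exact hn c.1 c.2 fun x hx => congrArg Subtype.val (hc ⟨x, hx⟩)

omit [Finite G] in
theorem eq_or_of_fix (hfix : ∀ g : G, g ≠ 1 → (fixedBy Ω g).ncard ≤ 2) {g : G} (g1 : g ≠ 1)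
    {a b c : Ω} (hab : a ≠ b) (ha : g • a = a) (hb : g • b = b) (hc : g • c = c) :
    c = a ∨ c = b := by
  by_contra hn
  push Not at hn
  have h1 : ({c, a, b} : Set Ω) ⊆ fixedBy Ω g := by
    rintro _ (rfl | rfl | rfl)
    exacts [hc, ha, hb]
  have h2 := Set.ncard_le_ncard h1
  rw [Set.ncard_insert_of_notMem (by simp [hn.1, hn.2]), Set.ncard_pair hab] at h2
  have := hfix g g1
  omega

theorem frob [FaithfulSMul G Ω] [IsPretransitive G Ω]
    (hfix : ∀ g : G, g ≠ 1 → (fixedBy Ω g).ncard ≤ 2) {M : Subgroup G} (hM : M.index = 2)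
    (hst : ∀ c : Ω, stabilizer G c ≤ M) {α β : Ω} (hβ : β ∉ orb M α) {t : G} (tt : t * t = 1)
    (t1 : t ≠ 1) (tα : t • α = α) (tβ : t • β = β) :
    Cfsg.IsFrobeniusComplement ((stabilizer G α).subgroupOf M) := by
  have hn := normal_of_index_eq_two hM
  have hαβ : α ≠ β := fun e => hβ (e ▸ mem_orb_self M α)
  have hcard : Nat.card Ω = 2 * (orb M β).ncard := by
    have h1 := card_stab_mul M β
    have h2 := card_stab_mul (⊤ : Subgroup G) β
    rw [inf_eq_right.2 (hst β)] at h1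
    have h3 : orb (⊤ : Subgroup G) β = Set.univ :=
      Set.eq_univ_of_forall fun c => by
        obtain ⟨g, hg⟩ := exists_smul_eq G β c
        exact ⟨g, mem_top g, hg⟩
    rw [top_inf_eq, h3, Set.ncard_univ, card_top, ← M.card_mul_index, hM, ← h1] at h2
    have h4 : 0 < Nat.card (stabilizer G β) := Nat.card_pos
    exact Nat.eq_of_mul_eq_mul_left h4 (by rw [h2]; ring)
  have key : ∀ h : G, h • α = α → h • β = β := by
    intro h hα
    by_contra hne
    have ti : t⁻¹ = t := inv_eq_of_mul_eq_one_right tt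
    set t' := h * t * h⁻¹ with ht'
    have t'α : t' • α = α := by
      have := mem_fixedBy_conj (h := h).2 (show α ∈ fixedBy Ω t from tα)
      rwa [hα] at this
    have t'β : t' • h • β = h • β := mem_fixedBy_conj (h := h).2 (show β ∈ fixedBy Ω t from tβ)
    have t'1 : t' ≠ 1 := fun e => t1 (conj_eq_one_iff.1 e)
    have hβα : α ≠ h • β := fun e => hαβ (MulAction.injective h (hα.trans e))
    have tt' : t' * t' = 1 := by
      rw [ht']
      calc h * t * h⁻¹ * (h * t * h⁻¹) = h * (t * t) * h⁻¹ := by group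
        _ = 1 := by rw [tt]; group
    have ti' : t'⁻¹ = t' := inv_eq_of_mul_eq_one_right tt'
    have x1 : t * t' ≠ 1 := by
      intro e
      have e2 : t' = t := by rw [← ti]; exact (inv_eq_of_mul_eq_one_right e).symm
      rw [e2] at t'β
      rcases eq_or_of_fix hfix t1 hαβ tα tβ t'β with e3 | e3
      · exact hβα e3.symm
      · exact hne e3
    obtain ⟨p, hp, hpd⟩ := Nat.exists_prime_and_dvd (n := orderOf (t * t'))
      (fun e => x1 (orderOf_eq_one_iff.1 e))
    haveI := Fact.mk hp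
    obtain ⟨k, hk⟩ := exists_pow_orderOf_eq hpd
    set y := (t * t') ^ k with hy
    have y1 : y ≠ 1 := fun e => by rw [e, orderOf_one] at hk; exact hp.one_lt.ne hk
    have yα : y • α = α := pow_smul_eq (by rw [mul_smul, t'α, tα]) k
    have e1 : t * y * t⁻¹ = y⁻¹ := by
      rw [hy, ← conj_pow, ← inv_pow, mul_inv_rev, ti', ti]
      congr 1
      calc t * (t * t') * t = (t * t) * t' * t := by group
        _ = t' * t := by rw [tt, one_mul]
    have e2 : t' * y * t'⁻¹ = y⁻¹ := by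
      rw [hy, ← conj_pow, ← inv_pow, mul_inv_rev t t', ti', ti]
      congr 1
      calc t' * (t * t') * t' = t' * t * (t' * t') := by group
        _ = t' * t := by rw [tt', mul_one]
    have hy1 : ∀ c, y • c = c → c = α := by
      intro c hc
      by_contra hcα
      have aux : ∀ s : G, s * y * s⁻¹ = y⁻¹ → s • α = α → s • c = c := by
        intro s hs sα
        have h1 := mem_fixedBy_conj (h := s).2 (show c ∈ fixedBy Ω y from hc)
        rw [hs, fixedBy_inv] at h1
        rcases eq_or_of_fix hfix y1 (Ne.symm hcα) yα hc h1 with e | e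
        · exact absurd (MulAction.injective s (e.trans sα.symm)) hcα
        · exact e
      have k1 := (eq_or_of_fix hfix t1 hαβ tα tβ (aux t e1 tα)).resolve_left hcα
      have k2 := (eq_or_of_fix hfix t'1 hβα t'α t'β (aux t' e2 t'α)).resolve_left hcα
      exact hne (k2.symm.trans k1)
    have hP : IsPGroup p (zpowers y) := IsPGroup.of_card (n := 1) (by rw [Nat.card_zpowers, hk, pow_one])
    have k1 := ncard_fixedBy_modEq (Ω := Ω) hP (mem_zpowers y)
    have k2 : fixedBy Ω y = {α} := Set.eq_singleton_iff_unique_mem.2 ⟨yα, hy1⟩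
    rw [k2, Set.ncard_singleton, hcard] at k1
    have k3 : p ∣ (orb M β).ncard := by
      refine dvd_of_nofix hP ?_ ?_
      · rintro x hx _ ⟨m, hm, rfl⟩
        exact ⟨x * m, mul_mem (zpowers_le.2 (hst α yα) hx) hm, mul_smul _ _ _⟩
      · rintro _ ⟨m, hm, rfl⟩ hc
        have := hy1 _ (hc y (mem_zpowers y))
        exact hβ ⟨m⁻¹, inv_mem hm, by rw [← this, inv_smul_smul]⟩
    have k4 : p ∣ 1 := (Nat.ModEq.dvd_iff k1 dvd_rfl).1 (k3.mul_left 2)
    exact hp.one_lt.ne' (Nat.dvd_one.1 k4)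
  refine ⟨fun e => t1 ?_, fun e => t1 ?_, fun g hg => ?_⟩
  · have : (⟨t, hst α tα⟩ : M) ∈ (stabilizer G α).subgroupOf M := tα
    rw [e, mem_bot] at this
    exact congrArg Subtype.val this
  · refine eq_of_smul_eq_smul (α := Ω) fun c => ?_
    obtain ⟨g, rfl⟩ := exists_smul_eq G α c
    have h1 : g⁻¹ * t * g ∈ M := hn.conj_mem' _ (hst α tα) g
    have h2 : (⟨_, h1⟩ : M) ∈ (stabilizer G α).subgroupOf M := e ▸ mem_top _
    have h3 : (g⁻¹ * t * g) • α = α := h2
    rw [one_smul, ← mul_smul, ← smul_left_cancel_iff g⁻¹, inv_smul_smul, ← mul_smul, ← mul_assoc, h3]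
  · refine eq_bot_iff.2 fun y hy => ?_
    obtain ⟨hy1, hy2⟩ := hy
    rw [mem_bot]
    by_contra y1
    have h1 : (y : G) • α = α := hy1
    have h2 : ((g⁻¹ * y * g : M) : G) • α = α := by
      have := mem_pointwise_smul_iff_inv_smul_mem.1 hy2
      rw [← map_inv, MulAut.smul_def, MulAut.conj_apply, inv_inv] at this
      exact this
    have h3 : (y : G) • (g : G) • α = (g : G) • α := by
      rw [← smul_left_cancel_iff (g : G)⁻¹, inv_smul_smul, ← mul_smul, ← mul_smul]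
      exact h2
    rcases eq_or_of_fix hfix (fun e => y1 (Subtype.ext e)) hαβ h1 (key _ h1) h3 with e | e
    · exact hg e
    · exact hβ ⟨g, g.2, e⟩

omit [Finite G] [Finite Ω] in
theorem card_orbit (X : Subgroup G) (c : Ω) : Nat.card (orbit X c) = (orb X c).ncard := by
  have : orbit X c = orb X c := by
    ext d
    exact ⟨fun ⟨x, hx⟩ => ⟨x, x.2, hx⟩, fun ⟨x, hx, e⟩ => ⟨⟨x, hx⟩, e⟩⟩
  rw [this]
  rfl


/-- Let G be a finite group acting faithfully and transitively on a finite set Ω with fixity 2 (every non-identity element fixes at most two points, and some fixes exactly two). Let α ∈ Ω and S a Sylow 2-subgroup of G. Then one of the following holds: the stabilizer S_α of α in S is trivial; S is dihedral or semidihedral and either |S_α| = 2 or |S : S_α| = 2; |S| ≥ 4, S has exactly one orbit of size 2 on Ω, every other S-orbit is regular, and G has a normal subgroup of index 2 or of index |S| which is a Frobenius group; or S ≤ G_α. -/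
theorem result {G : Type*} [Group G] [Finite G] {Ω : Type*} [Fintype Ω] [MulAction G Ω] [FaithfulSMul G Ω] (htr : MulAction.IsPretransitive G Ω)
    (hfix : ∀ g : G, g ≠ 1 → Nat.card (MulAction.fixedBy Ω g) ≤ 2) (hex : ∃ g : G, g ≠ 1 ∧ Nat.card (MulAction.fixedBy Ω g) = 2) (α : Ω) (S : Sylow 2 G) :
    (S : Subgroup G) ⊓ MulAction.stabilizer G α = ⊥ ∨
    (((∃ n : ℕ, Nonempty (↥(S : Subgroup G) ≃* DihedralGroup n)) ∨ Cfsg.IsQuasiDihedral ↥(S : Subgroup G)) ∧
       (Nat.card ↥((S : Subgroup G) ⊓ MulAction.stabilizer G α) = 2 ∨ ((S : Subgroup G) ⊓ MulAction.stabilizer G α).relIndex (S : Subgroup G) = 2)) ∨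
    (4 ≤ Nat.card (S : Subgroup G) ∧
       (∃ ω : Ω, Nat.card (MulAction.orbit ↥(S : Subgroup G) ω) = 2 ∧
          ∀ ω' : Ω, ω' ∉ MulAction.orbit ↥(S : Subgroup G) ω → Nat.card (MulAction.orbit ↥(S : Subgroup G) ω') = Nat.card (S : Subgroup G)) ∧
       ∃ N : Subgroup G, N.Normal ∧ (N.index = 2 ∨ N.index = Nat.card (S : Subgroup G)) ∧ (∃ H : Subgroup ↥N, Cfsg.IsFrobeniusComplement H)) ∨
    (S : Subgroup G) ≤ MulAction.stabilizer G α := by
  classical
  set Q : Subgroup G := (S : Subgroup G) with hQdef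
  have hQ : IsPGroup 2 Q := S.isPGroup'
  have hfix2 : ∀ g : G, g ≠ 1 → (fixedBy Ω g).ncard ≤ 2 := hfix
  have hfix' : ∀ x ∈ Q, x ≠ 1 → (fixedBy Ω x).ncard ≤ 2 := fun x _ x1 => hfix x x1
  by_cases hT : Q ⊓ stabilizer G α = ⊥
  · exact Or.inl hT
  by_cases h4 : Q ≤ stabilizer G α
  · exact Or.inr (Or.inr (Or.inr h4))
  right
  have fin : ∀ c : Ω, Nat.card ↥(Q ⊓ stabilizer G c) = 2 → ¬ IsCyclic Q →
      (∃ n : ℕ, Nonempty (Q ≃* DihedralGroup n)) ∨ Cfsg.IsQuasiDihedral Q := by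
    intro c hc hcyc
    obtain ⟨s, hs⟩ := exists_prime_orderOf_dvd_card' (G := ↥(Q ⊓ stabilizer G c)) 2 (hc ▸ dvd_rfl)
    rw [← Subgroup.orderOf_coe] at hs
    have s1 : (s : G) ≠ 1 := fun e => by rw [e, orderOf_one] at hs; omega
    have ss : (s : G) * s = 1 := by rw [← pow_two, ← hs, pow_orderOf_eq_one]
    have h7 := card_cent_le Q (s := s) (b := c) s.2.2
    have h8 : Nat.card ↥(Q ⊓ stabilizer G c ⊓ centralizer {(s : G)}) ≤ 2 :=
      (card_le_of_le inf_le_left).trans hc.le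
    have hc4 := h7.trans (Nat.mul_le_mul h8 (hfix2 s s1))
    refine (dihedral_of_cent hQ (t := ⟨s, s.2.1⟩) (Subtype.ext ss)
      (fun e => s1 (congrArg Subtype.val e)) ?_).resolve_left hcyc
    rw [← Pres.card_subgroupOf_of_le (inf_le_left : Q ⊓ centralizer {(s : G)} ≤ Q)] at hc4
    refine le_trans (card_le_of_le fun x hx => ?_) hc4
    exact ⟨x.2, mem_centralizer_singleton_iff.2
      (congrArg Subtype.val (mem_centralizer_singleton_iff.1 hx))⟩
  set T := Q ⊓ stabilizer G α with hTdef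
  have hTp : IsPGroup 2 T := hQ.to_le inf_le_left
  obtain ⟨t, htT, tt, t1⟩ : ∃ t ∈ T, t * t = 1 ∧ t ≠ 1 := by
    obtain ⟨x, hx, x1⟩ := (bot_or_exists_ne_one T).resolve_left hT
    obtain ⟨k, hk, hk1⟩ := exists_invol_pow hTp hx x1
    exact ⟨_, pow_mem hx k, hk, hk1⟩
  have hT2 : 2 ≤ Nat.card T := (one_lt_card_iff_ne_bot T).2 hT
  have k1 := card_stab_mul Q α
  rw [← hTdef] at k1
  have h1 : (orb Q α).ncard ≠ 1 := fun e => h4 fun x hx => mem_fp_of_orb e x hx
  have hrel : T.relIndex Q = (orb Q α).ncard := by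
    rw [hTdef, inf_relIndex_left, relIndex_stab]
  have two : ∀ {x y : G}, x ∈ Q → y ∈ Q → x * x = 1 → y * y = 1 → x ≠ 1 → y ≠ 1 → x ≠ y →
      ¬ IsCyclic Q := by
    intro x y hx hy xx yy x1 y1 xy hcyc
    have := Fintype.ofFinite Q
    have h5 := IsCyclic.card_pow_eq_one_le (α := Q) (n := 2) two_pos
    have h6 : ({1, ⟨x, hx⟩, ⟨y, hy⟩} : Finset Q) ⊆ Finset.univ.filter fun a : Q => a ^ 2 = 1 := by
      intro a ha
      simp only [Finset.mem_insert, Finset.mem_singleton] at ha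
      rw [Finset.mem_filter]
      refine ⟨Finset.mem_univ _, ?_⟩
      rcases ha with rfl | rfl | rfl
      · simp
      · exact Subtype.ext (by rw [pow_two]; exact xx)
      · exact Subtype.ext (by rw [pow_two]; exact yy)
    have h7 := (Finset.card_le_card h6).trans h5
    rw [Finset.card_insert_of_notMem, Finset.card_pair] at h7
    · omega
    · exact fun e => xy (congrArg Subtype.val e)
    · simp only [Finset.mem_insert, Finset.mem_singleton, not_or]
      exact ⟨fun e => x1 (congrArg Subtype.val e).symm, fun e => y1 (congrArg Subtype.val e).symm⟩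
  by_cases h2 : (orb Q α).ncard = 2
  swap
  · left
    have h3 : 3 < (orb Q α).ncard := by
      by_contra hh
      rcases orb_cases hQ (b := α) (by omega) with h | h | h <;> omega
    have h5 : (fp Ω T).ncard ≤ 2 := (Set.ncard_le_ncard (fp_subset htT)).trans (hfix2 t t1)
    obtain ⟨Γ, hΓ, hinv, c, hc, hc'⟩ := exists_conj_set hQ (Γ := fp Ω T) (b := α)
      (fun x hx => hx.2) (by omega) (fun x hx c hc => by rwa [hc x hx])
    have h6 : (orb T c).ncard ≤ Γ.ncard := Set.ncard_le_ncard (orb_subset hinv hc)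
    have h7 : (orb T c).ncard = 2 := by
      rcases orb_cases hTp (b := c) (by omega) with h | h | h
      · exact absurd (mem_fp_of_orb h) hc'
      · exact h
      · omega
    have h8 := four_le_ncard hc' (two_le_ncard_fp hQ (by omega)) h7
    have h9 : T ⊓ stabilizer G c = ⊥ := eq_bot_iff.2 fun d hd =>
      eq_one_of_lt hfix' hd.1.1 (Set.union_subset (fp_subset hd.1) (fix_orb_of_two h7 hd.1 hd.2))
        (by omega)
    have h10 := card_stab_mul T c
    rw [h9, card_bot, h7] at h10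
    refine ⟨fin α (by rw [← hTdef]; omega) fun hcyc => ?_, Or.inl (by omega)⟩
    have h11 := card_cent_le Q (s := t) (b := α) htT.2
    have h12 : Nat.card ↥(T ⊓ centralizer {t}) ≤ 2 := (card_le_of_le inf_le_left).trans (by omega)
    have h13 := h11.trans (Nat.mul_le_mul h12 (hfix2 t t1))
    have h14 : Q ⊓ centralizer {t} = Q := inf_eq_left.2 fun x hx =>
      mem_centralizer_singleton_iff.2 (congrArg Subtype.val
        (hcyc.isMulCommutative.is_comm.comm (⟨x, hx⟩ : Q) ⟨t, htT.1⟩))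
    rw [h14] at h13
    have : 2 * 4 ≤ Nat.card T * (orb Q α).ncard := Nat.mul_le_mul hT2 h3
    omega
  have hdisj : ∀ c ∉ orb Q α, ∀ x ∈ T, x • c = c → x = 1 := by
    intro c hc x hx hxc
    refine eq_one_of_lt hfix' hx.1 (Set.insert_subset hxc (fix_orb_of_two h2 hx.1 hx.2)) ?_
    rw [Set.ncard_insert_of_notMem hc]
    omega
  by_cases h3 : ∃ c ∉ orb Q α, ∃ x ∈ Q, x ≠ 1 ∧ x • c = c
  · left
    obtain ⟨c, hc, x, hx, x1, hxc⟩ := h3
    have h5 := card_le_of_orb (inf_le_left : Q ⊓ stabilizer G c ≤ Q) α h2.le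
    rw [(eq_bot_iff (a := Q ⊓ stabilizer G c ⊓ stabilizer G α)).2
      (fun y hy => hdisj c hc y ⟨hy.1.1, hy.2⟩ hy.1.2), card_bot] at h5
    have h6 : 1 < Nat.card ↥(Q ⊓ stabilizer G c) := (one_lt_card_iff_ne_bot _).2
      fun e => x1 (mem_bot.1 (e.le ⟨hx, hxc⟩))
    obtain ⟨k, hk, hk1⟩ := exists_invol_pow hQ hx x1
    refine ⟨fin c (by omega) (two (pow_mem hx k) htT.1 hk tt hk1 t1 fun e => ?_), Or.inr (by omega)⟩
    exact hk1 (hdisj c hc _ (e ▸ htT) (pow_smul_eq hxc k))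
  right; left
  push Not at h3
  refine ⟨by rw [h2] at k1; omega, ⟨α, by rw [card_orbit, h2], fun c hc => ?_⟩, ?_⟩
  · have hc' : c ∉ orb Q α := fun ⟨x, hx, e⟩ => hc ⟨⟨x, hx⟩, e⟩
    have h5 := card_stab_mul Q c
    rw [(eq_bot_iff (a := Q ⊓ stabilizer G c)).2 (fun y hy => by
      by_contra y1
      exact h3 c hc' y hy.1 y1 hy.2), card_bot, one_mul] at h5
    rw [card_orbit, h5]
  have hmem : ∀ x ∈ Q, x ∈ T ↔ ∃ c : Ω, x • c = c := by
    refine fun x hx => ⟨fun h => ⟨α, h.2⟩, fun ⟨c, hc⟩ => ⟨hx, ?_⟩⟩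
    by_cases hcα : c ∈ orb Q α
    · obtain ⟨y, hy, rfl⟩ := hcα
      have h5 : orb Q (y • α) = orb Q α := by
        ext d
        refine ⟨fun ⟨z, hz, e⟩ => ⟨z * y, mul_mem hz hy, by rw [mul_smul, e]⟩,
          fun ⟨z, hz, e⟩ => ⟨z * y⁻¹, mul_mem hz (inv_mem hy), by rw [mul_smul, inv_smul_smul, e]⟩⟩
      exact fix_orb_of_two (h5 ▸ h2) hx hc (h5 ▸ mem_orb_self Q α)
    · by_contra hn
      exact h3 c hcα x hx (fun e => hn (e ▸ one_mem _)) hc
  obtain ⟨M, hM, hMT⟩ := transfer_two (S := Q) (D := T)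
    (Nat.odd_iff.2 (Nat.two_dvd_ne_zero.1 S.not_dvd_index)) (hrel.trans h2) (by
      intro g x hx hx'
      rw [hmem _ hx, hmem _ hx']
      refine ⟨fun ⟨c, hc⟩ => ⟨g • c, ?_⟩, fun ⟨c, hc⟩ => ⟨g⁻¹ • c, ?_⟩⟩
      · rw [← smul_left_cancel_iff g⁻¹, inv_smul_smul, ← mul_smul, ← mul_smul, hc]
      · rw [mul_smul, smul_inv_smul, mul_smul, hc])
  have hn := normal_of_index_eq_two hM
  have hst : ∀ c : Ω, stabilizer G c ≤ M := by
    intro c y hy
    obtain ⟨a, m, hm, e⟩ := Nat.exists_eq_two_pow_mul_odd (orderOf_pos y).ne'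
    obtain ⟨h, -, hh⟩ := exists_conj_mem_sylow S le_top (mem_top (y ^ m)) (k := a)
      (by rw [← pow_mul, mul_comm, ← e, pow_orderOf_eq_one])
    have h5 : h * y ^ m * h⁻¹ ∈ M := (hMT _ hh).2 ((hmem _ hh).2
      ⟨h • c, mem_fixedBy_conj.2 (pow_smul_eq hy m)⟩)
    have h6 : y ^ m ∈ M := by
      have := hn.conj_mem' _ h5 h
      rwa [show h⁻¹ * (h * y ^ m * h⁻¹) * h = y ^ m by group] at this
    obtain ⟨j, rfl⟩ := hm
    rw [pow_succ, pow_mul] at h6
    exact (mul_mem_cancel_left (pow_mem (sq_mem_of_index_two hM y) j)).1 h6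
  obtain ⟨s, hs, hsα⟩ : ∃ s ∈ Q, s ∉ stabilizer G α := by
    by_contra hh
    push Not at hh
    exact h4 hh
  refine ⟨M, hn, Or.inl hM, _, frob hfix2 hM hst (α := α) (β := s • α) ?_ tt t1 htT.2
    (fix_orb_of_two h2 htT.1 htT.2 (smul_mem_orb hs α))⟩
  rintro ⟨m, hm, e⟩
  have h5 : s⁻¹ * m ∈ M := hst α (by rw [mem_stabilizer_iff, mul_smul, e, inv_smul_smul])
  have h6 : s ∈ M := by
    have := mul_mem hm (inv_mem h5)
    rwa [show m * (s⁻¹ * m)⁻¹ = s by group] at this
  exact hsα ((hMT s hs).1 h6).2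

end Cfsg.Agent.S3390
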