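import Cfsg.Statements.S3391
import Cfsg.Agent.Suzuki.Hall

set_option autoImplicit false
open Cfsg

namespace Cfsg.Agent.S3391

open MulAction in
theorem sq_fix {G Ω : Type*} [Group G] [Finite Ω] [MulAction G Ω] {x g : G} {α : Ω}
    (hx : Nat.card (fixedBy Ω x) ≤ 2) (h0 : x • α = α) (h1 : x • g • α = g • α)
    (h2 : x • g • g • α = g • g • α) : (g * g) • α = α := by
  rw [mul_smul]
  by_contra hne
  have h3 : g • α ≠ α := by
    intro h; apply hne; rw [h, h]
  have h4 : g • g • α ≠ g • α := fun h => h3 (smul_left_cancel g h)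
  have h5 : ({α, g • α, g • g • α} : Set Ω) ⊆ fixedBy Ω x := by
    rintro y (rfl | rfl | rfl)
    · exact h0
    · exact h1
    · exact h2
  have h6 := Set.ncard_le_ncard h5
  rw [Set.ncard_eq_three.mpr ⟨_, _, _, h3.symm, Ne.symm hne, h4.symm, rfl⟩] at h6
  rw [Nat.card_coe_set_eq] at hx
  omega

open MulAction in
theorem sq_fix' {G Ω : Type*} [Group G] [Finite Ω] [MulAction G Ω] {x : G} {α : Ω}
    (hx : Nat.card (fixedBy Ω x) ≤ 2) (K : Subgroup G)
    (hK : ∀ g ∈ K, g⁻¹ * x * g ∈ stabilizer G α) {g : G} (hg : g ∈ K) :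
    g * g ∈ stabilizer G α := by
  have key : ∀ g ∈ K, x • g • α = g • α := by
    intro g hg
    have := hK g hg
    rw [mem_stabilizer_iff, mul_smul, mul_smul, inv_smul_eq_iff] at this
    exact this
  refine sq_fix hx ?_ (key g hg) ?_
  · simpa using key 1 K.one_mem
  · rw [← mul_smul g g]; exact key _ (K.mul_mem hg hg)

open MulAction Suzuki in
theorem main {F : Type*} [Field F] [Fintype F] {m : ℕ} [hS : IsSz F m] {Ω : Type*} [Fintype Ω]
    [MulAction (Sz F m) Ω] [FaithfulSMul (Sz F m) Ω] [IsPretransitive (Sz F m) Ω]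
    (hfix : ∀ g : Sz F m, g ≠ 1 → Nat.card (fixedBy Ω g) ≤ 2)
    (hex : ∃ g : Sz F m, g ≠ 1 ∧ Nat.card (fixedBy Ω g) = 2) :
    (Fintype.card Ω = Fintype.card F ^ 2 + 1 ∧ IsMultiplyPretransitive (Sz F m) Ω 2) ∨
    (Fintype.card Ω = Fintype.card F ^ 2 * (Fintype.card F ^ 2 + 1) ∧
      ∀ α : Ω, Nat.card (stabilizer (Sz F m) α) = Fintype.card F - 1) := by
  obtain ⟨g₀, hg₀, hg₀'⟩ := hex
  obtain ⟨α₀, hα₀⟩ : (fixedBy Ω g₀).Nonempty := by
    rw [Nat.card_coe_set_eq] at hg₀'
    exact Set.nonempty_of_ncard_ne_zero (by omega)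
  have hcard : ∀ α : Ω, Nat.card (stabilizer (Sz F m) α) * Fintype.card Ω = Nat.card (Sz F m) := by
    intro α
    rw [← Nat.card_eq_fintype_card, ← index_stabilizer_of_transitive (Sz F m) α,
      Subgroup.card_mul_index]
  have hΩ : 0 < Fintype.card Ω := Fintype.card_pos_iff.mpr ⟨α₀⟩
  have hcard' : ∀ α : Ω, Nat.card (stabilizer (Sz F m) α) = Nat.card (stabilizer (Sz F m) α₀) :=
    fun α => Nat.eq_of_mul_eq_mul_right hΩ (by rw [hcard, hcard])
  have hmove : ∀ (x y : Sz F m), x ∈ stabilizer (Sz F m) α₀ →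
      y⁻¹ * x * y ∈ stabilizer (Sz F m) (y⁻¹ • α₀) := by
    intro x y hx
    rw [mem_stabilizer_iff] at hx ⊢
    rw [mul_smul, mul_smul, smul_inv_smul, hx]
  have hne1 : ∀ (x y : Sz F m), x ≠ 1 → y⁻¹ * x * y ≠ 1 := by
    intro x y hx h
    apply hx
    rw [show x = y * (y⁻¹ * x * y) * y⁻¹ by group, h]; simp
  have hprime : ∀ p : ℕ, p.Prime → p ∣ Nat.card (stabilizer (Sz F m) α₀) →
      ∃ x ∈ stabilizer (Sz F m) α₀, x ≠ 1 ∧ orderOf x = p := by
    intro p hp hd
    have : Fact p.Prime := ⟨hp⟩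
    obtain ⟨x, hx⟩ := exists_prime_orderOf_dvd_card' p hd
    refine ⟨x, x.2, fun h => ?_, by rw [Subgroup.orderOf_coe, hx]⟩
    rw [← Subgroup.orderOf_coe, h, orderOf_one] at hx
    exact hp.one_lt.ne hx
  by_cases heven : 2 ∣ Nat.card (stabilizer (Sz F m) α₀)
  · left
    obtain ⟨t, ht, ht1, ht2⟩ := hprime 2 Nat.prime_two heven
    obtain ⟨y, b, hyb⟩ := exists_conj_uu_of_mul_self (g := t)
      (by rw [← pow_two, ← ht2, pow_orderOf_eq_one])
    have hb : y⁻¹ * t * y = uu 0 b := by rw [hyb]; group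
    have h1 := hmove t y ht
    have h2 := hne1 t y ht1
    rw [hb] at h1 h2
    generalize y⁻¹ • α₀ = α at h1
    have hZ : ∀ c : F, uu 0 c ∈ stabilizer (Sz F m) α := by
      intro c
      obtain ⟨a, rfl⟩ := sg_mul_self_surj c
      rw [← uu_sq a 0]
      refine sq_fix' (hfix _ h2) (UU F) ?_ ⟨a, 0, rfl⟩
      rintro _ ⟨c, d, rfl⟩
      rw [mul_assoc, (uu_comm_iff 0 b c d).mpr (by simp), inv_mul_cancel_left]
      exact h1
    have hB : ∀ g ∈ BB F, g * g ∈ stabilizer (Sz F m) α := by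
      intro g hg
      refine sq_fix' (hfix _ h2) (BB F) ?_ hg
      intro k hk
      obtain ⟨c, d, s, rfl⟩ := (mem_BB_iff _).mp hk
      have : (uu c d * hh s)⁻¹ * uu 0 b * (uu c d * hh s) = hh s⁻¹ * uu 0 b * (hh s⁻¹)⁻¹ := by
        rw [← mul_assoc, mul_assoc _ (uu 0 b), (uu_comm_iff 0 b c d).mpr (by simp), ← hh_inv]
        group
      rw [this, hh_conj_uu, mul_zero]
      exact hZ _
    have hH : ∀ s : Fˣ, hh s ∈ stabilizer (Sz F m) α := by
      intro s
      obtain ⟨r, hr⟩ := sq_surj (s : F)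
      have hr0 : r ≠ 0 := by
        rintro rfl
        exact s.ne_zero (by rw [← hr]; simp)
      have : s = Units.mk0 r hr0 * Units.mk0 r hr0 := by ext; simp [← hr, pow_two]
      rw [this, hh_mul]
      exact hB _ (hh_oo _)
    have hU : ∀ c d : F, uu c d ∈ stabilizer (Sz F m) α := by
      intro c d
      obtain ⟨r, hr⟩ := exists_unit_ne_one (F := F)
      have hr1 : 1 + sg F r ≠ 0 := by
        intro h
        apply hr
        ext
        apply sg_eq_one
        grind
      have h3 := hB (uu (c / (1 + sg F r)) 0 * hh r) ((mem_BB_iff _).mpr ⟨_, _, _, rfl⟩)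
      rw [mul_assoc, ← mul_assoc (hh r), hh_mul_uu, ← mul_assoc, ← mul_assoc, uu_mul,
        Subgroup.mul_mem_cancel_right _ (hH r), Subgroup.mul_mem_cancel_right _ (hH r)] at h3
      have h4 : c / (1 + sg F r) + sg F r * (c / (1 + sg F r)) = c := by field_simp
      rw [h4] at h3
      generalize 0 + sg F r * (r : F) ^ 2 * 0 + sg F (c / (1 + sg F r)) *
        (sg F r * (c / (1 + sg F r))) = e at h3
      have h5 := Subgroup.mul_mem _ h3 (hZ (d + e))
      rw [uu_mul] at h5
      convert h5 using 2 <;> grind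
    have hw : ww F ∉ stabilizer (Sz F m) α := by
      intro hw
      have htop := eq_top_of_gens _ hU hH hw
      apply ww_ne_one (F := F)
      apply eq_of_smul_eq_smul (α := Ω)
      intro β
      obtain ⟨k, rfl⟩ := exists_smul_eq (Sz F m) α β
      have hk : ∀ k : Sz F m, k • α = α := fun k => by
        rw [← mem_stabilizer_iff, htop]; trivial
      rw [← mul_smul, hk, hk, hk]
    have hstab : stabilizer (Sz F m) α = BB F := by
      ext k
      rcases bruhat k with ⟨a, b, s, rfl⟩ | ⟨a, b, c, d, s, rfl⟩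
      · exact iff_of_true (Subgroup.mul_mem _ (hU _ _) (hH _)) ((mem_BB_iff _).mpr ⟨_, _, _, rfl⟩)
      · refine iff_of_false ?_ ?_
        · rw [Subgroup.mul_mem_cancel_right _ (Subgroup.mul_mem _ (hU _ _) (hH _)),
            Subgroup.mul_mem_cancel_left _ (hU _ _)]
          exact hw
        · rw [mem_stabilizer_iff, mul_smul, mul_smul, mul_smul, hh_oo, uu_oo, ww_oo, uu_zero_pt]
          exact pt_ne_oo _ _
    refine ⟨?_, ?_⟩
    · rw [← Nat.card_eq_fintype_card, ← index_stabilizer_of_transitive (Sz F m) α, hstab, index_BB]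
    · have key : ∀ a b : Ω, a ≠ b → ∃ k : Sz F m, k • α = a ∧ k • ww F • α = b := by
        intro a b hab
        obtain ⟨k, rfl⟩ := exists_smul_eq (Sz F m) α a
        obtain ⟨l, hl⟩ := exists_smul_eq (Sz F m) α (k⁻¹ • b)
        rcases bruhat l with ⟨a', b', s, rfl⟩ | ⟨a', b', c, d, s, rfl⟩
        · rw [mem_stabilizer_iff.mp (Subgroup.mul_mem _ (hU _ _) (hH _)), eq_inv_smul_iff] at hl
          exact absurd hl hab
        · rw [mul_smul, mem_stabilizer_iff.mp (Subgroup.mul_mem _ (hU _ _) (hH _)), mul_smul,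
            eq_inv_smul_iff] at hl
          exact ⟨k * uu a' b', by rw [mul_smul, mem_stabilizer_iff.mp (hU _ _)],
            by rw [mul_smul, hl]⟩
      rw [is_two_pretransitive_iff]
      intro a b c d hab hcd
      obtain ⟨g, rfl, rfl⟩ := key a b hab
      obtain ⟨k, rfl, rfl⟩ := key c d hcd
      exact ⟨k * g⁻¹, by rw [mul_smul, inv_smul_smul], by rw [mul_smul, inv_smul_smul]⟩
  · right
    have hcase : ∀ p : ℕ, p.Prime → p ∣ Nat.card (stabilizer (Sz F m) α₀) →
        ¬ p ∣ (HH F).index := by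
      intro p hp hd
      have : Fact p.Prime := ⟨hp⟩
      have hp2 : p ≠ 2 := by
        rintro rfl; exact heven hd
      rcases odd_prime_cases F hp hp2 with h | ⟨g, h, -, h2⟩
      · exact h.2
      exfalso
      obtain ⟨x, hx, hx1, hxp⟩ := hprime p hp hd
      obtain ⟨y, hy⟩ := exists_conj_mem_of_not_dvd_index (isPGroup_zpowers_of_prime hxp) h
      have h3 := hmove x y hx
      have h4 := hne1 x y hx1
      have h5 := hy x (Subgroup.mem_zpowers x)
      have h6 : (y⁻¹ * x * y) ^ p = 1 := by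
        rw [show y⁻¹ * x * y = y⁻¹ * x * y⁻¹⁻¹ by group, conj_pow, ← hxp, pow_orderOf_eq_one]; simp
      rw [← hcard' (y⁻¹ • α₀)] at heven
      generalize y⁻¹ • α₀ = α at h3 heven
      generalize y⁻¹ * x * y = z at h3 h4 h5 h6
      have hA : ∀ a ∈ Subgroup.zpowers g, a * a ∈ stabilizer (Sz F m) α := by
        intro a ha
        refine sq_fix' (hfix _ h4) (Subgroup.zpowers g) ?_ ha
        intro k hk
        have : z * k = k * z := setLike_mul_comm h5 hk
        rw [mul_assoc, this, inv_mul_cancel_left]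
        exact h3
      obtain ⟨r, hr⟩ := hp.odd_of_ne_two hp2
      have hz : z = z ^ (r + 1) * z ^ (r + 1) := by
        rw [← pow_add, show r + 1 + (r + 1) = p + 1 by omega, pow_succ, h6, one_mul]
      let N := Subgroup.normalizer (Subgroup.zpowers g : Set (Sz F m))
      have hN : orbit N α ⊆ fixedBy Ω z := by
        rintro _ ⟨⟨n, hn⟩, rfl⟩
        have h7 : n⁻¹ * z ^ (r + 1) * n ∈ Subgroup.zpowers g :=
          (Subgroup.mem_normalizer_iff''.mp hn _).mp (Subgroup.pow_mem _ h5 _)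
        have h8 := hA _ h7
        rw [show n⁻¹ * z ^ (r + 1) * n * (n⁻¹ * z ^ (r + 1) * n) =
          n⁻¹ * (z ^ (r + 1) * z ^ (r + 1)) * n by group, ← hz, mem_stabilizer_iff, mul_smul,
          mul_smul, inv_smul_eq_iff] at h8
        exact h8
      have h9 : (orbit N α).ncard ≤ 2 := by
        have := hfix _ h4
        rw [Nat.card_coe_set_eq] at this
        exact (Set.ncard_le_ncard hN).trans this
      have h10 := (stabilizer N α).card_mul_index
      rw [index_stabilizer, h2] at h10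
      have h11 : Nat.card (stabilizer N α) ∣ Nat.card (stabilizer (Sz F m) α) :=
        Subgroup.card_dvd_of_injective
          ({ toFun := fun n => ⟨n.1.1, n.2⟩, map_one' := rfl, map_mul' := fun _ _ => rfl } :
            stabilizer N α →* stabilizer (Sz F m) α)
          (fun a b hab => Subtype.ext (Subtype.ext
            (congrArg (fun x : stabilizer (Sz F m) α => x.1) hab)))
      apply heven
      refine Dvd.dvd.trans ?_ h11
      have h12 : 0 < orderOf g := orderOf_pos g
      generalize (orbit N α).ncard = s at h9 h10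
      interval_cases s <;> omega
    have hcop : (Nat.card (stabilizer (Sz F m) α₀)).Coprime (HH F).index :=
      Nat.Coprime.symm (Nat.coprime_of_dvd' fun p hp h1 h2 => absurd h1 (hcase p hp h2))
    have hdvd : Nat.card (stabilizer (Sz F m) α₀) ∣ Fintype.card F - 1 := by
      apply hcop.dvd_of_dvd_mul_right
      rw [← card_HH, Subgroup.card_mul_index]
      exact Subgroup.card_subgroup_dvd_card _
    have hdvd' : Fintype.card F - 1 ∣ Nat.card (stabilizer (Sz F m) α₀) := by
      obtain ⟨p, hp, hd⟩ := Nat.exists_prime_and_dvd (n := Nat.card (stabilizer (Sz F m) α₀)) (by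
        intro h
        rw [Subgroup.card_eq_one] at h
        have : g₀ ∈ stabilizer (Sz F m) α₀ := hα₀
        rw [h] at this
        exact hg₀ this)
      have : Fact p.Prime := ⟨hp⟩
      obtain ⟨x, hx, hx1, hxp⟩ := hprime p hp hd
      obtain ⟨y, hy⟩ := exists_conj_mem_of_not_dvd_index (isPGroup_zpowers_of_prime hxp)
        (hcase p hp hd)
      have h3 := hmove x y hx
      have h4 := hne1 x y hx1
      have h5 := hy x (Subgroup.mem_zpowers x)
      rw [← hcard' (y⁻¹ • α₀), ← card_HH]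
      generalize y⁻¹ • α₀ = α at h3
      generalize y⁻¹ * x * y = z at h3 h4 h5
      apply Subgroup.card_dvd_of_le
      intro k hk
      obtain ⟨s, rfl⟩ := (mem_HH_iff _).mp hk
      obtain ⟨t, rfl⟩ := (mem_HH_iff _).mp h5
      obtain ⟨r, hr⟩ := sq_surj (s : F)
      have hr0 : r ≠ 0 := by
        rintro rfl
        exact s.ne_zero (by rw [← hr]; simp)
      have : s = Units.mk0 r hr0 * Units.mk0 r hr0 := by ext; simp [← hr, pow_two]
      rw [this, hh_mul]
      refine sq_fix' (hfix _ h4) (HH F) ?_ ((mem_HH_iff _).mpr ⟨_, rfl⟩)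
      intro k hk
      obtain ⟨s, rfl⟩ := (mem_HH_iff _).mp hk
      rw [mul_assoc, ← hh_mul, mul_comm t s, hh_mul, inv_mul_cancel_left]
      exact h3
    have heq := Nat.dvd_antisymm hdvd hdvd'
    refine ⟨?_, fun α => by rw [hcard', heq]⟩
    have h1 := hcard α₀
    rw [heq, card_Sz, mul_comm] at h1
    exact Nat.eq_of_mul_eq_mul_right (by have := card_ge_eight F; omega) h1

/-- Let q = 2^{2m+1} ≥ 8 and let G be isomorphic to the Suzuki group Sz(q). If G acts faithfully and transitively on a finite set Ω with fixity 2 (every non-identity element fixes at most two points, and some fixes exactly two), then either |Ω| = q² + 1 and the action is 2-transitive, or |Ω| = q²(q² + 1) and the point stabilizers have order q − 1. -/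
theorem result {G : Type*} [Group G] [Finite G] (F : Type) [Field F] [Fintype F] (m : ℕ) (hm : 1 ≤ m) (hF : Fintype.card F = 2 ^ (2 * m + 1))
    (e : G ≃* ↥(Cfsg.Lie.Sz F (2 ^ (m + 1)))) {Ω : Type*} [Fintype Ω] [MulAction G Ω] [FaithfulSMul G Ω] (htr : MulAction.IsPretransitive G Ω)
    (hfix : ∀ g : G, g ≠ 1 → Nat.card (MulAction.fixedBy Ω g) ≤ 2) (hex : ∃ g : G, g ≠ 1 ∧ Nat.card (MulAction.fixedBy Ω g) = 2) :
    (Fintype.card Ω = Fintype.card F ^ 2 + 1 ∧ MulAction.IsMultiplyPretransitive G Ω 2) ∨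
    (Fintype.card Ω = Fintype.card F ^ 2 * (Fintype.card F ^ 2 + 1) ∧ ∀ α : Ω, Nat.card (MulAction.stabilizer G α) = Fintype.card F - 1) := by
  have : Suzuki.IsSz F m := ⟨hm, hF⟩
  let f : Cfsg.Sz F m ≃* G := (Suzuki.szEquiv F).trans e.symm
  let _ : MulAction (Cfsg.Sz F m) Ω := MulAction.compHom Ω f.toMonoidHom
  have hf : ∀ (g : Cfsg.Sz F m) (a : Ω), g • a = f g • a := fun _ _ => rfl
  have : FaithfulSMul (Cfsg.Sz F m) Ω :=
    ⟨fun {g k} h => f.injective (eq_of_smul_eq_smul (α := Ω) h)⟩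
  have : MulAction.IsPretransitive (Cfsg.Sz F m) Ω := ⟨fun a b => by
    obtain ⟨g, hg⟩ := MulAction.exists_smul_eq G a b
    exact ⟨f.symm g, by rw [hf, MulEquiv.apply_symm_apply, hg]⟩⟩
  have hfb : ∀ g : Cfsg.Sz F m, MulAction.fixedBy Ω g = MulAction.fixedBy Ω (f g) := fun _ => rfl
  have key := main (F := F) (Ω := Ω)
    (fun g hg => by rw [hfb]; exact hfix _ (by simpa using hg))
    (by
      obtain ⟨g, hg, hg'⟩ := hex
      exact ⟨f.symm g, by simpa using hg, by rw [hfb, MulEquiv.apply_symm_apply, hg']⟩)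
  rcases key with ⟨h1, h2⟩ | ⟨h1, h2⟩
  · refine Or.inl ⟨h1, ?_⟩
    rw [MulAction.is_two_pretransitive_iff] at h2 ⊢
    intro a b c d hab hcd
    obtain ⟨g, hg⟩ := h2 hab hcd
    exact ⟨f g, hg⟩
  · refine Or.inr ⟨h1, fun α => ?_⟩
    rw [← h2 α]
    exact Nat.card_congr (f.toEquiv.subtypeEquiv (fun g => Iff.rfl)).symm

end Cfsg.Agent.S3391
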