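import Cfsg.Statements.S3399
import Cfsg.Agent.Pron.Main

set_option autoImplicit false
open Cfsg

namespace Cfsg.Agent.S3399

/-- Let G be a transitive permutation group of finite degree n and K a nontrivial subgroup of G that is pronormal in G (K and gKg⁻¹ are conjugate inside ⟨K, gKg⁻¹⟩ for every g ∈ G). If K fixes exactly f points, then f ≤ (n − 1)/2, that is, 2f + 1 ≤ n. -/
theorem result (n : ℕ) (G : Subgroup (Equiv.Perm (Fin n)))
    (htrans : ∀ a b : Fin n, ∃ g ∈ G, g a = b)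
    (K : Subgroup (Equiv.Perm (Fin n))) (hKG : K ≤ G) (hK : K ≠ ⊥)
    (hpro : ∀ g ∈ G, ∃ w ∈ K ⊔ K.map (MulAut.conj g).toMonoidHom,
      K.map (MulAut.conj w).toMonoidHom = K.map (MulAut.conj g).toMonoidHom) :
    2 * Nat.card {a : Fin n // ∀ k ∈ K, k a = a} + 1 ≤ n := by
  classical
  have ho : Pron.Orb G (Finset.univ : Finset (Fin n)) :=
    ⟨fun _ _ _ _ => Finset.mem_univ _, fun a _ b _ => htrans a b⟩
  have hne : (Pron.Sp K (Finset.univ : Finset (Fin n))).Nonempty := by
    by_contra hc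
    apply hK
    rw [eq_bot_iff]
    intro k hk
    rw [Subgroup.mem_bot]
    ext a
    have : Pron.IsFx K a := by
      by_contra h
      exact hc ⟨a, Pron.mem_Sp.2 ⟨Finset.mem_univ _, h⟩⟩
    exact congrArg Fin.val (this k hk)
  have h := (Pron.claim (Equiv.Perm (Fin n)) K n (Fin n) G Finset.univ (by simp) ⟨hKG, hpro⟩ ho hne).1
  have e : Nat.card {a : Fin n // ∀ k ∈ K, k a = a}
      = (Pron.Fx K (Finset.univ : Finset (Fin n))).card := by
    rw [Nat.subtype_card (Pron.Fx K (Finset.univ : Finset (Fin n)))]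
    intro a
    rw [Pron.mem_Fx]
    exact ⟨fun h => h.2, fun h => ⟨Finset.mem_univ _, h⟩⟩
  rw [e]
  exact h

end Cfsg.Agent.S3399
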