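import Cfsg.Statements.S3406
import Cfsg.Agent.FT.Final
import Cfsg.Agent.OneC.Orb

set_option autoImplicit false
open Cfsg

namespace Cfsg.Agent.S3406

/-- A non-abelian finite simple group on whose elements the full automorphism group has at most five orbits is isomorphic to the alternating group of degree 5 or 6, to PSL(2, 7) or to PSL(2, 8). -/
theorem result {G : Type*} [Group G] [Finite G] [IsSimpleGroup G] (hG : ¬ IsMulCommutative G)
    (h5 : Nat.card (MulAction.orbitRel.Quotient (MulAut G) G) ≤ 5) :
    Nonempty (G ≃* ↥(alternatingGroup (Fin 5))) ∨ Nonempty (G ≃* ↥(alternatingGroup (Fin 6))) ∨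
      (∃ (F : Type) (_ : Field F) (_ : Fintype F), (Fintype.card F = 7 ∨ Fintype.card F = 8) ∧
        Nonempty (G ≃* Matrix.ProjectiveSpecialLinearGroup (Fin 2) F)) := by
  exact OneC.five_orders FT.oddOrder hG (OneC.ncard_orders_le.trans h5)

end Cfsg.Agent.S3406
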