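import Cfsg.Statements.S3410
import Cfsg.Agent.Geom.ONanMain

set_option autoImplicit false
open Cfsg

namespace Cfsg.Agent.S3410

/-- Let a finite group G act faithfully and 2-transitively on a finite set X, and let N be an abelian normal subgroup of the stabilizer of a point x which is not semiregular on the remaining points (some non-identity element of N fixes a second point). Then the generalized Fitting subgroup of G is isomorphic to PSL_n(F) for some n ≥ 3 and some finite field F. -/
theorem result {G X : Type*} [Group G] [Finite G] [Fintype X]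
    [MulAction G X] [FaithfulSMul G X] (h2 : MulAction.IsMultiplyPretransitive G X 2) (x : X)
    (N : Subgroup G) (hNle : N ≤ MulAction.stabilizer G x)
    (hNnormal : ∀ g ∈ MulAction.stabilizer G x, ∀ n ∈ N, g * n * g⁻¹ ∈ N) (hNab : IsMulCommutative N)
    (hnsr : ∃ n ∈ N, n ≠ 1 ∧ ∃ y : X, y ≠ x ∧ n • y = y) :
    ∃ (F : Type) (_ : Field F) (_ : Fintype F) (n : ℕ), 3 ≤ n ∧
      Nonempty (↥(Cfsg.generalizedFittingSubgroup G) ≃* Matrix.ProjectiveSpecialLinearGroup (Fin n) F) := by
  have hf : ∀ g : G, (∀ x : X, g • x = x) → g = 1 := fun g hg =>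
    FaithfulSMul.eq_of_smul_eq_smul (α := X) fun x => by rw [hg, one_smul]
  rw [MulAction.is_two_pretransitive_iff] at h2
  obtain ⟨S, -⟩ := Cfsg.Agent.Geom.exists_ON hf (fun _ _ _ _ h h' => h2 h h') x N
    (fun n hn => hNle hn) hNnormal
    (fun a ha b hb => congrArg Subtype.val (hNab.is_comm.comm (⟨a, ha⟩ : N) ⟨b, hb⟩)) hnsr
  obtain ⟨F, iF, iFin, d, φ, hd, -, ⟨e⟩⟩ := S.main
  haveI := S.M_normal
  have h3 : 3 ≤ Fintype.card (Fin d) := by simpa using hd
  haveI := Cfsg.Agent.Geom.psl_simple (F := F) h3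
  haveI : IsSimpleGroup S.M := e.isSimpleGroup
  obtain ⟨a, b, hab⟩ := Cfsg.Agent.Geom.psl_perfect (F := F) h3
  have := Cfsg.Agent.Geom.genFitting_eq S.M ⟨e.symm a, e.symm b, fun h => hab (by
    simpa using congrArg e h)⟩ S.centralizer_M
  exact ⟨F, iF, iFin, d, hd, ⟨(MulEquiv.subgroupCongr this).trans e⟩⟩

end Cfsg.Agent.S3410
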