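import Cfsg.Statements.S3412
import Cfsg.Agent.Local.SL33

set_option autoImplicit false
open Cfsg

namespace Cfsg.Agent.S3412

open Cfsg.Agent.Local

open Matrix Cfsg.Agent.Local.SL33 in
theorem card_sl33 : 5616 ≤ Nat.card (SpecialLinearGroup (Fin 3) (ZMod 3)) := by
  have h2 : (GeneralLinearGroup.det : GL (Fin 3) (ZMod 3) →* (ZMod 3)ˣ).ker =
      (SpecialLinearGroup.toGL : SpecialLinearGroup (Fin 3) (ZMod 3) →* GL (Fin 3) (ZMod 3)).range := by
    ext g
    constructor
    · intro hg
      exact ⟨⟨g.1, congrArg Units.val hg⟩, Units.ext rfl⟩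
    · rintro ⟨g, rfl⟩
      exact Units.ext g.2
  have h3 := (GeneralLinearGroup.det : GL (Fin 3) (ZMod 3) →* (ZMod 3)ˣ).ker.card_mul_index
  have h4 : Nat.card (GeneralLinearGroup.det : GL (Fin 3) (ZMod 3) →* (ZMod 3)ˣ).range ≤ 2 := by
    refine (Subgroup.card_le_card_group _).trans ?_
    rw [Nat.card_eq_fintype_card, ZMod.card_units]
  have h5 : Nat.card (GL (Fin 3) (ZMod 3)) = 11232 := by
    rw [Matrix.card_GL_field, Fin.prod_univ_three, ZMod.card]
    rfl
  rw [Subgroup.index_ker, h5, h2,
    ← Nat.card_congr (MonoidHom.ofInjective SpecialLinearGroup.toGL_injective).toEquiv] at h3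
  have := Nat.mul_le_mul_left (Nat.card (SpecialLinearGroup (Fin 3) (ZMod 3))) h4
  omega

open Matrix Cfsg.Agent.Local.SL33 in
theorem sl33 {H : Type*} [Group H] [Finite H]
    (f : {h : H // h ≠ 1} ≃ {g : SpecialLinearGroup (Fin 3) (ZMod 3) // g ≠ 1})
    (hf : ∀ x y : {h : H // h ≠ 1}, (x : H) * y = y * x ↔
      ((f x) : SpecialLinearGroup (Fin 3) (ZMod 3)) * (f y) = (f y) * (f x)) :
    Nonempty (H ≃* SpecialLinearGroup (Fin 3) (ZMod 3)) := by
  have h1 := chk_inv
  have h2 := chk_adj
  have h3 := chk_par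
  simp only [List.all_eq_true, List.mem_range, Bool.and_eq_true, Bool.or_eq_true,
    Bool.not_eq_eq_eq_not, Bool.not_true, Nat.beq_eq, Nat.blt_eq, beq_iff_eq] at h1 h2 h3
  let t : Fin 117 → SpecialLinearGroup (Fin 3) (ZMod 3) := fun v =>
    ⟨(T v).mat, (M9.det1_iff _).1 (h1 v v.2).1.1⟩
  have hne : ∀ v, t v ≠ 1 := by
    intro v h
    have := (h1 v v.2).1.2
    rw [Bool.eq_false_iff] at this
    exact this ((M9.eqv_iff _ _).2 (by rw [M9.mat_one]; exact congrArg Subtype.val h))
  have hsq : ∀ v, t v * t v = 1 := by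
    intro v
    have := (M9.eqv_iff _ _).1 (h1 v v.2).2
    rw [M9.mat_mul, M9.mat_one] at this
    exact Subtype.ext this
  have hsurj : ∀ g : SpecialLinearGroup (Fin 3) (ZMod 3), g ≠ 1 → g * g = 1 → ∃ v, t v = g := by
    intro g hg hg2
    obtain ⟨A, hA, hp⟩ := exists_of_allM chk_all g.1
    simp only [Bool.or_eq_true, Bool.not_eq_eq_eq_not, Bool.not_true, List.any_eq_true,
      List.mem_range, Bool.eq_false_iff, ne_eq, M9.eqv_iff, M9.det1_iff, M9.mat_mul, M9.mat_one,
      hA] at hp
    rcases hp with ((h | h) | h) | ⟨v, hv, h⟩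
    · exact absurd (congrArg Subtype.val hg2) h
    · exact absurd g.2 h
    · exact absurd (Subtype.ext h) hg
    · exact ⟨⟨v, hv⟩, Subtype.ext h⟩
  have hconj : ∀ v, IsConj (t 0) (t v) := by
    rintro ⟨v, hv⟩
    induction v using Nat.strong_induction_on with
    | _ v ih =>
      rcases h3 v hv with h | ⟨⟨h4, h5⟩, h6⟩
      · subst h
        exact IsConj.refl _
      · refine (ih _ h4 (h4.trans hv)).trans (isConj_iff.2 ⟨t ⟨_, h5⟩, ?_⟩)
        rw [M9.eqv_iff, M9.mat_mul, M9.mat_mul] at h6
        rw [mul_inv_eq_iff_eq_mul]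
        exact Subtype.ext h6.symm
  refine equiv_of_commGraph f hf t ?_ hsurj hne hsq ?_ adj ?_ 0 hconj r₀ (by decide +kernel)
    (by decide +kernel) chk_b₀ r₁ (by decide +kernel) (by decide +kernel) ?_ ?_
  · intro v w h
    rcases (h2 v v.2 w w.2).2 with h' | h'
    · exact Fin.ext h'
    · rw [Bool.eq_false_iff] at h'
      exact absurd ((M9.eqv_iff _ _).2 (congrArg Subtype.val h)) h'
  · intro y hy
    obtain ⟨A, hA, hp⟩ := exists_of_allM chk_cent y.1
    simp only [Bool.or_eq_true, Bool.not_eq_eq_eq_not, Bool.not_true,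
      Bool.eq_false_iff, ne_eq, M9.eqv_iff, M9.det1_iff, M9.comm_iff, M9.mat_one, hA] at hp
    rcases hp with (((h | h) | h) | h) | h
    · exact absurd (congrArg Subtype.val (hy 0)) h
    · exact absurd (congrArg Subtype.val (hy 45)) h
    · exact absurd (congrArg Subtype.val (hy 3)) h
    · exact absurd y.2 h
    · exact Subtype.ext h
  · intro v w
    rw [(h2 v v.2 w w.2).1, M9.comm_iff]
    exact ⟨fun h => Subtype.ext h, fun h => congrArg Subtype.val h⟩
  · have := card_sl33
    have := chk_b₁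
    omega
  · intro K hK
    rw [eq_top_iff]
    intro g _
    refine SpecialLinearGroup.diagonal_transvection_induction' (fun g => g ∈ K) g ?_ ?_
      fun _ _ => mul_mem
    · intro i j hij c hc
      by_cases h : SpecialLinearGroup.diag2n hij c hc = 1
      · rw [h]; exact one_mem _
      obtain ⟨v, hv⟩ := hsurj _ h (by
        apply Subtype.ext
        have hc2 : c * c = 1 := (by decide : ∀ c : ZMod 3, c ≠ 0 → c * c = 1) c hc
        change diagonal _ * diagonal _ = (1 : Matrix (Fin 3) (Fin 3) (ZMod 3))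
        rw [diagonal_mul_diagonal, ← diagonal_one]
        congr 1
        funext k
        split_ifs
        · exact hc2
        · rw [← mul_inv, hc2, inv_one]
        · exact mul_one _)
      obtain ⟨d, hd⟩ := isConj_iff.1 (hconj v)
      let W : SpecialLinearGroup (Fin 3) (ZMod 3) :=
        ⟨M9.mat ⟨0, 1, 1, 2, 1, 1, 1, 2, 0⟩, (M9.det1_iff _).1 (by decide)⟩
      have hW : W * W = t 0 := Subtype.ext (by
        change M9.mat _ * M9.mat _ = M9.mat _
        rw [← M9.mat_mul, ← M9.eqv_iff]
        decide)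
      have := hK (d * W * d⁻¹)
      rwa [show d * W * d⁻¹ * (d * W * d⁻¹) = d * (W * W) * d⁻¹ by group, hW, hd, hv] at this
    · intro i j hij a
      have := hK (SpecialLinearGroup.transvection hij (-a))
      rw [← SpecialLinearGroup.transvection_add] at this
      have h3 : (3 : ZMod 3) = 0 := rfl
      rwa [show -a + -a = a by linear_combination (-a) * h3] at this


/-- Let H be a finite group whose commuting graph (vertices the non-identity elements, two joined when they commute) is isomorphic to that of PSL_3(3): there is a bijection between the non-identity elements of H and of PSL_3(3) under which two elements commute exactly when their images do. Then H ≅ PSL_3(3). -/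
theorem result {H : Type*} [Group H] [Finite H]
    (f : {h : H // h ≠ 1} ≃ {g : Matrix.ProjectiveSpecialLinearGroup (Fin 3) (ZMod 3) // g ≠ 1})
    (hf : ∀ x y : {h : H // h ≠ 1}, (x : H) * y = y * x ↔ ((f x) : Matrix.ProjectiveSpecialLinearGroup (Fin 3) (ZMod 3)) * (f y) = (f y) * (f x)) :
    Nonempty (H ≃* Matrix.ProjectiveSpecialLinearGroup (Fin 3) (ZMod 3)) := by
  have hZ : Subgroup.center (Matrix.SpecialLinearGroup (Fin 3) (ZMod 3)) = ⊥ := by
    rw [eq_bot_iff]
    intro A hA
    obtain ⟨r, hr, hA⟩ := Matrix.SpecialLinearGroup.mem_center_iff.1 hA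
    have hr1 : r = 1 := by
      rw [Fintype.card_fin] at hr
      exact (by decide : ∀ r : ZMod 3, r ^ 3 = 1 → r = 1) r hr
    rw [Subgroup.mem_bot]
    apply Subtype.ext
    change (A : Matrix (Fin 3) (Fin 3) (ZMod 3)) = 1
    rw [← hA, hr1]
    simp
  let e : Matrix.ProjectiveSpecialLinearGroup (Fin 3) (ZMod 3) ≃*
      Matrix.SpecialLinearGroup (Fin 3) (ZMod 3) :=
    (QuotientGroup.quotientMulEquivOfEq hZ).trans QuotientGroup.quotientBot
  obtain ⟨φ⟩ := sl33 (f.trans (e.toEquiv.subtypeEquiv fun g => by simp)) (by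
    intro x y
    rw [hf]
    change _ ↔ e (f x) * e (f y) = e (f y) * e (f x)
    rw [← map_mul, ← map_mul, e.injective.eq_iff])
  exact ⟨φ.trans e.symm⟩
end Cfsg.Agent.S3412
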