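import Cfsg.Statements.S3413
import Cfsg.Agent.Local.M11G
import Cfsg.Agent.M11.Golay

set_option autoImplicit false
open Cfsg

namespace Cfsg.Agent.S3413

open Cfsg.Agent.Local

open Cfsg.Agent.Local.M11G Cfsg.Agent.M11 in
theorem mx {H : Type*} [Group H] [Finite H]
    (f : {h : H // h ≠ 1} ≃ {g : Mx // g ≠ 1})
    (hf : ∀ x y : {h : H // h ≠ 1}, (x : H) * y = y * x ↔ ((f x) : Mx) * (f y) = (f y) * (f x)) :
    Nonempty (H ≃* Mx) := by
  have h1 := chk_inv
  have h2 := chk_adj
  have h3 := chk_par
  simp only [List.all_eq_true, List.any_eq_true, List.mem_range, Bool.and_eq_true, Bool.or_eq_true,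
    Bool.not_eq_eq_eq_not, Bool.not_true, Nat.beq_eq, Nat.blt_eq, beq_iff_eq,
    Bool.eq_false_iff, ne_eq] at h1 h2 h3
  have hpa : pa ∈ Mx := Subgroup.subset_closure ⟨0, by decide, rfl⟩
  have hpb : pb ∈ Mx := Subgroup.subset_closure ⟨1, by decide, rfl⟩
  let p : Fin 165 → Fin 11 → Fin 11 := fun v i => ⟨c v i, ((h1 v v.2).1 i i.2).1⟩
  have hp : ∀ v, Function.Involutive (p v) := fun v i => Fin.ext ((h1 v v.2).1 i i.2).2
  let P : Fin 165 → Equiv.Perm (Fin 11) := fun v => (hp v).toPerm
  have hP : ∀ v i, (P v i : ℕ) = c v i := fun _ _ => rfl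
  have ha : ∀ i : Fin 11, (pa i : ℕ) = fa i := by decide
  have hb : ∀ i : Fin 11, (pb i : ℕ) = fb i := by decide
  have hP0 : P 0 = pb * pb := by
    ext i
    rw [hP]
    revert i
    decide +kernel
  have hconj : ∀ v, ∃ g ∈ Mx, g * P 0 * g⁻¹ = P v := by
    rintro ⟨v, hv⟩
    induction v using Nat.strong_induction_on with
    | _ v ih =>
      rcases h3 v hv with h | ⟨h4, h5 | h5⟩
      · subst h
        exact ⟨1, one_mem _, by simp⟩
      · obtain ⟨g, hg, e⟩ := ih _ h4 (h4.trans hv)
        refine ⟨pa * g, mul_mem hpa hg, ?_⟩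
        rw [show pa * g * P 0 * (pa * g)⁻¹ = pa * (g * P 0 * g⁻¹) * pa⁻¹ by group, e,
          mul_inv_eq_iff_eq_mul]
        ext i
        rw [Equiv.Perm.mul_apply, Equiv.Perm.mul_apply, ha, hP, hP, ha]
        exact (h5 i i.2).symm
      · obtain ⟨g, hg, e⟩ := ih _ h4 (h4.trans hv)
        refine ⟨pb * g, mul_mem hpb hg, ?_⟩
        rw [show pb * g * P 0 * (pb * g)⁻¹ = pb * (g * P 0 * g⁻¹) * pb⁻¹ by group, e,
          mul_inv_eq_iff_eq_mul]
        ext i
        rw [Equiv.Perm.mul_apply, Equiv.Perm.mul_apply, hb, hP, hP, hb]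
        exact (h5 i i.2).symm
  have hmem : ∀ v, P v ∈ Mx := by
    intro v
    obtain ⟨g, hg, e⟩ := hconj v
    rw [← e, hP0]
    exact mul_mem (mul_mem hg (mul_mem hpb hpb)) (inv_mem hg)
  let t : Fin 165 → Mx := fun v => ⟨P v, hmem v⟩
  have hne : ∀ v, t v ≠ 1 := by
    intro v h
    obtain ⟨i, hi, h'⟩ := (h1 v v.2).2
    have := hP v ⟨i, hi⟩
    rw [show P v = 1 from congrArg Subtype.val h] at this
    exact h' this.symm
  have hsq : ∀ v, t v * t v = 1 := fun v => Subtype.ext (Equiv.ext (hp v))
  have tinj : Function.Injective t := by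
    intro v w h
    rcases (h2 v v.2 w w.2).2 with h' | ⟨i, hi, h'⟩
    · exact Fin.ext h'
    · have := hP v ⟨i, hi⟩
      rw [show P v = P w from congrArg Subtype.val h, hP] at this
      exact absurd this.symm h'
  have hr : Set.range t = {g : Mx | orderOf g = 2} := by
    refine Set.eq_of_subset_of_ncard_le ?_ ?_ (Set.toFinite _)
    · rintro _ ⟨v, rfl⟩
      exact orderOf_eq_prime (by rw [pow_two, hsq]) (hne v)
    · rw [Set.ncard_range_of_injective tinj]
      have := data_Mx.2.2.1
      rw [mo] at this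
      rw [this]
      simp
  refine equiv_of_commGraph f hf t tinj ?_ hne hsq ?_ adj ?_ 0 ?_ r₀ (by decide +kernel)
    (by decide +kernel) chk_b₀ r₁ (by decide +kernel) (by decide +kernel) ?_ ?_
  · intro g hg hg2
    have : g ∈ Set.range t := by
      rw [hr]
      exact orderOf_eq_prime (by rw [pow_two, hg2]) hg
    exact this
  · intro y hy
    by_contra hy1
    have h4 := (data_Mx.1 y).2
    have h5 := (data_Mx.1 y).1
    have h6 : orderOf y ≠ 1 := by simpa using hy1
    have h7 : cf (orderOf y) ≤ 48 := by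
      simp only [Finset.mem_insert, Finset.mem_singleton] at h5
      rcases h5 with h | h | h | h | h | h | h | h <;> first | exact absurd h h6 | (rw [h]; decide)
    have h8 : (Set.range t).ncard ≤ (Subgroup.centralizer ({y} : Set Mx) : Set Mx).ncard := by
      refine Set.ncard_le_ncard ?_ (Set.toFinite _)
      rintro _ ⟨w, rfl⟩
      exact Subgroup.mem_centralizer_singleton_iff.2 (hy w)
    rw [Set.ncard_range_of_injective tinj, Nat.card_eq_fintype_card, Fintype.card_fin] at h8
    have h9 : (Subgroup.centralizer ({y} : Set Mx) : Set Mx).ncard = cc y := rfl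
    omega
  · intro v w
    rw [(h2 v v.2 w w.2).1]
    simp only [List.all_eq_true, List.mem_range, Nat.beq_eq]
    constructor
    · intro h
      exact Subtype.ext (Equiv.ext fun i => Fin.ext (h i i.2))
    · intro h i hi
      exact congrArg Fin.val (Equiv.ext_iff.1 (congrArg Subtype.val h) ⟨i, hi⟩)
  · intro v
    obtain ⟨g, hg, e⟩ := hconj v
    exact isConj_iff.2 ⟨⟨g, hg⟩, Subtype.ext e⟩
  · have := chk_b₁
    rw [card_Mx]
    omega
  · intro K hK
    have h4 : Mx ≤ K.map Mx.subtype := by
      have key : ∀ w ∈ Mx, w * w ∈ K.map Mx.subtype := fun w hw => ⟨_, hK ⟨w, hw⟩, rfl⟩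
      refine Mx_le ?_ ?_
      · have e : pa ^ 6 * pa ^ 6 = pa := by decide +kernel
        exact e ▸ key _ (pow_mem hpa 6)
      · have e : (pa * pb * pb * pb * pa * pa * pb * pa * pa * pa * pb) * (pa * pb * pb * pb * pa * pa * pb * pa * pa * pa * pb) = pb := by
          decide +kernel
        have hw : pa * pb * pb * pb * pa * pa * pb * pa * pa * pa * pb ∈ Mx := by
          repeat' apply mul_mem
          all_goals assumption
        have := key _ hw
        rwa [e] at this
    rw [eq_top_iff]
    intro g _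
    obtain ⟨u, hu, e⟩ := h4 g.2
    rwa [show g = u from Subtype.ext e.symm]


/-- Let H be a finite group whose commuting graph (vertices the non-identity elements, two joined when they commute) is isomorphic to that of the Mathieu group M_11: there is a bijection between the non-identity elements of H and of M_11 under which two elements commute exactly when their images do. Then H ≅ M_11. -/
theorem result {H : Type*} [Group H] [Finite H]
    (f : {h : H // h ≠ 1} ≃ {g : ↥Cfsg.Spor.M11 // g ≠ 1})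
    (hf : ∀ x y : {h : H // h ≠ 1}, (x : H) * y = y * x ↔ ((f x) : ↥Cfsg.Spor.M11) * (f y) = (f y) * (f x)) :
    Nonempty (H ≃* ↥Cfsg.Spor.M11) := by
  obtain ⟨e⟩ := M11.nonempty_M11_equiv
  obtain ⟨φ⟩ := mx (f.trans (e.toEquiv.subtypeEquiv fun g => by simp)) (by
    intro x y
    rw [hf]
    change _ ↔ e (f x) * e (f y) = e (f y) * e (f x)
    rw [← map_mul, ← map_mul, e.injective.eq_iff])
  exact ⟨φ.trans e.symm⟩
end Cfsg.Agent.S3413
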