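import Cfsg.Statements.S3488
import Cfsg.Agent.Spec.SL2Aff
import Cfsg.Agent.Spec.Alt

set_option autoImplicit false
open Cfsg

namespace Cfsg.Agent.S3488

open Cfsg.Agent.Spec in
/-- the embedding of the affine group in SL₃ -/
def emb (F : Type*) [Field F] : Aff (Matrix.SpecialLinearGroup (Fin 2) F) (Fin 2 → F) →*
    Matrix.SpecialLinearGroup (Fin 3) F :=
  MonoidHom.mk' (fun x => ⟨!![x.right.1 0 0, x.right.1 0 1, x.left.toAdd 0;
      x.right.1 1 0, x.right.1 1 1, x.left.toAdd 1; 0, 0, 1], by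
      have := x.right.2
      rw [Matrix.det_fin_two] at this
      simpa [Matrix.det_fin_three] using this⟩) (by
    intro x y
    obtain ⟨v, g, rfl⟩ := affMk_surj x
    obtain ⟨w, h, rfl⟩ := affMk_surj y
    rw [affMk_mul]
    apply Subtype.ext
    have e : ∀ i, (v + g • w) i = v i + (g.1 i 0 * w 0 + g.1 i 1 * w 1) := by
      intro i
      fin_cases i <;> simp [Matrix.SpecialLinearGroup.smul_def]
    change (!![(g.1 * h.1) 0 0, (g.1 * h.1) 0 1, (v + g • w) 0;
      (g.1 * h.1) 1 0, (g.1 * h.1) 1 1, (v + g • w) 1; 0, 0, 1] : Matrix (Fin 3) (Fin 3) F) =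
      !![g.1 0 0, g.1 0 1, v 0; g.1 1 0, g.1 1 1, v 1; 0, 0, 1] *
      !![h.1 0 0, h.1 0 1, w 0; h.1 1 0, h.1 1 1, w 1; 0, 0, 1]
    rw [e, e]
    ext i j
    fin_cases i <;> fin_cases j <;> simp [Matrix.mul_apply, Fin.sum_univ_succ] <;> ring)

open Cfsg.Agent.Spec in
theorem emb_apply {F : Type*} [Field F] (v : Fin 2 → F) (g : Matrix.SpecialLinearGroup (Fin 2) F) :
    (emb F (affMk v g)).1 = !![g.1 0 0, g.1 0 1, v 0; g.1 1 0, g.1 1 1, v 1; 0, 0, 1] := rfl

open Cfsg.Agent.Spec in
theorem emb_injective (F : Type*) [Field F] : Function.Injective (emb F) := by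
  rw [injective_iff_map_eq_one]
  intro x hx
  obtain ⟨v, g, rfl⟩ := affMk_surj x
  have h := congrArg Subtype.val hx
  rw [emb_apply] at h
  have e := fun i j => congrFun (congrFun h i) j
  have e00 := e 0 0
  have e01 := e 0 1
  have e02 := e 0 2
  have e10 := e 1 0
  have e11 := e 1 1
  have e12 := e 1 2
  simp at e00 e01 e02 e10 e11 e12
  rw [← affMk_zero_one, affMk_inj]
  constructor
  · ext i
    fin_cases i <;> simp [e02, e12]
  · apply Subtype.ext
    ext i j
    fin_cases i <;> fin_cases j <;> simp [e00, e01, e10, e11]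


/-- Let F be the field with four elements. The affine group F² ⋊ SL(2,F), realised as the subgroup of SL(3,F) of matrices with last row (0, 0, 1), has exactly the same set of element orders as the alternating group of degree 6 (namely {1, 2, 3, 4, 5}); so the alternating group of degree 6 is not determined by its element orders. -/
theorem result {F : Type*} [Field F] [Fintype F] (hF : Fintype.card F = 4) :
    Set.range (orderOf : Subgroup.closure {M : Matrix.SpecialLinearGroup (Fin 3) F |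
        (M : Matrix (Fin 3) (Fin 3) F) 2 0 = 0 ∧ (M : Matrix (Fin 3) (Fin 3) F) 2 1 = 0 ∧ (M : Matrix (Fin 3) (Fin 3) F) 2 2 = 1} → ℕ) =
      Set.range (orderOf : alternatingGroup (Fin 6) → ℕ) := by
  rw [Cfsg.Agent.Spec.spec_alt6, ← Cfsg.Agent.Spec.spec_aff_sl2_four hF]
  have hr : Subgroup.closure {M : Matrix.SpecialLinearGroup (Fin 3) F |
      (M : Matrix (Fin 3) (Fin 3) F) 2 0 = 0 ∧ (M : Matrix (Fin 3) (Fin 3) F) 2 1 = 0 ∧
        (M : Matrix (Fin 3) (Fin 3) F) 2 2 = 1} = (emb F).range := by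
    apply le_antisymm
    · rw [Subgroup.closure_le]
      rintro M ⟨h0, h1, h2⟩
      have hd : M.1 0 0 * M.1 1 1 - M.1 0 1 * M.1 1 0 = 1 := by
        have := M.2
        rw [Matrix.det_fin_three, h0, h1, h2] at this
        linear_combination this
      refine ⟨Cfsg.Agent.Spec.affMk ![M.1 0 2, M.1 1 2]
        ⟨!![M.1 0 0, M.1 0 1; M.1 1 0, M.1 1 1], by simpa [Matrix.det_fin_two] using hd⟩, ?_⟩
      apply Subtype.ext
      refine (emb_apply _ _).trans ?_
      ext i j
      fin_cases i <;> fin_cases j <;> simp [h0, h1, h2]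
    · rintro M ⟨x, rfl⟩
      apply Subgroup.subset_closure
      obtain ⟨v, g, rfl⟩ := Cfsg.Agent.Spec.affMk_surj x
      simp [emb_apply]
  rw [hr]
  exact (Cfsg.Agent.Spec.spec_congr (MonoidHom.ofInjective (emb_injective F))).symm

end Cfsg.Agent.S3488
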