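import Cfsg.Statements.S3493
import Cfsg.Agent.Perm2.Extreme2

set_option autoImplicit false
open Cfsg

namespace Cfsg.Agent.S3493

open MulAction Subgroup Cfsg.Agent.Perm2

section
variable {G Ω : Type*} [Group G] [MulAction G Ω]

theorem not_regular [Finite G] [FaithfulSMul G Ω] (hprim : IsPreprimitive G Ω) {α : Ω}
    (hep : ∀ γ : Ω, IsPreprimitive (stabilizer G α) (orbit (stabilizer G α) γ))
    (hH : stabilizer G α ≠ ⊥) {V T : Subgroup G} (hV : IsMinNormal V) (hT : SimpleNA T)
    (hTV : NormalIn T V) (hne : T ≠ V) (hC : centralizer (V : Set G) = ⊥)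
    (hreg : V ⊓ stabilizer G α = ⊥) : False := by
  have hVn := hV.1
  have htr := exists_smul_eq_of_normal hprim hV.1 hV.2.1 α
  have hreg' : ∀ v ∈ V, v • α = α → v = 1 := fun v hv h =>
    mem_bot.mp (hreg ▸ mem_inf.mpr ⟨hv, h⟩)
  have hfix : ∀ v ∈ V, ∀ h : G, h • α = α → (h • v • α = v • α ↔ h * v = v * h) := by
    intro v hv h hh
    constructor
    · intro h1
      have h2 := hreg' (v⁻¹ * (h * v * h⁻¹)) (mul_mem (inv_mem hv) (hVn.conj_mem v hv h)) (by
        rw [mul_smul, mul_smul, mul_smul, mem_stabilizer_iff.mp (inv_mem hh), h1, inv_smul_smul])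
      rw [inv_mul_eq_one, eq_mul_inv_iff_mul_eq] at h2
      exact h2.symm
    · intro h1
      rw [← mul_smul, h1, mul_smul, hh]
  have hnorm : ∀ S : Subgroup G, SimpleNA S → NormalIn S V → ∀ h : G,
      h ∈ normalizer (S : Set G) ∨ ∀ x ∈ S, ∀ y ∈ S, x * (h * y * h⁻¹) = (h * y * h⁻¹) * x := by
    intro S hS hSV h
    rcases hS.eq_or_commute hSV (hS.conj h) (hSV.conj_of_normal h) with h1 | h1
    · exact Or.inl (mem_normalizer_iff_map_conj_eq.mpr h1.symm)
    · exact Or.inr fun x hx y hy => h1 x hx _ (conj_mem_map_conj h hy)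
  have hcn : ∀ S : Subgroup G, SimpleNA S → NormalIn S V → ∀ s ∈ S, s ≠ 1 → ∀ h : G, h * s = s * h →
      h ∈ normalizer (S : Set G) := by
    intro S hS hSV s hs hs1 h hh
    refine (hnorm S hS hSV h).resolve_right fun h1 => hs1 (hS.eq_one_of_commute hs fun y hy => ?_)
    have := h1 y hy s hs
    rwa [hh, mul_inv_cancel_right] at this
  have hnn : ∀ S : Subgroup G, SimpleNA S → NormalIn S V → S ≠ V →
      ¬ stabilizer G α ≤ normalizer (S : Set G) := by
    intro S hS hSV hSne hle
    have h1 : S.Normal := by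
      rw [← normalizer_eq_top_iff, eq_top_iff]
      intro g _
      obtain ⟨v, hv, hv'⟩ := htr (g • α)
      have h2 : v⁻¹ * g ∈ stabilizer G α := by
        rw [mem_stabilizer_iff, mul_smul, ← hv', inv_smul_smul]
      have := mul_mem (hSV.2 hv) (hle h2)
      rwa [mul_inv_cancel_left] at this
    exact (hV.2.2 S h1 hSV.1).elim hS.ne_bot hSne
  -- if the centralizer of `v` in `H` normalizes `S`, it is the normalizer of `S` in `H`
  have hmax : ∀ S : Subgroup G, SimpleNA S → NormalIn S V → S ≠ V → ∀ v ∈ V,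
      (∀ h : G, h * v = v * h → h ∈ normalizer (S : Set G)) →
      ∀ h : G, h • α = α → h ∈ normalizer (S : Set G) → h * v = v * h := by
    intro S hS hSV hSne v hv hvS h hh hn
    by_contra hcon
    exact hnn S hS hSV hSne (extreme_stab_le hep (β := v • α)
      (fun g hg hg' => hvS g ((hfix v hv g hg).mp hg')) hn hh fun h1 => hcon ((hfix v hv h hh).mp h1))
  have hcent : ∀ S : Subgroup G, SimpleNA S → NormalIn S V → S ≠ V → ∀ h : G, h • α = α →
      h ∈ normalizer (S : Set G) → ∀ s ∈ S, h * s = s * h := by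
    intro S hS hSV hSne h hh hn s hs
    by_cases hs1 : s = 1
    · rw [hs1, mul_one, one_mul]
    · exact hmax S hS hSV hSne s (hSV.1 hs) (hcn S hS hSV s hs hs1) h hh hn
  have hN : ∀ h : G, h • α = α → h ∈ normalizer (T : Set G) → h = 1 := by
    intro h hh hn
    rw [← mem_bot, ← hC, mem_centralizer_iff]
    intro v hv
    have h1 : V ≤ centralizer {h} := by
      rw [hV.eq_iSup_conj hT.ne_bot hTV.1]
      refine iSup_le fun g => ?_
      set S := T.map (MulAut.conj g).toMonoidHom with hSdef
      have hS : SimpleNA S := hT.conj g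
      have hSV : NormalIn S V := hTV.conj_of_normal g
      have hSne : S ≠ V := by
        intro h2
        apply hne
        apply le_antisymm hTV.1
        intro w hw
        have h3 : g * w * g⁻¹ ∈ S := h2 ▸ hVn.conj_mem w hw g
        rw [mem_map_conj_iff] at h3
        simpa [mul_assoc] using h3
      suffices h ∈ normalizer (S : Set G) from fun s hs =>
        mem_centralizer_singleton_iff.mpr (hcent S hS hSV hSne h hh this s hs).symm
      rcases hT.eq_or_commute hTV hS hSV with h2 | h2
      · rwa [← h2]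
      have : Fact (Nat.Prime 2) := ⟨Nat.prime_two⟩
      obtain ⟨p, hp, -, t, ht, htp⟩ := exists_orderOf_prime_ne_of_not_isPGroup (hT.not_isPGroup 2)
      have := Fact.mk hp
      obtain ⟨q, hq, hqp, s, hs, hsq⟩ := exists_orderOf_prime_ne_of_not_isPGroup (hS.not_isPGroup p)
      have hts : Commute t s := h2 t ht s hs
      have hcop : (orderOf t).Coprime (orderOf s) := by
        rw [htp, hsq]; exact (Nat.coprime_primes hp hq).mpr hqp.symm
      obtain ⟨m, hm⟩ := exists_pow_eq_of_commute_coprime hts hcop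
      obtain ⟨n, hn'⟩ := exists_pow_eq_of_commute_coprime hts.symm hcop.symm
      rw [← hts.eq] at hn'
      have ht1 : t ≠ 1 := fun h3 => hp.one_lt.ne (by rw [← htp, h3, orderOf_one])
      have hs1 : s ≠ 1 := fun h3 => hq.one_lt.ne (by rw [← hsq, h3, orderOf_one])
      have h3 := hmax T hT hTV hne (t * s) (mul_mem (hTV.1 ht) (hSV.1 hs)) (fun k hk =>
        hcn T hT hTV t ht ht1 k (hm ▸ (Commute.pow_right hk m).eq)) h hh hn
      exact hcn S hS hSV s hs hs1 h (hn' ▸ (Commute.pow_right h3 n).eq)
    exact mem_centralizer_singleton_iff.mp (h1 hv)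
  obtain ⟨t, ht, ht1⟩ := T.bot_or_exists_ne_one.resolve_left hT.ne_bot
  obtain ⟨h, hh, hh1⟩ := (stabilizer G α).bot_or_exists_ne_one.resolve_left hH
  have hle : stabilizer G α ≤ zpowers h := extreme_stab_le hep (β := t • α)
    (fun g hg hg' => by
      rw [hN g hg (hcn T hT hTV t ht ht1 g ((hfix t (hTV.1 ht) g hg).mp hg'))]
      exact one_mem _) (mem_zpowers h) hh
    (fun h1 => hh1 (hN h hh (hcn T hT hTV t ht ht1 h ((hfix t (hTV.1 ht) h hh).mp h1))))
  have key : ∀ k : ℕ, k < orderOf h → ∃ c ∈ V, (∀ y ∈ T, y * c = c * y) ∧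
      (t * h) ^ (k + 1) = t * c * h ^ (k + 1) := by
    intro k
    induction k with
    | zero => exact fun _ => ⟨1, one_mem _, fun y _ => by simp, by simp⟩
    | succ k ih =>
      intro hk
      obtain ⟨c, hc, hc1, hc2⟩ := ih (by omega)
      have h1 := (hnorm T hT hTV (h ^ (k + 1))).resolve_left fun h2 =>
        pow_ne_one_of_lt_orderOf (by omega) hk (hN _ (pow_mem hh _) h2)
      refine ⟨c * (h ^ (k + 1) * t * (h ^ (k + 1))⁻¹), mul_mem hc (hVn.conj_mem t (hTV.1 ht) _),
        fun y hy => (Commute.mul_right (hc1 y hy) (h1 y hy t ht)).eq, ?_⟩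
      rw [pow_succ, hc2, pow_succ h (k + 1)]
      group
  obtain ⟨c, hc, hc1, hc2⟩ := key (orderOf h - 1) (by have := orderOf_pos h; omega)
  rw [Nat.sub_add_cancel (orderOf_pos h), pow_orderOf_eq_one, mul_one] at hc2
  have hn1 : t * c ≠ 1 := fun h1 => ht1 (hT.eq_one_of_commute ht fun y hy => by
    rw [mul_eq_one_iff_eq_inv.mp h1]
    exact (Commute.inv_right (hc1 y hy)).eq)
  have hn2 : Commute h (t * c) := by
    have e1 : Commute (t * h) (t * c) := hc2 ▸ Commute.self_pow _ _
    have e2 : Commute t (t * c) := Commute.mul_right (Commute.refl t) (hc1 t ht)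
    have := e2.inv_left.mul_left e1
    rwa [inv_mul_cancel_left] at this
  have hnV := mul_mem (hTV.1 ht) hc
  obtain ⟨g, hg, hg'⟩ := exists_stab_smul_ne hprim (a := α) (b := (t * c) • α)
    (fun h1 => hn1 (hreg' _ hnV h1.symm)) hH
  apply hg'
  rw [hfix _ hnV g hg]
  obtain ⟨k, rfl⟩ := hle hg
  exact (hn2.zpow_left k).eq

end


/-- An extremely primitive permutation group is of affine type or almost simple. Let a finite group G act faithfully and primitively on a finite set Ω with at least two points, in such a way that every point stabilizer acts primitively on each of its own orbits in Ω (an orbit of size one counts as primitive). Then either G has a non-trivial abelian normal subgroup whose elements other than the identity fix no point (affine type), or G has a non-abelian simple normal subgroup with trivial centralizer (almost simple). -/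
theorem result {G : Type*} [Group G] [Finite G] {Ω : Type*} [Fintype Ω] [MulAction G Ω] [FaithfulSMul G Ω] (hΩ : 2 ≤ Fintype.card Ω) (hprim : MulAction.IsPreprimitive G Ω) (hep : ∀ (α : Ω) (ω : Ω), MulAction.IsPreprimitive (MulAction.stabilizer G α) (MulAction.orbit (MulAction.stabilizer G α) ω)) :
    (∃ N : Subgroup G, N.Normal ∧ N ≠ ⊥ ∧ IsMulCommutative N ∧ ∀ ω : Ω, MulAction.stabilizer N ω = ⊥) ∨ (∃ T : Subgroup G, T.Normal ∧ IsSimpleGroup T ∧ ¬ IsMulCommutative T ∧ Subgroup.centralizer (T : Set G) = ⊥) := by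
  have : Nontrivial Ω := Fintype.one_lt_card_iff_nontrivial.mp hΩ
  obtain ⟨α⟩ : Nonempty Ω := inferInstance
  have htop : (⊤ : Subgroup G) ≠ ⊥ := by
    intro h
    obtain ⟨a, b, hab⟩ := exists_pair_ne Ω
    obtain ⟨g, hg⟩ := exists_smul_eq G a b
    have : g = 1 := mem_bot.mp (h ▸ mem_top g)
    rw [this, one_smul] at hg
    exact hab hg
  obtain ⟨V, hV, -⟩ := exists_isMinNormal_le (X := (⊤ : Subgroup G)) inferInstance htop
  have hVn := hV.1
  have htr := exists_smul_eq_of_normal hprim hV.1 hV.2.1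
  rcases hV.structure with ⟨p, hp, h1, h2⟩ | ⟨T, hT, hTV⟩
  · refine Or.inl ⟨V, hV.1, hV.2.1, isMulCommutative_iff_forall.mpr h1, fun ω => ?_⟩
    rw [eq_bot_iff]
    intro x hx
    rw [mem_bot]
    exact Subtype.ext (eq_one_of_commute_transitive (htr ω) (mem_stabilizer_iff.mp hx)
      fun n hn => h1 n hn x x.2)
  right
  by_contra hcon
  obtain ⟨t, ht, ht1⟩ := T.bot_or_exists_ne_one.resolve_left hT.ne_bot
  have hH : stabilizer G α ≠ ⊥ := by
    intro h
    have h1 := isCoatom_stab hprim α
    rw [h] at h1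
    have h2 := h1.2 (zpowers t) (bot_lt_iff_ne_bot.mpr (zpowers_ne_bot.mpr ht1))
    apply ht1
    apply hT.eq_one_of_commute ht
    intro y _
    obtain ⟨k, rfl⟩ : y ∈ zpowers t := h2 ▸ mem_top y
    exact (Commute.zpow_self t k).eq
  by_cases hC : centralizer (V : Set G) = ⊥
  swap
  · have hsemi := fun x hx hx1 => semiregular_of_centralizer_ne_bot hprim hC (x := x) hx hx1 α
    have hCt := exists_smul_eq_of_normal hprim inferInstance hC α
    have hcomm : ∀ x ∈ V, ∀ y ∈ centralizer (V : Set G), x * y = y * x := fun x hx y hy =>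
      mem_centralizer_iff.mp hy x hx
    have hW : stabilizer G α ≤ normalizer ((V ⊔ centralizer (V : Set G) : Subgroup G) : Set G) :=
      le_normalizer_of_normal
    have hTt := extreme_transitive hprim (hep α) (M := (V ⊔ centralizer (V : Set G)) ⊓ stabilizer G α)
      (by
        intro h
        obtain ⟨c, hc, hc'⟩ := hCt (t • α)
        have h1 : c⁻¹ * t ∈ (V ⊔ centralizer (V : Set G)) ⊓ stabilizer G α :=
          mem_inf.mpr ⟨mul_mem (mem_sup_right (inv_mem hc)) (mem_sup_left (hTV.1 ht)), by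
            rw [mem_stabilizer_iff, mul_smul, ← hc', inv_smul_smul]⟩
        rw [h, mem_bot, inv_mul_eq_one] at h1
        subst h1
        exact ht1 (hT.eq_one_of_commute ht fun y hy => hcomm y (hTV.1 hy) c hc))
      inf_le_right ((le_inf hW le_normalizer).trans inf_normalizer_le_normalizer_inf) (A := T)
      (inf_le_left.trans (sup_le hTV.2 ((centralizer_le hTV.1).trans (centralizer_le_normalizer _))))
      (fun h => hsemi t (hTV.1 ht) ht1 (h ht))
    have hTV' : T = V := by
      refine le_antisymm hTV.1 fun v hv => ?_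
      obtain ⟨s, hs, hs'⟩ := hTt (v • α)
      have : s⁻¹ * v = 1 := by
        by_contra h
        exact hsemi _ (mul_mem (inv_mem (hTV.1 hs)) hv) h (by rw [mul_smul, ← hs', inv_smul_smul])
      rwa [← inv_mul_eq_one.mp this]
    subst hTV'
    exact extreme_not_two_commuting hprim (hep α) hT hTt hCt hcomm hW
      fun h _ a ha => Or.inl (hVn.conj_mem a ha h)
  by_cases hTV' : T = V
  · subst hTV'
    exact hcon ⟨T, hV.1, hT.1, hT.2, hC⟩
  by_cases hreg : V ⊓ stabilizer G α = ⊥
  · exact not_regular hprim (hep α) hH hV hT hTV hTV' hC hreg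
  have htrans : ∀ S : Subgroup G, SimpleNA S → NormalIn S V → ∀ b : Ω, ∃ a ∈ S, a • α = b := by
    intro S hS hSV
    refine extreme_transitive hprim (hep α) hreg inf_le_right
      ((le_inf le_normalizer_of_normal le_normalizer).trans inf_normalizer_le_normalizer_inf)
      (inf_le_left.trans hSV.2) fun h => hS.ne_bot ?_
    rw [eq_bot_iff]
    intro x hx
    rw [mem_bot]
    apply eq_one_of_fix_all (Ω := Ω)
    intro ω
    obtain ⟨v, hv, rfl⟩ := htr α ω
    have := mem_stabilizer_iff.mp (h (hSV.conj_mem' hv hx))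
    rwa [mul_smul, mul_smul, inv_smul_eq_iff] at this
  obtain ⟨g, hg⟩ := hV.exists_conj_ne hT hTV hTV'
  set T' := T.map (MulAut.conj g).toMonoidHom with hT'def
  have hT' : SimpleNA T' := hT.conj g
  have hT'V : NormalIn T' V := hTV.conj_of_normal g
  have hcomm := (hT.eq_or_commute hTV hT' hT'V).resolve_left hg.symm
  have hCT : ∀ c : G, (∀ y ∈ T, y * c = c * y) → c ∈ T' := by
    intro c hc
    obtain ⟨s, hs, hs'⟩ := htrans T' hT' hT'V (c • α)
    have : s⁻¹ * c = 1 := eq_one_of_commute_transitive (htrans T hT hTV)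
      (by rw [mul_smul, ← hs', inv_smul_smul])
      fun n hn => (Commute.mul_right (Commute.inv_right (hcomm n hn s hs)) (hc n hn)).eq
    rwa [← inv_mul_eq_one.mp this]
  have hVeq : T ⊔ T' = V := by
    refine le_antisymm (sup_le hTV.1 hT'V.1) fun v hv => ?_
    obtain ⟨s, hs, c, -, hc, rfl⟩ := hV.exists_mul hT hTV hv
    exact mul_mem (mem_sup_left hs) (mem_sup_right (hCT c hc))
  refine extreme_not_two_commuting hprim (hep α) hT (htrans T hT hTV) (htrans T' hT' hT'V) hcomm
    (by rw [hVeq]; exact le_normalizer_of_normal) fun h _ a ha => ?_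
  rcases hT.eq_or_commute hTV (hT.conj h) (hTV.conj_of_normal h) with h1 | h1
  · exact Or.inl (h1 ▸ conj_mem_map_conj h ha)
  · exact Or.inr (hCT _ fun y hy => h1 y hy _ (conj_mem_map_conj h ha))

end Cfsg.Agent.S3493
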