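import Cfsg.Statements.S3496
import Cfsg.Agent.Perm2.Extreme
import Cfsg.Agent.Perm2.Singer

set_option autoImplicit false
open Cfsg

namespace Cfsg.Agent.S3496

open Cfsg.Agent.Perm2 MulAction Subgroup

/-- Conjugation action of a subgroup on an abelian normal subgroup, as additive endomorphisms. -/
def conjEnd {G : Type*} [Group G] (N : Subgroup G) [N.Normal] (H : Subgroup G) :
    H →* AddMonoid.End (Additive N) where
  toFun h := MonoidHom.toAdditive (MulAut.conjNormal (H := N) (h : G)).toMonoidHom
  map_one' := by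
    rw [Subgroup.coe_one, map_one]
    rfl
  map_mul' h k := by
    rw [Subgroup.coe_mul, map_mul]
    rfl

theorem conjEnd_apply {G : Type*} [Group G] (N : Subgroup G) [N.Normal] (H : Subgroup G) (h : H)
    (x : Additive N) : ((conjEnd N H h x).toMul : G) = h * (x.toMul : G) * (h : G)⁻¹ := rfl


/-- The soluble extremely primitive groups. Let a finite solvable group G act faithfully and primitively on a finite set Ω with p ^ d points (p prime), with non-trivial point stabilizers each acting primitively on every one of its orbits. Then there is a prime q such that every orbit of a point stabilizer G_α other than {α} has exactly q points, q divides p ^ d − 1 but no p ^ i − 1 with 0 < i < d, and G_α has a normal subgroup T of order q with G_α generated by T and one further element and the order of G_α dividing q·d (so G_α is cyclic of order q, or an extension of T by a cyclic group of order dividing d). -/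
theorem result {G : Type*} [Group G] [Finite G] {Ω : Type*} [Fintype Ω] [MulAction G Ω] [FaithfulSMul G Ω] [Group.IsSolvable G] (p d : ℕ) (hp : p.Prime) (hcard : Fintype.card Ω = p ^ d)
    (hprim : MulAction.IsPreprimitive G Ω) (hH : ∀ α : Ω, MulAction.stabilizer G α ≠ ⊥) (hep : ∀ (α : Ω) (ω : Ω), MulAction.IsPreprimitive (MulAction.stabilizer G α) (MulAction.orbit (MulAction.stabilizer G α) ω)) (α : Ω) :
    ∃ q : ℕ, q.Prime ∧ (∀ ω : Ω, ω ≠ α → Nat.card (MulAction.orbit (MulAction.stabilizer G α) ω) = q) ∧
      q ∣ p ^ d - 1 ∧ (∀ i : ℕ, 0 < i → i < d → ¬ q ∣ p ^ i - 1) ∧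
      ∃ T : Subgroup G, T ≤ MulAction.stabilizer G α ∧ MulAction.stabilizer G α ≤ Subgroup.normalizer (T : Set G) ∧ Nat.card T = q ∧
        (∃ h : G, MulAction.stabilizer G α = T ⊔ Subgroup.zpowers h) ∧ Nat.card (MulAction.stabilizer G α) ∣ q * d := by
  set H := stabilizer G α with hHdef
  have hH1 : H ≠ ⊥ := hH α
  have hep' := hep α
  have hHnt : Nontrivial H := (H.nontrivial_iff_ne_bot).mpr hH1
  have hGnt : Nontrivial G := H.subtype_injective.nontrivial
  obtain ⟨N, hN, hNne, hNab⟩ := exists_abelian_normal_of_solvable G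
  have hNtr : IsPretransitive N Ω := by
    apply IsQuasiPreprimitive.isPretransitive_of_normal
    intro h
    apply hNne
    rw [eq_bot_iff]
    intro n hn
    rw [mem_bot]
    apply eq_one_of_fix_all (Ω := Ω)
    intro x
    have : x ∈ fixedPoints N Ω := h ▸ Set.mem_univ x
    exact this ⟨n, hn⟩
  have hcent : ∀ g : G, g • α = α → (∀ n ∈ N, g * n = n * g) → g = 1 := by
    intro g hg hc
    apply eq_one_of_fix_all (Ω := Ω)
    intro x
    obtain ⟨n, rfl⟩ := hNtr.exists_smul_eq α x
    show g • (n : G) • α = (n : G) • α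
    rw [← mul_smul, hc n n.2, mul_smul, hg]
  have hNreg : ∀ n ∈ N, n • α = α → n = 1 := fun n hn h => hcent n h (hNab n hn)
  have hNcard : Nat.card N = p ^ d := by
    rw [← hcard, ← Nat.card_eq_fintype_card]
    apply Nat.card_eq_of_bijective (fun n : N => (n : G) • α)
    constructor
    · intro m n h
      have h' : (m : G) • α = (n : G) • α := h
      have := hNreg ((n : G)⁻¹ * m) (mul_mem (inv_mem n.2) m.2) (by rw [mul_smul, h', inv_smul_smul])
      exact Subtype.ext (inv_mul_eq_one.mp this).symm
    · intro x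
      exact hNtr.exists_smul_eq α x
  obtain ⟨M, hM, hMne, hMab⟩ := exists_abelian_normal_of_solvable H
  set T := M.map H.subtype with hT
  have hTne : T ≠ ⊥ := fun h' => hMne ((map_eq_bot_iff_of_injective M H.subtype_injective).mp h')
  have hTle : T ≤ H := map_subtype_le M
  have hTn : H ≤ normalizer (T : Set G) := by
    rw [le_normalizer_iff]
    rintro h hh _ ⟨x, hx, rfl⟩
    exact ⟨⟨h, hh⟩ * x * ⟨h, hh⟩⁻¹, hM.conj_mem x hx _, rfl⟩
  have hTab : ∀ m ∈ T, ∀ n ∈ T, m * n = n * m := by
    rintro _ ⟨m, hm, rfl⟩ _ ⟨n, hn, rfl⟩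
    exact congrArg Subtype.val (hMab m hm n hn)
  have hTnil : Group.IsNilpotent T := by
    let _ : CommGroup T := { (inferInstance : Group T) with
      mul_comm := fun x y => Subtype.ext (hTab x x.2 y y.2) }
    exact CommGroup.isNilpotent
  obtain ⟨-, q, hq, hexp⟩ := extreme_elementary_of_nilpotent hprim hep' hTne hTle hTn hTnil
  have hexpM : ∀ m ∈ M, m ^ q = 1 := fun m hm => Subtype.ext (hexp _ (mem_map_of_mem _ hm))
  have hNnt : Nontrivial N := (N.nontrivial_iff_ne_bot).mpr hNne
  have key : IsCyclic M ∧ (∀ m ∈ M, m ^ (p ^ d) = m) ∧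
      (∀ i, 0 < i → i < d → ¬ ∀ m ∈ M, m ^ (p ^ i) = m) ∧
      ∀ h : H, ∀ m ∈ M, h ^ d * m = m * h ^ d := by
    let _ : CommGroup N := { (inferInstance : Group N) with
      mul_comm := fun x y => Subtype.ext (hNab x x.2 y y.2) }
    refine singer (V := Additive N) hp hNcard (conjEnd N H) ?_ M hMab ?_
    · rw [injective_iff_map_eq_one]
      intro h hh
      apply Subtype.ext
      apply hcent h h.2
      intro n hn
      have := conjEnd_apply N H h (Additive.ofMul ⟨n, hn⟩)
      rw [hh] at this
      exact (mul_inv_eq_iff_eq_mul.mp this.symm)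
    · intro W hW
      let L : Subgroup G := (AddSubgroup.toSubgroup' W).map N.subtype
      have hL : ∀ x : Additive N, x ∈ W ↔ (x.toMul : G) ∈ L := by
        intro x
        constructor
        · intro hx
          exact ⟨x.toMul, hx, rfl⟩
        · rintro ⟨y, hy, hxy⟩
          have : y = x.toMul := Subtype.ext hxy
          rw [this] at hy
          exact hy
      rcases extreme_irreducible hprim hep' N hNreg hTne hTle hTn L (map_subtype_le _) (by
        rw [le_normalizer_iff]
        rintro _ ⟨m, hm, rfl⟩ _ ⟨y, hy, rfl⟩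
        exact (hL _).mp (hW m hm (Additive.ofMul y) hy)) with h | h
      · left
        rw [eq_bot_iff]
        intro x hx
        have := (hL x).mp hx
        rw [h, mem_bot] at this
        rw [AddSubgroup.mem_bot]
        exact Subtype.ext this
      · right
        rw [eq_top_iff]
        intro x _
        rw [hL, h]
        exact x.toMul.2
  obtain ⟨hcyc, hpd, hmin, hcomm⟩ := key
  have hMnt : Nontrivial M := (M.nontrivial_iff_ne_bot).mpr hMne
  have hMcard : Nat.card M = q := by
    have h1 : Nat.card M ∣ q := by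
      rw [← IsCyclic.exponent_eq_card]
      exact Monoid.exponent_dvd_of_forall_pow_eq_one fun m => Subtype.ext (hexpM m m.2)
    exact ((Nat.dvd_prime hq).mp h1).resolve_left (Finite.one_lt_card (α := M)).ne'
  have hTcard : Nat.card T = q := by
    rw [← hMcard, hT]
    exact card_map_of_injective H.subtype_injective
  obtain ⟨t, ht, ht1⟩ := (M.bot_or_exists_ne_one).resolve_left hMne
  have : Fact q.Prime := ⟨hq⟩
  have htord : orderOf t = q := orderOf_eq_prime (hexpM t ht) ht1
  have hsplit : ∀ i : ℕ, p ^ i = p ^ i - 1 + 1 := fun i =>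
    (Nat.sub_add_cancel (Nat.one_le_pow _ _ hp.pos)).symm
  refine ⟨q, hq, fun ω hω => ?_, ?_, ?_, T, hTle, hTn, hTcard, ?_⟩
  · rw [extreme_card_suborbit hprim hep' hTne hTle hTn hTab hω, hTcard]
  · rw [← htord, orderOf_dvd_iff_pow_eq_one]
    have := hpd t ht
    rw [hsplit, pow_succ] at this
    simpa using this
  · intro i hi hid hdvd
    apply hmin i hi hid
    intro m hm
    obtain ⟨c, hc⟩ := hdvd
    rw [hsplit, hc, pow_succ, pow_mul, hexpM m hm, one_pow, one_mul]
  · have hker : ∀ h : H, (∀ m ∈ M, h * m = m * h) → h ∈ M := by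
      intro h hh
      have h1 : (h : G) ∈ T := by
        apply extreme_mem_of_centralizes hprim hep' hTne hTle hTn hTab h.2
        rintro _ ⟨m, hm, rfl⟩
        exact (congrArg Subtype.val (hh m hm)).symm
      obtain ⟨y, hy, hxy⟩ := h1
      rwa [← Subtype.ext hxy]
    let φ : H →* MulAut M := MulAut.conjNormal
    have hφ : φ.ker = M := by
      ext h
      rw [MonoidHom.mem_ker]
      constructor
      · intro hh
        apply hker
        intro m hm
        have h2 : ((φ h (⟨m, hm⟩ : M) : M) : H) = m := by rw [hh]; rfl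
        rw [MulAut.conjNormal_apply, mul_inv_eq_iff_eq_mul] at h2
        exact h2
      · intro hh
        ext m
        rw [MulAut.conjNormal_apply, hMab h hh m m.2, mul_inv_cancel_right]
        rfl
    have hAut : IsCyclic (MulAut M) := by
      have e := hcyc.mulAutMulEquiv
      rw [hMcard] at e
      exact isCyclic_of_injective e.toMonoidHom e.injective
    have hcr : IsCyclic φ.range := inferInstance
    obtain ⟨⟨_, ⟨h, rfl⟩⟩, hh⟩ := IsCyclic.exists_generator (α := φ.range)
    constructor
    · refine ⟨h, le_antisymm ?_ (sup_le hTle (zpowers_le.mpr h.2))⟩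
      intro x hx
      obtain ⟨k, hk⟩ := mem_zpowers_iff.mp (hh ⟨φ ⟨x, hx⟩, ⟨_, rfl⟩⟩)
      have h1 : φ (h ^ k) = φ ⟨x, hx⟩ := by
        rw [map_zpow]
        exact congrArg Subtype.val hk
      have h2 : ⟨x, hx⟩ * (h ^ k)⁻¹ ∈ M := by
        rw [← hφ, MonoidHom.mem_ker, map_mul, map_inv, h1, mul_inv_cancel]
      have h3 : x = (x * ((h : G) ^ k)⁻¹) * (h : G) ^ k := by simp
      rw [h3]
      exact mul_mem (mem_sup_left (mem_map_of_mem H.subtype h2))
        (mem_sup_right (zpow_mem (mem_zpowers _) _))
    · rw [← card_mul_index φ.ker, index_ker, hφ, hMcard]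
      apply Nat.mul_dvd_mul_left
      rw [← IsCyclic.exponent_eq_card]
      apply Monoid.exponent_dvd_of_forall_pow_eq_one
      rintro ⟨_, ⟨x, rfl⟩⟩
      apply Subtype.ext
      show φ x ^ d = 1
      rw [← map_pow, ← MonoidHom.mem_ker, hφ]
      exact hker _ (hcomm x)

end Cfsg.Agent.S3496
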