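import Cfsg.Statements.S3497
import Cfsg.Agent.Perm2.Extreme
import Cfsg.Agent.Perm2.ElemAb

set_option autoImplicit false
open Cfsg

namespace Cfsg.Agent.S3497

open Cfsg.Agent.Perm2 MulAction Subgroup

theorem le_normalizer_map_subtype {G : Type*} [Group G] {H : Subgroup G} (N : Subgroup H)
    [hN : N.Normal] : H ≤ normalizer ((N.map H.subtype : Subgroup G) : Set G) := by
  rw [le_normalizer_iff]
  rintro h hh _ ⟨x, hx, rfl⟩
  exact ⟨⟨h, hh⟩ * x * ⟨h, hh⟩⁻¹, hN.conj_mem x hx _, rfl⟩

theorem map_subtype_ne_bot {G : Type*} [Group G] {H : Subgroup G} {N : Subgroup H} (h : N ≠ ⊥) :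
    N.map H.subtype ≠ ⊥ := fun h' => h ((map_eq_bot_iff_of_injective N H.subtype_injective).mp h')


/-- Restrictions on the point stabilizer of an extremely primitive group. Let a finite group G act faithfully and primitively on a finite set Ω with point stabilizers H = G_α whose order is neither 1 nor a prime, each acting primitively on every one of its orbits. Then H has trivial center, the Fitting subgroup F(H) is an elementary abelian p-group for some prime p, and if F(H) ≠ 1 has order p ^ e then p ^ e divides the number of points minus one and H / F(H) embeds in GL_e(p) (there is a homomorphism from H to GL_e(p) with kernel exactly F(H)). -/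
theorem result {G : Type*} [Group G] [Finite G] {Ω : Type*} [Fintype Ω] [MulAction G Ω] [FaithfulSMul G Ω] (hprim : MulAction.IsPreprimitive G Ω) (hep : ∀ (α : Ω) (ω : Ω), MulAction.IsPreprimitive (MulAction.stabilizer G α) (MulAction.orbit (MulAction.stabilizer G α) ω)) (α : Ω)
    (hH1 : MulAction.stabilizer G α ≠ ⊥) (hHp : ¬ (Nat.card (MulAction.stabilizer G α)).Prime) :
    Subgroup.center (MulAction.stabilizer G α) = ⊥ ∧
    IsMulCommutative (Cfsg.fittingSubgroup (MulAction.stabilizer G α)) ∧
    ∃ p e : ℕ, p.Prime ∧ Nat.card (Cfsg.fittingSubgroup (MulAction.stabilizer G α)) = p ^ e ∧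
      (∀ x ∈ Cfsg.fittingSubgroup (MulAction.stabilizer G α), x ^ p = 1) ∧
      (Cfsg.fittingSubgroup (MulAction.stabilizer G α) ≠ ⊥ →
        p ^ e ∣ Fintype.card Ω - 1 ∧
        ∃ φ : MulAction.stabilizer G α →* GL (Fin e) (ZMod p), φ.ker = Cfsg.fittingSubgroup (MulAction.stabilizer G α)) := by
  set H := stabilizer G α with hHdef
  have hep' := hep α
  -- nilpotent normal subgroups
  have hnil : ∀ N : Subgroup H, N.Normal → Group.IsNilpotent N → N ≠ ⊥ →
      (∀ m ∈ N.map H.subtype, ∀ n ∈ N.map H.subtype, m * n = n * m) ∧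
        ∃ p : ℕ, p.Prime ∧ ∀ m ∈ N.map H.subtype, m ^ p = 1 := by
    intro N hN hN' hne
    exact extreme_elementary_of_nilpotent hprim hep' (map_subtype_ne_bot hne) (map_subtype_le N)
      (le_normalizer_map_subtype N)
      (Group.nilpotent_of_mulEquiv (N.equivMapOfInjective H.subtype H.subtype_injective))
  have hcenter : center H = ⊥ := by
    by_contra hne
    have hab : ∀ m ∈ (center H).map H.subtype, ∀ n ∈ (center H).map H.subtype, m * n = n * m := by
      rintro _ ⟨m, -, rfl⟩ _ ⟨n, hn, rfl⟩
      exact congrArg Subtype.val (mem_center_iff.mp hn m)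
    have hall : ∀ c ∈ H, c ∈ (center H).map H.subtype := by
      intro c hc
      apply extreme_mem_of_centralizes hprim hep' (map_subtype_ne_bot hne) (map_subtype_le _)
        (le_normalizer_map_subtype _) hab hc
      rintro _ ⟨m, hm, rfl⟩
      exact (congrArg Subtype.val (mem_center_iff.mp hm ⟨c, hc⟩)).symm
    have hcomm : ∀ x ∈ H, ∀ y ∈ H, x * y = y * x := fun x hx y hy => hab x (hall x hx) y (hall y hy)
    have hlt : 1 < Nat.card H := (one_lt_card_iff_ne_bot _).mpr hH1
    have hp : (Nat.card H).minFac.Prime := Nat.minFac_prime hlt.ne'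
    have : Fact (Nat.card H).minFac.Prime := ⟨hp⟩
    obtain ⟨z, hz⟩ := exists_prime_orderOf_dvd_card' (G := H) _ (Nat.minFac_dvd (Nat.card H))
    have hz' : orderOf (z : G) = (Nat.card H).minFac := by rw [← hz, orderOf_coe]
    have hz1 : (z : G) ≠ 1 := by
      intro h
      rw [h, orderOf_one] at hz'
      exact hp.one_lt.ne hz'
    have hle : zpowers (z : G) ≤ H := zpowers_le.mpr z.2
    have heq : zpowers (z : G) = H := by
      apply le_antisymm hle
      intro c hc
      apply extreme_mem_of_centralizes hprim hep' (zpowers_ne_bot.mpr hz1) hle _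
        (fun m hm n hn => hcomm m (hle hm) n (hle hn)) hc (fun m hm => hcomm m (hle hm) c hc)
      rw [le_normalizer_iff]
      intro h hh x hx
      rw [hcomm h hh x (hle hx), mul_inv_cancel_right]
      exact hx
    apply hHp
    rw [← heq, Nat.card_zpowers, hz']
    exact hp
  refine ⟨hcenter, ?_⟩
  by_cases hF : fittingSubgroup H = ⊥
  · rw [hF]
    refine ⟨inferInstance, 2, 0, Nat.prime_two, by simp, ?_, fun h => absurd rfl h⟩
    intro x hx
    rw [mem_bot.mp hx, one_pow]
  have hex : ∃ N : Subgroup H, N.Normal ∧ Group.IsNilpotent N ∧ N ≠ ⊥ := by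
    by_contra hcon
    push Not at hcon
    apply hF
    rw [fittingSubgroup, sSup_eq_bot]
    exact fun N hN => hcon N hN.1 hN.2
  obtain ⟨N, hN, hN', hne⟩ := hex
  obtain ⟨hab, p, hp, hexp⟩ := hnil N hN hN' hne
  have hFN : fittingSubgroup H = N := by
    apply le_antisymm
    · rw [fittingSubgroup, sSup_le_iff]
      rintro M ⟨hM, hM'⟩
      by_cases hMb : M = ⊥
      · rw [hMb]; exact bot_le
      have := extreme_le_of_abelian hprim hep' (map_subtype_le M) (le_normalizer_map_subtype M)
        (hnil M hM hM' hMb).1 (map_subtype_ne_bot hne) (map_subtype_le N)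
        (le_normalizer_map_subtype N) hab
      exact (map_le_map_iff_of_injective H.subtype_injective).mp this
    · exact le_sSup ⟨hN, hN'⟩
  rw [hFN]
  have hab' : ∀ x y : N, x * y = y * x := fun x y =>
    Subtype.ext (Subtype.ext (hab _ (mem_map_of_mem _ x.2) _ (mem_map_of_mem _ y.2)))
  have hexp' : ∀ x ∈ N, x ^ p = 1 := fun x hx => Subtype.ext (hexp _ (mem_map_of_mem _ hx))
  have : Fact p.Prime := ⟨hp⟩
  have hpg : IsPGroup p N := fun x => ⟨1, by rw [pow_one]; exact Subtype.ext (hexp' x x.2)⟩
  obtain ⟨e, he⟩ := hpg.exists_card_eq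
  refine ⟨⟨⟨hab'⟩⟩, p, e, hp, he, hexp', fun _ => ⟨?_, ?_⟩⟩
  · have hfree : ∀ b : SubMulAction.ofStabilizer G α, stabilizer N b = ⊥ := by
      intro b
      rw [eq_bot_iff]
      intro n hn
      rw [mem_bot]
      apply Subtype.ext
      apply Subtype.ext
      apply extreme_eq_one_of_centralizes hprim hep' (map_subtype_ne_bot hne) (map_subtype_le N)
        (le_normalizer_map_subtype N) (SubMulAction.neq_of_mem_ofStabilizer G α (x := b)) n.1.2
        (congrArg Subtype.val (mem_stabilizer_iff.mp hn))
      intro m hm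
      exact hab m hm _ (mem_map_of_mem _ n.2)
    have h1 := Nat.card_congr (selfEquivOrbitsQuotientProd hfree)
    rw [Nat.card_prod, SubMulAction.nat_card_ofStabilizer_eq, he, Nat.card_eq_fintype_card] at h1
    rw [h1]
    exact dvd_mul_left _ _
  · obtain ⟨ψ, hψ⟩ := exists_mulAut_embedding_GL p e hab' (fun x => Subtype.ext (hexp' x x.2)) he
    refine ⟨ψ.comp (MulAut.conjNormal (H := N)), ?_⟩
    ext x
    rw [MonoidHom.mem_ker, MonoidHom.comp_apply, map_eq_one_iff ψ hψ]
    constructor
    · intro hx
      have h1 : (x : G) ∈ N.map H.subtype := by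
        apply extreme_mem_of_centralizes hprim hep' (map_subtype_ne_bot hne) (map_subtype_le N)
          (le_normalizer_map_subtype N) hab x.2
        rintro _ ⟨m, hm, rfl⟩
        have h2 : ((MulAut.conjNormal x (⟨m, hm⟩ : N) : N) : H) = m := by rw [hx]; rfl
        rw [MulAut.conjNormal_apply, mul_inv_eq_iff_eq_mul] at h2
        exact (congrArg Subtype.val h2).symm
      obtain ⟨y, hy, hxy⟩ := h1
      rwa [← Subtype.ext hxy]
    · intro hx
      ext m
      rw [MulAut.conjNormal_apply]
      have := congrArg Subtype.val (hab' ⟨x, hx⟩ m)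
      simp only [coe_mul] at this
      rw [this, mul_inv_cancel_right]
      rfl

end Cfsg.Agent.S3497
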