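import Cfsg.Statements.S3498
import Mathlib

set_option autoImplicit false
open Cfsg

namespace Cfsg.Agent.S3498

open Subgroup

theorem mem_of_pow_mem {G : Type*} [Group G] {K : Subgroup G} {x : G} {m : ℕ} (h : x ^ m ∈ K)
    (hc : m.Coprime (orderOf x)) : x ∈ K :=
  zpowers_le.mpr h (mem_zpowers_pow_iff.mpr hc)

theorem eq_bot_of_normal_pgroup {G : Type*} [Group G] [Finite G] (T : Subgroup G) [T.Normal]
    (hT : IsSimpleGroup T) (hTc : ¬ IsMulCommutative T) (hC : centralizer (T : Set G) = ⊥)
    {r : ℕ} [Fact r.Prime] (R : Subgroup G) [R.Normal] (hR : IsPGroup r R) : R = ⊥ := by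
  rcases (inferInstance : (R.subgroupOf T).Normal).eq_bot_or_eq_top with h | h
  · rw [eq_bot_iff, ← hC, ← commutator_eq_bot_iff_le_centralizer, eq_bot_iff]
    refine (commutator_le_inf R T).trans ?_
    rw [subgroupOf_eq_bot] at h
    exact h.le_bot
  · exfalso
    rw [subgroupOf_eq_top] at h
    have h1 : IsPGroup r T := hR.to_le h
    have h2 : Group.IsNilpotent T := h1.isNilpotent
    exact hTc ⟨⟨IsSimpleGroup.comm_iff_isSolvable.mpr inferInstance⟩⟩


/-- A maximal subgroup of a finite almost simple group does not have prime order. Here G is almost simple in the sense that it has a non-abelian simple normal subgroup T with trivial centralizer. -/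
theorem result {G : Type*} [Group G] [Finite G] (T : Subgroup G) [T.Normal] (hT : IsSimpleGroup T) (hTc : ¬ IsMulCommutative T)
    (hC : Subgroup.centralizer (T : Set G) = ⊥) (H : Subgroup G) (hmax : IsCoatom H) : ¬ (Nat.card H).Prime := by
  intro hp
  set p := Nat.card H with hpdef
  have : Fact p.Prime := ⟨hp⟩
  have hHp : IsPGroup p H := IsPGroup.of_card (n := 1) (by simp [hpdef])
  have hHne : H ≠ ⊥ := by
    intro h
    rw [h, card_bot] at hpdef
    exact hp.one_lt.ne' hpdef
  have hnorm : normalizer (H : Set G) = H := by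
    by_contra hne
    have htop := hmax.2 _ (lt_of_le_of_ne le_normalizer (Ne.symm hne))
    have := normalizer_eq_top_iff.mp htop
    exact hHne (eq_bot_of_normal_pgroup T hT hTc hC H hHp)
  have hTne : T ≠ ⊥ := (T.nontrivial_iff_ne_bot).mp hT.toNontrivial
  have hGnp : ¬ IsPGroup p (⊤ : Subgroup G) := fun h =>
    hTne (le_bot_iff.mp ((eq_bot_of_normal_pgroup T hT hTc hC ⊤ h) ▸ le_top))
  obtain ⟨P, hP⟩ := hHp.exists_le_sylow
  have hPH : (P : Subgroup G) = H := by
    by_contra hne
    have htop := hmax.2 _ (lt_of_le_of_ne hP (Ne.symm hne))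
    exact hGnp (htop ▸ P.isPGroup')
  have hcyc : IsCyclic H := isCyclic_of_prime_card hpdef.symm
  have hNC : normalizer ((P : Subgroup G) : Set G) ≤ centralizer ((P : Subgroup G) : Set G) := by
    rw [hPH, hnorm]
    have := hcyc.isMulCommutative
    exact le_centralizer H
  have hcomp := MonoidHom.ker_transferSylow_isComplement' P hNC
  have hndvd := MonoidHom.not_dvd_card_ker_transferSylow P hNC
  set K := (MonoidHom.transferSylow P hNC).ker with hK
  have hKidx : K.index = p := by rw [hcomp.symm.index_eq_card, hPH]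
  have hKne : K ≠ ⊥ := by
    intro h
    apply hmax.1
    rw [← hPH, ← hcomp.sup_eq_top, h, bot_sup_eq]
  have hlt : 1 < Nat.card K := (one_lt_card_iff_ne_bot _).mpr hKne
  have hr : (Nat.card K).minFac.Prime := Nat.minFac_prime hlt.ne'
  set r := (Nat.card K).minFac with hrdef
  have : Fact r.Prime := ⟨hr⟩
  have hrp : p ≠ r := fun h => hndvd (h ▸ Nat.minFac_dvd _)
  have hRK : ∀ R : Sylow r G, (R : Subgroup G) ≤ K := by
    intro R x hx
    apply mem_of_pow_mem (K.pow_index_mem x)
    obtain ⟨k, hk⟩ := R.isPGroup' ⟨x, hx⟩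
    have h1 : orderOf x ∣ r ^ k := orderOf_dvd_of_pow_eq_one (congrArg Subtype.val hk)
    rw [hKidx]
    exact Nat.Coprime.coprime_dvd_right h1 (Nat.Coprime.pow_right _ ((Nat.coprime_primes hp hr).mpr hrp))
  have hcard : ¬ p ∣ Nat.card (Sylow r G) := by
    obtain ⟨R⟩ : Nonempty (Sylow r G) := inferInstance
    rw [Sylow.card_eq_index_normalizer R]
    intro hdvd
    have h1 := Sylow.normalizer_sup_eq_top' R (hRK R)
    have h2 : p ∣ Nat.card (normalizer (R : Set G)) := by
      rw [← hKidx, ← relIndex_top_right, ← h1, relIndex_sup_right]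
      exact relIndex_dvd_card _ _
    have h3 : p * p ∣ Nat.card K * p := by
      rw [← hKidx, card_mul_index, ← card_mul_index (normalizer (R : Set G)), hKidx]
      exact Nat.mul_dvd_mul h2 hdvd
    exact hndvd (Nat.dvd_of_mul_dvd_mul_right hp.pos h3)
  obtain ⟨R, hR⟩ := hHp.nonempty_fixed_point_of_prime_not_dvd_card (Sylow r G) hcard
  have hHR : H ≤ normalizer (R : Set G) := fun h hh =>
    Sylow.smul_eq_iff_mem_normalizer.mp (hR ⟨h, hh⟩)
  have hRne : (R : Subgroup G) ≠ ⊥ :=
    R.ne_bot_of_dvd_card ((Nat.minFac_dvd _).trans (card_subgroup_dvd_card K))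
  have htop : normalizer (R : Set G) = ⊤ := by
    apply hmax.2 _ (lt_of_le_of_ne hHR _)
    intro h
    have h1 : (R : Subgroup G) ≤ H := h ▸ le_normalizer
    have h2 := IsPGroup.disjoint_of_ne p r hrp H R hHp R.isPGroup'
    exact hRne (le_bot_iff.mp ((le_inf h1 le_rfl).trans h2.le_bot))
  have : (R : Subgroup G).Normal := normalizer_eq_top_iff.mp htop
  exact hRne (eq_bot_of_normal_pgroup T hT hTc hC R R.isPGroup')

end Cfsg.Agent.S3498
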