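import Cfsg.Statements.S3504
import Cfsg.Agent.Perm1.PrimeOrderPerm

set_option autoImplicit false
open Cfsg

namespace Cfsg.Agent.S3504

/-- For n ≥ 5, the fixed-point-free permutations of prime order in the symmetric group of degree n form a single conjugacy class if and only if n is a prime power. -/
theorem result (n : ℕ) (hn : 5 ≤ n) :
    Nat.card {c : ConjClasses (Equiv.Perm (Fin n)) // ∃ g : Equiv.Perm (Fin n), ConjClasses.mk g = c ∧ (orderOf g).Prime ∧ ∀ i : Fin n, g i ≠ i} = 1 ↔ IsPrimePow n := by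
  have hsupp : ∀ g : Equiv.Perm (Fin n), (∀ i, g i ≠ i) ↔ g.support.card = n := by
    intro g
    constructor
    · intro h
      have : g.support = Finset.univ := by ext i; simp [h i]
      rw [this]; simp
    · intro h i
      have : g.support = Finset.univ := Finset.eq_univ_of_card _ (by simpa using h)
      rw [← Equiv.Perm.mem_support, this]; exact Finset.mem_univ _
  have hex : ∀ p : ℕ, p.Prime → p ∣ n → ∃ g : Equiv.Perm (Fin n), orderOf g = p ∧ ∀ i, g i ≠ i := by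
    rintro p hp ⟨c, hc⟩
    obtain ⟨σ, h1, h2⟩ := Perm1.exists_perm_pow_eq_one (Fin n) hp c (by simp [hc, mul_comm])
    rw [mul_comm, ← hc] at h2
    exact ⟨σ, Perm1.orderOf_eq_of_pow_eq_one hp h1 (by omega), (hsupp σ).mpr h2⟩
  have hdvd : ∀ g : Equiv.Perm (Fin n), (orderOf g).Prime → (∀ i, g i ≠ i) → orderOf g ∣ n := by
    intro g hg h
    have := Perm1.dvd_card_support hg (pow_orderOf_eq_one g)
    rwa [(hsupp g).mp h] at this
  rw [isPrimePow_iff_unique_prime_dvd, Nat.card_eq_one_iff_unique]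
  constructor
  · rintro ⟨hsub, ⟨⟨c, g, -, hg1, hg2⟩⟩⟩
    refine ⟨orderOf g, ⟨hg1, hdvd g hg1 hg2⟩, ?_⟩
    rintro p ⟨hp, hpn⟩
    obtain ⟨h, hh1, hh2⟩ := hex p hp hpn
    have := hsub.elim ⟨ConjClasses.mk h, h, rfl, hh1 ▸ hp, hh2⟩ ⟨ConjClasses.mk g, g, rfl, hg1, hg2⟩
    have h3 : IsConj h g := ConjClasses.mk_eq_mk_iff_isConj.mp (congrArg Subtype.val this)
    obtain ⟨u, hu⟩ := isConj_iff.mp h3
    rw [← hh1, ← hu]
    exact ((MulAut.conj u).orderOf_eq h).symm
  · rintro ⟨p, ⟨hp, hpn⟩, huniq⟩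
    constructor
    · constructor
      rintro ⟨_, g, rfl, hg1, hg2⟩ ⟨_, h, rfl, hh1, hh2⟩
      apply Subtype.ext
      apply ConjClasses.mk_eq_mk_iff_isConj.mpr
      have e1 := huniq _ ⟨hg1, hdvd g hg1 hg2⟩
      have e2 := huniq _ ⟨hh1, hdvd h hh1 hh2⟩
      exact Perm1.isConj_of_pow_eq_one hp (by rw [← e1, pow_orderOf_eq_one])
        (by rw [← e2, pow_orderOf_eq_one]) (by rw [(hsupp g).mp hg2, (hsupp h).mp hh2])
    · obtain ⟨h, hh1, hh2⟩ := hex p hp hpn
      exact ⟨⟨ConjClasses.mk h, h, rfl, hh1 ▸ hp, hh2⟩⟩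

end Cfsg.Agent.S3504
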