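import Cfsg.Statements.S3508

set_option autoImplicit false
open Cfsg

namespace Cfsg.Agent.S3508

open Polynomial in
theorem unip (p : ℕ) [Fact p.Prime] {V : Type*} [AddCommGroup V] [Module (ZMod p) V] [Finite V]
    (m : ℕ) (hV : Nat.card V = p ^ m) (A : Module.End (ZMod p) V) (r : ℕ) (hA : A ^ (p ^ r) = 1)
    (s : ℕ) (hs : m < p ^ s) : A ^ (p ^ s) = 1 ∧ ∑ i ∈ Finset.range (p ^ s), A ^ i = 0 := by
  have hp : p.Prime := Fact.out
  have hfin : Module.finrank (ZMod p) V = m := by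
    have h1 := Module.natCard_eq_pow_finrank (K := ZMod p) (V := V)
    rw [hV, Nat.card_zmod] at h1
    exact (Nat.pow_right_injective hp.two_le h1).symm
  have hpoly : ∀ t : ℕ, ((X : (ZMod p)[X]) - 1) ^ (p ^ t) = X ^ (p ^ t) - 1 := by
    intro t; rw [sub_pow_char_pow, one_pow]
  have hA' : ∀ t : ℕ, (A - 1) ^ (p ^ t) = A ^ (p ^ t) - 1 := by
    intro t
    have := congrArg (aeval A) (hpoly t)
    simpa using this
  have hnil : IsNilpotent (A - 1) := ⟨p ^ r, by rw [hA', hA, sub_self]⟩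
  have hm : (A - 1) ^ m = 0 := by
    have h1 := hnil.charpoly_eq_X_pow_finrank
    have h2 := LinearMap.aeval_self_charpoly (A - 1)
    rw [h1, hfin, map_pow, aeval_X] at h2
    exact h2
  have hgeom : ((X : (ZMod p)[X]) - 1) ^ (p ^ s - 1) = ∑ i ∈ Finset.range (p ^ s), X ^ i := by
    have hne : ((X : (ZMod p)[X]) - 1) ≠ 0 := by
      rw [← C_1]; exact X_sub_C_ne_zero 1
    apply mul_left_cancel₀ hne
    rw [mul_geom_sum, ← pow_succ', Nat.sub_add_cancel (by omega), hpoly]
  constructor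
  · have := hA' s
    rw [pow_eq_zero_of_le hs.le hm] at this
    exact (sub_eq_zero.mp this.symm)
  · have := congrArg (aeval A) hgeom
    simp only [map_pow, map_sub, aeval_X, map_one, map_sum] at this
    rw [← this]
    exact pow_eq_zero_of_le (by omega) hm

theorem unip_add (p : ℕ) [Fact p.Prime] {V : Type*} [AddCommGroup V] [Finite V] (hpV : ∀ x : V, p • x = 0)
    (m : ℕ) (hV : Nat.card V = p ^ m) (φ : V →+ V) (r : ℕ) (hA : ∀ x, φ^[p ^ r] x = x)
    (s : ℕ) (hs : m < p ^ s) (x : V) : φ^[p ^ s] x = x ∧ ∑ i ∈ Finset.range (p ^ s), φ^[i] x = 0 := by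
  obtain ⟨inst⟩ : Nonempty (Module (ZMod p) V) := ⟨AddCommGroup.zmodModule hpV⟩
  let A : Module.End (ZMod p) V := φ.toZModLinearMap p
  have hAk : ∀ (k : ℕ) (x : V), (A ^ k) x = φ^[k] x := by
    intro k x
    rw [Module.End.pow_apply]; rfl
  obtain ⟨h1, h2⟩ := unip p m hV A r (by ext x; rw [hAk, hA]; rfl) s hs
  constructor
  · rw [← hAk, h1]; rfl
  · have := LinearMap.congr_fun h2 x
    rw [LinearMap.sum_apply] at this
    simpa only [hAk, LinearMap.zero_apply] using this

theorem unip_mul (p : ℕ) [Fact p.Prime] {V : Type*} [CommGroup V] [Finite V] (hpV : ∀ x : V, x ^ p = 1)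
    (m : ℕ) (hV : Nat.card V = p ^ m) (φ : V →* V) (r : ℕ) (hA : ∀ x, φ^[p ^ r] x = x)
    (s : ℕ) (hs : m < p ^ s) (x : V) : φ^[p ^ s] x = x ∧ ∏ i ∈ Finset.range (p ^ s), φ^[i] x = 1 :=
  unip_add p (V := Additive V) hpV m hV (MonoidHom.toAdditive φ) r hA s hs x

open scoped IsMulCommutative in
theorem main {G : Type*} [Group G] [Finite G] {Ω : Type*} [Fintype Ω] [MulAction G Ω] [FaithfulSMul G Ω] (p m : ℕ) (hp : p.Prime) (hcard : Fintype.card Ω = p ^ m)
    (N : Subgroup G) [N.Normal] (hNc : IsMulCommutative N) (hNp : ∀ n ∈ N, n ^ p = 1)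
    (hNtr : MulAction.IsPretransitive N Ω) (hNreg : ∀ ω : Ω, MulAction.stabilizer N ω = ⊥)
    (g : G) (r : ℕ) (hr : 1 ≤ r) (hg : orderOf g = p ^ r) :
    p ^ (r - 1) ≤ m := by
  have := Fact.mk hp
  have hΩ : Nonempty Ω := by
    rw [← Fintype.card_pos_iff, hcard]; exact pow_pos hp.pos m
  obtain ⟨ω⟩ := hΩ
  have hN : Nat.card N = p ^ m := by
    have h1 := MulAction.index_stabilizer_of_transitive N ω
    rw [hNreg, Subgroup.index_bot] at h1
    rw [h1, Nat.card_eq_fintype_card, hcard]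
  obtain ⟨n, hn⟩ := hNtr.exists_smul_eq ω (g • ω)
  set h : G := (n : G)⁻¹ * g with hh
  have hhω : h • ω = ω := by
    rw [hh, mul_smul, ← hn, inv_smul_eq_iff]; rfl
  have hgn : g = n * h := by rw [hh]; group
  let A : N →* N := (MulAut.conjNormal (H := N) h).toMonoidHom
  have hA1 : ∀ x : N, ((A x : N) : G) = h * x * h⁻¹ := by
    intro x; rfl
  have hAk : ∀ (k : ℕ) (x : N), ((A^[k] x : N) : G) = h ^ k * x * (h ^ k)⁻¹ := by
    intro k
    induction k with
    | zero => intro x; simp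
    | succ k ih =>
      intro x
      rw [Function.iterate_succ_apply', hA1, ih, pow_succ']
      group
  have hgk : ∀ k : ℕ, g ^ k = ((∏ i ∈ Finset.range k, A^[i] n : N) : G) * h ^ k := by
    intro k
    induction k with
    | zero => simp
    | succ k ih =>
      rw [Finset.prod_range_succ, Subgroup.coe_mul, hAk, pow_succ, ih]
      nth_rewrite 1 [hgn]
      rw [pow_succ]
      group
  have hAr : ∀ x, A^[p ^ r] x = x := by
    have h1 := hgk (p ^ r)
    rw [← hg, pow_orderOf_eq_one, hg] at h1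
    have h2 : h ^ (p ^ r) ∈ N := by
      rw [eq_comm, mul_eq_one_iff_eq_inv'] at h1
      rw [h1]; exact N.inv_mem (Subtype.prop _)
    intro x
    apply Subtype.ext
    rw [hAk]
    have := congrArg Subtype.val (mul_comm (⟨_, h2⟩ : N) x)
    simp only [Subgroup.coe_mul] at this
    rw [this]
    simp
  by_contra hlt
  push Not at hlt
  have key := unip_mul p (V := N) (fun x => Subtype.ext (hNp x x.2)) m hN A r hAr (r - 1) hlt
  have h3 := hgk (p ^ (r - 1))
  rw [(key n).2] at h3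
  have h4 : h ^ (p ^ (r - 1)) = 1 := by
    apply FaithfulSMul.eq_of_smul_eq_smul (α := Ω)
    intro ω'
    obtain ⟨x, rfl⟩ := hNtr.exists_smul_eq ω ω'
    have h5 := hAk (p ^ (r - 1)) x
    rw [(key x).1, eq_mul_inv_iff_mul_eq] at h5
    rw [one_smul]
    change h ^ (p ^ (r - 1)) • (x : G) • ω = (x : G) • ω
    rw [← mul_smul, ← h5, mul_smul]
    congr 1
    exact (MulAction.stabilizer G ω).pow_mem hhω _
  rw [h4] at h3
  have h6 : g ^ (p ^ (r - 1)) = 1 := by simpa using h3
  have h7 := orderOf_dvd_of_pow_eq_one h6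
  rw [hg, Nat.pow_dvd_pow_iff_le_right hp.one_lt] at h7
  omega


/-- Let a finite group G act faithfully on a set Ω with p ^ m points (p prime) and have an elementary abelian normal p-subgroup N acting regularly on Ω (so G is a group of affine transformations of an m-dimensional space over the field with p elements). If G contains an element of order p ^ r with r ≥ 1, then p ^ (r − 1) ≤ m. In particular an element of order p ^ m forces m ≤ 2, and m ≤ 1 when p is odd. -/
theorem result {G : Type*} [Group G] [Finite G] {Ω : Type*} [Fintype Ω] [MulAction G Ω] [FaithfulSMul G Ω] (p m : ℕ) (hp : p.Prime) (hcard : Fintype.card Ω = p ^ m)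
    (N : Subgroup G) [N.Normal] (hNc : IsMulCommutative N) (hNp : ∀ n ∈ N, n ^ p = 1)
    (hNtr : MulAction.IsPretransitive N Ω) (hNreg : ∀ ω : Ω, MulAction.stabilizer N ω = ⊥)
    (g : G) (r : ℕ) (hr : 1 ≤ r) (hg : orderOf g = p ^ r) :
    p ^ (r - 1) ≤ m ∧ (r = m → m ≤ 2 ∧ (2 < p → m ≤ 1)) := by
  have key := main p m hp hcard N hNc hNp hNtr hNreg g r hr hg
  refine ⟨key, ?_⟩
  rintro rfl
  obtain ⟨s, rfl⟩ : ∃ s, r = s + 1 := ⟨r - 1, by omega⟩
  rw [Nat.add_sub_cancel] at key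
  have h2 : 2 ^ s ≤ p ^ s := Nat.pow_le_pow_left hp.two_le s
  constructor
  · by_contra hlt
    obtain ⟨t, rfl⟩ : ∃ t, s = t + 2 := ⟨s - 2, by omega⟩
    have : t < 2 ^ t := Nat.lt_two_pow_self
    rw [pow_add] at h2
    omega
  · intro hp2
    by_contra hlt
    obtain ⟨t, rfl⟩ : ∃ t, s = t + 1 := ⟨s - 1, by omega⟩
    have h3 : 3 ^ (t + 1) ≤ p ^ (t + 1) := Nat.pow_le_pow_left hp2 _
    have : t < 3 ^ t := Nat.lt_pow_self (by norm_num)
    rw [pow_add] at h3
    omega

end Cfsg.Agent.S3508
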