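import Cfsg.Statements.S3511

set_option autoImplicit false
open Cfsg

namespace Cfsg.Agent.S3511

/-- Let a finite group G act faithfully on a set Ω. If every element of G of square-free order has a regular cycle (an orbit of the cyclic group it generates with trivial stabilizer), then every element of G has a regular cycle. -/
theorem result {G : Type*} [Group G] [Finite G] {Ω : Type*} [MulAction G Ω] [FaithfulSMul G Ω]
    (h : ∀ g : G, Squarefree (orderOf g) → ∃ ω : Ω, MulAction.stabilizer (Subgroup.zpowers g) ω = ⊥) (g : G) :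
    ∃ ω : Ω, MulAction.stabilizer (Subgroup.zpowers g) ω = ⊥ := by
  set n := orderOf g with hn
  have hn0 : n ≠ 0 := (orderOf_pos g).ne'
  set r := ∏ p ∈ n.primeFactors, p with hr
  have hrd : r ∣ n := Nat.prod_primeFactors_dvd n
  have hsq : Squarefree r := by
    rw [hr]
    apply Finset.squarefree_prod_of_pairwise_isCoprime
    · intro a ha b hb hab
      have := (Nat.coprime_primes (Nat.prime_of_mem_primeFactors ha) (Nat.prime_of_mem_primeFactors hb)).mpr hab
      exact Nat.coprime_iff_isRelPrime.mp this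
    · intro a ha
      exact (Nat.prime_of_mem_primeFactors ha).prime.squarefree
  have hord : orderOf (g ^ (n / r)) = r := by
    rw [hn]; exact orderOf_pow_orderOf_div hn0 hrd
  obtain ⟨ω, hω⟩ := h (g ^ (n / r)) (by rw [hord]; exact hsq)
  refine ⟨ω, ?_⟩
  by_contra hne
  haveI : Nontrivial (MulAction.stabilizer (Subgroup.zpowers g) ω) :=
    (Subgroup.nontrivial_iff_ne_bot _).mpr hne
  have h1 : Nat.card (MulAction.stabilizer (Subgroup.zpowers g) ω) ≠ 1 := by
    have := Finite.one_lt_card (α := MulAction.stabilizer (Subgroup.zpowers g) ω)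
    omega
  obtain ⟨p, hp, hpd⟩ := Nat.exists_prime_and_dvd h1
  haveI := Fact.mk hp
  obtain ⟨⟨⟨x, hx⟩, hxω⟩, hc⟩ := exists_prime_orderOf_dvd_card' p hpd
  have hxo : orderOf x = p := by
    rw [← hc, ← Subgroup.orderOf_coe, ← Subgroup.orderOf_coe]
  obtain ⟨k, hk⟩ := (Submonoid.mem_powers_iff _ _).mp (mem_powers_iff_mem_zpowers.mpr hx)
  have hpn : p ∣ n := by
    rw [← hxo, ← hk]; exact orderOf_pow_dvd k
  have hpr : p ∣ r := Finset.dvd_prod_of_mem _ (Nat.mem_primeFactors.mpr ⟨hp, hpn, hn0⟩)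
  have hnk : n ∣ k * p := by
    rw [hn, orderOf_dvd_iff_pow_eq_one, pow_mul, hk, ← hxo, pow_orderOf_eq_one]
  have hdk : n / r ∣ k := by
    obtain ⟨s, hs⟩ := hpr
    obtain ⟨t, ht⟩ := hrd
    have hr0 : 0 < r := Nat.pos_of_ne_zero (by rintro h0; rw [h0, zero_mul] at ht; exact hn0 ht)
    have : n / r = t := by rw [ht]; exact Nat.mul_div_cancel_left t hr0
    rw [this]
    have h3 : (s * t) * p ∣ k * p := by
      have : (s * t) * p = n := by rw [ht, hs]; ring
      rw [this]; exact hnk
    exact Dvd.dvd.trans (Dvd.intro_left s rfl) (Nat.dvd_of_mul_dvd_mul_right hp.pos h3)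
  obtain ⟨j, hj⟩ := hdk
  have hxm : x ∈ Subgroup.zpowers (g ^ (n / r)) := by
    rw [← hk, hj, pow_mul]; exact Subgroup.npow_mem_zpowers _ _
  have : (⟨x, hxm⟩ : Subgroup.zpowers (g ^ (n / r))) ∈ MulAction.stabilizer (Subgroup.zpowers (g ^ (n / r))) ω := hxω
  rw [hω, Subgroup.mem_bot] at this
  have hx1 : x = 1 := congrArg Subtype.val this
  rw [hx1, orderOf_one] at hxo
  exact hp.one_lt.ne hxo

end Cfsg.Agent.S3511
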