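import Cfsg.Statements.S3514

set_option autoImplicit false
open Cfsg

namespace Cfsg.Agent.S3514

open MulAction

theorem card_orbit_sub {Γ X : Type*} [Group Γ] [MulAction Γ X] (L : Subgroup Γ) (x : X) :
    Nat.card (orbit L x) = (stabilizer Γ x).relIndex L := by
  rw [Nat.card_coe_set_eq, ← index_stabilizer]
  rfl

theorem relIndex_sup_of_le_normalizer {Γ : Type*} [Group Γ] (N S : Subgroup Γ)
    (h : S ≤ Subgroup.normalizer (N : Set Γ)) : S.relIndex (N ⊔ S) = S.relIndex N := by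
  have h1 := card_orbit_sub (N ⊔ S) ((1 : Γ) : Γ ⧸ S)
  have h2 := card_orbit_sub N ((1 : Γ) : Γ ⧸ S)
  rw [stabilizer_quotient] at h1 h2
  rw [← h1, ← h2]
  congr 2
  ext y
  constructor
  · rintro ⟨⟨g, hg⟩, rfl⟩
    have hg' : g ∈ ((N ⊔ S : Subgroup Γ) : Set Γ) := hg
    rw [Subgroup.coe_mul_of_right_le_normalizer_left N S h] at hg'
    obtain ⟨n, hn, s, hs, rfl⟩ := hg'
    refine ⟨⟨n, hn⟩, ?_⟩
    have hs' : s • ((1 : Γ) : Γ ⧸ S) = ((1 : Γ) : Γ ⧸ S) := by
      rw [← mem_stabilizer_iff, stabilizer_quotient]; exact hs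
    change n • ((1 : Γ) : Γ ⧸ S) = (n * s) • ((1 : Γ) : Γ ⧸ S)
    rw [mul_smul, hs']
  · rintro ⟨⟨g, hg⟩, rfl⟩
    exact ⟨⟨g, Subgroup.mem_sup_left hg⟩, rfl⟩


/-- Let p be a prime, V a finite vector space over the field with p elements, and H a group of linear transformations of V all of whose orbits on V have size coprime to p. (i) Every normal subgroup K of H has all its orbits on V of size coprime to p. (ii) If N is a group of linear transformations of V of order coprime to p that is normalized by H, then the group generated by N and H has all its orbits on V of size coprime to p. -/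
theorem result (p : ℕ) [Fact p.Prime] {V : Type*} [AddCommGroup V] [Module (ZMod p) V] [Finite V]
    (H : Subgroup (V ≃ₗ[ZMod p] V)) (hH : ∀ v : V, ¬ p ∣ Nat.card {u : V | ∃ h ∈ H, h v = u}) :
    (∀ K : Subgroup (V ≃ₗ[ZMod p] V), K ≤ H → H ≤ Subgroup.normalizer (K : Set (V ≃ₗ[ZMod p] V)) →
        ∀ v : V, ¬ p ∣ Nat.card {u : V | ∃ k ∈ K, k v = u}) ∧
    (∀ N : Subgroup (V ≃ₗ[ZMod p] V), ¬ p ∣ Nat.card N → H ≤ Subgroup.normalizer (N : Set (V ≃ₗ[ZMod p] V)) →
        ∀ v : V, ¬ p ∣ Nat.card {u : V | ∃ x ∈ N ⊔ H, x v = u}) := by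
  have key : ∀ (L : Subgroup (V ≃ₗ[ZMod p] V)) (v : V),
      Nat.card {u : V | ∃ h ∈ L, h v = u} = (stabilizer (V ≃ₗ[ZMod p] V) v).relIndex L := by
    intro L v
    rw [← card_orbit_sub]
    congr 2
    ext u
    constructor
    · rintro ⟨h, hh, rfl⟩; exact ⟨⟨h, hh⟩, rfl⟩
    · rintro ⟨⟨h, hh⟩, rfl⟩; exact ⟨h, hh, rfl⟩
  have hp : p.Prime := Fact.out
  constructor
  · intro K hKH hHK v hdvd
    apply hH v
    rw [key] at hdvd ⊢
    set S := stabilizer (V ≃ₗ[ZMod p] V) v
    have h1 := relIndex_sup_of_le_normalizer K (S ⊓ H) (inf_le_right.trans hHK)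
    have h2 : (S ⊓ H).relIndex K = S.relIndex K := by
      rw [← Subgroup.inf_relIndex_right (S ⊓ H) K, inf_assoc, inf_eq_right.mpr hKH, Subgroup.inf_relIndex_right]
    have h3 := Subgroup.relIndex_mul_relIndex (S ⊓ H) (K ⊔ S ⊓ H) H le_sup_right (sup_le hKH inf_le_right)
    rw [h1, h2, Subgroup.inf_relIndex_right] at h3
    rw [← h3]
    exact hdvd.mul_right _
  · intro N hN hHN v hdvd
    have hHv := hH v
    rw [key] at hdvd hHv
    set S := stabilizer (V ≃ₗ[ZMod p] V) v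
    have h1 := relIndex_sup_of_le_normalizer N H hHN
    have h3 := Subgroup.relIndex_mul_relIndex (S ⊓ H) H (N ⊔ H) inf_le_right le_sup_right
    rw [h1, Subgroup.inf_relIndex_right] at h3
    have h4 : S.relIndex (N ⊔ H) ∣ (S ⊓ H).relIndex (N ⊔ H) := Subgroup.relIndex_dvd_of_le_left _ inf_le_left
    have h5 := hdvd.trans h4
    rw [← h3] at h5
    rcases (Nat.Prime.dvd_mul hp).mp h5 with h | h
    · exact hHv h
    · exact hN (h.trans (Subgroup.relIndex_dvd_card H N))

end Cfsg.Agent.S3514
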