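import Cfsg.Statements.S3515
import Cfsg.Agent.Perm1.Affine

set_option autoImplicit false
open Cfsg

namespace Cfsg.Agent.S3515

theorem perm_four (τ : Equiv.Perm (Fin 2 → ZMod 2)) (h0 : τ 0 = 0) (h1 : τ (Pi.single 0 1) = Pi.single 0 1)
    (h2 : τ (Pi.single 1 1) = Pi.single 1 1) : τ = 1 := by
  have hall : ∀ x : Fin 2 → ZMod 2, x = 0 ∨ x = Pi.single 0 1 ∨ x = Pi.single 1 1 ∨ x = 1 := by decide
  ext1 x
  rw [Equiv.Perm.one_apply]
  rcases hall x with rfl | rfl | rfl | rfl
  · exact h0
  · exact h1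
  · exact h2
  · rcases hall (τ 1) with h | h | h | h
    · rw [← h0] at h; exact absurd (τ.injective h) (by decide)
    · rw [← h1] at h; exact absurd (τ.injective h) (by decide)
    · rw [← h2] at h; exact absurd (τ.injective h) (by decide)
    · exact h


/-- Every primitive affine permutation group of degree p² is 3-closed. Let p be a prime and G a group of permutations of the plane V = F_p² consisting of affine maps x ↦ Ax + b, containing all translations, and acting primitively on V. Then any permutation σ of V that agrees on every triple of points with some element of G (σ preserves every G-orbit on ordered triples) already lies in G. -/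
theorem result (p : ℕ) [Fact p.Prime] (G : Subgroup (Equiv.Perm (Fin 2 → ZMod p)))
    (haff : (G : Set (Equiv.Perm (Fin 2 → ZMod p))) ⊆ {τ : Equiv.Perm (Fin 2 → ZMod p) | ∃ (A : (Fin 2 → ZMod p) ≃ₗ[ZMod p] (Fin 2 → ZMod p)) (b : Fin 2 → ZMod p), ∀ x, τ x = A x + b})
    (htrans : ∀ b : Fin 2 → ZMod p, ∃ g ∈ G, ∀ x, g x = x + b) (hprim : MulAction.IsPreprimitive G (Fin 2 → ZMod p))
    (σ : Equiv.Perm (Fin 2 → ZMod p)) (hσ : (∀ t : Fin 3 → (Fin 2 → ZMod p), ∃ g ∈ G, ∀ i, σ (t i) = g (t i))) : σ ∈ G := by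
  obtain ⟨g, hg, hgt⟩ := hσ ![0, Pi.single 0 1, Pi.single 1 1]
  have g0 : σ 0 = g 0 := hgt 0
  have g1 : σ (Pi.single 0 1) = g (Pi.single 0 1) := hgt 1
  have g2 : σ (Pi.single 1 1) = g (Pi.single 1 1) := hgt 2
  suffices σ = g by rw [this]; exact hg
  by_cases hp : p = 2
  · subst hp
    have := perm_four (g⁻¹ * σ) (by simp [g0]) (by simp [g1]) (by simp [g2])
    rw [inv_mul_eq_one] at this
    exact this.symm
  · obtain ⟨L, hL⟩ := Perm1.affine_of_triples (Perm1.two_ne_zero_zmod p hp) σ (by
      intro x y z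
      obtain ⟨g', hg', hgt'⟩ := hσ ![x, y, z]
      obtain ⟨A, b, hA⟩ := haff hg'
      exact ⟨A, b, (hgt' 0).trans (hA _), (hgt' 1).trans (hA _), (hgt' 2).trans (hA _)⟩)
    obtain ⟨A, b, hA⟩ := haff hg
    have hb : σ 0 = b := by rw [g0, hA]; simp
    have hAL : L = (A : (Fin 2 → ZMod p) →ₗ[ZMod p] (Fin 2 → ZMod p)) := by
      apply LinearMap.pi_ext'
      intro i
      apply LinearMap.ext_ring
      fin_cases i
      · rw [hL, hA, hb, add_left_inj] at g1
        simpa using g1
      · rw [hL, hA, hb, add_left_inj] at g2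
        simpa using g2
    ext1 x
    rw [hL, hA, hb, hAL]
    rfl

end Cfsg.Agent.S3515
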