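import Cfsg.Statements.S3516
import Cfsg.Agent.Perm1.Affine

set_option autoImplicit false
open Cfsg

namespace Cfsg.Agent.S3516

/-- Let p be an odd prime, d ≥ 3, and G a group of affine permutations x ↦ Ax + b of V = F_p^d containing all translations and all maps x ↦ Ax with A of determinant 1. Then the 3-closure of G is the full affine group: a permutation σ of V agrees on every triple of points with some element of G if and only if σ is an affine map. -/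
theorem result (p : ℕ) [Fact p.Prime] (hp : p ≠ 2) (d : ℕ) (hd : 3 ≤ d) (G : Subgroup (Equiv.Perm (Fin d → ZMod p)))
    (haff : (G : Set (Equiv.Perm (Fin d → ZMod p))) ⊆ {τ : Equiv.Perm (Fin d → ZMod p) | ∃ (A : (Fin d → ZMod p) ≃ₗ[ZMod p] (Fin d → ZMod p)) (b : Fin d → ZMod p), ∀ x, τ x = A x + b})
    (htrans : ∀ b : Fin d → ZMod p, ∃ g ∈ G, ∀ x, g x = x + b)
    (hsl : ∀ A : (Fin d → ZMod p) ≃ₗ[ZMod p] (Fin d → ZMod p), LinearMap.det (A : (Fin d → ZMod p) →ₗ[ZMod p] (Fin d → ZMod p)) = 1 → ∃ g ∈ G, ∀ x, g x = A x)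
    (σ : Equiv.Perm (Fin d → ZMod p)) :
    (∀ t : Fin 3 → (Fin d → ZMod p), ∃ g ∈ G, ∀ i, σ (t i) = g (t i)) ↔ σ ∈ {τ : Equiv.Perm (Fin d → ZMod p) | ∃ (A : (Fin d → ZMod p) ≃ₗ[ZMod p] (Fin d → ZMod p)) (b : Fin d → ZMod p), ∀ x, τ x = A x + b} := by
  constructor
  · intro hσ
    obtain ⟨L, hL⟩ := Perm1.affine_equiv_of_triples (Perm1.two_ne_zero_zmod p hp) σ (by
      intro x y z
      obtain ⟨g', hg', hgt'⟩ := hσ ![x, y, z]
      obtain ⟨A, b, hA⟩ := haff hg'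
      exact ⟨A, b, (hgt' 0).trans (hA _), (hgt' 1).trans (hA _), (hgt' 2).trans (hA _)⟩)
    exact ⟨L, σ 0, hL⟩
  · rintro ⟨A, b, hA⟩ t
    have hdet : LinearMap.det (A : (Fin d → ZMod p) →ₗ[ZMod p] (Fin d → ZMod p)) ≠ 0 :=
      A.isUnit_det'.ne_zero
    obtain ⟨D, hD, hD1, hD2⟩ := Perm1.exists_det_fixing (K := ZMod p) (V := Fin d → ZMod p)
      (by simpa using hd) (t 1 - t 0) (t 2 - t 0) _ (inv_ne_zero hdet)
    obtain ⟨g, hg, hgx⟩ := hsl (D ≪≫ₗ A) (by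
      rw [LinearEquiv.coe_trans, LinearMap.det_comp, hD, mul_inv_cancel₀ hdet])
    obtain ⟨g1, hg1, hg1x⟩ := htrans (-t 0)
    obtain ⟨g2, hg2, hg2x⟩ := htrans (σ (t 0))
    refine ⟨g2 * g * g1, G.mul_mem (G.mul_mem hg2 hg) hg1, fun i => ?_⟩
    rw [Equiv.Perm.mul_apply, Equiv.Perm.mul_apply, hg1x, hgx, hg2x, ← sub_eq_add_neg,
      LinearEquiv.trans_apply]
    have : D (t i - t 0) = t i - t 0 := by
      fin_cases i
      · simp
      · exact hD1
      · exact hD2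
    rw [this, hA, hA, map_sub]
    abel

end Cfsg.Agent.S3516
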