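import Cfsg.Statements.S3517
import Cfsg.Agent.Perm1.Affine

set_option autoImplicit false
open Cfsg

namespace Cfsg.Agent.S3517

theorem li_pair {V : Type*} [AddCommGroup V] [Module (ZMod 2) V] (u w : V) (hu : u ≠ 0) (hw : w ≠ 0)
    (huw : u ≠ w) : LinearIndependent (ZMod 2) ![u, w] := by
  rw [LinearIndependent.pair_iff' hu]
  intro a ha
  have : a = 0 ∨ a = 1 := by clear ha; revert a; decide
  rcases this with rfl | rfl
  · exact hw (by simpa using ha.symm)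
  · exact huw (by simpa using ha)

theorem ex_one {V : Type*} [AddCommGroup V] [Module (ZMod 2) V] (u u' : V) (hu : u = 0 ↔ u' = 0) :
    ∃ A : V ≃ₗ[ZMod 2] V, A u = u' := by
  by_cases h : u = 0
  · exact ⟨LinearEquiv.refl _ _, by rw [hu.mp h, h]; rfl⟩
  · have h' : u' ≠ 0 := fun h2 => h (hu.mpr h2)
    obtain ⟨A, hA⟩ := Perm1.exists_equiv_of_linearIndependent (K := ZMod 2) ![u] ![u']
      (linearIndependent_unique_iff.mpr h) (linearIndependent_unique_iff.mpr h')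
    exact ⟨A, hA 0⟩

theorem ex_two {V : Type*} [AddCommGroup V] [Module (ZMod 2) V] (u u' w w' : V) (hu : u = 0 ↔ u' = 0)
    (hw : w = 0 ↔ w' = 0) (huw : u = w ↔ u' = w') :
    ∃ A : V ≃ₗ[ZMod 2] V, A u = u' ∧ A w = w' := by
  by_cases h1 : u = 0
  · obtain ⟨A, hA⟩ := ex_one w w' hw
    exact ⟨A, by rw [hu.mp h1, h1, map_zero], hA⟩
  by_cases h2 : w = 0
  · obtain ⟨A, hA⟩ := ex_one u u' hu
    exact ⟨A, hA, by rw [hw.mp h2, h2, map_zero]⟩
  by_cases h3 : u = w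
  · obtain ⟨A, hA⟩ := ex_one u u' hu
    exact ⟨A, hA, by rw [← huw.mp h3, ← h3, hA]⟩
  obtain ⟨A, hA⟩ := Perm1.exists_equiv_of_linearIndependent (K := ZMod 2) ![u, w] ![u', w']
    (li_pair _ _ h1 h2 h3) (li_pair _ _ (fun h => h1 (hu.mpr h)) (fun h => h2 (hw.mpr h)) (fun h => h3 (huw.mpr h)))
  exact ⟨A, hA 0, hA 1⟩


/-- For d ≥ 3, the 3-closure of the affine group AGL_d(2) acting on F_2^d is the full symmetric group: every permutation of F_2^d agrees on every ordered triple of points with some affine map (AGL_d(2) is 3-transitive). -/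
theorem result (d : ℕ) (hd : 3 ≤ d) (σ : Equiv.Perm (Fin d → ZMod 2)) (t : Fin 3 → (Fin d → ZMod 2)) :
    ∃ (A : (Fin d → ZMod 2) ≃ₗ[ZMod 2] (Fin d → ZMod 2)) (b : Fin d → ZMod 2), ∀ i, σ (t i) = A (t i) + b := by
  obtain ⟨A, h1, h2⟩ := ex_two (t 1 - t 0) (σ (t 1) - σ (t 0)) (t 2 - t 0) (σ (t 2) - σ (t 0))
    (by simp [sub_eq_zero]) (by simp [sub_eq_zero]) (by simp)
  refine ⟨A, σ (t 0) - A (t 0), fun i => ?_⟩
  rw [map_sub] at h1 h2
  fin_cases i
  · simp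
  · change σ (t 1) = A (t 1) + _
    rw [sub_eq_iff_eq_add.mp h1]; abel
  · change σ (t 2) = A (t 2) + _
    rw [sub_eq_iff_eq_add.mp h2]; abel

end Cfsg.Agent.S3517
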