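import Cfsg.Statements.S3518
import Cfsg.Agent.Perm1.BurnsidePrime

set_option autoImplicit false
open Cfsg

namespace Cfsg.Agent.S3518

theorem eq_of_two {K : Type*} [Field K] (σ g : Equiv.Perm K) (hσ : σ ∈ Cfsg.affineGroup K)
    (hg : g ∈ Cfsg.affineGroup K) (h0 : σ 0 = g 0) (h1 : σ 1 = g 1) : σ = g := by
  obtain ⟨a, b, hab⟩ := hσ
  obtain ⟨c, d, hcd⟩ := hg
  rw [hab, hcd] at h0 h1
  simp only [mul_zero, zero_add, mul_one] at h0 h1
  subst h0
  rw [add_left_inj] at h1
  ext x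
  rw [hab, hcd, h1]

theorem exists_affine {K : Type*} [Field K] (a b : K) (ha : a ≠ 0) :
    ∃ g ∈ Cfsg.affineGroup K, ∀ x, g x = a * x + b :=
  ⟨(Equiv.mulLeft₀ a ha).trans (Equiv.addRight b), ⟨Units.mk0 a ha, b, fun _ => rfl⟩, fun _ => rfl⟩


/-- Closures of subgroups of the one-dimensional affine group. Let p be a prime and G a group of permutations of F_p lying in the affine group AGL₁(p) = {x ↦ ax + b, a ≠ 0} and containing all translations. (1) If G is a proper subgroup of AGL₁(p), then G is 2-closed: a permutation of F_p agreeing on every ordered pair of points with some element of G lies in G. (2) Every permutation of F_p agrees on every ordered pair with some element of AGL₁(p) (the 2-closure of AGL₁(p) is the symmetric group). (3) AGL₁(p) is 3-closed: a permutation agreeing on every ordered triple with some affine map is affine. -/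
theorem result (p : ℕ) [Fact p.Prime] (G : Subgroup (Equiv.Perm (ZMod p))) (hG : G ≤ Cfsg.affineGroup (ZMod p))
    (htrans : ∀ b : ZMod p, ∃ g ∈ G, ∀ x, g x = x + b) :
    (G ≠ Cfsg.affineGroup (ZMod p) → ∀ σ : Equiv.Perm (ZMod p), (∀ t : Fin 2 → ZMod p, ∃ g ∈ G, ∀ i, σ (t i) = g (t i)) → σ ∈ G) ∧
    (∀ σ : Equiv.Perm (ZMod p), (∀ t : Fin 2 → ZMod p, ∃ g ∈ Cfsg.affineGroup (ZMod p), ∀ i, σ (t i) = g (t i))) ∧
    (∀ σ : Equiv.Perm (ZMod p), (∀ t : Fin 3 → ZMod p, ∃ g ∈ Cfsg.affineGroup (ZMod p), ∀ i, σ (t i) = g (t i)) → σ ∈ Cfsg.affineGroup (ZMod p)) := by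
  refine ⟨?_, ?_, ?_⟩
  · intro hne σ hσ
    let U : Set (ZMod p) := {a | a ≠ 0 ∧ ∃ g ∈ G, ∀ x, g x = a * x}
    have hscale : ∀ g ∈ G, ∀ (a : (ZMod p)ˣ) (b : ZMod p), (∀ x, g x = a * x + b) → (a : ZMod p) ∈ U := by
      intro g hg a b hab
      obtain ⟨t, ht, htx⟩ := htrans (-b)
      exact ⟨a.ne_zero, t * g, G.mul_mem ht hg, fun x => by
        rw [Equiv.Perm.mul_apply, htx, hab]; ring⟩
    obtain ⟨a, b, ha, hab⟩ := Perm1.affine_of_preserves_diff p U (fun h => h.1 rfl)
      ⟨1, one_ne_zero, 1, G.one_mem, fun x => by simp⟩ (by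
        by_contra hcon
        push Not at hcon
        apply hne
        apply le_antisymm hG
        rintro τ ⟨a, b, hab⟩
        obtain ⟨-, g, hg, hgx⟩ := hcon a a.ne_zero
        obtain ⟨t, ht, htx⟩ := htrans b
        have : τ = t * g := by
          ext x; rw [Equiv.Perm.mul_apply, htx, hab, hgx]
        rw [this]; exact G.mul_mem ht hg) σ (by
        rintro i j ⟨hij, g, hg, hgx⟩
        obtain ⟨g', hg', hgt⟩ := hσ ![i, j]
        obtain ⟨a, b, hab⟩ := hG hg'
        obtain ⟨ha, g2, hg2, hg2x⟩ := hscale g' hg' a b hab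
        have e1 : σ i = a * i + b := (hgt 0).trans (hab _)
        have e2 : σ j = a * j + b := (hgt 1).trans (hab _)
        have e3 : σ i - σ j = a * (i - j) := by rw [e1, e2]; ring
        rw [e3]
        exact ⟨mul_ne_zero ha hij, g2 * g, G.mul_mem hg2 hg, fun x => by
          rw [Equiv.Perm.mul_apply, hgx, hg2x]; ring⟩)
    obtain ⟨g, hg, hgt⟩ := hσ ![0, 1]
    rw [eq_of_two σ g ⟨Units.mk0 a ha, b, hab⟩ (hG hg) (hgt 0) (hgt 1)]
    exact hg
  · intro σ t
    by_cases h : t 1 = t 0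
    · obtain ⟨g, hg, hgx⟩ := exists_affine (1 : ZMod p) (σ (t 0) - t 0) one_ne_zero
      refine ⟨g, hg, fun i => ?_⟩
      have : t i = t 0 := by fin_cases i; exacts [rfl, h]
      rw [this, hgx]; ring
    · have h1 : t 1 - t 0 ≠ 0 := sub_ne_zero.mpr h
      have h2 : σ (t 1) - σ (t 0) ≠ 0 := sub_ne_zero.mpr (σ.injective.ne h)
      obtain ⟨g, hg, hgx⟩ := exists_affine ((σ (t 1) - σ (t 0)) / (t 1 - t 0))
        (σ (t 0) - (σ (t 1) - σ (t 0)) / (t 1 - t 0) * t 0) (div_ne_zero h2 h1)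
      refine ⟨g, hg, fun i => ?_⟩
      rw [hgx]
      fin_cases i
      · simp
      · change σ (t 1) = _ * t 1 + _
        field_simp
        ring
  · intro σ hσ
    obtain ⟨g0, hg0, h0⟩ := hσ ![0, 1, 0]
    suffices σ = g0 by rw [this]; exact hg0
    ext x
    obtain ⟨g, hg, h⟩ := hσ ![0, 1, x]
    rw [eq_of_two g0 g hg0 hg ((h0 0).symm.trans (h 0)) ((h0 1).symm.trans (h 1))]
    exact h 2

end Cfsg.Agent.S3518
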