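import Cfsg.Statements.S3521
import Cfsg.Agent.ExtPrim.Main

set_option autoImplicit false
open Cfsg

namespace Cfsg.Agent.S3521

/-- Let a finite group G that is not solvable act faithfully and primitively on a finite set with p ^ d points (p prime), with a non-trivial abelian normal subgroup acting regularly (affine type) and with non-trivial point stabilizers each acting primitively on every one of its orbits (an insoluble extremely primitive group of affine type). Then p = 2; and if moreover G is not 2-transitive, then a point stabilizer is almost simple (it has a non-abelian simple normal subgroup with trivial centralizer). -/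
theorem result {G : Type*} [Group G] [Finite G] {Ω : Type*} [Fintype Ω] [MulAction G Ω] [FaithfulSMul G Ω] (p d : ℕ) (hp : p.Prime) (hcard : Fintype.card Ω = p ^ d) (hsol : ¬ Group.IsSolvable G)
    (N : Subgroup G) [N.Normal] (hN : N ≠ ⊥) (hNc : IsMulCommutative N) (hNreg : ∀ ω : Ω, MulAction.stabilizer N ω = ⊥)
    (hprim : MulAction.IsPreprimitive G Ω) (hH : ∀ α : Ω, MulAction.stabilizer G α ≠ ⊥) (hep : ∀ (α : Ω) (ω : Ω), MulAction.IsPreprimitive (MulAction.stabilizer G α) (MulAction.orbit (MulAction.stabilizer G α) ω)) (α : Ω) :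
    p = 2 ∧ (¬ MulAction.IsMultiplyPretransitive G Ω 2 → ∃ T : Subgroup (MulAction.stabilizer G α), T.Normal ∧ IsSimpleGroup T ∧ ¬ IsMulCommutative T ∧ Subgroup.centralizer (T : Set (MulAction.stabilizer G α)) = ⊥) := by
  classical
  letI : CommGroup N := { (inferInstance : Group N) with mul_comm := fun a b => hNc.is_comm.comm a b }
  have htr : ∀ W : Subgroup G, W.Normal → W ≠ ⊥ → ∀ ω : Ω, ∃ w ∈ W, w • α = ω := by
    intro W hW hne ω
    haveI : MulAction.IsPretransitive W Ω := by
      apply MulAction.IsQuasiPreprimitive.isPretransitive_of_normal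
      intro e
      apply hne
      rw [eq_bot_iff]
      intro w hw
      refine FaithfulSMul.eq_of_smul_eq_smul (α := Ω) fun x => ?_
      have : x ∈ MulAction.fixedPoints W Ω := e ▸ Set.mem_univ x
      rw [one_smul]
      exact this ⟨w, hw⟩
    obtain ⟨w, hw⟩ := MulAction.exists_smul_eq W α ω
    exact ⟨w, w.2, hw⟩
  have hinj : ∀ n ∈ N, ∀ m ∈ N, n • α = m • α → n = m := by
    intro n hn m hm e
    have : (⟨m⁻¹ * n, N.mul_mem (N.inv_mem hm) hn⟩ : N) ∈ MulAction.stabilizer N α := by
      show (m⁻¹ * n) • α = α
      rw [mul_smul, e, inv_smul_smul]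
    rw [hNreg, Subgroup.mem_bot] at this
    exact (inv_mul_eq_one.mp (congrArg Subtype.val this)).symm
  have hdec : ∀ g : G, ∃ n ∈ N, ∃ h ∈ MulAction.stabilizer G α, g = n * h := by
    intro g
    obtain ⟨n, hn, e⟩ := htr N inferInstance hN (g • α)
    refine ⟨n, hn, n⁻¹ * g, ?_, by group⟩
    rw [MulAction.mem_stabilizer_iff, mul_smul, ← e, inv_smul_smul]
  letI : DistribMulAction (MulAction.stabilizer G α) (Additive N) :=
    { smul := fun h v => Additive.ofMul ⟨h * (v.toMul : N) * (h : G)⁻¹,
        Subgroup.Normal.conj_mem inferInstance _ v.toMul.2 _⟩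
      one_smul := fun v => Subtype.ext (by
        show ((1 : MulAction.stabilizer G α) : G) * (v.toMul : N) *
          ((1 : MulAction.stabilizer G α) : G)⁻¹ = (v.toMul : N)
        simp)
      mul_smul := fun a b v => Subtype.ext (by
        show ((a * b : MulAction.stabilizer G α) : G) * (v.toMul : N) *
          ((a * b : MulAction.stabilizer G α) : G)⁻¹ =
          a * (b * (v.toMul : N) * (b : G)⁻¹) * (a : G)⁻¹
        rw [Subgroup.coe_mul]; group)
      smul_zero := fun a => Subtype.ext (by
        show (a : G) * 1 * (a : G)⁻¹ = 1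
        simp)
      smul_add := fun a v w => Subtype.ext (by
        show (a : G) * ((v.toMul : N) * (w.toMul : N)) * (a : G)⁻¹ =
          a * (v.toMul : N) * (a : G)⁻¹ * (a * (w.toMul : N) * (a : G)⁻¹)
        group) }
  have hsm : ∀ (h : MulAction.stabilizer G α) (v : Additive N),
      ((h • v).toMul : G) = h * (v.toMul : N) * (h : G)⁻¹ := fun _ _ => rfl
  have hact : ∀ (h : MulAction.stabilizer G α) (v : Additive N),
      ((h • v).toMul : G) • α = h • ((v.toMul : G) • α) := by
    intro h v
    have h1 : (h : G) • α = α := h.2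
    rw [hsm, mul_smul, mul_smul, inv_smul_eq_iff.mpr h1.symm]
    rfl
  have hst : ∀ v : Additive N, MulAction.stabilizer (MulAction.stabilizer G α) v =
      MulAction.stabilizer (MulAction.stabilizer G α) ((v.toMul : G) • α) := by
    intro v
    ext h
    rw [MulAction.mem_stabilizer_iff, MulAction.mem_stabilizer_iff, ← hact]
    constructor
    · intro e; rw [e]
    · intro e
      exact Subtype.ext (hinj _ (h • v).toMul.2 _ v.toMul.2 e)
  haveI : Nontrivial N := (Subgroup.nontrivial_iff_ne_bot N).mpr hN
  have hs : ¬ Group.IsSolvable (MulAction.stabilizer G α) := by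
    intro hs
    apply hsol
    haveI : Group.IsSolvable (G ⧸ N) := by
      refine Group.isSolvable_of_surjective
        (f := (QuotientGroup.mk' N).comp (MulAction.stabilizer G α).subtype) ?_
      intro q
      obtain ⟨g, rfl⟩ := QuotientGroup.mk'_surjective N q
      obtain ⟨n, hn, h, hh, rfl⟩ := hdec g
      refine ⟨⟨h, hh⟩, ?_⟩
      simp [(QuotientGroup.eq_one_iff n).mpr hn]
    exact Group.isSolvable_of_ker_le_range N.subtype (QuotientGroup.mk' N) (by simp)
  have key : (∀ v : Additive N, v + v = 0) ∧ ∃ T : Subgroup (MulAction.stabilizer G α),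
      T.Normal ∧ IsSimpleGroup T ∧ ¬ IsMulCommutative T ∧
        Subgroup.centralizer (T : Set (MulAction.stabilizer G α)) = ⊥ := by
    refine ExtPrim.final (H := MulAction.stabilizer G α) (V := Additive N) ?_ ?_ ?_ hs
    · intro W hW
      let W' : Subgroup G := (AddSubgroup.toSubgroup' W).map N.subtype
      have hmem : ∀ v : Additive N, (v.toMul : G) ∈ W' ↔ v ∈ W := by
        intro v
        constructor
        · rintro ⟨w, hw, e⟩
          have : w = v.toMul := Subtype.ext e
          subst this
          exact hw
        · intro hv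
          exact ⟨v.toMul, hv, rfl⟩
      have hn : W'.Normal := ⟨by
        rintro _ ⟨w, hw, rfl⟩ g
        obtain ⟨n, hn, h, hh, rfl⟩ := hdec g
        have h1 := (hmem _).mpr (hW ⟨h, hh⟩ (Additive.ofMul w) hw)
        rw [hsm] at h1
        have h2 : h * (w : G) * h⁻¹ ∈ N := Subgroup.Normal.conj_mem inferInstance _ w.2 _
        have h3 : n * (h * (w : G) * h⁻¹) = (h * (w : G) * h⁻¹) * n :=
          congrArg Subtype.val (hNc.is_comm.comm (⟨n, hn⟩ : N) ⟨_, h2⟩)
        have : n * h * N.subtype w * (n * h)⁻¹ = h * (w : G) * h⁻¹ := by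
          calc n * h * N.subtype w * (n * h)⁻¹ = n * (h * (w : G) * h⁻¹) * n⁻¹ := by
                simp only [Subgroup.coe_subtype]; group
            _ = h * (w : G) * h⁻¹ := by rw [h3]; group
        rw [this]
        exact h1⟩
      by_cases hb : W' = ⊥
      · left
        rw [eq_bot_iff]
        intro v hv
        have := (hmem v).mpr hv
        rw [hb, Subgroup.mem_bot] at this
        exact Subtype.ext this
      · right
        rw [eq_top_iff]
        intro v _
        obtain ⟨w, hw, e⟩ := htr W' hn hb ((v.toMul : G) • α)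
        have hwN : w ∈ N := by
          obtain ⟨u, -, rfl⟩ := hw
          exact u.2
        rw [← hmem, ← hinj _ hwN _ v.toMul.2 e]
        exact hw
    · intro h hh
      apply Subtype.ext
      refine FaithfulSMul.eq_of_smul_eq_smul (α := Ω) fun ω => ?_
      obtain ⟨n, hn, rfl⟩ := htr N inferInstance hN ω
      have := hact h (Additive.ofMul ⟨n, hn⟩)
      rw [hh] at this
      rw [OneMemClass.coe_one, one_smul]
      exact this.symm
    · intro v hv
      rw [hst] at hv ⊢
      set ω := (v.toMul : G) • α
      haveI := hep α ω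
      haveI : Nontrivial (MulAction.orbit (MulAction.stabilizer G α) ω) := by
        by_contra hnt
        apply hv
        rw [eq_top_iff]
        intro h _
        rw [not_nontrivial_iff_subsingleton] at hnt
        exact congrArg Subtype.val (Subsingleton.elim
          (⟨h • ω, MulAction.mem_orbit ω h⟩ : MulAction.orbit (MulAction.stabilizer G α) ω)
          ⟨ω, MulAction.mem_orbit_self ω⟩)
      have := MulAction.IsPreprimitive.isCoatom_stabilizer_of_isPreprimitive
        (MulAction.stabilizer G α)
        (⟨ω, MulAction.mem_orbit_self ω⟩ : MulAction.orbit (MulAction.stabilizer G α) ω)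
      convert this using 1
      ext h
      rw [MulAction.mem_stabilizer_iff, MulAction.mem_stabilizer_iff, Subtype.ext_iff]
      rfl
  obtain ⟨h2, hT⟩ := key
  refine ⟨?_, fun _ => hT⟩
  obtain ⟨v, hv⟩ := exists_ne (1 : N)
  have ho : orderOf v = 2 := orderOf_eq_prime (by
    rw [pow_two]; exact h2 (Additive.ofMul v)) hv
  have hc : Nat.card N = p ^ d := by
    rw [← hcard, ← Nat.card_eq_fintype_card]
    refine Nat.card_eq_of_bijective (fun n : N => (n : G) • α) ⟨fun n m e => ?_, fun ω => ?_⟩
    · exact Subtype.ext (hinj _ n.2 _ m.2 e)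
    · obtain ⟨n, hn, e⟩ := htr N inferInstance hN ω
      exact ⟨⟨n, hn⟩, e⟩
  have := orderOf_dvd_natCard v
  rw [ho, hc] at this
  exact ((Nat.prime_dvd_prime_iff_eq Nat.prime_two hp).mp
    (Nat.prime_two.dvd_of_dvd_pow this)).symm

end Cfsg.Agent.S3521
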