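import Cfsg.Statements.S3532
import Cfsg.Agent.Spec.SL2Aff

set_option autoImplicit false
open Cfsg

namespace Cfsg.Agent.S3532

/-- Let q ≥ 4 be a prime power and L = PSL(2,q). There is a finite solvable group with the same set of element orders as L × L (so L × L is not determined by its spectrum). -/
theorem result {F : Type*} [Field F] [Fintype F] (hF : 4 ≤ Fintype.card F) :
    ∃ (H : Type) (_ : Group H) (_ : Finite H), Group.IsSolvable H ∧
      Set.range (orderOf : H → ℕ) = Set.range (orderOf : Matrix.ProjectiveSpecialLinearGroup (Fin 2) F × Matrix.ProjectiveSpecialLinearGroup (Fin 2) F → ℕ) := by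
  obtain ⟨p, hp⟩ := CharP.exists F
  obtain ⟨n, hpp, hn⟩ := FiniteField.card F p
  have hq := Cfsg.Agent.Spec.card_sub_one_add_one (F := F)
  set q := Fintype.card F with hqdef
  set d := Nat.gcd 2 (q - 1) with hd
  have hd2 : d ∣ 2 := Nat.gcd_dvd_left _ _
  have hdm : d ∣ q - 1 := Nat.gcd_dvd_right _ _
  have hdp : d ∣ q + 1 := by
    have : q + 1 = q - 1 + 2 := by omega
    rw [this]; exact dvd_add hdm hd2
  have hdle : d ≤ 2 := Nat.le_of_dvd two_pos hd2
  have hdpos : 0 < d := Nat.pos_of_dvd_of_pos hd2 two_pos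
  have hpq : p ∣ q := by rw [hn]; exact dvd_pow_self p n.ne_zero
  have hca : Nat.Coprime p ((q - 1) / d) := by
    apply Nat.Coprime.coprime_dvd_right (Nat.div_dvd_of_dvd hdm)
    rw [hpp.coprime_iff_not_dvd]
    intro h
    rw [← hq] at hpq
    exact hpp.one_lt.ne' (Nat.dvd_one.1 ((Nat.dvd_add_right h).1 hpq))
  have hcb : Nat.Coprime p ((q + 1) / d) := by
    apply Nat.Coprime.coprime_dvd_right (Nat.div_dvd_of_dvd hdp)
    rw [hpp.coprime_iff_not_dvd]
    intro h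
    exact hpp.one_lt.ne' (Nat.dvd_one.1 ((Nat.dvd_add_right hpq).1 h))
  have hab : Nat.Coprime ((q - 1) / d) ((q + 1) / d) := by
    have := Nat.coprime_div_gcd_div_gcd (m := q - 1) (n := q + 1) (Nat.gcd_pos_of_pos_right _ (by omega))
    have e : Nat.gcd (q - 1) (q + 1) = d := by
      have : q + 1 = 2 + (q - 1) := by omega
      rw [this, Nat.gcd_add_self_right, Nat.gcd_comm]
    rwa [e] at this
  obtain ⟨A, _, _, hA, sA⟩ := Cfsg.Agent.Spec.exists_solvable_spec_frob p ((q - 1) / d) hpp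
    (Nat.div_pos (by omega) hdpos).ne' hca
  obtain ⟨B, _, _, hB, sB⟩ := Cfsg.Agent.Spec.exists_solvable_spec_frob p ((q + 1) / d) hpp
    (Nat.div_pos (by omega) hdpos).ne' hcb
  refine ⟨A × B, inferInstance, inferInstance, inferInstance, ?_⟩
  ext m
  rw [Cfsg.Agent.Spec.mem_spec_prod, Cfsg.Agent.Spec.mem_spec_prod, sA, sB,
    Cfsg.Agent.Spec.spec_psl2 p, ← hqdef, ← hd]
  simp only [Set.mem_ofPred_eq]
  constructor
  · rintro ⟨x, hx, y, hy, rfl⟩
    exact ⟨x, by tauto, y, by tauto, rfl⟩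
  · rintro ⟨x, hx | hx | hx, y, hy | hy | hy, rfl⟩
    · exact ⟨x, Or.inl hx, y, Or.inl hy, rfl⟩
    · exact ⟨y, Or.inr hy, x, Or.inl hx, Nat.lcm_comm _ _⟩
    · exact ⟨x, Or.inl hx, y, Or.inr hy, rfl⟩
    · exact ⟨x, Or.inr hx, y, Or.inl hy, rfl⟩
    · exact ⟨_, Or.inr (Nat.lcm_dvd hx hy), 1, Or.inl (one_dvd _), (Nat.lcm_one_right _).symm⟩
    · exact ⟨x, Or.inr hx, y, Or.inr hy, rfl⟩
    · exact ⟨y, Or.inl hy, x, Or.inr hx, Nat.lcm_comm _ _⟩
    · exact ⟨y, Or.inr hy, x, Or.inr hx, Nat.lcm_comm _ _⟩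
    · exact ⟨1, Or.inl (one_dvd _), _, Or.inr (Nat.lcm_dvd hx hy), (Nat.lcm_one_left _).symm⟩

end Cfsg.Agent.S3532
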