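import Cfsg.Statements.S3547
import Cfsg.Agent.Perm1.Count

set_option autoImplicit false
open Cfsg

namespace Cfsg.Agent.S3547

/-- Let G act faithfully and transitively on a finite set Ω, let D be the subgroup generated by the derangements, and let r_G and r_D be the numbers of orbits of G and of D on ordered pairs of points (the permutation ranks). Then r_D − 1 = (r_G − 1)·[G : D]. -/
theorem result {G Ω : Type*} [Group G] [Finite G] [MulAction G Ω] [FaithfulSMul G Ω] [Finite Ω]
    (htrans : MulAction.IsPretransitive G Ω) :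
    Nat.card (MulAction.orbitRel.Quotient ↥(Subgroup.closure {g : G | ∀ ω : Ω, g • ω ≠ ω}) (Ω × Ω)) - 1 =
      (Nat.card (MulAction.orbitRel.Quotient G (Ω × Ω)) - 1) * (Subgroup.closure {g : G | ∀ ω : Ω, g • ω ≠ ω}).index := by
  classical
  set D := Subgroup.closure {g : G | ∀ ω : Ω, g • ω ≠ ω} with hD
  have key := (Perm1.derangement_subgroup htrans D (fun g hg => Subgroup.subset_closure hg)).2
  have := Fintype.ofFinite G
  have h1 := Perm1.sum_fixedBy G (Ω × Ω)
  rw [← Finset.sum_filter_add_sum_filter_not Finset.univ (· ∈ D), Perm1.sum_fixedBy_subgroup] at h1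
  have h2 : ∑ g ∈ Finset.univ.filter (fun g => ¬ g ∈ D), Nat.card (MulAction.fixedBy (Ω × Ω) g) =
      (Finset.univ.filter (fun g => ¬ g ∈ D)).card := by
    rw [Finset.card_eq_sum_ones]
    apply Finset.sum_congr rfl
    intro g hg
    have hg' : g ∉ D := by simpa using hg
    have : Nat.card (MulAction.fixedBy Ω g) = 1 := by
      by_contra hne; exact hg' (key g hne)
    rw [Perm1.card_fixedBy_prod, this]
  have h3 : (Finset.univ.filter (· ∈ D)).card + (Finset.univ.filter (fun g => ¬ g ∈ D)).card = Nat.card G := by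
    rw [Finset.card_filter_add_card_filter_not, Finset.card_univ, Nat.card_eq_fintype_card]
  have h4 : (Finset.univ.filter (· ∈ D)).card = Nat.card D := by
    rw [Nat.card_eq_fintype_card, Fintype.card_subtype]
  have h5 := D.card_mul_index
  have h6 : 0 < Nat.card D := Nat.card_pos
  rw [h2] at h1
  rcases isEmpty_or_nonempty Ω with hΩ | hΩ
  · have e1 : IsEmpty (MulAction.orbitRel.Quotient D (Ω × Ω)) := ⟨fun q => Quotient.inductionOn q (fun a => isEmptyElim a)⟩
    have e2 : IsEmpty (MulAction.orbitRel.Quotient G (Ω × Ω)) := ⟨fun q => Quotient.inductionOn q (fun a => isEmptyElim a)⟩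
    simp
  have h7 : 0 < Nat.card (MulAction.orbitRel.Quotient D (Ω × Ω)) := by
    have : Nonempty (MulAction.orbitRel.Quotient D (Ω × Ω)) := ⟨Quotient.mk _ (Classical.arbitrary _)⟩
    exact Nat.card_pos
  have h8 : 0 < Nat.card (MulAction.orbitRel.Quotient G (Ω × Ω)) := by
    have : Nonempty (MulAction.orbitRel.Quotient G (Ω × Ω)) := ⟨Quotient.mk _ (Classical.arbitrary _)⟩
    exact Nat.card_pos
  obtain ⟨a, ha⟩ : ∃ a, Nat.card (MulAction.orbitRel.Quotient D (Ω × Ω)) = a + 1 := ⟨_, (Nat.succ_pred_eq_of_pos h7).symm⟩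
  obtain ⟨b, hb⟩ : ∃ b, Nat.card (MulAction.orbitRel.Quotient G (Ω × Ω)) = b + 1 := ⟨_, (Nat.succ_pred_eq_of_pos h8).symm⟩
  rw [ha, hb] at h1
  rw [ha, hb, Nat.add_sub_cancel, Nat.add_sub_cancel]
  apply Nat.eq_of_mul_eq_mul_left h6
  rw [h4] at h3
  have : Nat.card D * (b * D.index) = b * Nat.card G := by rw [← h5]; ring
  rw [this]
  nlinarith

end Cfsg.Agent.S3547
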