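import Cfsg.Statements.S3548
import Cfsg.Agent.Char.PermTools
import Cfsg.Agent.Local.Derange

set_option autoImplicit false
open Cfsg

namespace Cfsg.Agent.S3548

/-- Let G act faithfully and transitively on a finite set with n ≥ 2 points and let D be the subgroup generated by the derangements. Then the index of D in G divides n − 1, and if it equals n − 1 then n is a prime power. -/
theorem result {G Ω : Type*} [Group G] [Finite G] [MulAction G Ω] [FaithfulSMul G Ω] [Finite Ω]
    (htrans : MulAction.IsPretransitive G Ω) (hΩ : 2 ≤ Nat.card Ω) :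
    (Subgroup.closure {g : G | ∀ ω : Ω, g • ω ≠ ω}).index ∣ Nat.card Ω - 1 ∧
    ((Subgroup.closure {g : G | ∀ ω : Ω, g • ω ≠ ω}).index = Nat.card Ω - 1 → IsPrimePow (Nat.card Ω)) := by
  classical
  set D := Subgroup.closure {g : G | ∀ ω : Ω, g • ω ≠ ω} with hD
  have hne : Nonempty Ω := by
    by_contra h
    rw [not_nonempty_iff] at h
    rw [Nat.card_of_isEmpty] at hΩ
    omega
  obtain ⟨hDt, hDu⟩ := Local.transitive_and_unique_fixed_of_derangements_mem (X := Ω) D
    (fun g hg => by
      by_contra hh
      push Not at hh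
      exact hg (Subgroup.subset_closure hh))
  have hDn : D.Normal := by
    have : D = Subgroup.normalClosure {g : G | ∀ ω : Ω, g • ω ≠ ω} := by
      apply le_antisymm Subgroup.closure_le_normalClosure
      apply (Subgroup.closure_le _).mpr
      intro x hx
      obtain ⟨y, hy, hc⟩ := Group.mem_conjugatesOfSet_iff.mp hx
      obtain ⟨c, rfl⟩ := isConj_iff.mp hc
      apply Subgroup.subset_closure
      intro ω hω
      apply hy (c⁻¹ • ω)
      rw [mul_smul, mul_smul] at hω
      exact eq_inv_smul_iff.mpr hω
    rw [this]; infer_instance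
  obtain ⟨a⟩ := hne
  let H := MulAction.stabilizer G a
  have hrel : D.relIndex H = D.index := by
    have h1 : H ⊔ D = ⊤ := by
      rw [eq_top_iff]
      intro g _
      obtain ⟨x, hx, hxa⟩ := Char.exists_mem_smul_eq hDt a (g • a)
      have : g = x * (x⁻¹ * g) := by group
      rw [this]
      refine Subgroup.mul_mem _ (Subgroup.mem_sup_right hx) (Subgroup.mem_sup_left ?_)
      rw [MulAction.mem_stabilizer_iff, mul_smul, ← hxa, inv_smul_smul]
    rw [← Subgroup.relIndex_sup_right, h1, Subgroup.relIndex_top_right]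
  -- the stabilisers in `H` of the other points lie in `D`
  have hle : ∀ b : Ω, b ≠ a → MulAction.stabilizer H b ≤ D.subgroupOf H := by
    intro b hb x hx
    rw [Subgroup.mem_subgroupOf]
    by_contra hxD
    exact hb (hDu x hxD b a hx x.2)
  have hdvd : ∀ b : Ω, b ≠ a → D.index ∣ (MulAction.stabilizer H b).index := by
    intro b hb
    rw [← hrel]
    exact Subgroup.index_dvd_of_le (hle b hb)
  have hcard : Nat.card (SubMulAction.ofStabilizer G a) = Nat.card Ω - 1 := by
    have := SubMulAction.nat_card_ofStabilizer_add_one_eq G a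
    omega
  have h1 : D.index ∣ Nat.card Ω - 1 := by
    rw [← hcard]
    have := Fintype.ofFinite (MulAction.orbitRel.Quotient H (SubMulAction.ofStabilizer G a))
    rw [Nat.card_congr (MulAction.selfEquivSigmaOrbitsQuotientStabilizer H
      (SubMulAction.ofStabilizer G a)), Nat.card_sigma]
    apply Finset.dvd_sum
    intro q _
    have h3 : MulAction.stabilizer H q.out = MulAction.stabilizer H (q.out : Ω) := by
      ext x
      simp only [MulAction.mem_stabilizer_iff]
      exact Subtype.ext_iff
    have h4 := hdvd (q.out : Ω) ((SubMulAction.mem_ofStabilizer_iff G a).mp q.out.2)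
    rw [← h3] at h4
    exact h4
  refine ⟨h1, fun h2 => ?_⟩
  -- equality: `H` is transitive on the other points and `D` is regular
  have horb : ∀ b : Ω, b ≠ a → (MulAction.orbit H b).ncard = Nat.card Ω - 1 ∧
      MulAction.orbit H b = {a}ᶜ := by
    intro b hb
    have h3 : MulAction.orbit H b ⊆ {a}ᶜ := by
      rintro _ ⟨h, rfl⟩ hh
      apply hb
      have h4 : (h : G) • b = a := hh
      have h5 : (h : G) • a = a := h.2
      exact MulAction.injective (h : G) (h4.trans h5.symm)
    have h4 : ({a}ᶜ : Set Ω).ncard = Nat.card Ω - 1 := by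
      have := Set.ncard_add_ncard_compl ({a} : Set Ω)
      rw [Set.ncard_singleton] at this
      omega
    have h5 := Set.ncard_le_ncard h3
    have h6 := hdvd b hb
    rw [MulAction.index_stabilizer, h2] at h6
    have h7 : 0 < (MulAction.orbit H b).ncard :=
      (Set.ncard_pos (Set.toFinite _)).mpr ⟨b, MulAction.mem_orbit_self b⟩
    have h8 := Nat.le_of_dvd h7 h6
    exact ⟨by omega, Set.eq_of_subset_of_ncard_le h3 (by omega)⟩
  have heq : ∀ b : Ω, b ≠ a → MulAction.stabilizer H b = D.subgroupOf H := by
    intro b hb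
    apply Subgroup.eq_of_le_of_card_ge (hle b hb)
    have h3 := (MulAction.stabilizer H b).card_mul_index
    have h4 := (D.subgroupOf H).card_mul_index
    rw [MulAction.index_stabilizer, (horb b hb).1] at h3
    have h5 : (D.subgroupOf H).index = Nat.card Ω - 1 := by rw [← h2, ← hrel]; rfl
    rw [h5, ← h3] at h4
    exact (Nat.eq_of_mul_eq_mul_right (by omega) h4).le
  have hDa : ∀ x ∈ D, x • a = a → x = 1 := by
    intro x hx hxa
    apply eq_of_smul_eq_smul (α := Ω)
    intro b
    rw [one_smul]
    by_cases hb : b = a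
    · rw [hb, hxa]
    · have : (⟨x, hxa⟩ : H) ∈ MulAction.stabilizer H b := by
        rw [heq b hb]; exact hx
      exact this
  have hreg : ∀ b : Ω, MulAction.stabilizer D b = ⊥ := by
    intro b
    apply Char.stabilizer_eq_bot_of
    intro x hx hxb
    obtain ⟨g, rfl⟩ := MulAction.exists_smul_eq G a b
    have := hDa (g⁻¹ * x * g) (by simpa using hDn.conj_mem x hx g⁻¹)
      (by rw [mul_smul, mul_smul, hxb, inv_smul_smul])
    have h3 : x = g * (g⁻¹ * x * g) * g⁻¹ := by group
    rw [h3, this]; group
  have h2t : MulAction.IsMultiplyPretransitive G Ω 2 := by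
    rw [MulAction.is_two_pretransitive_iff]
    intro b c b' c' hbc hbc'
    obtain ⟨g, hg⟩ := MulAction.exists_smul_eq G b a
    obtain ⟨g', hg'⟩ := MulAction.exists_smul_eq G b' a
    have hc : g • c ≠ a := by rw [← hg]; exact fun h => hbc (MulAction.injective g h).symm
    have hc' : g' • c' ∈ MulAction.orbit H (g • c) := by
      rw [(horb _ hc).2, ← hg']; exact fun h => hbc' (MulAction.injective g' h).symm
    obtain ⟨h, hh⟩ := hc'
    have hha : (h : G) • a = a := h.2
    refine ⟨g'⁻¹ * h * g, ?_, ?_⟩
    · rw [mul_smul, mul_smul, hg, hha, ← hg', inv_smul_smul]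
    · have : (h : G) • g • c = g' • c' := hh
      rw [mul_smul, mul_smul, this, inv_smul_smul]
  have hcD := Char.card_eq_of_regular hDt hreg a
  have hDb : D ≠ ⊥ := by
    intro h; rw [h, Subgroup.card_bot] at hcD; omega
  obtain ⟨p, hp, -, hP, -⟩ := Char.elementary_of_conj hDb (fun x hx y hy hx1 hy1 => by
    obtain ⟨g, -, hg⟩ := Char.conj_of_regular_normal h2t hreg a x hx y hy hx1 hy1
    exact ⟨g, hg⟩)
  have : Fact p.Prime := ⟨hp⟩
  obtain ⟨k, hk⟩ := IsPGroup.iff_card.mp hP
  rw [← hcD, hk]
  refine ⟨p, k, hp.prime, ?_, rfl⟩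
  by_contra h0
  have : k = 0 := by omega
  rw [this, pow_zero] at hk
  omega

end Cfsg.Agent.S3548
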