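import Cfsg.Statements.S3549
import Cfsg.Agent.Local.Derange

set_option autoImplicit false
open Cfsg

namespace Cfsg.Agent.S3549

open Cfsg.Agent.Local MulAction
open scoped Pointwise

/-- Let G act faithfully, transitively but imprimitively on a finite set with n points, and let D be the subgroup generated by the derangements. Then the index of D in G is at most √n − 1. -/
theorem result {G Ω : Type*} [Group G] [Finite G] [MulAction G Ω] [FaithfulSMul G Ω] [Finite Ω]
    (htrans : MulAction.IsPretransitive G Ω) (himp : ¬ MulAction.IsPreprimitive G Ω) :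
    ((Subgroup.closure {g : G | ∀ ω : Ω, g • ω ≠ ω}).index : ℝ) ≤ Real.sqrt (Nat.card Ω) - 1 := by
  set N := Subgroup.closure {g : G | ∀ ω : Ω, g • ω ≠ ω} with hNdef
  have hN : ∀ g : G, g ∉ N → ∃ x : Ω, g • x = x := by
    intro g hg
    by_contra h
    push Not at h
    exact hg (Subgroup.subset_closure h)
  obtain ⟨B, hB, hBt⟩ : ∃ B : Set Ω, IsBlock G B ∧ ¬ IsTrivialBlock B := by
    by_contra h
    push Not at h
    exact himp ⟨fun {B} hB => h B hB⟩
  rw [IsTrivialBlock, not_or, Set.not_subsingleton_iff] at hBt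
  obtain ⟨⟨a, ha, b, hb, hab⟩, hBu⟩ := hBt
  have : Nonempty Ω := ⟨a⟩
  obtain ⟨hNt, hNu⟩ := transitive_and_unique_fixed_of_derangements_mem N hN
  have hA : ∀ g : G, ∃ s ∈ stabilizer G a, s⁻¹ * g ∈ N := by
    intro g
    obtain ⟨n, hn⟩ := hNt.exists_smul_eq a (g⁻¹ • a)
    refine ⟨g * n, ?_, ?_⟩
    · rw [mem_stabilizer_iff, mul_smul]
      have : (n : G) • a = g⁻¹ • a := hn
      rw [this, smul_inv_smul]
    · have : (g * n)⁻¹ * g = (n : G)⁻¹ := by group
      rw [this]; exact N.inv_mem n.2
  have hstab : ∀ s ∈ stabilizer G a, s • B = B := fun s hs => hB.stabilizer_le ha hs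
  have h1 : N.index ≤ (B \ {a}).ncard := by
    refine index_le_ncard_of_unique_fixed N (stabilizer G a) hA hNu a (fun s hs => hs) _ ?_
      (by simp) b ⟨hb, fun h => hab (Set.mem_singleton_iff.1 h).symm⟩
    rintro s hs t ⟨ht, hta⟩
    refine ⟨?_, ?_⟩
    · rw [← hstab s hs]; exact Set.smul_mem_smul_set ht
    · intro h
      apply hta
      rw [Set.mem_singleton_iff] at h ⊢
      have hs' : s • a = a := hs
      rw [← hs'] at h
      exact MulAction.injective s h
  have hfin : Finite (orbit G B) := Set.toFinite _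
  have hne : Nonempty (orbit G B) := ⟨⟨B, mem_orbit_self B⟩⟩
  have hN' : ∀ g : G, g ∉ N → ∃ x : orbit G B, g • x = x := by
    intro g hg
    obtain ⟨x, hx⟩ := hN g hg
    obtain ⟨k, hk⟩ := htrans.exists_smul_eq a x
    refine ⟨⟨k • B, mem_orbit B k⟩, Subtype.ext ?_⟩
    change g • k • B = k • B
    have hxk : x ∈ k • B := hk ▸ Set.smul_mem_smul_set ha
    exact (hB.translate k).stabilizer_le hxk hx
  obtain ⟨-, hNu'⟩ := transitive_and_unique_fixed_of_derangements_mem N hN'
  obtain ⟨c, hc⟩ : ∃ c, c ∉ B := by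
    by_contra h
    push Not at h
    exact hBu (Set.eq_univ_of_forall h)
  obtain ⟨k, hk⟩ := htrans.exists_smul_eq a c
  let B₀ : orbit G B := ⟨B, mem_orbit_self B⟩
  have h2 : N.index ≤ ({B₀}ᶜ : Set (orbit G B)).ncard := by
    refine index_le_ncard_of_unique_fixed N (stabilizer G a) hA hNu' B₀
      (fun s hs => Subtype.ext (hstab s hs)) _ ?_ (by simp) ⟨k • B, mem_orbit B k⟩ ?_
    · intro s hs t ht h
      apply ht
      rw [Set.mem_singleton_iff] at h ⊢
      have hs' : s • B₀ = B₀ := Subtype.ext (hstab s hs)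
      rw [← hs'] at h
      exact MulAction.injective s h
    · intro h
      have : k • B = B := congrArg Subtype.val (Set.mem_singleton_iff.1 h)
      apply hc
      rw [← this, ← hk]
      exact Set.smul_mem_smul_set ha
  have h3 := hB.ncard_block_mul_ncard_orbit_eq ⟨a, ha⟩
  have h4 : (B \ {a}).ncard + 1 = B.ncard := Set.ncard_diff_singleton_add_one ha
  have h5 : ({B₀}ᶜ : Set (orbit G B)).ncard + 1 = (orbit G B).ncard := by
    have := Set.ncard_add_ncard_compl ({B₀} : Set (orbit G B))
    rw [Set.ncard_singleton, Nat.card_coe_set_eq] at this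
    omega
  have h6 : (N.index + 1) ^ 2 ≤ Nat.card Ω := by
    rw [← h3, pow_two]
    exact Nat.mul_le_mul (by omega) (by omega)
  rw [le_sub_iff_add_le]
  apply Real.le_sqrt_of_sq_le
  exact_mod_cast h6

end Cfsg.Agent.S3549
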