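import Cfsg.Statements.S3550
import Cfsg.Agent.Der.Main
import Cfsg.Agent.Local.Derange

set_option autoImplicit false
open Cfsg

namespace Cfsg.Agent.S3550

/-- Let G act faithfully and primitively on a finite set with n ≥ 2 points and suppose G has no non-trivial abelian normal subgroup (G is not of affine type). Let D be the subgroup generated by the derangements. Then the index of D in G is at most √n − 1. -/
theorem result {G Ω : Type*} [Group G] [Finite G] [MulAction G Ω] [FaithfulSMul G Ω] [Finite Ω]
    (hprim : MulAction.IsPreprimitive G Ω) (hΩ : 2 ≤ Nat.card Ω) (hna : ∀ N : Subgroup G, N.Normal → IsMulCommutative ↥N → N = ⊥) :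
    ((Subgroup.closure {g : G | ∀ ω : Ω, g • ω ≠ ω}).index : ℝ) ≤ Real.sqrt (Nat.card Ω) - 1 := by
  set D := Subgroup.closure {g : G | ∀ ω : Ω, g • ω ≠ ω} with hD
  have hN : ∀ g : G, g ∉ D → ∃ x : Ω, g • x = x := by
    intro g hg
    by_contra h
    push Not at h
    exact hg (Subgroup.subset_closure h)
  have : Nonempty Ω := (Nat.card_pos_iff.1 (by omega)).1
  obtain ⟨h1, h2⟩ := Local.transitive_and_unique_fixed_of_derangements_mem D hN
  have h : Der.DS Ω D := by
    refine ⟨⟨fun n hn g => ?_⟩, fun a b => ?_, fun g x y e e' hne => ?_⟩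
    · refine Subgroup.closure_induction (p := fun n _ => g * n * g⁻¹ ∈ D) (fun x hx => ?_)
        (by simp) (fun x y _ _ hx hy => ?_) (fun x _ hx => ?_) hn
      · refine Subgroup.subset_closure fun ω e => hx (g⁻¹ • ω) ?_
        rw [mul_smul, mul_smul] at e
        exact eq_inv_smul_iff.2 e
      · simpa [mul_assoc] using D.mul_mem hx hy
      · simpa [mul_assoc] using D.inv_mem hx
    · obtain ⟨d, hd⟩ := h1.exists_smul_eq a b
      exact ⟨d, d.2, hd⟩
    · by_contra hg
      exact hne (h2 g hg x y e e')
  rw [le_sub_iff_add_le]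
  apply Real.le_sqrt_of_sq_le
  exact_mod_cast h.main hprim hΩ hna

end Cfsg.Agent.S3550
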