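import Cfsg.Statements.S3559
import Cfsg.Agent.Perm1.SRingCyc

set_option autoImplicit false
open Cfsg

namespace Cfsg.Agent.S3559

/-- Let G act faithfully and transitively on a finite set whose number of points n ≥ 2 is not a prime power, and suppose G has a cyclic subgroup acting regularly (transitively with trivial point stabilizers). Then G is imprimitive or doubly transitive. -/
theorem result {G Ω : Type*} [Group G] [Finite G] [MulAction G Ω] [FaithfulSMul G Ω] [Finite Ω]
    (htrans : MulAction.IsPretransitive G Ω) (hn : 2 ≤ Nat.card Ω) (hnp : ¬ IsPrimePow (Nat.card Ω))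
    (C : Subgroup G) (hcyc : IsCyclic ↥C) (hC : MulAction.IsPretransitive ↥C Ω ∧ ∀ a : Ω, MulAction.stabilizer ↥C a = ⊥) :
    ¬ MulAction.IsPreprimitive G Ω ∨ MulAction.IsMultiplyPretransitive G Ω 2 := by
  classical
  by_cases hprim : MulAction.IsPreprimitive G Ω
  swap
  · exact Or.inl hprim
  right
  have : Nonempty Ω := by
    by_contra h
    rw [not_nonempty_iff] at h
    rw [Nat.card_of_isEmpty] at hn
    omega
  obtain ⟨S, hS⟩ := Perm1.exists_sdata hprim C.subtype (fun a b => hC.1.exists_smul_eq a b)
    (fun d a h => by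
      have : d ∈ MulAction.stabilizer C a := h
      rwa [hC.2 a, Subgroup.mem_bot] at this)
  apply hS
  obtain ⟨a⟩ := this
  have hcard : Nat.card C = Nat.card Ω := by
    have := hC.1
    rw [← MulAction.index_stabilizer_of_transitive C a, hC.2 a, Subgroup.index_bot]
  let _ := Fintype.ofFinite C
  let _ : CommGroup C := IsCyclic.commGroup
  obtain ⟨l, hl, hld⟩ := Nat.exists_prime_and_dvd (n := Fintype.card C)
    (by rw [← Nat.card_eq_fintype_card, hcard]; omega)
  have := Fact.mk hl
  obtain ⟨z, hz⟩ := exists_prime_orderOf_dvd_card l hld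
  refine Perm1.SData.rank_two_of_cyclic S hl hz fun h => hnp ?_
  rw [← hcard, ← Subgroup.card_top, ← h, Nat.card_zpowers, hz]
  exact hl.isPrimePow

end Cfsg.Agent.S3559
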