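import Cfsg.Statements.S3560

set_option autoImplicit false
open Cfsg

namespace Cfsg.Agent.S3560

open MulAction Equiv
open scoped Pointwise

theorem transport {Ω K : Type*} [Finite Ω] [Group K] (G R : Subgroup (Perm Ω)) (hRG : R ≤ G) (eK : R ≃* K)
    (h1 : IsPretransitive R Ω) (h2 : ∀ a : Ω, stabilizer R a = ⊥) (h3 : IsPreprimitive G Ω)
    (h4 : ¬ IsMultiplyPretransitive G Ω 2) :
    ∃ (n : ℕ) (G R : Subgroup (Equiv.Perm (Fin n))), R ≤ G ∧ Nonempty (↥R ≃* K) ∧
      MulAction.IsPretransitive ↥R (Fin n) ∧ (∀ a : Fin n, MulAction.stabilizer ↥R a = ⊥) ∧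
      MulAction.IsPreprimitive ↥G (Fin n) ∧ ¬ MulAction.IsMultiplyPretransitive ↥G (Fin n) 2 := by
  obtain ⟨n, ⟨ε⟩⟩ := Finite.exists_equiv_fin Ω
  let ψ := ε.permCongrHom
  refine ⟨n, G.map ψ.toMonoidHom, R.map ψ.toMonoidHom, Subgroup.map_mono hRG,
    ⟨(ψ.subgroupMap R).symm.trans eK⟩, ⟨fun a b => ?_⟩, fun a => ?_, ?_, fun h => h4 ?_⟩
  · obtain ⟨g, hg⟩ := h1.exists_smul_eq (ε.symm a) (ε.symm b)
    refine ⟨⟨ψ g, Subgroup.mem_map_of_mem _ g.2⟩, ?_⟩
    have hg' : (g : Perm Ω) (ε.symm a) = ε.symm b := hg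
    change ε ((g : Perm Ω) (ε.symm a)) = b
    rw [hg']; simp
  · rw [eq_bot_iff]
    rintro ⟨_, ⟨g, hg, rfl⟩⟩ h
    have h' : ε (g (ε.symm a)) = a := h
    have : (⟨g, hg⟩ : R) ∈ stabilizer R (ε.symm a) := by
      change g (ε.symm a) = ε.symm a
      rw [Equiv.eq_symm_apply, h']
    rw [h2, Subgroup.mem_bot] at this
    have hg1 : g = 1 := congrArg Subtype.val this
    rw [Subgroup.mem_bot]
    apply Subtype.ext
    simp [hg1]
  · let f : Ω →ₑ[(ψ.subgroupMap G : G → G.map ψ.toMonoidHom)] Fin n :=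
      { toFun := ε
        map_smul' := fun g x => by
          change ε ((g : Perm Ω) x) = ε ((g : Perm Ω) (ε.symm (ε x)))
          simp }
    exact IsPreprimitive.of_surjective (f := f) ε.surjective
  · rw [is_two_pretransitive_iff] at h ⊢
    intro a b c d hab hcd
    obtain ⟨⟨_, ⟨g, hg, rfl⟩⟩, h5, h6⟩ := h (ε.injective.ne hab) (ε.injective.ne hcd)
    have h5' : ε (g (ε.symm (ε a))) = ε c := h5
    have h6' : ε (g (ε.symm (ε b))) = ε d := h6
    rw [Equiv.symm_apply_apply, ε.apply_eq_iff_eq] at h5' h6'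
    exact ⟨⟨g, hg⟩, h5', h6'⟩

theorem exists_perm_pair {α : Type*} (a a' b b' : α) (h : a = a' ↔ b = b') :
    ∃ τ : Perm α, τ a = b ∧ τ a' = b' := by
  classical
  by_cases h1 : a = a'
  · subst h1
    rw [← h.mp rfl]
    exact ⟨swap a b, swap_apply_left _ _, swap_apply_left _ _⟩
  · have h2 : b ≠ b' := fun h3 => h1 (h.mpr h3)
    exact (is_two_pretransitive_iff.mp (Equiv.Perm.isMultiplyPretransitive α 2)) h1 h2

/-- The isometry group of the Hamming space. -/
def hammingGroup (ι α : Type*) [Fintype ι] [DecidableEq α] : Subgroup (Perm (ι → α)) where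
  carrier := {σ | ∀ x y, hammingDist (σ x) (σ y) = hammingDist x y}
  one_mem' := fun _ _ => rfl
  mul_mem' := by
    intro σ τ hσ hτ x y
    rw [Perm.mul_apply, Perm.mul_apply, hσ, hτ]
  inv_mem' := by
    intro σ hσ x y
    rw [← hσ]; simp

theorem mem_hamming {ι α : Type*} [Fintype ι] [DecidableEq α] (σ : Perm (ι → α)) (s : Perm ι)
    (τ : ι → Perm α) (h : ∀ z k, σ z k = τ k (z (s k))) : σ ∈ hammingGroup ι α := by
  intro x y
  simp only [hammingDist, h]
  apply Finset.card_bij (fun k _ => s k)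
  · intro k hk; simpa using hk
  · intro k _ l _ h; exact s.injective h
  · intro k hk
    exact ⟨s.symm k, by simpa using hk, by simp⟩

theorem exists_hamming {ι α : Type*} [Fintype ι] [DecidableEq α] (x x' y y' : ι → α) (s : Perm ι)
    (h : ∀ k, x (s k) = x' (s k) ↔ y k = y' k) :
    ∃ g : hammingGroup ι α, g • x = y ∧ g • x' = y' := by
  choose τ h1 h2 using fun k => exists_perm_pair _ _ _ _ (h k)
  let σ : Perm (ι → α) :=
    { toFun := fun z k => τ k (z (s k))
      invFun := fun z k => (τ (s.symm k)).symm (z (s.symm k))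
      left_inv := fun z => by ext k; simp
      right_inv := fun z => by ext k; simp }
  exact ⟨⟨σ, mem_hamming σ s τ (fun _ _ => rfl)⟩, funext h1, funext h2⟩

theorem hamming_primitive {ι α : Type*} [Fintype ι] [DecidableEq α] [Fintype α] (h3 : 3 ≤ Fintype.card α) :
    IsPreprimitive (hammingGroup ι α) (ι → α) := by
  classical
  have htr : IsPretransitive (hammingGroup ι α) (ι → α) := ⟨fun x y => by
    obtain ⟨g, hg, -⟩ := exists_hamming x x y y 1 (by simp)
    exact ⟨g, hg⟩⟩
  refine ⟨fun {B} hB => ?_⟩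
  by_cases hsub : B.Subsingleton
  · exact Or.inl hsub
  right
  obtain ⟨x, hx, y, hy, hxy⟩ := Set.not_subsingleton_iff.mp hsub
  obtain ⟨i, hi⟩ := Function.ne_iff.mp hxy
  obtain ⟨c, hc1, hc2⟩ : ∃ c : α, c ≠ x i ∧ c ≠ y i := by
    have h4 : ({x i, y i} : Finset α).card < Fintype.card α := lt_of_le_of_lt Finset.card_le_two (by omega)
    obtain ⟨c, -, hc⟩ := Finset.exists_mem_notMem_of_card_lt_card (t := Finset.univ) h4
    exact ⟨c, by simpa using hc⟩
  have hy' : Function.update y i c ∈ B := by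
    obtain ⟨g, hg1, hg2⟩ := exists_hamming x y x (Function.update y i c) 1 (by
      intro k
      by_cases hk : k = i
      · subst hk; simp [hi, hc1.symm]
      · simp [hk])
    rw [← hg2, ← hB.smul_eq_of_mem hx (by rwa [hg1])]
    exact Set.smul_mem_smul_set hy
  have hstep : ∀ u ∈ B, ∀ j d, Function.update u j d ∈ B := by
    intro u hu j d
    by_cases hd : d = u j
    · rw [hd, Function.update_eq_self]; exact hu
    obtain ⟨g, hg1, hg2⟩ := exists_hamming y (Function.update y i c) u (Function.update u j d) (swap i j) (by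
      intro k
      by_cases hk : k = j
      · subst hk; simp [hc2.symm, Ne.symm hd]
      · have : swap i j k ≠ i := by
          intro h
          rw [swap_apply_eq_iff, swap_apply_left] at h
          exact hk h
        simp [hk, this])
    rw [← hg2, ← hB.smul_eq_of_mem hy (by rwa [hg1])]
    exact Set.smul_mem_smul_set hy'
  rw [Set.eq_univ_iff_forall]
  intro v
  have : ∀ s : Finset ι, s.piecewise v x ∈ B := by
    intro s
    induction s using Finset.induction_on with
    | empty => simpa using hx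
    | insert j s hj ih => rw [Finset.piecewise_insert]; exact hstep _ ih _ _
  simpa using this Finset.univ

theorem hamming_not_two {ι α : Type*} [Fintype ι] [DecidableEq α] [Nontrivial α] (h2 : 2 ≤ Fintype.card ι) :
    ¬ IsMultiplyPretransitive (hammingGroup ι α) (ι → α) 2 := by
  classical
  intro h
  rw [is_two_pretransitive_iff] at h
  obtain ⟨a, b, hab⟩ := exists_pair_ne α
  obtain ⟨i⟩ : Nonempty ι := Fintype.card_pos_iff.mp (by omega)
  obtain ⟨g, h1, h3⟩ := @h (fun _ => a) (fun _ => b) (fun _ => a) (Function.update (fun _ => a) i b)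
    (fun h => hab (congrFun h i)) (fun h => hab (by simpa using congrFun h i))
  have h4 := g.2 (fun _ => a) (fun _ => b)
  have h1' : (g : Perm (ι → α)) (fun _ => a) = fun _ => a := h1
  have h3' : (g : Perm (ι → α)) (fun _ => b) = Function.update (fun _ => a) i b := h3
  rw [h1', h3'] at h4
  have e1 : hammingDist (fun _ : ι => a) (fun _ => b) = Fintype.card ι := by
    simp [hammingDist, hab]
  have e2 : hammingDist (fun _ : ι => a) (Function.update (fun _ => a) i b) ≤ 1 := by
    have : Nonempty ι := ⟨i⟩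
    rw [hammingDist, Finset.card_le_one_iff_subset_singleton]
    refine ⟨i, fun k hk => ?_⟩
    by_contra hki
    have hki' : k ≠ i := by simpa using hki
    simp [hki'] at hk
  omega


/-- Let K be a finite group isomorphic to a direct product of r ≥ 2 groups all of the same order m ≥ 3. Then K is not a B-group: there is a primitive but not doubly transitive permutation group (on some finite set) containing a regular subgroup isomorphic to K. -/
theorem result {K : Type*} [Group K] [Finite K] {ι : Type*} [Fintype ι] (F : ι → Type*) [∀ i, Group (F i)]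
    (hr : 2 ≤ Fintype.card ι) (m : ℕ) (hm : 3 ≤ m) (hcard : ∀ i, Nat.card (F i) = m) (e : K ≃* (∀ i, F i)) :
    ∃ (n : ℕ) (G R : Subgroup (Equiv.Perm (Fin n))), R ≤ G ∧ Nonempty (↥R ≃* K) ∧
      MulAction.IsPretransitive ↥R (Fin n) ∧ (∀ a : Fin n, MulAction.stabilizer ↥R a = ⊥) ∧
      MulAction.IsPreprimitive ↥G (Fin n) ∧ ¬ MulAction.IsMultiplyPretransitive ↥G (Fin n) 2 := by
  classical
  have hc : ∀ i, Nonempty (F i ≃ Fin m) := by
    intro i
    have : Finite (F i) := Nat.finite_of_card_ne_zero (by rw [hcard]; omega)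
    exact ⟨Finite.equivFinOfCardEq (hcard i)⟩
  let c := fun i => (hc i).some
  let E : K ≃ (ι → Fin m) := e.toEquiv.trans (Equiv.piCongrRight c)
  let ρ : K →* Perm (ι → Fin m) := E.permCongrHom.toMonoidHom.comp (MulAction.toPermHom K K)
  have hρ : ∀ k z, ρ k z = E (k * E.symm z) := fun _ _ => rfl
  have hinj : Function.Injective ρ := by
    rw [injective_iff_map_eq_one]
    intro k hk
    have := hρ k (E 1)
    rw [hk] at this
    simpa using this.symm
  have : Nontrivial (Fin m) := Fin.nontrivial_iff_two_le.mpr (by omega)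
  apply transport (hammingGroup ι (Fin m)) ρ.range ?_ (MonoidHom.ofInjective hinj).symm ⟨fun x y => ?_⟩
    (fun x => ?_) (hamming_primitive (by simpa using hm)) (hamming_not_two hr)
  · rintro _ ⟨k, rfl⟩
    apply mem_hamming _ 1 (fun i => (c i).permCongr (Equiv.mulLeft (e k i)))
    intro z i
    rw [hρ]
    simp [E]
  · refine ⟨⟨ρ (E.symm y * (E.symm x)⁻¹), ⟨_, rfl⟩⟩, ?_⟩
    change ρ _ x = y
    rw [hρ]; simp
  · rw [eq_bot_iff]
    rintro ⟨_, ⟨k, rfl⟩⟩ h
    have h' : ρ k x = x := h
    rw [hρ, ← Equiv.eq_symm_apply, mul_eq_right] at h'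
    rw [Subgroup.mem_bot]
    apply Subtype.ext
    simp [h']

end Cfsg.Agent.S3560
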