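import Cfsg.Statements.S3571
import Cfsg.Agent.Perm1.Sylvester
import Cfsg.Agent.Perm1.JordanCycle
import Cfsg.Agent.Perm1.Subsets
import Cfsg.Agent.Perm1.PGroup
import Cfsg.Agent.LinP.OrderPR

set_option autoImplicit false
open Cfsg

namespace Cfsg.Agent.S3571

open Equiv MulAction Perm1

theorem prim_of_cycle {α : Type*} [Fintype α] [DecidableEq α] {G : Subgroup (Perm α)}
    [IsPretransitive G α] {p : ℕ} (hp : p.Prime) (hp' : Nat.card α < 2 * p) {c : Perm α}
    (hc : c.IsCycle) (hcp : c.support.card = p) (hcG : c ∈ G) : IsPreprimitive G α := by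
  set Δ : Set α := (c.support : Set α)ᶜ with hΔ
  have htr := Perm.isPretransitive_of_isCycle_mem hc hcG
  have hcard : Nat.card (SubMulAction.ofFixingSubgroup G Δ) = p := by
    rw [← hcp, ← Set.ncard_coe_finset, ← Nat.card_coe_set_eq]
    exact Nat.card_congr (Equiv.subtypeEquivRight (fun x => by
      simp [SubMulAction.mem_ofFixingSubgroup_iff, hΔ]))
  have hprim : IsPreprimitive (fixingSubgroup G Δ) (SubMulAction.ofFixingSubgroup G Δ) := by
    apply IsPreprimitive.of_prime_card
    rwa [hcard]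
  apply IsPreprimitive.of_card_lt (f := SubMulAction.ofFixingSubgroup_equivariantMap G Δ)
  rw [Set.ncard_range_of_injective SubMulAction.ofFixingSubgroup_equivariantMap_injective, hcard]
  exact hp'

/-- restriction of `H` to an invariant finset. -/
def res {α : Type*} (H : Subgroup (Perm α)) (O : Finset α) (hO : ∀ h ∈ H, ∀ x, h x ∈ O ↔ x ∈ O) :
    H →* Perm O where
  toFun h := (h : Perm α).subtypePerm (hO h h.2)
  map_one' := by ext x; simp
  map_mul' a b := by ext x; rfl

theorem card_support_res {α : Type*} [Fintype α] [DecidableEq α] (H : Subgroup (Perm α)) (O : Finset α)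
    (hO : ∀ h ∈ H, ∀ x, h x ∈ O ↔ x ∈ O) (h : H) (hs : ∀ x, x ∉ O → (h : Perm α) x = x) :
    (res H O hO h).support.card = (h : Perm α).support.card := by
  apply Finset.card_bij (fun (x : O) _ => (x : α))
  · intro x hx
    rw [Perm.mem_support] at hx ⊢
    intro hh
    exact hx (Subtype.ext hh)
  · intro a _ b _ hab
    exact Subtype.ext hab
  · intro b hb
    rw [Perm.mem_support] at hb
    have hbO : b ∈ O := by
      by_contra hh
      exact hb (hs b hh)
    refine ⟨⟨b, hbO⟩, ?_, rfl⟩
    rw [Perm.mem_support]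
    intro hh
    exact hb (congrArg Subtype.val hh)

theorem alt_main {α : Type*} [Fintype α] [DecidableEq α] (hm : 5 ≤ Fintype.card α)
    (H : Subgroup (Perm α)) (N : ℕ) (hN : 2 * (N * Nat.card H) = (Fintype.card α).factorial)
    {r : ℕ} (hr : r.Prime) (hr2 : r ≠ 2) (hrd : r ∣ N) (hmax : ∀ s : ℕ, s.Prime → s ∣ N → s ≤ r)
    (hall : ∀ σ : Perm α, orderOf σ = r → ∃ τ : Perm α, τ * σ * τ⁻¹ ∈ H) : False := by
  set m := Fintype.card α with hmdef
  have hr3 : 3 ≤ r := by have := hr.two_le; omega
  have hrm : r ≤ m := by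
    rw [← hr.dvd_factorial, ← hN]
    exact (hrd.mul_right _).mul_left _
  have hex : ∀ c, c ≠ 0 → c * r ≤ m → ∃ h ∈ H, h ^ r = 1 ∧ h.support.card = c * r := by
    intro c hc hcr
    obtain ⟨σ, h1, h2⟩ := exists_perm_pow_eq_one α hr c hcr
    have h3 := orderOf_eq_of_pow_eq_one hr h1 (by rw [h2]; exact mul_ne_zero hc hr.ne_zero)
    obtain ⟨τ, hτ⟩ := hall σ h3
    refine ⟨_, hτ, ?_, ?_⟩
    · rw [conj_pow, h1]; simp
    · rw [Perm.card_support_conj, h2]
  obtain ⟨y, hyH, hy1, hy2⟩ := hex 1 one_ne_zero (by omega)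
  rw [one_mul] at hy2
  have hyo := orderOf_eq_of_pow_eq_one hr hy1 (by omega)
  rcases lt_or_ge m (2 * r) with hlt | hge
  · apply LinP.not_sq_dvd_factorial hr hlt
    rw [← hN, pow_two]
    refine Dvd.dvd.mul_left (mul_dvd_mul hrd ?_) _
    rw [← hyo]
    exact Subgroup.orderOf_dvd_natCard H hyH
  obtain ⟨x, hxH, hx1, hx2⟩ := hex 2 two_ne_zero hge
  obtain ⟨s, hs, hs1, hs2⟩ := Nat.exists_prime_lt_and_le_two_mul (m / 2) (by omega)
  have hsH : s ∣ Nat.card H := by
    have h1 : s ∣ 2 * (N * Nat.card H) := by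
      rw [hN, hs.dvd_factorial]; omega
    rcases (Nat.Prime.dvd_mul hs).mp h1 with h2 | h2
    · have := Nat.le_of_dvd two_pos h2; omega
    rcases (Nat.Prime.dvd_mul hs).mp h2 with h3 | h3
    · have := hmax s hs h3; omega
    · exact h3
  have := Fact.mk hs
  obtain ⟨c, hc⟩ := exists_prime_orderOf_dvd_card' s hsH
  have hco : orderOf (c : Perm α) = s := by rw [Subgroup.orderOf_coe, hc]
  have hcc : (c : Perm α).IsCycle :=
    Perm.isCycle_of_prime_order' (hco ▸ hs) (by rw [hco]; omega)
  have hcs : (c : Perm α).support.card = s := by rw [← hcc.orderOf, hco]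
  obtain ⟨a, ha, ha'⟩ := hcc
  classical
  set O : Finset α := Finset.univ.filter (fun z => ∃ h ∈ H, h a = z) with hOdef
  have hmemO : ∀ z, z ∈ O ↔ ∃ h ∈ H, h a = z := fun z => by simp [hOdef]
  have hO : ∀ h ∈ H, ∀ z, h z ∈ O ↔ z ∈ O := by
    intro h hh z
    rw [hmemO, hmemO]
    constructor
    · rintro ⟨g, hg, hgz⟩
      exact ⟨h⁻¹ * g, H.mul_mem (H.inv_mem hh) hg, by simp [hgz]⟩
    · rintro ⟨g, hg, hgz⟩
      exact ⟨h * g, H.mul_mem hh hg, by simp [hgz]⟩
  have hO' : ∀ h ∈ H, ∀ z, h z ∈ Oᶜ ↔ z ∈ Oᶜ := by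
    intro h hh z
    rw [Finset.mem_compl, Finset.mem_compl, hO h hh]
  have hcO : ∀ z, z ∉ O → (c : Perm α) z = z := by
    intro z hz
    by_contra hh
    obtain ⟨i, hi⟩ := ha' hh
    exact hz ((hmemO z).mpr ⟨_, H.zpow_mem c.2 i, hi⟩)
  have hsO : s ≤ O.card := by
    rw [← hcs]
    apply Finset.card_le_card
    intro z hz
    by_contra hh
    exact (Perm.mem_support.mp hz) (hcO z hh)
  set k := Oᶜ.card with hk
  have hkm : O.card + k = m := Finset.card_add_card_compl O
  have hfact : m.factorial = m.choose k * k.factorial * O.card.factorial := by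
    rw [← Nat.choose_mul_factorial_mul_factorial (show k ≤ m by omega), show m - k = O.card by omega]
  have hkr : k < r := by
    by_contra hh
    obtain ⟨p, hp, hp1, hp2⟩ := exists_prime_dvd_choose (n := m) (k := k) (by omega) (by omega)
    have h1 : Nat.card H ∣ k.factorial * O.card.factorial := by
      have hinj : Function.Injective ((res H Oᶜ hO').prod (res H O hO)) := by
        rw [injective_iff_map_eq_one]
        intro h hh
        have h1 := congrArg Prod.fst hh
        have h2 := congrArg Prod.snd hh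
        ext z
        by_cases hz : z ∈ O
        · exact congrArg Subtype.val (DFunLike.congr_fun h2 ⟨z, hz⟩)
        · exact congrArg Subtype.val (DFunLike.congr_fun h1 ⟨z, Finset.mem_compl.mpr hz⟩)
      have := Subgroup.card_dvd_of_injective _ hinj
      rwa [Nat.card_prod, Nat.card_perm, Nat.card_perm, Nat.card_eq_fintype_card (α := O),
        Nat.card_eq_fintype_card (α := (Oᶜ : Finset α)), Fintype.card_coe, Fintype.card_coe] at this
    obtain ⟨e, he⟩ := h1
    have h2 : 2 * N = m.choose k * e := by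
      have h3 : Nat.card H * (2 * N) = Nat.card H * (m.choose k * e) := by
        calc Nat.card H * (2 * N) = 2 * (N * Nat.card H) := by ring
          _ = m.choose k * (k.factorial * O.card.factorial) := by rw [hN, hfact, mul_assoc]
          _ = _ := by rw [he]; ring
      exact Nat.eq_of_mul_eq_mul_left Nat.card_pos h3
    have h3 : p ∣ 2 * N := h2 ▸ hp2.mul_right e
    rcases (Nat.Prime.dvd_mul hp).mp h3 with h4 | h4
    · have := Nat.le_of_dvd two_pos h4; omega
    · have := hmax p hp h4; omega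
  have hfix : ∀ h ∈ H, h ^ r = 1 → ∀ z, z ∉ O → h z = z := by
    intro h hh h1 z hz
    have h2 := dvd_card_moved hr h1 Oᶜ (hO' h hh)
    have h3 : (Oᶜ.filter (fun x => h x ≠ x)).card ≤ k := Finset.card_filter_le _ _
    have h4 := Nat.eq_zero_of_dvd_of_lt h2 (by omega)
    rw [Finset.card_eq_zero, Finset.filter_eq_empty_iff] at h4
    exact not_not.mp (h4 (Finset.mem_compl.mpr hz))
  have h2r : 2 * r ≤ O.card := by
    rw [← hx2]
    apply Finset.card_le_card
    intro z hz
    by_contra hh
    exact (Perm.mem_support.mp hz) (hfix x hxH hx1 z hh)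
  set f := res H O hO with hf
  have hcardO : Nat.card O = O.card := by rw [Nat.card_eq_fintype_card, Fintype.card_coe]
  have htr : IsPretransitive f.range O := by
    constructor
    intro u v
    obtain ⟨g, hg, hgu⟩ := (hmemO _).mp u.2
    obtain ⟨h, hh, hhv⟩ := (hmemO _).mp v.2
    refine ⟨⟨f ⟨h * g⁻¹, H.mul_mem hh (H.inv_mem hg)⟩, _, rfl⟩, Subtype.ext ?_⟩
    show (h * g⁻¹) (u : α) = v
    rw [← hgu, ← hhv]; simp
  have hcyc : ∀ (h : H) (p : ℕ), p.Prime → (h : Perm α) ^ p = 1 → (h : Perm α).support.card = p →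
      (∀ z, z ∉ O → (h : Perm α) z = z) → (f h).IsCycle ∧ (f h).support.card = p := by
    intro h p hp h1 h2 h3
    have h4 : (f h).support.card = p := by rw [hf, card_support_res H O hO h h3, h2]
    have h5 : (f h) ^ p = 1 := by
      rw [← map_pow, show h ^ p = 1 from Subtype.ext h1, map_one]
    have h6 := orderOf_eq_of_pow_eq_one hp h5 (by rw [h4]; exact hp.ne_zero)
    exact ⟨Perm.isCycle_of_prime_order (h6 ▸ hp) (by rw [h4, h6]; have := hp.pos; omega), h4⟩
  obtain ⟨hc1, hc2⟩ := hcyc c s hs (by rw [← hco]; exact pow_orderOf_eq_one _) hcs hcO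
  have hprim : IsPreprimitive f.range O :=
    prim_of_cycle hs (by rw [hcardO]; omega) hc1 hc2 ⟨c, rfl⟩
  obtain ⟨hy3, hy4⟩ := hcyc ⟨y, hyH⟩ r hr hy1 hy2 (hfix y hyH hy1)
  have halt := alternatingGroup_le_of_isCycle hprim hr (by rw [hcardO]; omega) hy3 hy4 ⟨_, rfl⟩
  have h1 : Nat.card (alternatingGroup O) ∣ Nat.card H :=
    (Subgroup.card_dvd_of_le halt).trans (Subgroup.card_range_dvd _)
  have hnt : Nontrivial O := by
    rw [← Finite.one_lt_card_iff_nontrivial, hcardO]; omega
  have h2 := two_mul_nat_card_alternatingGroup (α := O)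
  rw [Nat.card_perm, hcardO] at h2
  obtain ⟨e, he⟩ := h1
  have h3 : N * e = m.choose k * k.factorial := by
    have h4 : O.card.factorial * (N * e) = O.card.factorial * (m.choose k * k.factorial) := by
      calc O.card.factorial * (N * e) = 2 * (N * Nat.card H) := by rw [he, ← h2]; ring
        _ = _ := by rw [hN, hfact]; ring
    exact Nat.eq_of_mul_eq_mul_left (Nat.factorial_pos _) h4
  have h4 : r ∣ m.choose k := by
    have : r ∣ m.choose k * k.factorial := h3 ▸ hrd.mul_right e
    rcases (Nat.Prime.dvd_mul hr).mp this with h5 | h5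
    · exact h5
    · rw [hr.dvd_factorial] at h5; omega
  have h5 : k % r ≤ m % r := by
    rw [← forall_exists_invariant_subset_iff α hr hrm (by omega)]
    intro σ hσ
    obtain ⟨τ, hτ⟩ := hall σ hσ
    refine ⟨Oᶜ.map τ.symm.toEmbedding, by simp [hk], fun z => ?_⟩
    have := hO' _ hτ (τ z)
    simpa using this
  have := le_of_dvd_choose_of_mod_le hr h4 h5
  omega

/-- Let G be an almost simple group whose socle is an alternating group of degree m ≥ 5 (G has a normal subgroup T isomorphic to that alternating group with trivial centralizer), acting faithfully and primitively on a finite set Ω with at least two points, and let r be the largest prime divisor of the number of points. Then G contains an element of order r fixing no point. -/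
theorem result {G Ω : Type*} [Group G] [Finite G] [MulAction G Ω] [FaithfulSMul G Ω] [Finite Ω]
    (T : Subgroup G) (hT : T.Normal) (hTc : Subgroup.centralizer (T : Set G) = ⊥) (m : ℕ) (hm : 5 ≤ m)
    (eT : ↥T ≃* ↥(alternatingGroup (Fin m))) (hprim : MulAction.IsPreprimitive G Ω) (hΩ : 2 ≤ Nat.card Ω)
    (r : ℕ) (hr : r.Prime) (hrd : r ∣ Nat.card Ω) (hmax : ∀ s : ℕ, s.Prime → s ∣ Nat.card Ω → s ≤ r) :
    ∃ g : G, orderOf g = r ∧ ∀ ω : Ω, g • ω ≠ ω := by
  classical
  by_cases hr2 : r = 2
  · subst hr2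
    have h1 : Nat.card Ω = 2 ^ (Nat.card Ω).primeFactorsList.length := by
      apply Nat.eq_prime_pow_of_unique_prime_dvd (by omega)
      intro d hd hdd
      have := hmax d hd hdd
      have := hd.two_le
      omega
    refine Perm1.exists_derangement_of_prime_pow hr ?_ h1
    intro h0
    rw [h0] at h1
    omega
  by_contra hcon
  push Not at hcon
  have hnt : Nontrivial (Fin m) := Fin.nontrivial_iff_two_le.mpr (by omega)
  have hcardA := two_mul_nat_card_alternatingGroup (α := Fin m)
  have hTne : T ≠ ⊥ := by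
    intro h0
    have h1 : Nat.card T = 1 := by rw [h0]; simp
    rw [← Nat.card_congr eT.toEquiv, h1, Nat.card_perm, Nat.card_fin] at hcardA
    have := Nat.self_le_factorial m
    omega
  have htr : MulAction.IsPretransitive T Ω := by
    apply hprim.isQuasiPreprimitive.isPretransitive_of_normal
    intro h0
    apply hTne
    rw [eq_bot_iff]
    intro t ht
    rw [Subgroup.mem_bot]
    apply FaithfulSMul.eq_of_smul_eq_smul (α := Ω)
    intro ω
    have : ω ∈ MulAction.fixedPoints T Ω := h0 ▸ Set.mem_univ ω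
    rw [one_smul]
    exact this ⟨t, ht⟩
  obtain ⟨ω0⟩ : Nonempty Ω := (Nat.card_pos_iff.mp (by omega)).1
  let φ : T →* Equiv.Perm (Fin m) := (alternatingGroup (Fin m)).subtype.comp eT.toMonoidHom
  have hφ : Function.Injective φ := Subtype.val_injective.comp eT.injective
  refine alt_main (α := Fin m) (by simpa using hm) ((MulAction.stabilizer T ω0).map φ) (Nat.card Ω) ?_ hr hr2
    hrd hmax ?_
  · rw [Subgroup.card_map_of_injective hφ, ← MulAction.index_stabilizer_of_transitive T ω0,
      Subgroup.index_mul_card, Nat.card_congr eT.toEquiv, hcardA, Nat.card_perm, Nat.card_fin,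
      Fintype.card_fin]
  · intro σ hσ
    have hσA : σ ∈ alternatingGroup (Fin m) := by
      rw [Equiv.Perm.mem_alternatingGroup]
      have h1 : Equiv.Perm.sign σ ^ r = 1 := by rw [← map_pow, ← hσ, pow_orderOf_eq_one, map_one]
      rcases Int.units_eq_one_or (Equiv.Perm.sign σ) with h | h
      · exact h
      · rw [h, (hr.odd_of_ne_two hr2).neg_one_pow] at h1
        exact absurd h1 (by decide)
    let t : T := eT.symm ⟨σ, hσA⟩
    have ht : φ t = σ := by simp [φ, t]
    have hto : orderOf (t : G) = r := by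
      rw [Subgroup.orderOf_coe, ← orderOf_injective φ hφ, ht, hσ]
    obtain ⟨ω, hω⟩ := hcon t hto
    obtain ⟨u, hu⟩ := htr.exists_smul_eq ω ω0
    refine ⟨φ u, u * t * u⁻¹, ?_, by simp [ht]⟩
    show (u * t * u⁻¹) • ω0 = ω0
    rw [← hu, mul_smul, mul_smul, inv_smul_smul]
    congr 1

end Cfsg.Agent.S3571
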