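import Cfsg.Statements.S3573
import Cfsg.Agent.Perm1.Subsets

set_option autoImplicit false
open Cfsg

namespace Cfsg.Agent.S3573

/-- Let 1 ≤ k with 2k < n and consider the symmetric group of degree n acting on the k-subsets of an n-set. Let r be a prime dividing the number C(n,k) of k-subsets. If r is odd, then every permutation of order r fixes some k-subset if and only if r ≤ k and the remainder of k modulo r is at most the remainder of n modulo r. If r = 2, then every involution fixes some k-subset if and only if k is even or n is odd. -/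
theorem result (n k : ℕ) (hk : 1 ≤ k) (hkn : 2 * k < n) (r : ℕ) (hr : r.Prime) (hrd : r ∣ Nat.choose n k) :
    (r ≠ 2 → ((∀ σ : Equiv.Perm (Fin n), orderOf σ = r → ∃ s : Finset (Fin n), s.card = k ∧ s.image σ = s) ↔
      (r ≤ k ∧ k % r ≤ n % r))) ∧
    (r = 2 → ((∀ σ : Equiv.Perm (Fin n), orderOf σ = 2 → ∃ s : Finset (Fin n), s.card = k ∧ s.image σ = s) ↔
      (Even k ∨ Odd n))) := by
  have hkn' : k ≤ n := by omega
  have hrn := Perm1.prime_le_of_dvd_choose hr hkn' hrd
  have key := Perm1.forall_exists_invariant_subset_iff (Fin n) (k := k) hr (by simpa using hrn) (by simpa using hkn')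
  rw [Fintype.card_fin] at key
  have key2 : (∀ σ : Equiv.Perm (Fin n), orderOf σ = r → ∃ s : Finset (Fin n), s.card = k ∧ s.image σ = s) ↔
      k % r ≤ n % r := by
    rw [← key]
    refine forall₂_congr (fun σ _ => exists_congr (fun s => and_congr_right (fun _ => ?_)))
    exact ⟨Perm1.mem_iff_of_image_eq, Perm1.image_eq_of_mem_iff⟩
  constructor
  · intro _
    rw [key2]
    exact ⟨fun h => ⟨Perm1.le_of_dvd_choose_of_mod_le hr hrd h, h⟩, fun h => h.2⟩
  · rintro rfl
    rw [key2, Nat.even_iff, Nat.odd_iff]
    omega

end Cfsg.Agent.S3573
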