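import Cfsg.Statements.S3575
import Cfsg.Agent.Perm1.PrimeOrderPerm

set_option autoImplicit false
open Cfsg

namespace Cfsg.Agent.S3575

open Equiv Equiv.Perm

theorem exists_distribution {B : Type*} [DecidableEq B] (s : Finset B) (q : ℕ) :
    ∀ N : ℕ, N ≤ s.card * q → ∃ i : B → ℕ, (∀ j, i j ≤ q) ∧ ∑ j ∈ s, i j = N := by
  induction s using Finset.induction_on with
  | empty => intro N hN; exact ⟨fun _ => 0, fun _ => Nat.zero_le _, by simp at hN; simp [hN]⟩
  | insert x s hx ih =>
    intro N hN
    rw [Finset.card_insert_of_notMem hx, add_mul, one_mul] at hN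
    obtain ⟨i, hi, hs⟩ := ih (N - min N q) (by omega)
    refine ⟨Function.update i x (min N q), fun j => ?_, ?_⟩
    · by_cases h : j = x
      · subst h; simp
      · rw [Function.update_of_ne h]; exact hi j
    · have : ∑ j ∈ s, Function.update i x (min N q) j = ∑ j ∈ s, i j :=
        Finset.sum_congr rfl (fun j hj => Function.update_of_ne (by rintro rfl; exact hx hj) _ _)
      rw [Finset.sum_insert hx, Function.update_self, this, hs]
      omega

theorem partition_iff {X : Type*} [Fintype X] [DecidableEq X] (a b r : ℕ) (ha : 1 ≤ a) (hr : r.Prime)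
    (hX : Fintype.card X = a * b) (σ : Perm X) (hσ : σ ^ r = 1) (c : ℕ) (hc : σ.support.card = c * r) :
    (∃ f : X → Fin b, (∀ j : Fin b, Nat.card {x : X // f x = j} = a) ∧
          ∃ π : Equiv.Perm (Fin b), ∀ x : X, f (σ x) = π (f x)) ↔
      ∃ t, t * r ≤ b ∧ t * a ≤ c ∧ c ≤ t * a + (b - t * r) * (a / r) := by
  constructor
  · rintro ⟨f, hf, π, hπ⟩
    have hf' : ∀ j, (Finset.univ.filter (fun x => f x = j)).card = a := by
      intro j; rw [← hf j, Nat.card_eq_fintype_card, Fintype.card_subtype]
    have hπr : π ^ r = 1 := by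
      ext1 j
      obtain ⟨x, hx⟩ := Finset.card_pos.mp (show 0 < (Finset.univ.filter (fun x => f x = j)).card by
        rw [hf']; exact ha)
      have hx' : f x = j := by simpa using hx
      have : ∀ n : ℕ, f ((σ ^ n) x) = (π ^ n) (f x) := by
        intro n
        induction n with
        | zero => rfl
        | succ n ih => rw [pow_succ', pow_succ', Perm.mul_apply, Perm.mul_apply, hπ, ih]
      rw [← hx', ← this, hσ]; rfl
    obtain ⟨t, ht⟩ := Perm1.dvd_card_support hr hπr
    have hsum : σ.support.card = ∑ j : Fin b, (σ.support.filter (fun x => f x = j)).card :=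
      Finset.card_eq_sum_card_fiberwise (fun x _ => Finset.mem_univ _)
    rw [← Finset.sum_add_sum_compl π.support] at hsum
    have h1 : ∑ j ∈ π.support, (σ.support.filter (fun x => f x = j)).card = r * t * a := by
      rw [← ht, ← smul_eq_mul, ← Finset.sum_const]
      apply Finset.sum_congr rfl
      intro j hj
      rw [← hf' j]
      congr 1
      ext x
      simp only [Finset.mem_filter, mem_support, Finset.mem_univ, true_and, and_iff_right_iff_imp]
      rintro rfl h
      apply mem_support.mp hj
      rw [← hπ, h]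
    have h2 : ∑ j ∈ π.supportᶜ, (σ.support.filter (fun x => f x = j)).card ≤ (b - r * t) * (r * (a / r)) := by
      have : b - r * t = (π.supportᶜ).card := by rw [Finset.card_compl, ht, Fintype.card_fin]
      rw [this, ← smul_eq_mul, ← Finset.sum_const]
      apply Finset.sum_le_sum
      intro j hj
      have hj' : π j = j := by simpa using hj
      obtain ⟨u, hu⟩ := Perm1.dvd_card_moved hr hσ (Finset.univ.filter (fun x => f x = j)) (by
        intro x
        simp only [Finset.mem_filter, Finset.mem_univ, true_and, hπ]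
        constructor
        · intro h; rw [← hj'] at h; exact π.injective h
        · rintro rfl; exact hj')
      have h3 : r * u ≤ a := by rw [← hu, ← hf' j]; exact Finset.card_filter_le _ _
      have h4 : (σ.support.filter (fun x => f x = j)).card = r * u := by
        rw [← hu]; congr 1; ext x; simp [and_comm]
      rw [h4]
      exact Nat.mul_le_mul_left _ ((Nat.le_div_iff_mul_le hr.pos).mpr (by rwa [mul_comm]))
    have h5 : r * t ≤ b := by rw [← ht]; simpa using Finset.card_le_univ π.support
    rw [h1, hc] at hsum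
    refine ⟨t, by rwa [mul_comm], ?_, ?_⟩
    · apply Nat.le_of_mul_le_mul_left _ hr.pos
      rw [mul_comm r c, hsum, ← mul_assoc]
      exact Nat.le_add_right _ _
    · apply Nat.le_of_mul_le_mul_left _ hr.pos
      rw [mul_comm t r]
      nlinarith
  · rintro ⟨t, h1, h2, h3⟩
    obtain ⟨π, hπ1, hπ2⟩ := Perm1.exists_perm_pow_eq_one (Fin b) hr t (by simpa using h1)
    obtain ⟨i, hi, hs⟩ := exists_distribution (π.supportᶜ) (a / r) (c - t * a) (by
      rw [Finset.card_compl, hπ2, Fintype.card_fin]; omega)
    have hex : ∀ j : Fin b, ∃ ρ : Perm (Fin a), ρ ^ r = 1 ∧ (π j ≠ j → ρ = 1) ∧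
        (π j = j → ρ.support.card = i j * r) := by
      intro j
      by_cases hj : π j = j
      · obtain ⟨ρ, hρ1, hρ2⟩ := Perm1.exists_perm_pow_eq_one (Fin a) hr (i j)
          (by rw [Fintype.card_fin]; exact (Nat.le_div_iff_mul_le hr.pos).mp (hi j))
        exact ⟨ρ, hρ1, fun h => absurd hj h, fun _ => hρ2⟩
      · exact ⟨1, one_pow _, fun _ => rfl, fun h => absurd h hj⟩
    choose ρ hρ1 hρ2 hρ3 using hex
    let τ : Perm (Fin b × Fin a) := Equiv.prodShear π ρ
    have hτ : ∀ j x, τ (j, x) = (π j, ρ j x) := fun _ _ => rfl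
    have hτn : ∀ (n : ℕ) j x, (τ ^ n) (j, x) = ((π ^ n) j, (ρ j ^ n) x) := by
      intro n j x
      induction n with
      | zero => rfl
      | succ n ih =>
        rw [pow_succ', pow_succ', pow_succ', Perm.mul_apply, Perm.mul_apply, Perm.mul_apply, ih, hτ]
        by_cases hj : π j = j
        · rw [Perm.pow_apply_eq_self_of_apply_eq_self hj]
        · have hj' : π ((π ^ n) j) ≠ (π ^ n) j := by
            rw [← mem_support, pow_apply_mem_support, mem_support]; exact hj
          rw [hρ2 _ hj, hρ2 _ hj']
    have hτr : τ ^ r = 1 := by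
      ext1 ⟨j, x⟩
      rw [hτn, hπ1, hρ1]; rfl
    have hτs : τ.support.card = c * r := by
      have hsum : τ.support.card = ∑ j : Fin b, (τ.support.filter (fun x => x.1 = j)).card :=
        Finset.card_eq_sum_card_fiberwise (fun x _ => Finset.mem_univ _)
      rw [← Finset.sum_add_sum_compl π.support] at hsum
      have e1 : ∑ j ∈ π.support, (τ.support.filter (fun x => x.1 = j)).card = t * r * a := by
        rw [← hπ2, ← smul_eq_mul, ← Finset.sum_const]
        apply Finset.sum_congr rfl
        intro j hj
        have : τ.support.filter (fun x => x.1 = j) = Finset.univ.image (fun x : Fin a => (j, x)) := by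
          ext ⟨j', x⟩
          simp only [Finset.mem_filter, mem_support, hτ, Finset.mem_image, Finset.mem_univ, true_and,
            Prod.mk.injEq, ne_eq]
          constructor
          · rintro ⟨-, rfl⟩; exact ⟨x, rfl, rfl⟩
          · rintro ⟨y, rfl, rfl⟩; exact ⟨fun h => mem_support.mp hj h.1, rfl⟩
        rw [this, Finset.card_image_of_injective _ (fun x y h => (Prod.mk.inj h).2)]
        simp
      have e2 : ∑ j ∈ π.supportᶜ, (τ.support.filter (fun x => x.1 = j)).card = (c - t * a) * r := by
        rw [← hs, Finset.sum_mul]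
        apply Finset.sum_congr rfl
        intro j hj
        have hj' : π j = j := by simpa using hj
        have : τ.support.filter (fun x => x.1 = j) = (ρ j).support.image (fun x : Fin a => (j, x)) := by
          ext ⟨j', x⟩
          simp only [Finset.mem_filter, mem_support, hτ, Finset.mem_image, Finset.mem_univ, true_and,
            Prod.mk.injEq, ne_eq]
          constructor
          · rintro ⟨h, rfl⟩; exact ⟨x, fun h' => h ⟨hj', h'⟩, rfl, rfl⟩
          · rintro ⟨y, hy, rfl, rfl⟩; exact ⟨fun h => hy h.2, rfl⟩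
        rw [this, Finset.card_image_of_injective _ (fun x y h => (Prod.mk.inj h).2), hρ3 j hj']
      rw [hsum, e1, e2]
      obtain ⟨d, rfl⟩ := Nat.exists_eq_add_of_le h2
      rw [Nat.add_sub_cancel_left]; ring
    obtain ⟨e, he⟩ := Perm1.exists_equiv_of_pow_eq_one hr hσ hτr (by simp [hX, mul_comm]) (by rw [hc, hτs])
    refine ⟨fun x => (e x).1, fun j => ?_, π, fun x => by
      change (e (σ x)).1 = _
      rw [he]; rfl⟩
    refine Eq.trans ?_ (Nat.card_fin a)
    refine Nat.card_congr ⟨fun x => (e x.1).2, fun y => ⟨e.symm (j, y), by simp⟩, ?_, ?_⟩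
    · rintro ⟨x, rfl⟩; simp
    · intro y; simp

theorem arith (q l s k r : ℕ) (hl : l < r) (hk : k < r) (ha : 2 ≤ q * r + l) (hb : 2 ≤ s * r + k)
    (hr : r ≤ (q * r + l) * (s * r + k)) :
    (∀ c, 1 ≤ c → c * r ≤ (q * r + l) * (s * r + k) → ∃ t, t * r ≤ s * r + k ∧ t * (q * r + l) ≤ c ∧
      c ≤ t * (q * r + l) + (s * r + k - t * r) * q) ↔
    (r ≤ q * r + l ∧ (l = 0 ∨ (k = 0 ∧ l = 1) ∨ (l ≠ 0 ∧ k ≠ 0 ∧ k * l < r ∧
      (s * r + k < r ∨ (k + r) * l ≤ k * (q * r + l) + r)))) := by
  have hr0 : 0 < r := by omega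
  have hts : ∀ t, t * r ≤ s * r + k ↔ t ≤ s := by
    intro t
    constructor
    · intro h; by_contra hlt
      have : (s + 1) * r ≤ t * r := Nat.mul_le_mul_right _ (by omega)
      nlinarith
    · intro h
      have : t * r ≤ s * r := Nat.mul_le_mul_right _ h
      omega
  have hU : ∀ t, t ≤ s → t * (q * r + l) + (s * r + k - t * r) * q = (s * r + k) * q + t * l := by
    intro t ht
    obtain ⟨d, rfl⟩ := Nat.exists_eq_add_of_le ht
    have : (t + d) * r + k - t * r = d * r + k := by rw [add_mul]; omega
    rw [this]; ring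
  have hab : (q * r + l) * (s * r + k) = ((s * r + k) * q + s * l) * r + k * l := by ring
  constructor
  · intro h
    have h' : ∀ c, 1 ≤ c → c * r ≤ (q * r + l) * (s * r + k) → ∃ t, t ≤ s ∧ t * (q * r + l) ≤ c ∧
        c ≤ (s * r + k) * q + t * l := by
      intro c h1 h2
      obtain ⟨t, ht1, ht2, ht3⟩ := h c h1 h2
      rw [hts] at ht1
      exact ⟨t, ht1, ht2, by rwa [hU t ht1] at ht3⟩
    have hq : 1 ≤ q := by
      obtain ⟨t, ht1, ht2, ht3⟩ := h' 1 le_rfl (by simpa using hr)
      have : t = 0 := by
        by_contra hne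
        have : 1 * (q * r + l) ≤ t * (q * r + l) := Nat.mul_le_mul_right _ (by omega)
        omega
      subst this
      by_contra hq
      have : q = 0 := by omega
      subst this
      simp at ht3
    have hqr : 1 * r ≤ q * r := Nat.mul_le_mul_right _ hq
    refine ⟨by omega, ?_⟩
    by_cases hl0 : l = 0
    · exact Or.inl hl0
    right
    have hkl : k * l < r := by
      by_contra hge
      obtain ⟨t, ht1, ht2, ht3⟩ := h' ((s * r + k) * q + s * l + 1) (by omega) (by rw [hab]; nlinarith)
      have : t * l ≤ s * l := Nat.mul_le_mul_right _ ht1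
      omega
    rcases Nat.eq_zero_or_pos s with rfl | hs
    · right
      refine ⟨hl0, by omega, hkl, Or.inl (by omega)⟩
    obtain ⟨s', rfl⟩ : ∃ s', s = s' + 1 := ⟨s - 1, by omega⟩
    have hlk : l ≤ k * q + 1 := by
      obtain ⟨t, ht1, ht2, ht3⟩ := h' (((s' + 1) * r + k) * q + s' * l + 1) (by omega) (by
        rw [hab]
        have : (((s' + 1) * r + k) * q + s' * l + 1) * r ≤ (((s' + 1) * r + k) * q + (s' + 1) * l) * r :=
          Nat.mul_le_mul_right _ (by rw [add_mul s' 1 l]; omega)
        omega)
      have : t = s' + 1 := by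
        by_contra hne
        have : t * l ≤ s' * l := Nat.mul_le_mul_right _ (by omega)
        omega
      subst this
      nlinarith
    by_cases hk0 : k = 0
    · left; subst hk0; omega
    · right
      refine ⟨hl0, hk0, hkl, Or.inr ?_⟩
      nlinarith
  · rintro ⟨hq, h⟩ c hc1 hc2
    have hkl : k * l < r ∧ (l = 0 ∨ s = 0 ∨ l ≤ k * q + 1) := by
      rcases h with rfl | ⟨rfl, rfl⟩ | ⟨h1, h2, h3, h4 | h4⟩
      · simpa using hr0
      · simpa using hr0
      · refine ⟨h3, Or.inr (Or.inl ?_)⟩
        by_contra hs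
        have : 1 * r ≤ s * r := Nat.mul_le_mul_right _ (by omega)
        omega
      · refine ⟨h3, Or.inr (Or.inr ?_)⟩
        apply Nat.le_of_mul_le_mul_left _ hr0
        nlinarith
    have hcs : c ≤ (s * r + k) * q + s * l := by
      by_contra hlt
      have : ((s * r + k) * q + s * l + 1) * r ≤ c * r := Nat.mul_le_mul_right _ (by omega)
      rw [hab] at hc2
      nlinarith [hkl.1]
    have hex : ∃ t, c ≤ (s * r + k) * q + t * l := ⟨s, hcs⟩
    classical
    have ht1 := Nat.find_spec hex
    have ht2 : Nat.find hex ≤ s := Nat.find_min' hex hcs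
    refine ⟨Nat.find hex, (hts _).mpr ht2, ?_, by rwa [hU _ ht2]⟩
    rcases Nat.eq_zero_or_pos (Nat.find hex) with h0 | h0
    · rw [h0]; simp
    obtain ⟨t, ht⟩ : ∃ t, Nat.find hex = t + 1 := ⟨Nat.find hex - 1, by omega⟩
    have ht3 := Nat.find_min hex (m := t) (by omega)
    rw [ht] at ht1 ht2 ⊢
    rcases hkl.2 with rfl | rfl | h5
    · simp at ht1 ht3; omega
    · omega
    · obtain ⟨d, rfl⟩ := Nat.exists_eq_add_of_le ht2
      have : 0 ≤ d * r * q := Nat.zero_le _
      nlinarith


/-- Let a, b ≥ 2 and consider the symmetric group of degree a·b acting on the partitions of an (a·b)-set into b parts of size a (encoded as maps onto a b-element set all of whose fibres have a elements; a permutation fixes such a partition when it permutes the fibres). Let r be a prime dividing the number (ab)!/((a!)^b·b!) of such partitions, and let ℓ and k be the remainders of a and b modulo r. Then every permutation of order r fixes some such partition if and only if r ≤ a and one of the following holds: ℓ = 0; or k = 0 and ℓ = 1; or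 ℓ and k are non-zero, k·ℓ < r, and either b < r or (k + r)·ℓ ≤ k·a + r. -/
theorem result (a b : ℕ) (ha : 2 ≤ a) (hb : 2 ≤ b) (r : ℕ) (hr : r.Prime)
    (hrd : r ∣ (a * b).factorial / (a.factorial ^ b * b.factorial)) :
    (∀ σ : Equiv.Perm (Fin (a * b)), orderOf σ = r →
        ∃ f : Fin (a * b) → Fin b, (∀ j : Fin b, Nat.card {x : Fin (a * b) // f x = j} = a) ∧
          ∃ π : Equiv.Perm (Fin b), ∀ x : Fin (a * b), f (σ x) = π (f x)) ↔
      (r ≤ a ∧ (a % r = 0 ∨ (b % r = 0 ∧ a % r = 1) ∨
        (a % r ≠ 0 ∧ b % r ≠ 0 ∧ (b % r) * (a % r) < r ∧ (b < r ∨ (b % r + r) * (a % r) ≤ (b % r) * a + r)))) := by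
  have hrab : r ≤ a * b := by
    apply (hr.dvd_factorial).mp
    have h1 := Nat.uniformBell_mul_eq b (n := a) (by omega)
    have h2 := Nat.uniformBell_eq_div b (n := a) (by omega)
    rw [mul_comm b a] at h1 h2
    rw [← h2] at hrd
    rw [← h1, mul_assoc]
    exact hrd.mul_right _
  have ea : a / r * r + a % r = a := Nat.div_add_mod' a r
  have eb : b / r * r + b % r = b := Nat.div_add_mod' b r
  have key := arith (a / r) (a % r) (b / r) (b % r) r (Nat.mod_lt _ hr.pos) (Nat.mod_lt _ hr.pos)
    (by rwa [ea]) (by rwa [eb]) (by rwa [ea, eb])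
  rw [ea, eb] at key
  rw [← key]
  constructor
  · intro h c hc1 hc2
    obtain ⟨σ, h1, h2⟩ := Perm1.exists_perm_pow_eq_one (Fin (a * b)) hr c (by simpa using hc2)
    have h3 := Perm1.orderOf_eq_of_pow_eq_one hr h1 (by rw [h2]; exact (Nat.mul_pos hc1 hr.pos).ne')
    exact (partition_iff a b r (by omega) hr (by simp) σ h1 c h2).mp (h σ h3)
  · intro h σ hσ
    have h1 : σ ^ r = 1 := by rw [← hσ, pow_orderOf_eq_one]
    obtain ⟨c, hc⟩ := Perm1.dvd_card_support hr h1
    rw [mul_comm r c] at hc
    apply (partition_iff a b r (by omega) hr (by simp) σ h1 c hc).mpr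
    apply h c
    · by_contra hlt
      have : c = 0 := by omega
      rw [this, zero_mul, Finset.card_eq_zero, support_eq_empty_iff] at hc
      rw [hc, orderOf_one] at hσ
      exact hr.one_lt.ne hσ
    · rw [← hc]; simpa using Finset.card_le_univ σ.support

end Cfsg.Agent.S3575
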