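import Cfsg.Statements.S3580
import Cfsg.Agent.SylOrb.Main

set_option autoImplicit false
open Cfsg

namespace Cfsg.Agent.S3580

/-- Let G act faithfully and transitively on a finite set Ω, let p be an odd prime dividing the order of G and P a Sylow p-subgroup of G. Then the number of orbits of P on Ω is at most (p/(2p − 1))·(number of points). -/
theorem result {G Ω : Type*} [Group G] [Finite G] [MulAction G Ω] [FaithfulSMul G Ω] [Finite Ω]
    (htrans : MulAction.IsPretransitive G Ω) (p : ℕ) [Fact p.Prime] (hp2 : p ≠ 2) (hpG : p ∣ Nat.card G)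
    (P : Sylow p G) :
    (2 * p - 1) * Nat.card (MulAction.orbitRel.Quotient ↥(P : Subgroup G) Ω) ≤ p * Nat.card Ω := by
  refine SylOrb.main hp2 (MulAction.exists_smul_eq G) (by_contra fun h => ?_)
  push Not at h
  refine P.ne_bot_of_dvd_card hpG (eq_bot_iff.2 fun g hg => ?_)
  exact eq_of_smul_eq_smul (α := Ω) fun x => (h x g hg).trans (one_smul G x).symm

end Cfsg.Agent.S3580
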