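import Cfsg.Statements.S3583
import Cfsg.Agent.PSL2Rec.Split

set_option autoImplicit false
open Cfsg

namespace Cfsg.Agent.S3583

/-- Let F be a finite field with q elements, where either q is even and q > 2, or q is odd and q ≥ 7, and let G be a finite group whose set of conjugacy class sizes equals that of PSL(2,F). Then G is the direct product of a normal subgroup isomorphic to PSL(2,F) and a central (hence abelian) subgroup: there are subgroups N and A of G with N normal and isomorphic to PSL(2,F), A contained in the centre, N ∩ A = 1 and NA = G. -/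
theorem result {F : Type*} [Field F] [Fintype F]
    (hq : (2 ∣ Fintype.card F ∧ 2 < Fintype.card F) ∨ (¬ 2 ∣ Fintype.card F ∧ 7 ≤ Fintype.card F))
    {G : Type*} [Group G] [Finite G]
    (h : Set.range (fun g : G => (Subgroup.centralizer ({g} : Set G)).index) = Set.range (fun g : (Matrix.ProjectiveSpecialLinearGroup (Fin 2) F) => (Subgroup.centralizer ({g} : Set (Matrix.ProjectiveSpecialLinearGroup (Fin 2) F))).index)) :
    ∃ N A : Subgroup G, N.Normal ∧ A ≤ Subgroup.center G ∧ N ⊓ A = ⊥ ∧ N ⊔ A = ⊤ ∧
      Nonempty (N ≃* Matrix.ProjectiveSpecialLinearGroup (Fin 2) F) := by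
  obtain ⟨δ, e, o, hS, hC, ⟨φ⟩⟩ := PSL2Rec.quotient_center_equiv hq h
  have h3 : 3 < Fintype.card F := by omega
  have h1 := PSL2Rec.center_inf_commutator h3 hS hC φ
  let f : G →* Matrix.ProjectiveSpecialLinearGroup (Fin 2) F :=
    φ.toMonoidHom.comp (QuotientGroup.mk' _)
  have hf : Function.Surjective f := φ.surjective.comp (QuotientGroup.mk'_surjective _)
  have hker : f.ker = Subgroup.center G := by
    ext x
    rw [MonoidHom.mem_ker, ← QuotientGroup.eq_one_iff]
    exact map_eq_one_iff φ φ.injective
  have hmap : (commutator G).map f = ⊤ := by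
    rw [commutator_def, Subgroup.map_commutator, ← MonoidHom.range_eq_map,
      MonoidHom.range_eq_top.2 hf, ← commutator_def]
    exact SL2Simple.PSL_commutator_eq_top (PSL2Rec.exists_sq_ne_one h3)
  refine ⟨commutator G, Subgroup.center G, inferInstance, le_rfl, h1, ?_,
    ⟨MulEquiv.ofBijective (f.comp (commutator G).subtype) ⟨?_, ?_⟩⟩⟩
  · rw [← hker, ← Subgroup.comap_map_eq, hmap, Subgroup.comap_top]
  · rw [injective_iff_map_eq_one]
    intro x hx
    have : (x : G) ∈ commutator G ⊓ Subgroup.center G := ⟨x.2, hker ▸ hx⟩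
    rw [h1] at this
    exact Subtype.ext this
  · intro y
    obtain ⟨x, hx, rfl⟩ : y ∈ (commutator G).map f := hmap ▸ Subgroup.mem_top y
    exact ⟨⟨x, hx⟩, rfl⟩

end Cfsg.Agent.S3583
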