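import Cfsg.Statements.S3589
import Cfsg.Agent.Spec.Sp8

set_option autoImplicit false
open Cfsg

namespace Cfsg.Agent.S3589

open Matrix Cfsg.Agent.Spec

theorem spec_isometry {F : Type*} [Field F] [Fintype F] [CharP F 2] {l ι : Type} [Fintype l]
    [DecidableEq l] [Fintype ι] [DecidableEq ι] (hl : Fintype.card l = 4) {c : l ⊕ l → F}
    (hc : arf c ∉ wp F) {P : Matrix (l ⊕ l) ι F} {P' : Matrix ι (l ⊕ l) F} (h1 : P * P' = 1)
    (h2 : P' * P = 1) {Q : (ι → F) → F} (hQ : ∀ v, qf (Uc c) (P *ᵥ v) = Q v) :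
    Set.range (orderOf : isometryGroup F Q → ℕ) = Sp8Set (Fintype.card F) := by
  classical
  ext n
  constructor
  · rintro ⟨g, rfl⟩
    rw [← orderOf_coe_coe, ← orderOf_conjHom h1 h2]
    refine sp8_order_mem hl (IsO.mem_symplectic (c := c) fun v => ?_)
    have := g.2 (P' *ᵥ v) 0
    rw [← mulVec_mulVec, ← mulVec_mulVec, hQ]
    refine this.trans ?_
    change Q _ = _
    rw [← hQ, mulVec_mulVec, h1, one_mulVec]
  · intro hn
    obtain ⟨g, hg, h⟩ := exists_isO_of_sp8 hl hc hn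
    obtain ⟨u, hu⟩ := (hg.isUnit (nd_Uc c)).map (conjHom h2 h1)
    have hu' : (u : Matrix ι ι F) = P' * g * P := hu
    have hm : u ∈ isometryGroup F Q := fun v _ => by
      change Q ((u : Matrix ι ι F) *ᵥ v) = Q v
      rw [hu', ← hQ, ← hQ, mulVec_mulVec, ← Matrix.mul_assoc, ← Matrix.mul_assoc, h1,
        Matrix.one_mul, ← mulVec_mulVec, hg]
    refine mem_spec_of_dvd ⟨⟨u, hm⟩, ?_⟩ h
    rw [← orderOf_coe_coe, ← orderOf_conjHom h2 h1, ← hu']


/-- Let F be a finite field of characteristic 2 and let a, b ∈ F make the binary form z₁² + a z₁z₂ + b z₂² anisotropic. Then the symplectic group PSp(8,F) (= Sp(8,F)) and the full isometry group of the non-singular quadratic form x₁y₁ + x₂y₂ + x₃y₃ + (z₁² + a z₁z₂ + b z₂²) of minus type in dimension 8 have the same set of element orders. -/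
theorem result {F : Type*} [Field F] [Fintype F]
    [CharP F 2] (a b : F) (han : ∀ z₁ z₂ : F, z₁ ^ 2 + a * z₁ * z₂ + b * z₂ ^ 2 = 0 → z₁ = 0 ∧ z₂ = 0) :
    Set.range (orderOf : Cfsg.PSp 4 F → ℕ) = Set.range (orderOf : ↥(Cfsg.isometryGroup F (Cfsg.quadFormMinus 3 F a b)) → ℕ) := by
  have ha : a ≠ 0 := by
    rintro rfl
    obtain ⟨s, rfl⟩ := exists_sq_eq b
    exact one_ne_zero (han s 1 (by grind)).2
  let σ : (Fin 3 ⊕ Fin 3) ⊕ Fin 2 ≃ (Fin 3 ⊕ Fin 1) ⊕ (Fin 3 ⊕ Fin 1) :=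
    (Equiv.sumCongr (Equiv.refl _) (finSumFinEquiv (m := 1) (n := 1)).symm).trans
      (Equiv.sumSumSumComm _ _ _ _)
  let s : (Fin 3 ⊕ Fin 1) ⊕ (Fin 3 ⊕ Fin 1) → F :=
    Sum.elim (fun _ => 1) (Sum.elim (fun _ => 1) fun _ => a)
  let c : (Fin 3 ⊕ Fin 1) ⊕ (Fin 3 ⊕ Fin 1) → F :=
    Sum.elim (Sum.elim (fun _ => 0) fun _ => 1) (Sum.elim (fun _ => 0) fun _ => b / a ^ 2)
  have hs : ∀ i, s i ≠ 0 := by
    rintro (i | i | i) <;> simp [s, ha]
  have e1 : diagonal s * diagonal (fun i => (s i)⁻¹) = 1 := by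
    rw [diagonal_mul_diagonal, ← diagonal_one]
    exact congrArg diagonal (funext fun i => mul_inv_cancel₀ (hs i))
  rw [spec_psp8_even, spec_isometry (c := c) (P := diagonal s * permM F σ)
    (P' := permM F σ.symm * diagonal fun i => (s i)⁻¹) (by simp)]
  · intro h
    obtain ⟨x, hx⟩ := mem_wp.1 h
    have h1 : x ^ 2 + x = b / a ^ 2 := by simpa [arf, c] using hx
    refine one_ne_zero (han (a * x) 1 ?_).2
    field_simp at h1
    grind
  · rw [Matrix.mul_assoc, ← Matrix.mul_assoc (permM F σ), permM_mul_symm, Matrix.one_mul, e1]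
  · rw [Matrix.mul_assoc, ← Matrix.mul_assoc (diagonal _), mul_eq_one_comm.1 e1, Matrix.one_mul,
      permM_symm_mul]
  · intro v
    rw [← mulVec_mulVec, permM_mulVec, qf_Uc, quadFormMinus]
    have f0 : (finSumFinEquiv (m := 1) (n := 1)) (.inl 0) = 0 := rfl
    have f1 : (finSumFinEquiv (m := 1) (n := 1)) (.inr 0) = 1 := rfl
    simp [mulVec_diagonal, Fintype.sum_sum_type, s, c, σ, f0, f1]
    field_simp
    ring

end Cfsg.Agent.S3589
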