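import Cfsg.Statements.S3592
import Cfsg.Agent.M11.Nse
import Cfsg.Agent.M11.Golay

set_option autoImplicit false
open Cfsg

namespace Cfsg.Agent.S3592

open Cfsg.Agent.M11 Subgroup in
theorem nse {G : Type*} [Group G] [Finite G] (hG : Nat.card G = 7920)
    (h : ∀ c, (0 < c ∧ ∃ n, c = mo G n) ↔ c ∈ ({1, 165, 440, 990, 1584, 1320, 1980, 1440} : Finset ℕ)) :
    Nse G := by
  classical
  have h1 : ∀ c ∈ ({1, 165, 440, 990, 1584, 1320, 1980, 1440} : Finset ℕ), ∃ n, c = mo G n :=
    fun c hc => ((h c).mpr hc).2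
  choose! f hf using h1
  have h2 := ncard_eq_sum_mo (G := G) (Finset.image f {1, 165, 440, 990, 1584, 1320, 1980, 1440})
  rw [Finset.sum_image fun a ha b hb e => by rw [hf a ha, hf b hb, e],
    Finset.sum_congr rfl fun c hc => (hf c hc).symm] at h2
  have h3 := Set.eq_of_subset_of_ncard_le (Set.subset_univ {g : G | orderOf g ∈
    Finset.image f {1, 165, 440, 990, 1584, 1320, 1980, 1440}}) (by rw [h2, Set.ncard_univ, hG]; decide)
  have hinj : ∀ n, mo G n ≠ 0 → f (mo G n) = n := fun n hn => by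
    obtain ⟨g, rfl⟩ := Set.nonempty_of_ncard_ne_zero hn
    obtain ⟨c, hc, e⟩ := Finset.mem_image.mp (Set.mem_ofPred_eq ▸ h3.ge (Set.mem_univ g) : orderOf g ∈ _)
    rw [← e, ← hf c hc]
  have hne : ∀ a b, a ≠ b → mo G a = 0 ∨ mo G a ≠ mo G b := fun a b hab => by
    by_contra hn
    push Not at hn
    exact hab ((hinj a hn.1).symm.trans (hn.2 ▸ hinj b (hn.2 ▸ hn.1)))
  have hv : ∀ n, mo G n = 0 ∨ mo G n = 1 ∨ mo G n = 165 ∨ mo G n = 440 ∨ mo G n = 990 ∨ mo G n = 1584 ∨
      mo G n = 1320 ∨ mo G n = 1980 ∨ mo G n = 1440 := fun n => by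
    rcases Nat.eq_zero_or_pos (mo G n) with h0 | h0
    · exact .inl h0
    · exact .inr (by simpa using (h _).mp ⟨h0, n, rfl⟩)
  have m1 : mo G 1 = 1 := by simp [mo]
  have F := fun (p : ℕ) (hp : p.Prime) a (ha : p ^ a ∣ 7920) => pow_dvd_sum_mo (G := G) hp (hG ▸ ha)
  have f2 := F 2 Nat.prime_two 1 (by decide)
  have f3 := F 3 Nat.prime_three 1 (by decide)
  have f5 := F 5 Nat.prime_five 1 (by decide)
  have f11 := F 11 Nat.prime_eleven 1 (by decide)
  have f4 := F 2 Nat.prime_two 2 (by decide)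
  have f8 := F 2 Nat.prime_two 3 (by decide)
  rw [show Nat.divisors (2 ^ 1) = {1, 2} by decide] at f2
  rw [show Nat.divisors (3 ^ 1) = {1, 3} by decide] at f3
  rw [show Nat.divisors (5 ^ 1) = {1, 5} by decide] at f5
  rw [show Nat.divisors (11 ^ 1) = {1, 11} by decide] at f11
  rw [show Nat.divisors (2 ^ 2) = {1, 2, 4} by decide] at f4
  rw [show Nat.divisors (2 ^ 3) = {1, 2, 4, 8} by decide] at f8
  simp only [Finset.mem_insert, Finset.mem_singleton, Finset.sum_insert, Finset.sum_singleton,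
    Nat.reduceEqDiff, or_self, not_false_eq_true, m1] at f2 f3 f5 f11 f4 f8
  have m2 : mo G 2 = 165 := by have := hv 2; have := hne 2 1 (by decide); omega
  have m3 : mo G 3 = 440 := by have := hv 3; omega
  have m5 : mo G 5 = 1584 := by have := hv 5; omega
  have m11 : mo G 11 = 1440 := by have := hv 11; omega
  have m4 : mo G 4 = 990 := by have := hv 4; omega
  have m8 : mo G 8 = 1980 := by have := hv 8; omega
  have hk : ∀ g : G, orderOf g ∈ ({1, 2, 3, 4, 5, f 1320, 8, 11} : Finset ℕ) := fun g => by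
    have h4 : mo G (orderOf g) ≠ 0 := Set.ncard_ne_zero_of_mem (s := {x | orderOf x = orderOf g}) rfl
    have h5 := hinj _ h4
    have e1 := hinj 1 (by omega)
    have e2 := hinj 2 (by omega)
    have e3 := hinj 3 (by omega)
    have e4 := hinj 4 (by omega)
    have e5 := hinj 5 (by omega)
    have e8 := hinj 8 (by omega)
    have e11 := hinj 11 (by omega)
    rw [m1] at e1; rw [m2] at e2; rw [m3] at e3; rw [m4] at e4; rw [m5] at e5; rw [m8] at e8; rw [m11] at e11
    rw [← h5]
    rcases hv (orderOf g) with e | e | e | e | e | e | e | e | e <;> rw [e] at h4 ⊢ <;>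
      simp [e1, e2, e3, e4, e5, e8, e11] at h4 ⊢
  have key : ∀ (p a : ℕ) (x : G), p.Prime → orderOf x = p → p ^ a < cc x → ¬ p ^ (a + 1) ∣ 7920 →
      ∃ q, q.Prime ∧ q ≠ p ∧ q * p ∈ ({1, 2, 3, 4, 5, f 1320, 8, 11} : Finset ℕ) := by
    intro p a x hp hx h4 h5
    by_contra hn
    have h6 := Nat.eq_prime_pow_of_unique_prime_dvd (p := p) (cc_pos x).ne' fun {q} hq hqc => by_contra fun hqp => by
      obtain ⟨y, hy, hc⟩ := exists_of_prime_dvd_cc hq hqc
      refine hn ⟨q, hq, hqp, ?_⟩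
      rw [← hy, ← hx, ← hc.orderOf_mul_eq_mul_orderOf_of_coprime
        (by rw [hy, hx]; exact (Nat.coprime_primes hq hp).mpr hqp)]
      exact hk _
    rw [h6] at h4
    exact h5 ((pow_dvd_pow p ((Nat.pow_lt_pow_iff_right hp.one_lt).mp h4)).trans
      (h6 ▸ hG ▸ cc_dvd x))
  have h6 : f 1320 = 6 := by
    obtain ⟨x, hx⟩ := Set.nonempty_of_ncard_ne_zero (s := {g : G | orderOf g = 3}) (m3.trans_ne (by decide))
    obtain ⟨u, hu⟩ := Set.nonempty_of_ncard_ne_zero (s := {g : G | orderOf g = 2}) (m2.trans_ne (by decide))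
    have h7 := cc_mul x
    have h8 := cc_mul u
    have h9 := ncard_class_le x
    have h10 := ncard_class_le u
    rw [show orderOf x = 3 from hx, m3] at h9
    rw [show orderOf u = 2 from hu, m2] at h10
    rw [hG] at h7 h8
    obtain ⟨p, hp, hp3, h11⟩ := key 3 2 x Nat.prime_three hx (by nlinarith) (by decide)
    obtain ⟨q, hq, hq2, h12⟩ := key 2 4 u Nat.prime_two hu (by nlinarith) (by decide)
    have h13 := hp.two_le
    have h14 := hq.two_le
    have h15 : q ≠ 4 := by rintro rfl; exact absurd hq (by decide)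
    simp only [Finset.mem_insert, Finset.mem_singleton] at h11 h12
    have h16 : 2 ∣ p := by omega
    have h17 := (Nat.prime_dvd_prime_iff_eq Nat.prime_two hp).mp h16
    omega
  exact ⟨hG, h6 ▸ hk, m2, m3, m4, h6 ▸ (hf 1320 (by decide)).symm, m8⟩

open Cfsg.Agent.M11 in
theorem mo_congr {G H : Type*} [Group G] [Group H] (e : G ≃* H) (n : ℕ) : mo G n = mo H n := by
  rw [mo, mo, ← Set.ncard_image_of_injective _ e.injective]
  congr 1
  ext y
  obtain ⟨x, rfl⟩ := e.surjective y
  simp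


/-- Let M be the Mathieu group M₁₁ (order 7920). If a finite group G has the same order as M and the same set of values of the function 'number of elements of order n' (taken over the element orders n that occur), then G is isomorphic to M. -/
theorem result {G : Type*} [Group G] [Finite G]
    (hcard : Nat.card G = Nat.card ↥Cfsg.Spor.M11)
    (hnse : {c : ℕ | 0 < c ∧ ∃ n : ℕ, c = Nat.card {g : G // orderOf g = n}} =
      {c : ℕ | 0 < c ∧ ∃ n : ℕ, c = Nat.card {g : ↥Cfsg.Spor.M11 // orderOf g = n}}) :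
    Nonempty (G ≃* ↥Cfsg.Spor.M11) := by
  obtain ⟨e⟩ := M11.nonempty_M11_equiv
  obtain ⟨d0, d1, d2, d3, d4, d5, d6, d8, d11⟩ := M11.data_Mx
  obtain ⟨e'⟩ := (nse (hcard.trans ((Nat.card_congr e.toEquiv).trans M11.card_Mx)) fun c => by
    refine (Set.ext_iff.mp hnse c).trans ?_
    show (0 < c ∧ ∃ n, c = M11.mo _ n) ↔ _
    simp only [mo_congr e]
    constructor
    · rintro ⟨h0, n, rfl⟩
      obtain ⟨g, rfl⟩ := Set.nonempty_of_ncard_ne_zero h0.ne'
      have h1 := (d0 g).1
      simp only [Finset.mem_insert, Finset.mem_singleton] at h1 ⊢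
      rcases h1 with h | h | h | h | h | h | h | h <;> rw [h] <;> omega
    · intro hc
      simp only [Finset.mem_insert, Finset.mem_singleton] at hc
      rcases hc with rfl | rfl | rfl | rfl | rfl | rfl | rfl | rfl
      exacts [⟨by decide, _, d1.symm⟩, ⟨by decide, _, d2.symm⟩, ⟨by decide, _, d3.symm⟩,
        ⟨by decide, _, d4.symm⟩, ⟨by decide, _, d5.symm⟩, ⟨by decide, _, d6.symm⟩, ⟨by decide, _, d8.symm⟩,
        ⟨by decide, _, d11.symm⟩]).hyp.nonempty_equiv
  exact ⟨e'.trans e.symm⟩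

end Cfsg.Agent.S3592
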