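import Cfsg.Statements.S3595
import Cfsg.Agent.Mat.M23F

set_option autoImplicit false
open Cfsg

namespace Cfsg.Agent.S3595

open Cfsg.Agent.M11 in
theorem mo_congr {G H : Type*} [Group G] [Group H] (e : G ≃* H) (n : ℕ) : mo G n = mo H n := by
  rw [mo, mo, ← Set.ncard_image_of_injective _ e.injective]
  congr 1
  ext y
  obtain ⟨x, rfl⟩ := e.surjective y
  simp

open Cfsg.Agent.M11 in
theorem mo_sub {G H : Type*} [Group G] [Group H] {A : Subgroup G} {B : Subgroup H} (e : A ≃* B) (n : ℕ) :
    mo A n = mo B n := mo_congr e n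


/-- Let M be the Mathieu group M₂₃ (order 10200960). If a finite group G has the same order as M and the same set of values of the function 'number of elements of order n' (taken over the element orders n that occur), then G is isomorphic to M. -/
theorem result {G : Type*} [Group G] [Finite G]
    (hcard : Nat.card G = Nat.card ↥Cfsg.Spor.M23)
    (hnse : {c : ℕ | 0 < c ∧ ∃ n : ℕ, c = Nat.card {g : G // orderOf g = n}} =
      {c : ℕ | 0 < c ∧ ∃ n : ℕ, c = Nat.card {g : ↥Cfsg.Spor.M23 // orderOf g = n}}) :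
    Nonempty (G ≃* ↥Cfsg.Spor.M23) := by
  have e : Spor.M23 ≃* Mat.cl Mat.ms23 :=
    (Spor.M23.equivMapOfInjective Mat.eM.toMonoidHom Mat.eM.injective).trans (MulEquiv.subgroupCongr Mat.cl23_eq.symm)
  have h1 : Nat.card G = 10200960 := by rw [hcard, Nat.card_congr e.toEquiv, Mat.card_cl23]
  obtain ⟨e'⟩ := (Mat.n23_of_nse h1 fun c => by
    have h2 : (0 < c ∧ ∃ n, c = M11.mo G n) ↔ (0 < c ∧ ∃ n, c = M11.mo Spor.M23 n) := Set.ext_iff.mp hnse c
    rw [h2]
    simp only [mo_sub e]
    exact Mat.nse23 c).nonempty_equiv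
  exact ⟨e'.trans e.symm⟩

end Cfsg.Agent.S3595
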