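import Cfsg.Statements.S3598
import Cfsg.Agent.PSL2Rec.DegPSL

set_option autoImplicit false
open Cfsg

namespace Cfsg.Agent.S3598

/-- Let p be a prime and F a field with p² elements. If a finite group G has, for every d, the same number of irreducible complex characters of degree d as PSL(2,F) (the same first column of the character table, with multiplicities), then G is isomorphic to PSL(2,F). -/
theorem result {F : Type*} [Field F] [Fintype F] (p : ℕ) (hp : p.Prime)
    (hF : Fintype.card F = p ^ 2) {G : Type*} [Group G] [Finite G]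
    (h : ∀ d : ℕ, Nat.card {χ : Cfsg.IrrCharacter G // (χ : G → ℂ) 1 = (d : ℂ)} =
      Nat.card {χ : Cfsg.IrrCharacter (Matrix.ProjectiveSpecialLinearGroup (Fin 2) F) // (χ : Matrix.ProjectiveSpecialLinearGroup (Fin 2) F → ℂ) 1 = (d : ℂ)}) :
    Nonempty (G ≃* Matrix.ProjectiveSpecialLinearGroup (Fin 2) F) := by
  obtain ⟨p', hpc⟩ := CharP.exists F
  obtain ⟨n, hp', hn⟩ := FiniteField.card F p'
  have hpp : p = p' := (Nat.prime_dvd_prime_iff_eq hp hp').1
    (hp.dvd_of_dvd_pow (n := n) (by rw [← hn, hF]; exact dvd_pow_self p two_ne_zero))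
  subst hpp
  have := Fact.mk hp
  have h3 : 3 < Fintype.card F := by have := hp.two_le; rw [hF]; nlinarith
  have h8 : Fintype.card F = 4 ∨ Fintype.card F % 8 = 1 := by
    rcases hp.eq_two_or_odd' with rfl | ⟨k, rfl⟩
    · exact Or.inl hF
    · right
      obtain ⟨j, hj⟩ := Nat.even_mul_succ_self k
      rw [hF, show (2 * k + 1) ^ 2 = 4 * (k * (k + 1)) + 1 by ring, hj]
      omega
  obtain ⟨e, he⟩ := PSL2Rec.exists_equiv_of_degrees h
  have hG := PSL2Rec.card_eq_of_equiv e he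
  have hperf := SL2Simple.PSL_commutator_eq_top (PSL2Rec.exists_sq_ne_one h3)
  have hdeg : ∀ χ, IsIrrCharacter G χ → χ = 1 ∨ Fintype.card F ∣ Zass.deg χ ∨
      Fintype.card F - 1 ∣ Zass.deg χ ∨
      (Fintype.card F + 1) / Nat.gcd 2 (Fintype.card F - 1) ∣ Zass.deg χ := fun χ hχ => by
    rcases PSL2Rec.degrees_psl2 h3 (by omega) (e ⟨χ, hχ⟩).2 with h1 | h1
    · exact Or.inl (PSL2Rec.eq_one_of_equiv e he hperf h1)
    · exact Or.inr (by rwa [he] at h1)
  have hc := PSL2Rec.card_psl2 (F := F)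
  rw [← hG] at hc
  obtain ⟨M, hM, hMo, hM1, t, ht, hGt⟩ : ∃ M, (Fintype.card F + 1) / Nat.gcd 2 (Fintype.card F - 1) = M ∧
      (M % 2 = 1 ∧ M ∣ Fintype.card F + 1) ∧
      (M ≠ 1 ∧ Nat.card G = Fintype.card F * (Fintype.card F - 1) * M) ∧
      ∃ t, t ∣ Fintype.card F - 1 ∧ Nat.card G = Fintype.card F * t * (Fintype.card F + 1) := by
    rcases h8 with h4 | h8
    · rw [h4] at hc ⊢
      exact ⟨5, by norm_num, by norm_num, ⟨by norm_num, by simpa using hc⟩, 3, by norm_num,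
        by simpa using hc⟩
    · obtain ⟨k, hk⟩ : ∃ k, Fintype.card F = 8 * k + 1 := ⟨Fintype.card F / 8, by omega⟩
      have hg : Nat.gcd 2 (Fintype.card F - 1) = 2 := Nat.gcd_eq_left (by omega)
      rw [hg] at hc ⊢
      rw [hk] at hc h3 ⊢
      rw [Nat.add_sub_cancel] at hc ⊢
      exact ⟨4 * k + 1, by omega, ⟨by omega, 2, by ring⟩, ⟨by omega, by nlinarith⟩, 4 * k,
        ⟨2, by ring⟩, by nlinarith⟩
  rw [hM] at hdeg
  have hpq : p ∣ Fintype.card F := hF ▸ dvd_pow_self p two_ne_zero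
  have hq : ∀ r : ℕ, r.Prime → r ∣ Fintype.card F → r = p := fun r hr h1 =>
    (Nat.prime_dvd_prime_iff_eq hr hp).1 (hr.dvd_of_dvd_pow (hF ▸ h1))
  have hp1 : ¬ p ∣ Fintype.card F - 1 := fun h =>
    hp.not_dvd_one ((Nat.dvd_sub_iff_right (by omega) hpq).1 h)
  have hp2 : ¬ p ∣ M := fun h => hp.not_dvd_one ((Nat.dvd_add_right hpq).1 (h.trans hMo.2))
  have hcop : ∀ r : ℕ, r.Prime → r ∣ Fintype.card F - 1 → ¬ r ∣ M := fun r hr h1 h2 => by
    have h4 := h2.trans hMo.2
    rw [show Fintype.card F + 1 = Fintype.card F - 1 + 2 by omega, Nat.dvd_add_right h1,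
      Nat.prime_dvd_prime_iff_eq hr Nat.prime_two] at h4
    subst h4
    omega
  have hB : ∀ r : ℕ, r.Prime → r ≠ p → ∀ x : G, orderOf x ≠ p * r := fun r hr hrp x hx => by
    have hpx : p ∣ orderOf x := hx ▸ dvd_mul_right _ _
    have hrx : r ∣ orderOf x := hx ▸ dvd_mul_left _ _
    have h1 := hrx.trans (orderOf_dvd_natCard x)
    rw [hM1.2, hr.dvd_mul, hr.dvd_mul] at h1
    rcases h1 with (h1 | h1) | h1
    · exact hrp (hq r hr h1)
    · exact PSL2Rec.false_of_degrees hM1.2 hdeg hp hr (by rw [hp.dvd_mul]; tauto) (by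
        rw [hr.dvd_mul]
        exact fun h2 => h2.elim (fun h2 => hrp (hq r hr h2)) (hcop r hr h1)) hM1.1 hpx hrx
    · exact PSL2Rec.false_of_degrees (B := M) (C := Fintype.card F - 1) (by rw [hM1.2]; ring)
        (fun χ hχ => by have := hdeg χ hχ; tauto) hp hr (by rw [hp.dvd_mul]; tauto) (by
        rw [hr.dvd_mul]
        exact fun h2 => h2.elim (fun h2 => hrp (hq r hr h2)) (fun h2 => hcop r hr h2 h1))
        (by omega) hpx hrx
  refine PSL2Rec.recog_psl2 h3 p hG (PSL2Rec.sylowTI_of_comm hB fun P =>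
    IsPGroup.isMulCommutative_of_card_eq_prime_sq (p := p)
      (PSL2Rec.card_sylow_eq two_ne_zero (hF ▸ ht) (hF ▸ hGt) P)) hB ?_
  intro ho r hr _ hr2 x hx
  rcases h8 with h4 | h8
  · have hp2' : 2 = p := hq 2 Nat.prime_two (by omega)
    exact hB r hr (hp2' ▸ hr2) x (by rw [hx, ← hp2', mul_comm])
  · rw [Nat.gcd_eq_left (by omega), Nat.odd_iff] at ho
    omega

end Cfsg.Agent.S3598
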