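import Cfsg.Statements.S3599
import Cfsg.Agent.Spec.MinFrob

set_option autoImplicit false
open Cfsg

namespace Cfsg.Agent.S3599

/-- the set of products -/
def Om {s : ℕ} (a b : Fin s → ℕ) : Set ℕ :=
  {m : ℕ | ∃ c : Fin s → ℕ, (∀ j, c j = 1 ∨ c j = a j ∨ c j = b j) ∧ m = ∏ j, c j}

/-- the data of a family of minimal Frobenius groups of coprime orders -/
structure Data {s : ℕ} (a b : Fin s → ℕ) (G : Fin s → Type) [∀ j, Group (G j)] : Prop where
  fr : ∀ j, Cfsg.Agent.Spec.IsMinFrob (a j) (b j) (G j)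
  pa : ∀ j, (a j).Prime
  pb : ∀ j, (b j).Prime
  ne : ∀ j, a j ≠ b j
  ne' : ∀ j k, j ≠ k → a j ≠ a k ∧ a j ≠ b k ∧ b j ≠ a k ∧ b j ≠ b k

section

variable {s : ℕ} {a b : Fin s → ℕ} {G : Fin s → Type} [∀ j, Group (G j)] [∀ j, Finite (G j)]

theorem Data.cop (D : Data a b G) {j k : Fin s} (hjk : j ≠ k) {u v : ℕ}
    (hu : u = 1 ∨ u = a j ∨ u = b j) (hv : v = 1 ∨ v = a k ∨ v = b k) : Nat.Coprime u v := by
  obtain ⟨h1, h2, h3, h4⟩ := D.ne' j k hjk
  rcases hu with rfl | rfl | rfl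
  · simp
  · rcases hv with rfl | rfl | rfl
    · simp
    · exact (Nat.coprime_primes (D.pa _) (D.pa _)).2 h1
    · exact (Nat.coprime_primes (D.pa _) (D.pb _)).2 h2
  · rcases hv with rfl | rfl | rfl
    · simp
    · exact (Nat.coprime_primes (D.pb _) (D.pa _)).2 h3
    · exact (Nat.coprime_primes (D.pb _) (D.pb _)).2 h4

theorem Data.orderOf_eq (D : Data a b G) (x : ∀ j, G j) : orderOf x = ∏ j, orderOf (x j) := by
  rw [Pi.orderOf]
  apply Finset.lcm_eq_prod
  intro j _ k _ hjk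
  exact D.cop hjk ((D.fr j).ord _) ((D.fr k).ord _)

theorem Data.spec (D : Data a b G) : Set.range (orderOf : (∀ j, G j) → ℕ) = Om a b := by
  ext m
  constructor
  · rintro ⟨x, rfl⟩
    exact ⟨fun j => orderOf (x j), fun j => (D.fr j).ord _, D.orderOf_eq x⟩
  · rintro ⟨c, hc, rfl⟩
    have : ∀ j, ∃ x : G j, orderOf x = c j := by
      intro j
      rcases hc j with h | h | h <;> rw [h]
      · exact ⟨1, orderOf_one⟩
      · exact (D.fr j).exp
      · exact (D.fr j).ext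
    choose x hx using this
    exact ⟨x, by rw [D.orderOf_eq]; simp only [hx]⟩

theorem Data.eq_one (D : Data a b G) {j k : Fin s} (hjk : k ≠ j) {r : ℕ} (hr : r = a j ∨ r = b j)
    (y : G k) (hy : y ^ r = 1) : y = 1 := by
  have h1 := D.cop hjk ((D.fr k).ord y) (Or.inr hr)
  exact orderOf_eq_one_iff.1 (Nat.Coprime.eq_one_of_dvd h1 (orderOf_dvd_of_pow_eq_one hy))

theorem Data.eq_single (D : Data a b G) (j : Fin s) {r : ℕ} (hr : r = a j ∨ r = b j)
    (x : ∀ j, G j) (hx : x ^ r = 1) : x = Pi.mulSingle j (x j) := by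
  ext k
  by_cases hk : k = j
  · subst hk; simp
  · rw [Pi.mulSingle_eq_of_ne hk]
    exact D.eq_one hk hr _ (congrFun hx k)

theorem Data.mul (D : Data a b G) (j : Fin s) (x y : ∀ j, G j) (hx : x ^ a j = 1)
    (hy : y ^ a j = 1) : (x * y) ^ a j = 1 := by
  ext k
  by_cases hk : k = j
  · subst hk
    exact (D.fr k).mulp _ _ (congrFun hx k) (congrFun hy k)
  · have h1 := D.eq_one hk (Or.inl rfl) _ (congrFun hx k)
    have h2 := D.eq_one hk (Or.inl rfl) _ (congrFun hy k)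
    simp [h1, h2]

theorem Data.not_mul (D : Data a b G) (j : Fin s) :
    ∃ x y : ∀ j, G j, x ^ b j = 1 ∧ y ^ b j = 1 ∧ (x * y) ^ b j ≠ 1 := by
  obtain ⟨x, y, hx, hy, hxy⟩ := (D.fr j).mult
  refine ⟨MonoidHom.mulSingle G j x, MonoidHom.mulSingle G j y, ?_, ?_, ?_⟩
  · rw [← map_pow, hx, map_one]
  · rw [← map_pow, hy, map_one]
  · intro h
    apply hxy
    simpa using congrFun h j

theorem mem_Om (j : Fin s) {r : ℕ} (hr : r = a j ∨ r = b j) : r ∈ Om a b := by
  refine ⟨Pi.mulSingle j r, fun k => ?_, by simp⟩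
  by_cases hk : k = j
  · subst hk; right; simpa using hr
  · left; exact Pi.mulSingle_eq_of_ne hk _

theorem Data.critical (D : Data a b G) (H : Subgroup (∀ j, G j)) (N : Subgroup H) [hN : N.Normal]
    (h : H ≠ ⊤ ∨ N ≠ ⊥) : Set.range (orderOf : H ⧸ N → ℕ) ≠ Om a b := by
  intro hs
  have key : ∀ j r, (r = a j ∨ r = b j) →
      ∃ x ∈ H.comap (MonoidHom.mulSingle G j), orderOf x = r := by
    intro j r hr
    have h1 : r ∈ Set.range (orderOf : H → ℕ) :=
      Cfsg.Agent.Spec.spec_subset_of_surjective (QuotientGroup.mk' N)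
        (QuotientGroup.mk'_surjective N) (hs ▸ mem_Om j hr)
    obtain ⟨x, hx⟩ := h1
    rw [← Subgroup.orderOf_coe] at hx
    have h2 := D.eq_single j hr x.1 (by rw [← hx, pow_orderOf_eq_one])
    refine ⟨x.1 j, ?_, ?_⟩
    · rw [Subgroup.mem_comap, MonoidHom.mulSingle_apply, ← h2]
      exact x.2
    · rw [← hx, ← orderOf_injective (MonoidHom.mulSingle G j) (Pi.mulSingle_injective j),
        MonoidHom.mulSingle_apply, ← h2]
  have hH : H = ⊤ := by
    rw [eq_top_iff]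
    intro x _
    apply Subgroup.pi_mem_of_mulSingle_mem
    intro j
    have := (D.fr j).gen _ (key j _ (Or.inl rfl)) (key j _ (Or.inr rfl))
    have h2 : x j ∈ H.comap (MonoidHom.mulSingle G j) := this ▸ Subgroup.mem_top _
    exact h2
  subst hH
  have hN0 : N ≠ ⊥ := h.resolve_left (fun h => h rfl)
  obtain ⟨⟨n, hn⟩, hn1⟩ := (Subgroup.ne_bot_iff_exists_ne_one).1 hN0
  have hn1' : n.1 ≠ 1 := fun h => hn1 (Subtype.ext (Subtype.ext h))
  obtain ⟨j, hj⟩ := Function.ne_iff.1 hn1'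
  let m : ℕ := ∏ k ∈ Finset.univ.erase j, (a k * b k)
  have hm : ∀ (x : ∀ j, G j) (e : ℕ), x ^ (m * e) = Pi.mulSingle j (x j ^ (m * e)) := by
    intro x e
    ext k
    by_cases hk : k = j
    · subst hk; simp
    · rw [Pi.mulSingle_eq_of_ne hk, Pi.pow_apply, ← orderOf_dvd_iff_pow_eq_one]
      apply Dvd.dvd.mul_right
      refine Dvd.dvd.trans ?_ (Finset.dvd_prod_of_mem _ (Finset.mem_erase.2 ⟨hk, Finset.mem_univ _⟩))
      rcases (D.fr k).ord (x k) with h | h | h <;> rw [h]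
      · exact one_dvd _
      · exact Dvd.intro _ rfl
      · exact Dvd.intro_left _ rfl
  have hmc : ∀ u, (u = 1 ∨ u = a j ∨ u = b j) → Nat.Coprime u m := by
    intro u hu
    apply Nat.Coprime.prod_right
    intro k hk
    have hk' : j ≠ k := (Finset.mem_erase.1 hk).1.symm
    exact Nat.Coprime.mul_right (D.cop hk' hu (Or.inr (Or.inl rfl)))
      (D.cop hk' hu (Or.inr (Or.inr rfl)))
  let φ : G j →* (⊤ : Subgroup (∀ j, G j)) :=
    Subgroup.topEquiv.symm.toMonoidHom.comp (MonoidHom.mulSingle G j)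
  have hφ : ∀ (x : (⊤ : Subgroup (∀ j, G j))) (e : ℕ), x ^ (m * e) = φ (x.1 j ^ (m * e)) :=
    fun x e => Subtype.ext (hm x.1 e)
  have hN1 : N.comap φ ≠ ⊥ := by
    intro h0
    have h1 : n.1 j ^ (m * 1) ∈ N.comap φ := by
      rw [Subgroup.mem_comap, ← hφ]
      exact N.pow_mem hn _
    rw [h0, Subgroup.mem_bot, mul_one] at h1
    apply hj
    exact orderOf_eq_one_iff.1 (Nat.Coprime.eq_one_of_dvd (hmc _ ((D.fr j).ord _))
      (orderOf_dvd_of_pow_eq_one h1))
  have h3 := (D.fr j).nrm _ (hN.comap φ) hN1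
  obtain ⟨y, hy⟩ : a j ∈ Set.range (orderOf : (⊤ : Subgroup (∀ j, G j)) ⧸ N → ℕ) :=
    hs ▸ mem_Om j (Or.inl rfl)
  obtain ⟨x, rfl⟩ := QuotientGroup.mk_surjective y
  have h4 : (QuotientGroup.mk x : (⊤ : Subgroup (∀ j, G j)) ⧸ N) ^ (m * b j) = 1 := by
    rw [← QuotientGroup.mk_pow, QuotientGroup.eq_one_iff, hφ, pow_mul]
    exact h3 _
  have h5 := orderOf_dvd_of_pow_eq_one h4
  rw [hy] at h5
  have h6 : Nat.Coprime (a j) (m * b j) := Nat.Coprime.mul_right (hmc _ (Or.inr (Or.inl rfl)))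
    ((Nat.coprime_primes (D.pa j) (D.pb j)).2 (D.ne j))
  exact (D.pa j).one_lt.ne' (Nat.Coprime.eq_one_of_dvd h6 h5)

end


/-- A finite group is critical with respect to a set Ω of natural numbers when its set of element orders is Ω while no proper section H/N (H a subgroup, N normal in H, (H, N) ≠ (whole group, 1)) has Ω as its set of element orders. Let s ≥ 1 and let p(j,0), p(j,1) (j < s) be 2s pairwise distinct primes, and let Ω be the set of all products c(0)·…·c(s−1) with each c(j) ∈ {1, p(j,0), p(j,1)}. Then there are 2^s pairwise non-isomorphic finite groups critical with respect to Ω. -/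
theorem result (s : ℕ) (hs : 1 ≤ s) (p : Fin s → Fin 2 → ℕ)
    (hp : ∀ j i, (p j i).Prime) (hinj : ∀ j i j' i', p j i = p j' i' → j = j' ∧ i = i') :
    ∃ (G : Fin (2 ^ s) → Type) (_ : ∀ a, Group (G a)) (_ : ∀ a, Fintype (G a)),
      (∀ a b, a ≠ b → ¬ Nonempty (G a ≃* G b)) ∧
      ∀ a, Set.range (orderOf : (G a) → ℕ) = {m : ℕ | ∃ c : Fin s → ℕ, (∀ j, c j = 1 ∨ c j = p j 0 ∨ c j = p j 1) ∧ m = ∏ j, c j} ∧
      ∀ (H : Subgroup (G a)) (N : Subgroup ↥H) [N.Normal], (H ≠ ⊤ ∨ N ≠ ⊥) → Set.range (orderOf : (↥H ⧸ N) → ℕ) ≠ {m : ℕ | ∃ c : Fin s → ℕ, (∀ j, c j = 1 ∨ c j = p j 0 ∨ c j = p j 1) ∧ m = ∏ j, c j} := by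
  classical
  have hrev : ∀ i : Fin 2, i ≠ i.rev := by decide
  choose F instG instF hF using fun j i => Cfsg.Agent.Spec.exists_minFrob (p j i) (p j i.rev)
    (hp _ _) (hp _ _) (fun h => hrev i (hinj _ _ _ _ h).2)
  have hD : ∀ ε : Fin s → Fin 2, Data (fun j => p j (ε j)) (fun j => p j (ε j).rev)
      (fun j => F j (ε j)) := fun ε =>
    ⟨fun j => hF j _, fun j => hp _ _, fun j => hp _ _,
      fun j => fun h => hrev _ (hinj _ _ _ _ h).2,
      fun j k hjk => ⟨fun h => hjk (hinj _ _ _ _ h).1, fun h => hjk (hinj _ _ _ _ h).1,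
        fun h => hjk (hinj _ _ _ _ h).1, fun h => hjk (hinj _ _ _ _ h).1⟩⟩
  have hΩ : ∀ ε : Fin s → Fin 2, Om (fun j => p j (ε j)) (fun j => p j (ε j).rev) =
      {m : ℕ | ∃ c : Fin s → ℕ, (∀ j, c j = 1 ∨ c j = p j 0 ∨ c j = p j 1) ∧ m = ∏ j, c j} := by
    intro ε
    ext m
    simp only [Om, Set.mem_ofPred_eq]
    refine exists_congr fun c => and_congr_left fun _ => forall_congr' fun j => ?_
    generalize ε j = i
    fin_cases i
    · exact Iff.rfl
    · exact or_congr_right or_comm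
  refine ⟨fun a => (j : Fin s) → F j (finFunctionFinEquiv.symm a j), inferInstance,
    fun a => Fintype.ofFinite _, ?_, ?_⟩
  · rintro a b hab ⟨e⟩
    have hne : finFunctionFinEquiv.symm a ≠ finFunctionFinEquiv.symm b :=
      fun h => hab (finFunctionFinEquiv.symm.injective h)
    obtain ⟨j, hj⟩ := Function.ne_iff.1 hne
    have hj' : (finFunctionFinEquiv.symm b j).rev = finFunctionFinEquiv.symm a j := by
      revert hj
      generalize finFunctionFinEquiv.symm a j = x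
      generalize finFunctionFinEquiv.symm b j = y
      revert x y
      decide
    obtain ⟨x, y, hx, hy, hxy⟩ := (hD (finFunctionFinEquiv.symm b)).not_mul j
    simp only [hj'] at hx hy hxy
    apply hxy
    apply e.symm.injective
    rw [map_pow, map_mul, map_one]
    apply (hD (finFunctionFinEquiv.symm a)).mul j
    · rw [← map_pow, hx, map_one]
    · rw [← map_pow, hy, map_one]
  · intro a
    rw [← hΩ (finFunctionFinEquiv.symm a)]
    exact ⟨(hD _).spec, fun H N _ h => (hD _).critical H N h⟩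

end Cfsg.Agent.S3599
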