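import Cfsg.Statements.S3600
import Cfsg.Agent.Sp5.Nat
import Cfsg.Agent.Spec.PSL2
-- import your own Cfsg.Agent.* helpers here

set_option autoImplicit false
open Cfsg

namespace Cfsg.Agent.S3600

open Subgroup Sp5 Matrix

section Aff

variable (F : Type) [Field F]

/-- The affine group. -/
def Aff : Subgroup (SpecialLinearGroup (Fin 3) F) where
  carrier := {M | (M : Matrix (Fin 3) (Fin 3) F) 2 0 = 0 ∧ (M : Matrix (Fin 3) (Fin 3) F) 2 1 = 0 ∧
    (M : Matrix (Fin 3) (Fin 3) F) 2 2 = 1}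
  one_mem' := by simp
  mul_mem' := by
    rintro A B ⟨h1, h2, h3⟩ ⟨h4, h5, h6⟩
    simp [Matrix.mul_apply, Fin.sum_univ_three, *]
  inv_mem' := by
    rintro A ⟨h1, h2, h3⟩
    have := A.det_coe
    rw [det_fin_three, h1, h2, h3] at this
    simp [adjugate_fin_three, *]
    linear_combination this

/-- The linear part. -/
def lin : Aff F →* SpecialLinearGroup (Fin 2) F :=
  MonoidHom.mk' (fun M => ⟨!![M.1.1 0 0, M.1.1 0 1; M.1.1 1 0, M.1.1 1 1], by
    obtain ⟨h1, h2, h3⟩ := M.2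
    have := M.1.det_coe
    rw [det_fin_three, h1, h2, h3] at this
    rw [det_fin_two_of]
    linear_combination this⟩) (by
    rintro A ⟨B, h4, h5, h6⟩
    apply Subtype.ext
    change !![(A.1.1 * B.1) 0 0, (A.1.1 * B.1) 0 1; (A.1.1 * B.1) 1 0, (A.1.1 * B.1) 1 1] =
      !![A.1.1 0 0, A.1.1 0 1; A.1.1 1 0, A.1.1 1 1] * !![B.1 0 0, B.1 0 1; B.1 1 0, B.1 1 1]
    ext i j
    fin_cases i <;> fin_cases j <;>
      simp [Matrix.mul_apply, Fin.sum_univ_three, Fin.sum_univ_two, h4, h5])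

/-- The point stabiliser. -/
def emb : SpecialLinearGroup (Fin 2) F →* Aff F :=
  MonoidHom.mk' (fun M => ⟨⟨!![M.1 0 0, M.1 0 1, 0; M.1 1 0, M.1 1 1, 0; 0, 0, 1], by
    have := M.det_coe
    rw [det_fin_two] at this
    simp [det_fin_three, this]⟩, by simp, by simp, by simp⟩) (by
    intro A B
    refine Subtype.ext (Subtype.ext ?_)
    change !![(A.1 * B.1) 0 0, (A.1 * B.1) 0 1, 0; (A.1 * B.1) 1 0, (A.1 * B.1) 1 1, 0; 0, 0, 1] =
      !![A.1 0 0, A.1 0 1, 0; A.1 1 0, A.1 1 1, 0; 0, 0, 1] *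
        !![B.1 0 0, B.1 0 1, 0; B.1 1 0, B.1 1 1, 0; 0, 0, 1]
    ext i j
    fin_cases i <;> fin_cases j <;>
      simp [Matrix.mul_apply, Fin.sum_univ_three, Fin.sum_univ_two])

theorem lin_val (M : Aff F) : (lin F M).1 = !![M.1.1 0 0, M.1.1 0 1; M.1.1 1 0, M.1.1 1 1] := rfl

theorem emb_val (M : SpecialLinearGroup (Fin 2) F) :
    (emb F M).1.1 = !![M.1 0 0, M.1 0 1, 0; M.1 1 0, M.1 1 1, 0; 0, 0, 1] := rfl

theorem lin_emb (M : SpecialLinearGroup (Fin 2) F) : lin F (emb F M) = M := by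
  ext i j
  fin_cases i <;> fin_cases j <;> simp [lin_val, emb_val]

theorem mem_ker {M : Aff F} : M ∈ (lin F).ker ↔
    M.1.1 = !![1, 0, M.1.1 0 2; 0, 1, M.1.1 1 2; 0, 0, 1] := by
  obtain ⟨h1, h2, h3⟩ := M.2
  constructor
  · intro h
    have h4 := fun i j => congrFun (congrFun (congrArg Subtype.val h) i) j
    have a := h4 0 0
    have b := h4 0 1
    have c := h4 1 0
    have d := h4 1 1
    simp [lin_val] at a b c d
    ext i j
    fin_cases i <;> fin_cases j <;> simp [*]
  · intro h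
    ext i j
    fin_cases i <;> fin_cases j <;> simp [lin_val] <;> rw [h] <;> simp

theorem exists_mdl [Fintype F] (hF : Fintype.card F = 4) [CharP F 2] :
    ∃ κ : A5 →* Aff F, Mdl κ (lin F).ker ∧ (∀ g, κ g ∈ (lin F).ker → g = 1) ∧ (lin F).ker ≠ ⊥ ∧
      Nat.card (Aff F) ≤ 960 := by
  have hs : ∀ x : SpecialLinearGroup (Fin 2) F, orderOf x ∣ 2 ∨ orderOf x ∣ 3 ∨ orderOf x ∣ 5 :=
    fun x => by
      have := Set.mem_range_self (f := orderOf) x
      rwa [Spec.spec_sl2_even, hF] at this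
  have h60 : Nat.card (SpecialLinearGroup (Fin 2) F) = 60 := by rw [PSL2Rec.card_sl2, hF]
  have := Fact.mk Nat.prime_two
  obtain ⟨e⟩ := Le5.equiv_alt5 (G := SpecialLinearGroup (Fin 2) F)
    (fun x => by rcases hs x with h | h | h <;> exact (Nat.le_of_dvd (by norm_num) h).trans (by norm_num))
    (PSL2Rec.NoMul.sylowTI fun r hr x e => by
      have := hr.two_le
      rcases hs x with h | h | h <;> rw [e] at h
      · have := Nat.le_of_dvd (by norm_num) h; omega
      all_goals exact absurd ((dvd_mul_right 2 r).trans h) (by norm_num)) h60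
  have h2 : (2 : F) = 0 := CharTwo.two_eq_zero
  refine ⟨(emb F).comp e.symm.toMonoidHom, ⟨inferInstance, fun x hx => ?_, fun g hg x hx hc => ?_⟩,
    fun g hg => ?_, fun h => ?_, ?_⟩
  · refine Subtype.ext (Subtype.ext ?_)
    change x.1.1 * x.1.1 = 1
    rw [(mem_ker F).1 hx]
    ext i j
    fin_cases i <;> fin_cases j <;> simp [Matrix.mul_apply, Fin.sum_univ_three, CharTwo.add_self_eq_zero]
  · by_contra hx1
    apply hg.sq.ne_one
    apply e.symm.injective
    rw [map_mul, map_one]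
    have h3 : (emb F (e.symm g)).1.1 * x.1.1 = x.1.1 * (emb F (e.symm g)).1.1 :=
      congrArg (fun y : Aff F => y.1.1) hc
    have h4 := (e.symm g).det_coe
    rw [det_fin_two] at h4
    generalize e.symm g = A at h3 h4
    rw [(mem_ker F).1 hx] at h3
    have a := congrFun (congrFun h3 0) 2
    have b := congrFun (congrFun h3 1) 2
    simp [emb_val, Matrix.mul_apply, Fin.sum_univ_three] at a b
    have ht : A.1 0 0 + A.1 1 1 = 0 := by
      by_contra ht
      apply hx1
      have c : x.1.1 0 2 = 0 := mul_left_cancel₀ ht (by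
        linear_combination (1 - A.1 1 1) * a + A.1 0 1 * b + x.1.1 0 2 * h4 + x.1.1 0 2 * h2)
      have d : x.1.1 1 2 = 0 := mul_left_cancel₀ ht (by
        linear_combination (1 - A.1 0 0) * b + A.1 1 0 * a + x.1.1 1 2 * h4 + x.1.1 1 2 * h2)
      refine Subtype.ext (Subtype.ext ?_)
      rw [(mem_ker F).1 hx, c, d]
      exact (Matrix.one_fin_three).symm
    ext i j
    fin_cases i <;> fin_cases j <;> simp [Matrix.mul_apply, Fin.sum_univ_two]
    · linear_combination A.1 0 0 * ht - h4 - h2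
    · linear_combination A.1 0 1 * ht
    · linear_combination A.1 1 0 * ht
    · linear_combination A.1 1 1 * ht - h4 - h2
  · have : lin F (emb F (e.symm g)) = 1 := hg
    rw [lin_emb] at this
    exact e.symm.injective (this.trans (map_one _).symm)
  · have : (⟨⟨!![1, 0, 1; 0, 1, 0; 0, 0, 1], by simp [det_fin_three]⟩, by simp, by simp, by simp⟩ :
      Aff F) ∈ (lin F).ker := (mem_ker F).2 (by simp)
    rw [h, mem_bot] at this
    simpa using congrArg (fun y : Aff F => y.1.1 0 2) this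
  · have e1 := (lin F).ker.card_mul_index
    have e2 := Nat.le_of_dvd Nat.card_pos (card_subgroup_dvd_card (lin F).range)
    have e3 := Nat.card_le_card_of_injective (fun x : (lin F).ker => (x.1.1.1 0 2, x.1.1.1 1 2))
      fun x y e => Subtype.ext (Subtype.ext (Subtype.ext (by
        have e4 : x.1.1.1 0 2 = y.1.1.1 0 2 := congrArg Prod.fst e
        have e5 : x.1.1.1 1 2 = y.1.1.1 1 2 := congrArg Prod.snd e
        rw [(mem_ker F).1 x.2, (mem_ker F).1 y.2, e4, e5])))
    rw [Nat.card_prod, Nat.card_eq_fintype_card (α := F), hF] at e3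
    rw [index_ker] at e1
    rw [h60] at e2
    nlinarith

end Aff

/-- A finite group is critical with respect to a set Ω of natural numbers when its set of element orders is Ω while no proper section has Ω as its set of element orders. A finite group critical with respect to {1, 2, 3, 4, 5} (the set of element orders of the alternating group of degree 6) is isomorphic either to the alternating group of degree 6 or to the affine group F² ⋊ SL(2,F) over the field F with four elements (realised as the matrices of SL(3,F) with last row (0, 0, 1)). -/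
theorem result {G : Type*} [Group G] [Finite G]
    (hcrit : Set.range (orderOf : G → ℕ) = ({1, 2, 3, 4, 5} : Set ℕ) ∧
      ∀ (H : Subgroup G) (N : Subgroup ↥H) [N.Normal], (H ≠ ⊤ ∨ N ≠ ⊥) → Set.range (orderOf : (↥H ⧸ N) → ℕ) ≠ ({1, 2, 3, 4, 5} : Set ℕ)) :
    Nonempty (G ≃* alternatingGroup (Fin 6)) ∨
      ∃ (F : Type) (_ : Field F) (_ : Fintype F), Fintype.card F = 4 ∧
        Nonempty (G ≃* ↥(Subgroup.closure {M : Matrix.SpecialLinearGroup (Fin 3) F |
          (M : Matrix (Fin 3) (Fin 3) F) 2 0 = 0 ∧ (M : Matrix (Fin 3) (Fin 3) F) 2 1 = 0 ∧ (M : Matrix (Fin 3) (Fin 3) F) 2 2 = 1})) := by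
  obtain ⟨h, hc⟩ := hcrit
  have h0 : ∀ x : G, orderOf x ∈ ({1, 2, 3, 4, 5} : Set ℕ) := fun x => h ▸ Set.mem_range_self x
  have h1 : Le5 G := fun x => by rcases h0 x with h | h | h | h | h <;> exact h.le.trans (by norm_num)
  have h2 : ∀ k ∈ ({1, 2, 3, 4, 5} : Set ℕ), k ∣ Nat.card G := fun k hk => by
    obtain ⟨x, hx⟩ : k ∈ Set.range (orderOf : G → ℕ) := h ▸ hk
    exact hx ▸ orderOf_dvd_natCard x
  refine (h1.structure (h2 2 (by simp)) (h2 3 (by simp)) (h2 5 (by simp))).imp_right ?_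
  rintro ⟨h3, ⟨e⟩⟩
  set N := Cfsg.pCore 2 G
  let f := e.toMonoidHom.comp (QuotientGroup.mk' N)
  have hf : Function.Surjective f := e.surjective.comp (QuotientGroup.mk'_surjective N)
  have hfN : ∀ x, f x = 1 ↔ x ∈ N := fun x =>
    (map_eq_one_iff _ e.injective).trans (QuotientGroup.eq_one_iff x)
  have hs : ∀ x : A5, orderOf x ∈ ({1, 2, 3, 5} : Set ℕ) := fun x => Spec.spec_alt5 ▸ ⟨x, rfl⟩
  have hN : N ≠ ⊥ := fun e1 => by
    obtain ⟨x, hx⟩ : 4 ∈ Set.range (orderOf : G → ℕ) := h ▸ by simp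
    have := hs (f x)
    rw [orderOf_injective f ((injective_iff_map_eq_one f).2 fun y hy =>
      mem_bot.1 (e1 ▸ (hfN y).1 hy)), hx] at this
    simp at this
  obtain ⟨ι, hι⟩ : ∃ ι : A5 →* G, ∀ g, f (ι g) = g := by
    obtain ⟨x, hx⟩ := hf Pres.a5x
    obtain ⟨u, hu⟩ := hf (Pres.a5x * Pres.a5y)
    obtain ⟨σ, hσ⟩ := hf (Pres.a5x * Pres.a5y * (Pres.a5x * (Pres.a5x * Pres.a5y) * Pres.a5x⁻¹))
    have := Fact.mk Nat.prime_three
    have := Fact.mk Nat.prime_five
    obtain ⟨-, d, hd, h4⟩ := h1.lift_dih f (isPGroup_of_pow_four fun x hx =>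
      pow_four_of_mul_self (h3 x ((hfN x).1 hx))) (σ := σ) (u := u) (by
        rw [hσ, hu]
        exact ⟨Or.inr (orderOf_eq_prime (Subtype.ext (by decide +kernel))
          (fun e => absurd (congrArg Subtype.val e) (by decide +kernel))),
          Subtype.ext (by decide +kernel), Subtype.ext (by decide +kernel)⟩)
    have h5 : orderOf Pres.a5x = 3 :=
      orderOf_eq_prime Pres.a5x_cube (fun e => absurd (congrArg Subtype.val e) (by decide +kernel))
    have h6 : f (x⁻¹ * (d * u)) = Pres.a5y := by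
      rw [map_mul, map_mul, map_inv, hx, hu, MonoidHom.mem_ker.1 hd, one_mul, inv_mul_cancel_left]
    obtain ⟨ι, h7, h8⟩ := Pres.exists_hom_a5 x (x⁻¹ * (d * u))
      (by rw [← h5, ← hx, ← h1.isOd_of_map f (hx ▸ Or.inl h5), pow_orderOf_eq_one])
      (by rw [← orderOf_a5y, ← h6, ← h1.isOd_of_map f (h6 ▸ Or.inr orderOf_a5y), pow_orderOf_eq_one])
      (by rw [mul_inv_cancel_left, pow_two, h4.sq])
    refine ⟨ι, fun g => DFunLike.congr_fun (MonoidHom.eq_of_eqOn_dense (f := f.comp ι)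
      (g := MonoidHom.id _) Pres.a5_closure ?_) g⟩
    rintro _ (rfl | rfl)
    · exact (congrArg f h7).trans hx
    · exact (congrArg f h8).trans h6
  have hinj : Function.Injective ι := fun a b e => by rw [← hι a, e, hι]
  have hm : Mdl ι N := ⟨inferInstance, h3, fun g hg x hx e => h1.eq_one_of_commute
    (by unfold IsOd at hg ⊢; rwa [orderOf_injective ι hinj]) (pow_four_of_mul_self (h3 x hx)) e⟩
  have hιN : ∀ g, ι g ∈ N → g = 1 := fun g hg => by rw [← hι g, (hfN _).2 hg]
  obtain ⟨a, ha, ha1, h4, h5⟩ := hm.exists_fixed hN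
  have hG : zpowers a ⊔ ι.range = ⊤ := by
    by_contra hne
    apply hc _ ⊥ (Or.inl hne)
    rw [Spec.spec_congr QuotientGroup.quotientBot]
    have hi : ∀ g, ι g ∈ zpowers a ⊔ ι.range := fun g => mem_sup_right ⟨g, rfl⟩
    have key : ∀ k ∈ ({1, 2, 3, 5} : Set ℕ),
        k ∈ Set.range (orderOf : ↥(zpowers a ⊔ ι.range) → ℕ) := fun k hk => by
      obtain ⟨g, rfl⟩ : k ∈ Set.range (orderOf : A5 → ℕ) := Spec.spec_alt5 ▸ hk
      exact ⟨⟨ι g, hi g⟩, (orderOf_coe _).symm.trans (orderOf_injective ι hinj g)⟩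
    refine Set.Subset.antisymm ?_ ?_
    · rintro _ ⟨x, rfl⟩
      exact orderOf_coe x ▸ h0 x
    · rintro _ (rfl | rfl | rfl | rfl | rfl)
      · exact key 1 (by simp)
      · exact key 2 (by simp)
      · exact key 3 (by simp)
      · have h6 : ι as * a * (ι as)⁻¹ * ι aw * (ι as * a * (ι as)⁻¹ * ι aw) = a := by
          rw [mul_sq_eq_br (by rw [← map_mul, show aw * aw = 1 from Subtype.ext (by decide), map_one]),
            br, hm.conj_ws ha h4, ← mul_assoc, h3 _ (hm.normal.conj_mem a ha _), one_mul]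
        have := Fact.mk Nat.prime_two
        refine ⟨⟨ι as * a * (ι as)⁻¹ * ι aw, mul_mem (mul_mem (mul_mem (hi _)
          (mem_sup_left (mem_zpowers a))) (inv_mem (hi _))) (hi _)⟩, (orderOf_coe _).symm.trans
            (orderOf_eq_prime_pow (p := 2) (n := 1) ?_ ?_)⟩
        · rwa [pow_one, pow_two, h6]
        · rw [show 2 ^ (1 + 1) = 2 * 2 by rfl, pow_mul, pow_two (_ * _), h6, pow_two, h3 a ha]
      · exact key 5 (by simp)
  have := Fact.mk Nat.prime_two
  have := Fintype.ofFinite (GaloisField 2 2)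
  have hF : Fintype.card (GaloisField 2 2) = 4 := by
    rw [← Nat.card_eq_fintype_card, GaloisField.card 2 2 (by norm_num)]; rfl
  obtain ⟨κ, k1, k2, k3, k4⟩ := exists_mdl (GaloisField 2 2) hF
  obtain ⟨e'⟩ := hm.nonempty_equiv k1 hιN k2 ha ha1 h4 h5 hG k3 k4
  exact ⟨GaloisField 2 2, inferInstance, this, hF,
    ⟨e'.trans (MulEquiv.subgroupCongr (closure_eq (Aff (GaloisField 2 2))).symm)⟩⟩

end Cfsg.Agent.S3600
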