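import Cfsg.Statements.S3619
import Cfsg.Agent.Perm1.Jordan

set_option autoImplicit false
open Cfsg

namespace Cfsg.Agent.S3619

open MulAction


/-- Let G act faithfully on a finite set in such a way that every non-trivial normal subgroup of G is transitive (G is quasiprimitive). Let Γ be a subset with more than one point and not the whole set, such that the pointwise stabilizer of the complement of Γ acts transitively on Γ (a Jordan set). If that pointwise stabilizer acts primitively on Γ, then G is k-fold transitive where k is one more than the number of points outside Γ (the Jordan set is a trivial one). -/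
theorem result {G Ω : Type*} [Group G] [Finite G] [MulAction G Ω] [FaithfulSMul G Ω] [Finite Ω]
    (hqp : ∀ N : Subgroup G, N.Normal → N ≠ ⊥ → MulAction.IsPretransitive ↥N Ω)
    (Γ : Set Ω) (hΓ1 : 1 < Γ.ncard) (hΓ2 : Γ.ncard < Nat.card Ω)
    (hJ : MulAction.IsPretransitive ↥(fixingSubgroup G Γᶜ) ↥(SubMulAction.ofFixingSubgroup G Γᶜ))
    (hJp : MulAction.IsPreprimitive ↥(fixingSubgroup G Γᶜ) ↥(SubMulAction.ofFixingSubgroup G Γᶜ)) :
    MulAction.IsMultiplyPretransitive G Ω (Nat.card Ω - Γ.ncard + 1) := by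
  have hΓ : Perm1.IsJordan G Γ := Perm1.isJordan_iff.mpr hJ
  obtain ⟨a, ha, b, hb, hab⟩ := (Set.one_lt_ncard (Set.toFinite _)).mp hΓ1
  obtain ⟨h, hh1, hh2⟩ := hΓ a ha b hb
  have hh : h ≠ 1 := by rintro rfl; exact hab (by simpa using hh2)
  have htr : IsPretransitive G Ω := by
    have := hqp ⊤ inferInstance (fun ht => hh (by rw [← Subgroup.mem_bot, ← ht]; trivial))
    exact ⟨fun x y => by obtain ⟨g, hg⟩ := this.exists_smul_eq x y; exact ⟨g, hg⟩⟩
  have hprim : IsPreprimitive G Ω := by
    by_contra hnp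
    obtain ⟨S, i1, i2, π, c, e1, e2, e3, e4, e5, e6⟩ := Perm1.exists_quotient_of_not_primitive hnp
    have hker : ∀ g : G, (∀ C : S, g • C = C) → g = 1 := by
      intro g hg
      by_contra hne
      have := hqp (toPermHom G S).ker inferInstance (fun hk => hne (by
        rw [← Subgroup.mem_bot, ← hk, MonoidHom.mem_ker]; ext C; exact hg C))
      obtain ⟨C, D, hCD⟩ := (Finite.one_lt_card_iff_nontrivial.mp e5).exists_pair_ne
      obtain ⟨x, rfl⟩ := e2 C
      obtain ⟨y, rfl⟩ := e2 D
      obtain ⟨k, hk⟩ := this.exists_smul_eq x y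
      apply hCD
      rw [← hk]
      exact ((e1 k x).trans (DFunLike.congr_fun (MonoidHom.mem_ker.mp k.2) (π x))).symm
    -- the fibre of `a` meets `Γ` in a block
    have hblock : IsBlock (fixingSubgroup G Γᶜ)
        {x : SubMulAction.ofFixingSubgroup G Γᶜ | π x = π a} := by
      rw [isBlock_iff_smul_eq_of_nonempty]
      rintro g ⟨x, ⟨y, hy, rfl⟩, hx⟩
      have hg : (g : G) • π a = π a := by
        have hx' : π ((g : G) • (y : Ω)) = π a := hx
        rw [e1, show π y = π a from hy] at hx'
        exact hx'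
      ext z
      rw [Set.mem_smul_set_iff_inv_smul_mem]
      change π ((g : G)⁻¹ • (z : Ω)) = π a ↔ π z = π a
      rw [e1, inv_smul_eq_iff, hg]
    have hall : ∀ x ∈ Γ, π x = π a := by
      rcases hJp.isTrivialBlock_of_isBlock hblock with h3 | h3
      · obtain ⟨x, hx⟩ := e2 (π a)
        obtain ⟨y, hy, hya⟩ : ∃ y ∈ π ⁻¹' {π a}, y ≠ a := by
          apply Set.exists_ne_of_one_lt_ncard
          rw [e3]; omega
        have hy' : π y = π a := hy
        have hyΓ : y ∉ Γ := fun hyΓ => hya (congrArg Subtype.val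
          (h3 (x := ⟨y, not_not.mpr hyΓ⟩) hy' (y := ⟨a, not_not.mpr ha⟩) rfl))
        intro x hx
        obtain ⟨k, hk1, hk2⟩ := hΓ a ha x hx
        rw [← hk2, e1, ← hy', ← e1, hk1 y hyΓ]
      · intro x hx
        have : (⟨x, not_not.mpr hx⟩ : SubMulAction.ofFixingSubgroup G Γᶜ) ∈
          {x : SubMulAction.ofFixingSubgroup G Γᶜ | π x = π a} := by rw [h3]; trivial
        exact this
    apply hh
    apply hker
    intro C
    obtain ⟨x, rfl⟩ := e2 C
    rw [← e1]
    by_cases hx : x ∈ Γ
    · rw [hall x hx, hall _ ((Perm1.smul_mem_iff_of_fix hh1 x).mpr hx)]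
    · rw [hh1 x hx]
  have h3 := Set.ncard_add_ncard_compl Γ
  have := hprim.isMultiplyPreprimitive (s := Γᶜ) (n := Γᶜ.ncard - 1) (by omega) (by omega) hJp
  have h4 : Nat.card Ω - Γ.ncard + 1 = Γᶜ.ncard - 1 + 2 := by omega
  rw [h4]
  exact this.isMultiplyPretransitive

end Cfsg.Agent.S3619
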