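import Cfsg.Statements.S3620
import Cfsg.Agent.Perm1.Marggraf

set_option autoImplicit false
open Cfsg

namespace Cfsg.Agent.S3620

open MulAction Perm1

universe u v

theorem aux (n : ℕ) : ∀ {G : Type u} {Ω : Type v} [Group G] [MulAction G Ω] [FaithfulSMul G Ω] [Finite Ω],
    Nat.card Ω = n → (∀ N : Subgroup G, N.Normal → N ≠ ⊥ → MulAction.IsPretransitive ↥N Ω) →
    ∀ {Γ : Set Ω}, IsJordan G Γ → 1 < Γ.ncard →
    2 * Γ.ncard < Nat.card Ω → IsMultiplyPretransitive G Ω (Nat.card Ω - 2) := by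
  induction n using Nat.strong_induction_on with
  | _ n ih =>
  intro G Ω _ _ _ _ hn hqp Γ hΓ h1 h2
  classical
  obtain ⟨a, ha, b, hb, hab⟩ := (Set.one_lt_ncard (Set.toFinite _)).mp h1
  obtain ⟨h, hh1, hh2⟩ := hΓ a ha b hb
  have hh : h ≠ 1 := by rintro rfl; exact hab (by simpa using hh2)
  have htr : IsPretransitive G Ω := by
    have := hqp ⊤ inferInstance (fun ht => hh (by rw [← Subgroup.mem_bot, ← ht]; trivial))
    exact ⟨fun x y => by obtain ⟨g, hg⟩ := this.exists_smul_eq x y; exact ⟨g, hg⟩⟩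
  by_cases hprim : IsPreprimitive G Ω
  · exact hΓ.alt hprim h1 h2
  exfalso
  obtain ⟨S, i1, i2, π, c, e1, e2, e3, e4, e5, e6⟩ := exists_quotient_of_not_primitive hprim
  have hker : ∀ g : G, (∀ C : S, g • C = C) → g = 1 := by
    intro g hg
    by_contra hne
    have := hqp (toPermHom G S).ker inferInstance (fun hk => hne (by
      rw [← Subgroup.mem_bot, ← hk, MonoidHom.mem_ker]; ext C; exact hg C))
    obtain ⟨C, D, hCD⟩ := (Finite.one_lt_card_iff_nontrivial.mp e5).exists_pair_ne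
    obtain ⟨x, rfl⟩ := e2 C
    obtain ⟨y, rfl⟩ := e2 D
    obtain ⟨k, hk⟩ := this.exists_smul_eq x y
    apply hCD
    rw [← hk]
    exact ((e1 k x).trans (DFunLike.congr_fun (MonoidHom.mem_ker.mp k.2) (π x))).symm
  have : FaithfulSMul G S := ⟨fun {g k} hgk => by
    have := hker (k⁻¹ * g) (fun C => by rw [mul_smul, hgk, inv_smul_smul])
    exact (inv_mul_eq_one.mp this).symm⟩
  have hunion : ∀ x ∈ Γ, ∀ y, π y = π x → y ∈ Γ := by
    intro x hx y hy
    by_contra hyΓ
    have hall : ∀ w ∈ Γ, π w = π x := by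
      intro w hw
      obtain ⟨k, hk1, hk2⟩ := hΓ x hx w hw
      rw [← hk2, e1, ← hy, ← e1, hk1 y hyΓ]
    apply hh
    apply hker
    intro C
    obtain ⟨w, rfl⟩ := e2 C
    rw [← e1]
    by_cases hw : w ∈ Γ
    · rw [hall w hw, hall _ ((smul_mem_iff_of_fix hh1 w).mpr hw)]
    · rw [hh1 w hw]
  have hpre : π ⁻¹' (π '' Γ) = Γ := by
    ext y
    exact ⟨fun ⟨x, hx, hxy⟩ => hunion x hx y hxy.symm, fun hy => ⟨y, hy, rfl⟩⟩
  have hcard := ncard_preimage_of_fiber π c e3 (π '' Γ)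
  rw [hpre] at hcard
  have hfixS : ∀ k : G, (∀ z ∉ Γ, k • z = z) → ∀ C ∉ π '' Γ, k • C = C := by
    intro k hk C hC
    obtain ⟨w, rfl⟩ := e2 C
    rw [← e1, hk w (fun hw => hC ⟨w, hw, rfl⟩)]
  have hJS : IsJordan G (π '' Γ) := by
    rintro _ ⟨x, hx, rfl⟩ _ ⟨y, hy, rfl⟩
    obtain ⟨k, hk1, hk2⟩ := hΓ x hx y hy
    exact ⟨k, hfixS k hk1, by rw [← e1, hk2]⟩
  have h3 : 1 < (π '' Γ).ncard := by
    by_contra hle
    rw [not_lt, Set.ncard_le_one_iff] at hle
    apply hh
    apply hker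
    intro C
    by_cases hC : C ∈ π '' Γ
    · exact hle ((smul_mem_iff_of_fix (hfixS h hh1) C).mpr hC) hC
    · exact hfixS h hh1 C hC
  have h4 : 2 * (π '' Γ).ncard < Nat.card S := by
    apply Nat.lt_of_mul_lt_mul_left (a := c)
    rw [← e6, ← mul_assoc, mul_comm c 2, mul_assoc, ← hcard]; exact h2
  have h5 : Nat.card S < n := by
    rw [← hn, e6]; nlinarith
  have hIH := ih _ h5 (G := G) (Ω := S) rfl (fun N hN hN' => by
    have := hqp N hN hN'
    constructor
    intro C D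
    obtain ⟨x, rfl⟩ := e2 C
    obtain ⟨y, rfl⟩ := e2 D
    obtain ⟨k, hk⟩ := this.exists_smul_eq x y
    exact ⟨k, by rw [← hk]; exact (e1 k x).symm⟩) hJS h3 h4
  obtain ⟨y, hy, hya⟩ : ∃ y ∈ π ⁻¹' {π a}, y ≠ a := by
    apply Set.exists_ne_of_one_lt_ncard
    rw [e3]; omega
  have hy' : π y = π a := hy
  obtain ⟨k, hk1, hk2⟩ := hΓ a ha y (hunion a ha y hy')
  have hka : k • π a = π a := by rw [← e1, hk2, hy']
  obtain ⟨B', -, hB'⟩ : ∃ B' ∈ (Set.univ : Set S), B' ∉ π '' Γ := by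
    apply Set.exists_mem_notMem_of_ncard_lt_ncard _ (Set.toFinite _)
    rw [Set.ncard_univ]; omega
  obtain ⟨g, hg⟩ := exists_smul_eq_on hIH (by omega) (π '' Γ) (by omega)
    (fun C => if C = π a then B' else C) (by
      intro C hC D hD hCD
      by_cases f1 : C = π a <;> by_cases f2 : D = π a
      · rw [f1, f2]
      · simp only [if_pos f1, if_neg f2] at hCD; exact absurd (hCD ▸ hD) hB'
      · simp only [if_neg f1, if_pos f2] at hCD; exact absurd (hCD ▸ hC) hB'
      · simpa only [if_neg f1, if_neg f2] using hCD)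
  have hga : g • π a = B' := by rw [hg _ ⟨a, ha, rfl⟩, if_pos rfl]
  have hgW : ∀ C ∈ π '' Γ, C ≠ π a → g • C = C := fun C hC hC' => by rw [hg C hC, if_neg hC']
  have hkW : ∀ C, ¬ (C ∈ π '' Γ ∧ C ≠ π a) → k • C = C := by
    intro C hC
    by_cases f1 : C = π a
    · rw [f1, hka]
    · exact hfixS k hk1 C (fun h => hC ⟨h, f1⟩)
  have hcomm : (g * k)⁻¹ * (k * g) = 1 := by
    apply hker
    intro C
    rw [mul_smul, inv_smul_eq_iff, mul_smul, mul_smul]
    by_cases hC : C ∈ π '' Γ ∧ C ≠ π a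
    · rw [hgW C hC.1 hC.2, hgW]
      · exact (smul_mem_iff_of_fix (hfixS k hk1) C).mpr hC.1
      · rw [← hka, ne_eq, smul_left_cancel_iff]; exact hC.2
    · rw [hkW C hC, hkW]
      intro hc
      have := hgW _ hc.1 hc.2
      rw [smul_left_cancel_iff] at this
      rw [this] at hc
      exact hC hc
  rw [inv_mul_eq_one] at hcomm
  have h6 : g • a ∉ Γ := fun h => hB' ⟨_, h, by rw [e1, hga]⟩
  have h7 := hk1 _ h6
  rw [← mul_smul, ← hcomm, mul_smul, hk2, smul_left_cancel_iff] at h7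
  exact hya h7


/-- Let G act faithfully on a finite set in such a way that every non-trivial normal subgroup of G is transitive (G is quasiprimitive). Let Γ be a subset with more than one point and fewer than half of the points, such that the pointwise stabilizer of the complement of Γ acts transitively on Γ. Then G induces every even permutation of the set (G is the alternating or the symmetric group). -/
theorem result {G Ω : Type*} [Group G] [Finite G] [MulAction G Ω] [FaithfulSMul G Ω] [Fintype Ω] [DecidableEq Ω]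
    (hqp : ∀ N : Subgroup G, N.Normal → N ≠ ⊥ → MulAction.IsPretransitive ↥N Ω)
    (Γ : Set Ω) (hΓ1 : 1 < Γ.ncard) (hΓ2 : 2 * Γ.ncard < Fintype.card Ω)
    (hJ : MulAction.IsPretransitive ↥(fixingSubgroup G Γᶜ) ↥(SubMulAction.ofFixingSubgroup G Γᶜ)) :
    ∀ σ : Equiv.Perm Ω, Equiv.Perm.sign σ = 1 → ∃ x : G, (MulAction.toPerm x : Equiv.Perm Ω) = σ := by
  intro σ hσ
  have := aux _ rfl hqp (isJordan_iff.mpr hJ) hΓ1 (by rwa [Nat.card_eq_fintype_card])
  exact alternating_le_of_multiply this (Equiv.Perm.mem_alternatingGroup.mpr hσ)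

end Cfsg.Agent.S3620
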