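import Cfsg.Statements.S3627
import Cfsg.Agent.Comp.J1.Spec
import Cfsg.Agent.Comp.SpecList

set_option autoImplicit false
open Cfsg

namespace Cfsg.Agent.S3627

/-- Let J be the first Janko group. Then there are finite groups of arbitrarily large order with exactly the same set of element orders as J × J × J × J. -/
theorem result (N : ℕ) : ∃ (H : Type) (_ : Group H) (_ : Fintype H), N < Fintype.card H ∧
      Set.range (orderOf : H → ℕ) = Set.range (orderOf : ↥Cfsg.Spor.J1 × ↥Cfsg.Spor.J1 × ↥Cfsg.Spor.J1 × ↥Cfsg.Spor.J1 → ℕ) := by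
  have hfin := Comp.J1.finite_J1
  have h1 := Comp.J1.spec_J1
  have h2 := Comp.spec_prod_list [1, 2, 3, 5, 6, 7, 10, 11, 14, 15, 19, 21, 22, 30, 33, 35, 38, 42, 55, 57, 66, 70, 77, 95, 105, 110, 114, 133, 165, 190, 209, 285] h1 h1 (by decide +kernel)
  have h3 := Comp.spec_prod_list [1, 2, 3, 5, 6, 7, 10, 11, 14, 15, 19, 21, 22, 30, 33, 35, 38, 42, 55, 57, 66, 70, 77, 95, 105, 110, 114, 133, 154, 165, 190, 209, 210, 231, 266, 285, 330, 385, 399, 418, 462, 570, 627, 665, 770, 798, 1045, 1155, 1254, 1330, 1463, 1995, 2090, 3135] h1 h2 (by decide +kernel)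
  have h4 := Comp.spec_prod_list [1, 2, 3, 5, 6, 7, 10, 11, 14, 15, 19, 21, 22, 30, 33, 35, 38, 42, 55, 57, 66, 70, 77, 95, 105, 110, 114, 133, 154, 165, 190, 209, 210, 231, 266, 285, 330, 385, 399, 418, 462, 570, 627, 665, 770, 798, 1045, 1155, 1254, 1330, 1463, 1995, 2090, 2310, 2926, 3135, 3990, 4389, 6270, 7315, 8778, 14630, 21945] h1 h3 (by decide +kernel)
  obtain ⟨D, _, _, hs, hD⟩ := Spec.exists_solvable_spec_frob 7 2 (by norm_num) (by norm_num) (by norm_num)
  have hD' : Set.range (orderOf : D → ℕ) = {n | n ∈ [1, 2, 7]} := by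
    rw [hD]
    ext n
    simp only [Set.mem_ofPred_eq, Nat.dvd_prime (by norm_num : Nat.Prime 7), Nat.dvd_prime Nat.prime_two,
      List.mem_cons, List.not_mem_nil, or_false]
    tauto
  have h5 := Comp.spec_prod_list [1, 2, 3, 5, 6, 7, 10, 11, 14, 15, 19, 21, 22, 30, 33, 35, 38, 42, 55, 57, 66, 70, 77, 95, 105, 110, 114, 133, 154, 165, 190, 209, 210, 231, 266, 285, 330, 385, 399, 418, 462, 570, 627, 665, 770, 798, 1045, 1155, 1254, 1330, 1463, 1995, 2090, 2310, 2926, 3135, 3990, 4389, 6270, 7315, 8778, 14630, 21945] h3 hD' (by decide +kernel)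
  have hnt : Nontrivial D := by
    have : 7 ∈ Set.range (orderOf : D → ℕ) := by rw [hD']; simp
    obtain ⟨x, hx⟩ := this
    refine ⟨x, 1, fun e => ?_⟩
    rw [e, orderOf_one] at hx
    omega
  obtain ⟨K, i1, i2, hK, hsp⟩ := Comp.exists_large_isospectral_prod
    (G := ↥Cfsg.Spor.J1 × ↥Cfsg.Spor.J1 × ↥Cfsg.Spor.J1) hs N
  exact ⟨K, i1, i2, hK, by rw [hsp, h5, h4]⟩

end Cfsg.Agent.S3627
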