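import Cfsg.Statements.S3633
import Cfsg.Agent.Local.PrimeGraph

set_option autoImplicit false
open Cfsg

namespace Cfsg.Agent.S3633

open Cfsg.Agent.Local

/-- Let G be a finite group and ρ a set of at least three prime divisors of the order of G that are pairwise non-adjacent in the prime graph (no element of order rs for distinct r, s ∈ ρ). Then at most one prime of ρ divides the order of any given solvable normal subgroup of G; in particular G is not solvable. -/
theorem result {G : Type*} [Group G] [Finite G] (ρ : Finset ℕ) (hρ : 3 ≤ ρ.card) (hc : ((∀ r ∈ ρ, r.Prime ∧ r ∣ Nat.card G) ∧ (∀ r ∈ ρ, ∀ s ∈ ρ, r ≠ s → ¬ ∃ x : G, orderOf x = r * s)))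
    (K : Subgroup G) [K.Normal] (hK : Group.IsSolvable ↥K) :
    (∀ r ∈ ρ, ∀ s ∈ ρ, r ∣ Nat.card ↥K → s ∣ Nat.card ↥K → r = s) ∧ ¬ Group.IsSolvable G := by
  have key : ∀ (K : Subgroup G) [K.Normal], Group.IsSolvable K →
      ∀ r ∈ ρ, ∀ s ∈ ρ, r ∣ Nat.card ↥K → s ∣ Nat.card ↥K → r = s := by
    intro K _ hK r hr s hs hrK hsK
    by_contra hrs
    obtain ⟨t, ht, htr, hts⟩ : ∃ t ∈ ρ, t ≠ r ∧ t ≠ s := by
      by_contra h
      push Not at h
      have : ρ ⊆ {r, s} := by
        intro t ht
        by_cases htr : t = r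
        · simp [htr]
        · simp [h t ht htr]
      have h1 := Finset.card_le_card this
      have h2 : ({r, s} : Finset ℕ).card ≤ 2 := Finset.card_le_two
      omega
    exact not_dvd_card_of_three_coclique K hK (hc.1 r hr).1 (hc.1 s hs).1 (hc.1 t ht).1 hrs htr.symm
      hts.symm (hc.2 r hr s hs hrs) (hc.2 r hr t ht htr.symm) (hc.2 s hs t ht hts.symm) hrK hsK
      (hc.1 t ht).2
  refine ⟨key K hK, fun hG => ?_⟩
  obtain ⟨r, hr, s, hs, hrs⟩ := Finset.one_lt_card.1 (show 1 < ρ.card by omega)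
  exact hrs (key ⊤ inferInstance r hr s hs (by rw [Subgroup.card_top]; exact (hc.1 r hr).2)
    (by rw [Subgroup.card_top]; exact (hc.1 s hs).2))

end Cfsg.Agent.S3633
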