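import Cfsg.Statements.S3639
import Cfsg.Agent.Suzuki.Star

set_option autoImplicit false
open Cfsg

namespace Cfsg.Agent.S3639

open SemidirectProduct in
theorem exists_orderOf_iff {A S : Type*} [CommGroup A] [Group S] (φ : S →* MulAut A)
    (hA : ∀ a : A, a ^ 2 = 1)
    (hfpf : ∀ g : S, (orderOf g).Prime → orderOf g ≠ 2 → ∀ a : A, φ g a = a → a = 1)
    {r s : ℕ} (hr : r.Prime) (hs : s.Prime) (hrs : r ≠ s) :
    (∃ x : S, orderOf x = r * s) ↔ ∃ y : A ⋊[φ] S, orderOf y = r * s := by
  constructor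
  · rintro ⟨x, hx⟩
    exact ⟨inr x, by rw [orderOf_injective inr inr_injective, hx]⟩
  · rintro ⟨y, hy⟩
    refine ⟨y.right, ?_⟩
    have h1 : orderOf y.right ∣ r * s := hy ▸ orderOf_map_dvd (rightHom (φ := φ)) y
    have h2 : y ^ orderOf y.right ∈ (rightHom : A ⋊[φ] S →* S).ker := by
      rw [MonoidHom.mem_ker, map_pow]
      exact pow_orderOf_eq_one y.right
    rw [← range_inl_eq_ker_rightHom] at h2
    obtain ⟨z, hz⟩ := h2
    by_cases hz1 : z = 1
    · rw [hz1, map_one] at hz
      exact Nat.dvd_antisymm h1 (hy ▸ orderOf_dvd_of_pow_eq_one hz.symm)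
    · have hfix : φ y.right z = z := by
        have h3 : y * inl z = inl z * y := by
          rw [hz]; exact (Commute.self_pow y _).eq
        have h4 := congrArg left h3
        simp only [mul_left, left_inl, right_inl, map_one, MulAut.one_apply] at h4
        rw [mul_comm] at h4
        exact mul_right_cancel h4
      have h5 : r * s ∣ orderOf y.right * 2 := by
        rw [← hy]
        apply orderOf_dvd_of_pow_eq_one
        rw [pow_mul, ← hz, ← map_pow, hA, map_one]
      by_contra hne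
      have key : ∀ p : ℕ, p.Prime → p ≠ 2 → r * s = p * 2 → False := by
        intro p hp hp2 hp'
        rw [hp'] at h1 h5 hne
        have h6 : p ∣ orderOf y.right := Nat.dvd_of_mul_dvd_mul_right two_pos h5
        obtain ⟨c, hc⟩ := h6
        rw [hc] at h1 hne
        have h7 : c ∣ 2 := Nat.dvd_of_mul_dvd_mul_left hp.pos h1
        rcases (Nat.dvd_prime Nat.prime_two).mp h7 with h8 | h8
        · rw [h8, mul_one] at hc
          exact hz1 (hfpf y.right (hc ▸ hp) (hc ▸ hp2) z hfix)
        · exact hne (by rw [h8])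
      by_cases hr2 : r = 2
      · exact key s hs (fun h => hrs (hr2.trans h.symm)) (by rw [hr2, mul_comm])
      by_cases hs2 : s = 2
      · exact key r hr hr2 (by rw [hs2])
      apply hne
      apply Nat.dvd_antisymm h1
      refine Nat.Coprime.dvd_of_dvd_mul_right ?_ h5
      exact Nat.Coprime.mul_left ((Nat.coprime_primes hr Nat.prime_two).mpr hr2)
        ((Nat.coprime_primes hs Nat.prime_two).mpr hs2)

open Matrix in
theorem fpf {F : Type*} [Field F] [Fintype F] {m : ℕ} [hS : Suzuki.IsSz F m] (g : Cfsg.Sz F m)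
    (hp : (orderOf g).Prime) (h2 : orderOf g ≠ 2) (v : Fin 4 → F)
    (hv : Suzuki.mat g *ᵥ v = v) : v = 0 := by
  by_contra hv0
  have h := Suzuki.cayley_hamilton g
  have hpow : ∀ n : ℕ, (Suzuki.mat g ^ n) *ᵥ v = v := by
    intro n
    induction n with
    | zero => simp
    | succ n ih => rw [pow_succ, ← mulVec_mulVec, hv, ih]
  have h1 := congrArg (· *ᵥ v) h
  simp only [add_mulVec, smul_mulVec, hpow, hv, one_mulVec, zero_mulVec] at h1
  obtain ⟨i, hi⟩ := Function.ne_iff.mp hv0
  have h3 := congrFun h1 i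
  simp only [Pi.add_apply, Pi.smul_apply, smul_eq_mul, Pi.zero_apply] at h3 hi
  have h4 : Suzuki.sg F (Suzuki.mat g).trace * v i = 0 := by grind
  have h5 : (Suzuki.mat g).trace = 0 := by simpa [hi] using h4
  rw [h5] at h
  simp only [zero_smul, map_zero, add_zero] at h
  have h6 : g ^ 4 = 1 := by
    apply Suzuki.mat_inj
    rw [Suzuki.mat_pow, Suzuki.mat_one]
    ext i j
    have := congrFun (congrFun h i) j
    simp only [Matrix.add_apply, Matrix.zero_apply] at this
    grind
  have h7 : orderOf g ∣ 2 ^ 2 := orderOf_dvd_of_pow_eq_one h6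
  exact h2 ((Nat.prime_dvd_prime_iff_eq hp Nat.prime_two).mp (hp.dvd_of_dvd_pow h7))

/-- Let S be the Suzuki group over the field with q = 2^(2m+1) ≥ 8 elements. Then there are finite groups of arbitrarily large order with the same prime graph as S. -/
theorem result {F : Type*} [Field F] [Fintype F] {m : ℕ} (hm : 1 ≤ m) (hF : Fintype.card F = 2 ^ (2 * m + 1)) (N : ℕ) :
    ∃ (H : Type) (_ : Group H) (_ : Fintype H), N < Fintype.card H ∧ ((∀ r : ℕ, r.Prime → (r ∣ Nat.card ↥(Cfsg.Lie.Sz F (2 ^ (m + 1))) ↔ r ∣ Nat.card H)) ∧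
      (∀ r s : ℕ, r.Prime → s.Prime → r ≠ s → ((∃ x : ↥(Cfsg.Lie.Sz F (2 ^ (m + 1))), orderOf x = r * s) ↔ (∃ y : H, orderOf y = r * s)))) := by
  have : Suzuki.IsSz F m := ⟨hm, hF⟩
  let V := Fin N → Fin 4 → F
  let φ : Cfsg.Sz F m →* MulAut (Multiplicative V) :=
    (MulAutMultiplicative V).symm.toMonoidHom.comp (DistribMulAction.toAddAut (Cfsg.Sz F m) V)
  have hφ : ∀ (g : Cfsg.Sz F m) (a : Multiplicative V) (i : Fin N),
      Multiplicative.toAdd (φ g a) i = (Suzuki.mat g).mulVec (Multiplicative.toAdd a i) :=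
    fun _ _ _ => rfl
  let H := Multiplicative V ⋊[φ] Cfsg.Sz F m
  have hcard : Nat.card H = 2 ^ ((2 * m + 1) * 4 * N) * Nat.card (Cfsg.Sz F m) := by
    rw [SemidirectProduct.card]
    congr 1
    simp [V, hF, pow_mul]
  have hfin : Finite H := Finite.of_equiv _ SemidirectProduct.equivProd.symm
  have hS2 : 2 ∣ Nat.card (Cfsg.Sz F m) := by
    rw [Suzuki.card_Sz, hF]
    exact Dvd.dvd.mul_right (Dvd.dvd.mul_right
      (dvd_pow (dvd_pow_self 2 (by omega)) two_ne_zero) _) _
  have e1 : Shrink.{0} H ≃* H := Shrink.mulEquiv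
  have e2 := Suzuki.szEquiv F
  have hfin' : Finite (Shrink.{0} H) := Finite.of_equiv _ e1.toEquiv.symm
  refine ⟨Shrink.{0} H, inferInstance, Fintype.ofFinite _, ?_, ?_, ?_⟩
  · rw [← @Nat.card_eq_fintype_card _ (Fintype.ofFinite _), Nat.card_congr e1.toEquiv, hcard]
    have h1 : 0 < Nat.card (Cfsg.Sz F m) := Nat.card_pos
    have h2 : N < 2 ^ ((2 * m + 1) * 4 * N) :=
      lt_of_le_of_lt (Nat.le_mul_of_pos_left _ (by omega)) Nat.lt_two_pow_self
    exact lt_of_lt_of_le h2 (Nat.le_mul_of_pos_right _ h1)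
  · intro r hr
    rw [Nat.card_congr e1.toEquiv, ← Nat.card_congr e2.toEquiv, hcard]
    refine ⟨fun h => Dvd.dvd.mul_left h _, fun h => ?_⟩
    rcases (Nat.Prime.dvd_mul hr).mp h with h | h
    · rw [(Nat.prime_dvd_prime_iff_eq hr Nat.prime_two).mp (hr.dvd_of_dvd_pow h)]
      exact hS2
    · exact h
  · intro r s hr hs hrs
    have key := exists_orderOf_iff φ (fun a => by
        apply Multiplicative.toAdd.injective
        ext i j
        rw [pow_two, toAdd_mul, toAdd_one]
        exact CharTwo.add_self_eq_zero (Multiplicative.toAdd a i j))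
      (fun g hg hg2 a ha => by
        apply Multiplicative.toAdd.injective
        ext i j
        have h1 := hφ g a i
        rw [ha] at h1
        rw [fpf g hg hg2 _ h1.symm]
        rfl) hr hs hrs
    constructor
    · rintro ⟨x, hx⟩
      obtain ⟨y, hy⟩ := key.mp ⟨e2.symm x, by rw [MulEquiv.orderOf_eq, hx]⟩
      exact ⟨e1.symm y, by rw [MulEquiv.orderOf_eq, hy]⟩
    · rintro ⟨y, hy⟩
      obtain ⟨x, hx⟩ := key.mpr ⟨e1 y, by rw [MulEquiv.orderOf_eq, hy]⟩
      exact ⟨e2 x, by rw [MulEquiv.orderOf_eq, hx]⟩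

end Cfsg.Agent.S3639
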