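import Cfsg.Statements.S3641
import Cfsg.Agent.PSL2Rec.PrimeDeg

set_option autoImplicit false
open Cfsg

namespace Cfsg.Agent.S3641

open Subgroup MulAction PSL2Rec
open scoped Pointwise

theorem smul_eq_of_card_eq {G H : Type*} [Group G] [Group H] [Finite G] {f : G →* H}
    (hf : Function.Surjective f) {p : ℕ} [Fact p.Prime]
    (h : Nat.card (Sylow p G) = Nat.card (Sylow p H)) {x : G} (hx : x ∈ f.ker) (P : Sylow p G) :
    x • P = P := by
  apply ((Nat.bijective_iff_surjective_and_card _).2 ⟨Sylow.mapSurjective_surjective hf p, h⟩).1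
  apply Sylow.ext
  ext y
  change y ∈ (MulAut.conj x • (P : Subgroup G)).map f ↔ y ∈ (P : Subgroup G).map f
  have hx1 : f x = 1 := hx
  constructor
  · rintro ⟨_, ⟨z, hz, rfl⟩, rfl⟩
    exact ⟨z, hz, by simp [hx1]⟩
  · rintro ⟨z, hz, rfl⟩
    exact ⟨_, ⟨z, hz, rfl⟩, by simp [hx1]⟩

theorem mem_of_smul_eq {G : Type*} [Group G] {p : ℕ} {P : Sylow p G} {x : G}
    (hx : IsPGroup p (zpowers x)) (h : x • P = P) : x ∈ P := by
  have : x ∈ zpowers x ⊓ normalizer P := ⟨mem_zpowers x, Sylow.smul_eq_iff_mem_normalizer.1 h⟩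
  rw [hx.inf_normalizer_sylow] at this
  exact this.2

theorem not_dvd_card {G : Type*} [Group G] [Finite G] {K : Subgroup G} [K.Normal] {p r : ℕ}
    [hp : Fact p.Prime] [hr : Fact r.Prime] (hK : ∀ x ∈ K, ∀ P : Sylow p G, x • P = P)
    (hrK : ¬ r ∣ K.index) (h1 : p ∣ Nat.card (Sylow r G)) (h2 : Nat.card (Sylow r G) < p ^ 2)
    (h3 : ¬ p ≡ 1 [MOD r]) : False := by
  obtain ⟨P⟩ : Nonempty (Sylow p G) := inferInstance
  obtain ⟨R⟩ : Nonempty (Sylow r G) := inferInstance
  have hRK : (R : Subgroup G) ≤ K := by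
    obtain ⟨g, hg⟩ : ∃ g : G, ∀ x ∈ (R : Subgroup G), g⁻¹ * x * g ∈ K := by
      obtain ⟨a, ha⟩ := R.isPGroup'.nonempty_fixed_point_of_prime_not_dvd_card (G ⧸ K) hrK
      obtain ⟨g, rfl⟩ := QuotientGroup.mk_surjective a
      refine ⟨g, fun x hx => ?_⟩
      have h1 : (x * g : G ⧸ K) = (g : G ⧸ K) := ha ⟨x, hx⟩
      have h2 := QuotientGroup.eq.mp h1.symm
      rwa [← mul_assoc] at h2
    intro x hx
    simpa [mul_assoc] using Normal.conj_mem inferInstance _ (hg x hx) g
  have hA := (Local.isSylowIn_top P).inf_of_le_normalizer (M := K) le_top (by simp [normalizer_eq_top])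
  set A := (P : Subgroup G) ⊓ K with hAdef
  have hRA : (R : Subgroup G) ≤ normalizer (A : Set G) := fun x hx =>
    Local.mem_normalizer_of_conj_mem fun y hy => ⟨Local.conj_mem_of_mem_normalizer
      (Sylow.smul_eq_iff_mem_normalizer.1 (hK x (hRK hx) P)) hy.1,
      Normal.conj_mem inferInstance _ hy.2 _⟩
  have hle : (R : Subgroup G) ≤ A ⊔ R := le_sup_right
  have e1 : Nat.card (Sylow r ↥(A ⊔ R)) = (normalizer (R : Set G)).relIndex (A ⊔ R) := by
    rw [(R.subtype hle).card_eq_index_normalizer, relIndex, ← R.coe_coe,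
      subgroupOf_normalizer_eq hle]
    rfl
  have e2 : Nat.card (Sylow r ↥(A ⊔ R)) ∣ Nat.card A := by
    refine (R.subtype hle).card_dvd_index.trans ?_
    have h4 := Local.card_sup_dvd hRA
    rw [← Local.card_mul_relIndex hle, mul_comm (Nat.card A)] at h4
    exact Nat.dvd_of_mul_dvd_mul_left Nat.card_pos h4
  have e3 : Nat.card (Sylow r ↥(A ⊔ R)) ≤ Nat.card (Sylow r G) := by
    rw [e1, R.card_eq_index_normalizer, ← relIndex_top_right]
    exact relIndex_le_of_le_right le_top (by rw [relIndex_top_right]; exact index_ne_zero_of_finite)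
  have e4 := card_sylow_modEq_one r ↥(A ⊔ R)
  obtain ⟨m, hm⟩ := hA.isPGroup.exists_card_eq
  obtain ⟨j, -, hj⟩ := (Nat.dvd_prime_pow hp.out).1 (hm ▸ e2)
  have hj0 : j = 0 := by
    have : j < 2 := (Nat.pow_lt_pow_iff_right hp.out.one_lt).1 (by omega)
    interval_cases j
    · rfl
    · rw [hj, pow_one] at e4; exact absurd e4 h3
  rw [e1, hj0, pow_zero, relIndex_eq_one] at hj
  have e5 : (normalizer (R : Set G)).relIndex K = Nat.card (Sylow r G) := by
    have h5 := Local.card_sup_mul_card_inf (A := normalizer (R : Set G)) (N := K)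
      (by simp [normalizer_eq_top])
    rw [sup_comm, R.normalizer_sup_eq_top' hRK, card_top, inf_comm,
      ← Local.card_inf_mul_relIndex (normalizer (R : Set G)) K,
      ← (normalizer (R : Set G)).card_mul_index, ← R.card_eq_index_normalizer] at h5
    have p1 : 0 < Nat.card ↥(normalizer (R : Set G) ⊓ K) := Nat.card_pos
    have p2 : 0 < Nat.card (normalizer (R : Set G)) := Nat.card_pos
    apply Nat.eq_of_mul_eq_mul_left (Nat.mul_pos p1 p2)
    linear_combination -h5
  exact hA.not_dvd (h1.trans (e5 ▸ relIndex_dvd_of_le_left K (le_sup_left.trans hj)))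

theorem eq_bot_of_normalizes {G : Type*} [Group G] [Finite G] (hZ : center G = ⊥) {K : Subgroup G}
    [K.Normal] (hK : ∀ p : ℕ, p.Prime → p ∣ Nat.card G → ∀ x ∈ K, ∀ P : Sylow p G, x • P = P) :
    K = ⊥ := by
  by_contra hne
  obtain ⟨p, hp, hpK⟩ := Nat.exists_prime_and_dvd ((one_lt_card_iff_ne_bot K).2 hne).ne'
  have := Fact.mk hp
  have hpG := hpK.trans K.card_subgroup_dvd_card
  obtain ⟨P⟩ : Nonempty (Sylow p G) := inferInstance
  obtain ⟨z, hz, hzp, hzc⟩ := LinP.exists_central_of_normal P.isPGroup' (K.subgroupOf P) (by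
    obtain ⟨x, hx, hxp⟩ := Local.exists_mem_orderOf_eq_of_dvd_card hp hpK
    intro e
    have : (⟨x, mem_of_smul_eq (Local.isPGroup_zpowers_of_orderOf_eq hxp) (hK p hp hpG x hx P)⟩ :
      (P : Subgroup G)) ∈ K.subgroupOf P := hx
    rw [e] at this
    exact Local.ne_one_of_orderOf_eq_prime hp hxp (congrArg Subtype.val this))
  apply Local.ne_one_of_orderOf_eq_prime hp hzp
  apply Subtype.ext
  change (z : G) ∈ (⊥ : Subgroup G)
  rw [← hZ, mem_center_iff]
  suffices centralizer {(z : G)} = ⊤ from fun g => mem_centralizer_singleton_iff.1 (this ▸ mem_top g)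
  rw [← index_eq_one]
  by_contra h1
  obtain ⟨r, hr, hri⟩ := Nat.exists_prime_and_dvd h1
  have := Fact.mk hr
  by_cases hrp : r = p
  · subst hrp
    exact P.not_dvd_index (hri.trans (index_dvd_of_le fun x hx => mem_centralizer_singleton_iff.2
      (congrArg Subtype.val (mem_center_iff.1 hzc ⟨x, hx⟩))))
  · obtain ⟨R⟩ : Nonempty (Sylow r G) := inferInstance
    refine R.not_dvd_index (hri.trans (index_dvd_of_le fun x hx => ?_))
    have h2 : x * z * x⁻¹ * (z : G)⁻¹ ∈ (P : Subgroup G) := by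
      refine mul_mem (mem_of_smul_eq (Local.isPGroup_zpowers_of_orderOf_eq ?_)
        (hK p hp hpG _ (Normal.conj_mem inferInstance (z : G) (show (z : G) ∈ K from hz) x) P))
        (inv_mem z.2)
      rw [Char.orderOf_conj', orderOf_coe, hzp]
    have h3 : x * z * x⁻¹ * (z : G)⁻¹ ∈ (R : Subgroup G) := by
      rw [mul_assoc, mul_assoc, ← mul_assoc (z : G)]
      exact mul_mem hx (Local.conj_mem_of_mem_normalizer (Sylow.smul_eq_iff_mem_normalizer.1
        (hK r hr (hri.trans (index_dvd_card _)) z hz R)) (inv_mem hx))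
    have h4 := disjoint_def.1 (IsPGroup.disjoint_of_ne r p hrp _ _ R.isPGroup' P.isPGroup') h3 h2
    rw [mul_inv_eq_one, mul_inv_eq_iff_eq_mul] at h4
    exact mem_centralizer_singleton_iff.2 h4

/-- Let G be a finite group with trivial centre whose set of Sylow numbers (numbers of Sylow r-subgroups, r over the prime divisors of its order) is exactly {18, 136, 153}. Then G is isomorphic to PSL(2, 17) or to PGL(2, 17). -/
theorem result {G : Type*} [Group G] [Finite G] (hZ : Subgroup.center G = ⊥) (hNS : {c : ℕ | ∃ r : ℕ, r.Prime ∧ r ∣ Nat.card G ∧ c = Nat.card (Sylow r G)} = ({18, 136, 153} : Set ℕ))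
    {F : Type*} [Field F] [Fintype F] (hF : Fintype.card F = 17) :
    Nonempty (G ≃* Matrix.ProjectiveSpecialLinearGroup (Fin 2) F) ∨ Nonempty (G ≃* (GL (Fin 2) F ⧸ Subgroup.center (GL (Fin 2) F))) := by
  have hmem : ∀ r : ℕ, r.Prime → r ∣ Nat.card G → Nat.card (Sylow r G) = 18 ∨
      Nat.card (Sylow r G) = 136 ∨ Nat.card (Sylow r G) = 153 := fun r hr hd => by
    have : Nat.card (Sylow r G) ∈ ({18, 136, 153} : Set ℕ) := hNS ▸ ⟨r, hr, hd, rfl⟩
    exact this
  have hdvd : ∀ n ∈ ({18, 136, 153} : Set ℕ), n ∣ Nat.card G := fun n hn => by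
    rw [← hNS] at hn
    obtain ⟨r, hr, -, rfl⟩ := hn
    have := Fact.mk hr
    exact (default : Sylow r G).card_dvd_index.trans (index_dvd_card _)
  have f2 : Fact (Nat.Prime 2) := ⟨by norm_num⟩
  have f3 : Fact (Nat.Prime 3) := ⟨by norm_num⟩
  have f17 : Fact (Nat.Prime 17) := ⟨by norm_num⟩
  have d2 : 2 ∣ Nat.card G := Dvd.dvd.trans (by norm_num) (hdvd 18 (by simp))
  have d3 : 3 ∣ Nat.card G := Dvd.dvd.trans (by norm_num) (hdvd 18 (by simp))
  have d17 : 17 ∣ Nat.card G := Dvd.dvd.trans (by norm_num) (hdvd 136 (by simp))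
  have n2 : Nat.card (Sylow 2 G) = 153 := by
    have := card_sylow_modEq_one 2 G
    rcases hmem 2 f2.out d2 with h | h | h <;> rw [h] at this ⊢ <;> revert this <;> decide
  have n3 : Nat.card (Sylow 3 G) = 136 := by
    have := card_sylow_modEq_one 3 G
    rcases hmem 3 f3.out d3 with h | h | h <;> rw [h] at this ⊢ <;> revert this <;> decide
  have n17 : Nat.card (Sylow 17 G) = 18 := by
    have := card_sylow_modEq_one 17 G
    rcases hmem 17 f17.out d17 with h | h | h <;> rw [h] at this ⊢ <;> revert this <;> decide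
  let H := (toPermHom G (Sylow 17 G)).range
  let f : G →* H := (toPermHom G (Sylow 17 G)).rangeRestrict
  have hf : Function.Surjective f := MonoidHom.rangeRestrict_surjective _
  have hfs : ∀ (g : G) (Q : Sylow 17 G), f g • Q = g • Q := fun _ _ => rfl
  obtain ⟨P⟩ : Nonempty (Sylow 17 G) := inferInstance
  have : Nontrivial (Sylow 17 G) := Finite.one_lt_card_iff_nontrivial.1 (by omega)
  obtain ⟨Q₀, hQ₀⟩ := exists_ne P
  obtain ⟨g₀, hg₀⟩ := exists_smul_eq G P Q₀
  obtain ⟨Q, w, hD, hP, hK⟩ := exists_zdata_of_prime (G := H) (Ω := Sylow 17 G) (a := P)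
    (P := (P : Subgroup G).map f) (p := 17) n17 (P.isPGroup'.map f) (fun e => hQ₀ (by
      have : Q₀ ∈ fixedPoints (P : Subgroup G) (Sylow 17 G) := fun x => by
        have : f x ∈ (P : Subgroup G).map f := mem_map_of_mem f x.2
        rw [e, mem_bot] at this
        change (x : G) • Q₀ = Q₀
        rw [← hfs, this, one_smul]
      exact Sylow.ext (P.is_maximal' Q₀.isPGroup' (P.isPGroup'.sylow_mem_fixedPoints_iff.1 this))))
    (by rintro _ ⟨x, hx, rfl⟩; exact smul_self_of_mem hx) (by
      rintro g hg _ ⟨x, hx, rfl⟩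
      obtain ⟨g, rfl⟩ := hf g
      exact ⟨g * x * g⁻¹, Local.conj_mem_of_mem_normalizer
        (Sylow.smul_eq_iff_mem_normalizer.1 hg) hx, by simp⟩) (g := f g₀) (by rwa [hfs, hg₀])
  have hH := hD.card_eq
  have hk := hD.card_dvd
  have hst := hD.card_stabilizer
  have hps := hD.card_pairStab
  rw [hP] at hH hk hst
  have heven : Even (Nat.card ↥(stabilizer H P ⊓ stabilizer H Q)) := by
    by_contra hodd
    have hk1 : Nat.card ↥(stabilizer H P ⊓ stabilizer H Q) = 1 := by
      have := Nat.le_of_dvd (by norm_num) hk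
      rw [Nat.not_even_iff_odd, Nat.odd_iff] at hodd
      generalize Nat.card ↥(stabilizer H P ⊓ stabilizer H Q) = k at *
      interval_cases k <;> omega
    rw [hk1] at hH
    obtain ⟨S⟩ : Nonempty (Sylow 2 H) := inferInstance
    have hS : Nat.card S = 2 := by
      rw [S.card_eq_multiplicity, hH, show 17 * 1 * (17 + 1) = 2 * 153 by norm_num,
        Nat.factorization_mul (by norm_num) (by norm_num), Finsupp.add_apply,
        Nat.Prime.factorization_self (by norm_num), Nat.factorization_eq_zero_of_not_dvd (by norm_num)]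
      norm_num
    obtain ⟨M, hM⟩ := exists_index_two_of_cyclic_sylow (by rw [hH]; norm_num) S
      (isCyclic_of_prime_card hS)
    have hMn := normal_of_index_eq_two hM
    have h17 : ∀ x : H, x ^ 17 = 1 → x ∈ M := fun x hx => by
      have := M.pow_mem (sq_mem_of_index_two hM x) 9
      rwa [← pow_mul, show 2 * 9 = 17 + 1 by norm_num, pow_succ, hx, one_mul] at this
    have hPM : (P : Subgroup G).map f ≤ M := fun x hx => h17 x (by
      have := pow_card_eq_one' (x := (⟨x, hx⟩ : (P : Subgroup G).map f))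
      rw [hP] at this
      exact congrArg Subtype.val this)
    have hMt : M = ⊤ := by
      have hst' : stabilizer H P ≤ M := by
        have : (P : Subgroup G).map f = stabilizer H P :=
          eq_of_le_of_card_ge hD.P_fix (by rw [hst, hk1, hP])
        exact this ▸ hPM
      rw [eq_top_iff]
      intro g _
      by_cases hg : g • P = P
      · exact hst' hg
      · obtain ⟨x, hx, hx'⟩ := hD.P_trans _ hg
        obtain ⟨y, hy, hy1⟩ := (bot_or_exists_ne_one ((P : Subgroup G).map f)).resolve_left (by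
          rw [← Ne, ← one_lt_card_iff_ne_bot, hP]; norm_num)
        have h1 : (w * y * w⁻¹) • P ≠ P := fun e => hD.ne (by
          rw [mul_smul, mul_smul, show w⁻¹ • P = Q from inv_smul_eq_iff.2 hD.wb.symm,
            ← eq_inv_smul_iff, show w⁻¹ • P = Q from inv_smul_eq_iff.2 hD.wb.symm] at e
          exact absurd (hD.P_free y hy e) hy1)
        obtain ⟨u, hu, hu'⟩ := hD.P_trans _ h1
        have h2 : x * u⁻¹ * (w * y * w⁻¹) ∈ M :=
          mul_mem (mul_mem (hPM hx) (inv_mem (hPM hu))) (hMn.conj_mem _ (hPM hy) w)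
        have h3 : (x * u⁻¹ * (w * y * w⁻¹))⁻¹ * g ∈ stabilizer H P := by
          rw [mem_stabilizer_iff, mul_smul, inv_smul_eq_iff, mul_smul, ← hu', mul_smul,
            inv_smul_smul, hx']
        exact (M.mul_mem_cancel_left (inv_mem h2)).1 (hst' h3)
    rw [hMt, index_top] at hM
    omega
  have hrec := hD.recognition_of_even (F := F) (hF.trans hP.symm) (by omega) hK heven
  obtain ⟨p, hp⟩ := CharP.exists F
  obtain ⟨hk8, s, hs⟩ : (Nat.card ↥(stabilizer H P ⊓ stabilizer H Q) = 8 ∨
      Nat.card ↥(stabilizer H P ⊓ stabilizer H Q) = 16) ∧ ∃ s : H, orderOf s = 9 := by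
    rcases hrec with ⟨⟨e⟩, -, h1⟩ | ⟨⟨e⟩, h1⟩
    · refine ⟨by omega, ?_⟩
      obtain ⟨s, hs⟩ : 9 ∈ Set.range (orderOf : GL (Fin 2) F ⧸ center (GL (Fin 2) F) → ℕ) := by
        rw [Spec.spec_pgl2 p, hF]; simp
      exact ⟨e.symm s, (e.symm.orderOf_eq s).trans hs⟩
    · rw [hF, show Nat.gcd 2 (17 - 1) = 2 by norm_num] at h1
      refine ⟨Or.inl (by omega), ?_⟩
      obtain ⟨s, hs⟩ := Spec.exists_psl_order (F := F) _ (Or.inr rfl)
      rw [hF] at hs
      exact ⟨e.symm s, (e.symm.orderOf_eq s).trans hs⟩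
  have m2 : Nat.card (Sylow 2 H) = 153 := by
    have hi : (pairStab H P Q).index = 153 := by
      have := (pairStab H P Q).card_mul_index
      rw [hps, hH] at this
      rcases hk8 with h | h <;> rw [h] at this <;> omega
    have hp : IsPGroup 2 (pairStab H P Q) := by
      rcases hk8 with h | h
      · exact IsPGroup.of_card (n := 4) (by rw [hps, h]; norm_num)
      · exact IsPGroup.of_card (n := 5) (by rw [hps, h]; norm_num)
    refine (hp.toSylow (by rw [hi]; norm_num)).card_eq_index_normalizer.trans (Eq.trans ?_ hi)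
    congr 1
    exact le_antisymm (hD.normalizer_pairStab_le (by omega)) le_normalizer
  have m3 : Nat.card (Sylow 3 H) = 136 := by
    have hi := (zpowers s).card_mul_index
    rw [Nat.card_zpowers, hs, hH] at hi
    have hp : IsPGroup 3 (zpowers s) := IsPGroup.of_card (n := 2) (by rw [Nat.card_zpowers, hs]; rfl)
    let T := hp.toSylow (by rcases hk8 with h | h <;> rw [h] at hi <;> omega)
    have ht : orderOf (s ^ 3) = 3 := by rw [orderOf_pow' _ (by norm_num), hs]; rfl
    have h1 := hD.card_normalizer_le ht (fun e => by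
      have := Local.orderOf_dvd_card_of_mem (H := stabilizer H P) e
      rw [ht, hst] at this
      rcases hk8 with h | h <;> rw [h] at this <;> omega)
    have h2 : normalizer (T : Set H) ≤ normalizer (zpowers (s ^ 3) : Set H) := fun g hg =>
      Local.mem_normalizer_of_conj_mem (by
        rintro _ ⟨n, rfl⟩
        obtain ⟨m, hm⟩ := Local.conj_mem_of_mem_normalizer (N := zpowers s) hg (mem_zpowers s)
        refine ⟨m * n, ?_⟩
        beta_reduce at hm ⊢
        rw [← conj_zpow, ← conj_pow, ← hm, ← zpow_natCast, ← zpow_natCast, ← zpow_mul, ← zpow_mul,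
          ← zpow_mul]
        congr 1; ring)
    have h3 := card_le_of_le h2
    have h4 := (normalizer (T : Set H)).card_mul_index
    rw [← T.card_eq_index_normalizer, hH] at h4
    have h5 := Nat.card_le_card_of_surjective _ (Sylow.mapSurjective_surjective hf 3)
    have h6 := card_sylow_modEq_one 3 H
    have h7 : Nat.card (Sylow 3 H) ∣ (zpowers s).index := T.card_dvd_index
    rw [n17] at h1
    rw [n3] at h5
    generalize Nat.card (Sylow 3 H) = n at *
    generalize Nat.card (normalizer (T : Set H)) = c at *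
    have h8 : c * n ≤ 36 * n := Nat.mul_le_mul_right _ (by omega)
    rcases hk8 with h | h <;> rw [h] at hi h4
    · rw [show (zpowers s).index = 272 by omega] at h7
      have : 68 ≤ n := by omega
      unfold Nat.ModEq at h6
      interval_cases n <;> omega
    · omega
  have hK17 : ∀ x ∈ f.ker, ∀ R : Sylow 17 G, x • R = R := fun x hx R => by
    rw [← hfs, show f x = 1 from hx, one_smul]
  have hidx : f.ker.index = Nat.card H := by
    rw [index_ker, MonoidHom.range_eq_top.2 hf, card_top]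
  have hker : f.ker = ⊥ := by
    refine eq_bot_of_normalizes hZ fun r hr hd x hx R => ?_
    have := Fact.mk hr
    have h1 := card_sylow_modEq_one r G
    rcases hmem r hr hd with h | h | h <;> rw [h] at h1 <;>
      have h2 := (Nat.modEq_iff_dvd' (by norm_num)).1 h1.symm
    · obtain rfl := (Nat.prime_dvd_prime_iff_eq hr f17.out).1 h2
      exact hK17 x hx R
    · rcases (Nat.Prime.dvd_mul hr (m := 3 ^ 3) (n := 5)).1 h2 with h3 | h3
      · obtain rfl := (Nat.prime_dvd_prime_iff_eq hr f3.out).1 (hr.dvd_of_dvd_pow h3)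
        exact smul_eq_of_card_eq hf (n3.trans m3.symm) hx R
      · obtain rfl := (Nat.prime_dvd_prime_iff_eq hr (by norm_num)).1 h3
        exact (not_dvd_card (r := 5) hK17 (by
          rw [hidx, hH]; rcases hk8 with h | h <;> rw [h] <;> norm_num) (by rw [h]; norm_num)
          (by rw [h]; norm_num) (by decide)).elim
    · rcases (Nat.Prime.dvd_mul hr (m := 2 ^ 3) (n := 19)).1 h2 with h3 | h3
      · obtain rfl := (Nat.prime_dvd_prime_iff_eq hr f2.out).1 (hr.dvd_of_dvd_pow h3)
        exact smul_eq_of_card_eq hf (n2.trans m2.symm) hx R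
      · obtain rfl := (Nat.prime_dvd_prime_iff_eq hr (by norm_num)).1 h3
        exact (not_dvd_card (r := 19) hK17 (by
          rw [hidx, hH]; rcases hk8 with h | h <;> rw [h] <;> norm_num) (by rw [h]; norm_num)
          (by rw [h]; norm_num) (by decide)).elim
  let e := MulEquiv.ofBijective f ⟨(MonoidHom.ker_eq_bot_iff f).1 hker, hf⟩
  rcases hrec with ⟨⟨e'⟩, -⟩ | ⟨⟨e'⟩, -⟩
  · exact Or.inr ⟨e.trans e'⟩
  · exact Or.inl ⟨e.trans e'⟩

end Cfsg.Agent.S3641
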