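import Cfsg.Statements.S3669
import Cfsg.Agent.Char.Burnside
import Cfsg.Agent.Local.Fitting
import Cfsg.Agent.Local.FPF
import Cfsg.Agent.Pres.Order60

set_option autoImplicit false
open Cfsg

namespace Cfsg.Agent.S3669

open scoped Pointwise ComplexConjugate

/-- The two-element subsets of a five-element set. -/
def pairs : SubMulAction (alternatingGroup (Fin 5)) (Finset (Fin 5)) where
  carrier := {s | s.card = 2}
  smul_mem' g s hs := by
    simp only [Set.mem_ofPred_eq] at hs ⊢
    rw [Finset.card_smul_finset, hs]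

/-- Fixed pairs minus fixed points. -/
def chiFive (g : alternatingGroup (Fin 5)) : ℤ :=
  ((Finset.univ.filter (fun s : Finset (Fin 5) => s.card = 2 ∧ g • s = s)).card : ℤ) -
    (Finset.univ.filter (fun a : Fin 5 => g • a = a)).card

theorem sum_chiFive : ∑ g : alternatingGroup (Fin 5), chiFive g ^ 2 = 60 := by
  decide +kernel

theorem chiFive_one : chiFive 1 = 5 := by
  decide +kernel

theorem five_mem : 5 ∈ Cfsg.degreePrimes (alternatingGroup (Fin 5)) := by
  have h1 := Char.char_perm (G := alternatingGroup (Fin 5)) pairs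
  have h2 := Char.char_perm (G := alternatingGroup (Fin 5)) (Fin 5)
  have h3 : IsGeneralizedCharacter _ (fun g => (chiFive g : ℂ)) := by
    refine ⟨_, _, h1, h2, ?_⟩
    ext g
    have e1 : Nat.card (MulAction.fixedBy pairs g) =
        (Finset.univ.filter (fun s : Finset (Fin 5) => s.card = 2 ∧ g • s = s)).card := by
      rw [← Fintype.card_subtype, ← Nat.card_eq_fintype_card]
      exact Nat.card_congr
        { toFun := fun s => ⟨s.1.1, s.1.2, congrArg Subtype.val s.2⟩
          invFun := fun s => ⟨⟨s.1, s.2.1⟩, Subtype.ext s.2.2⟩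
          left_inv := fun _ => rfl
          right_inv := fun _ => rfl }
    have e2 : Nat.card (MulAction.fixedBy (Fin 5) g) =
        (Finset.univ.filter (fun a : Fin 5 => g • a = a)).card := by
      rw [← Fintype.card_subtype, ← Nat.card_eq_fintype_card]
      rfl
    simp only [chiFive, Pi.sub_apply, e1, e2]
    push_cast
    rfl
  have h4 : IsIrrCharacter _ (fun g => (chiFive g : ℂ)) := by
    apply Char.irr_of_gen_norm_one h3
    · unfold classInner
      have hc : Nat.card (alternatingGroup (Fin 5)) = 60 := by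
        rw [nat_card_alternatingGroup]; simp [Nat.factorial]
      have hs : ∑ g : alternatingGroup (Fin 5), (chiFive g : ℂ) * conj (chiFive g : ℂ) = 60 := by
        have := congrArg (fun z : ℤ => (z : ℂ)) sum_chiFive
        simpa [sq] using this
      rw [hc, hs]; norm_num
    · simp [chiFive_one]
  exact ⟨by norm_num, 5, ⟨⟨_, h4⟩, by simp [charDegree, chiFive_one]⟩, dvd_rfl⟩

theorem prime_pow_le {p k : ℕ} (hp : p.Prime) (h : p ^ k ∣ 60) : p ^ k ≤ 5 := by
  rcases k with _ | k
  · simp
  have h1 : p ∣ 60 := (dvd_pow_self p (by omega)).trans h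
  have h2 := Nat.le_of_dvd (by norm_num) h1
  have h3 : p = 2 ∨ p = 3 ∨ p = 5 := by
    interval_cases p <;> simp_all (config := {decide := true})
  have h4 : k + 1 < 6 := by
    by_contra hk
    have h5 : 2 ^ 6 ≤ p ^ (k + 1) :=
      (Nat.pow_le_pow_left hp.two_le 6).trans (Nat.pow_le_pow_right hp.pos (by omega))
    have := Nat.le_of_dvd (by norm_num) h
    omega
  have h6 : k < 5 := by omega
  rcases h3 with rfl | rfl | rfl <;> interval_cases k <;> simp_all (config := {decide := true})

theorem no_degree_five {G : Type*} [Group G] [Finite G] (hcard : Nat.card G = 60)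
    (hs : Group.IsSolvable G) {χ : G → ℂ} (hχ : IsIrrCharacter G χ) {n : ℕ} (hn : 0 < n)
    (hχ1 : χ 1 = n) (hd : 5 ∣ n) : False := by
  classical
  have := Fintype.ofFinite G
  have : Fact (Nat.Prime 5) := ⟨by norm_num⟩
  obtain ⟨x, hx⟩ := exists_prime_orderOf_dvd_card' (G := G) 5 (by rw [hcard]; norm_num)
  have hxP := Local.isPGroup_zpowers_of_orderOf_eq hx
  have hxF : x ∈ Cfsg.fittingSubgroup G := by
    apply Local.mem_fittingSubgroup_of_forall_centralizer_pCore hs
    intro p hp _
    have : Fact p.Prime := ⟨hp⟩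
    obtain ⟨k, hk⟩ := (Local.isPGroup_pCore (G := G) p).exists_card_eq
    have h1 : Nat.card (Cfsg.pCore p G) ≤ 5 := by
      rw [hk]; apply prime_pow_le hp; rw [← hk, ← hcard]; exact Subgroup.card_subgroup_dvd_card _
    let _ := Local.conjAction (Local.le_normalizer_of_normal' (Subgroup.zpowers x) (Cfsg.pCore p G))
    have h2 := hxP.card_modEq_card_fixedPoints (Cfsg.pCore p G)
    have h3 : 0 < Nat.card (MulAction.fixedPoints (Subgroup.zpowers x) (Cfsg.pCore p G)) := by
      have : Nonempty (MulAction.fixedPoints (Subgroup.zpowers x) (Cfsg.pCore p G)) :=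
        ⟨⟨1, fun y => smul_one y⟩⟩
      exact Nat.card_pos
    have h4 : Nat.card (MulAction.fixedPoints (Subgroup.zpowers x) (Cfsg.pCore p G)) ≤
        Nat.card (Cfsg.pCore p G) := Finite.card_subtype_le _
    have h5 : Nat.card (MulAction.fixedPoints (Subgroup.zpowers x) (Cfsg.pCore p G)) =
        Nat.card (Cfsg.pCore p G) := by
      unfold Nat.ModEq at h2
      omega
    have h6 : MulAction.fixedPoints (Subgroup.zpowers x) (Cfsg.pCore p G) = Set.univ :=
      Set.eq_univ_iff_ncard _ |>.mpr h5
    intro y hy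
    have h7 : (⟨y, hy⟩ : Cfsg.pCore p G) ∈
        MulAction.fixedPoints (Subgroup.zpowers x) (Cfsg.pCore p G) := by rw [h6]; trivial
    have h8 : x * y * x⁻¹ = y := congrArg Subtype.val (h7 ⟨x, Subgroup.mem_zpowers x⟩)
    exact (mul_inv_eq_iff_eq_mul.mp h8).symm
  have hxO := Local.mem_pCore_of_mem_fittingSubgroup hxF hxP
  have hN : Subgroup.zpowers x = Cfsg.pCore 5 G := by
    apply Subgroup.eq_of_le_of_card_ge (Subgroup.zpowers_le.mpr hxO)
    obtain ⟨k, hk⟩ := (Local.isPGroup_pCore (G := G) 5).exists_card_eq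
    rw [Nat.card_zpowers, hx, hk]
    apply prime_pow_le (by norm_num); rw [← hk, ← hcard]; exact Subgroup.card_subgroup_dvd_card _
  have hNn : (Subgroup.zpowers x).Normal := by rw [hN]; infer_instance
  have hsum : ∑ g, ‖χ g‖ ^ 2 = 60 := by
    have h1 := Char.inner_irr_self hχ
    rw [Char.inner_self_eq, hcard] at h1
    have h2 : ((60 : ℕ) : ℝ)⁻¹ * ∑ g, ‖χ g‖ ^ 2 = 1 := by exact_mod_cast h1
    push_cast at h2
    linarith
  have hn5 : n = 5 := by
    have h1 : ‖χ 1‖ ^ 2 ≤ ∑ g, ‖χ g‖ ^ 2 :=
      Finset.single_le_sum (f := fun g => ‖χ g‖ ^ 2) (fun g _ => by positivity) (Finset.mem_univ 1)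
    rw [hsum, hχ1, Complex.norm_natCast] at h1
    have h2 : n ^ 2 ≤ 60 := by exact_mod_cast h1
    obtain ⟨m, rfl⟩ := hd
    have : m < 2 := by nlinarith
    omega
  subst hn5
  have hzero : ∀ g ∈ Subgroup.zpowers x, g ≠ 1 → χ g = 0 := by
    intro g hg hg1
    have h1 : Subgroup.zpowers x ≤ Subgroup.centralizer {g} := by
      intro y hy z hz
      rw [Set.mem_singleton_iff.mp hz]
      obtain ⟨i, rfl⟩ := hg
      obtain ⟨j, rfl⟩ := hy
      exact zpow_mul_comm x i j
    have h2 := Subgroup.index_dvd_of_le h1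
    have h3 := (Subgroup.zpowers x).card_mul_index
    rw [Nat.card_zpowers, hx, hcard] at h3
    have h4 : (Subgroup.zpowers x).index = 12 := by omega
    rw [h4] at h2
    refine (Char.irr_eq_zero_or_norm_eq hχ hχ1 g
      (Nat.Coprime.coprime_dvd_left h2 (by norm_num))).resolve_right (fun h5 => ?_)
    have hgi : g ≠ g⁻¹ := by
      intro h
      have h6 : orderOf g ∣ 2 := orderOf_dvd_of_pow_eq_one (by rw [sq]; nth_rewrite 2 [h]; simp)
      have h7 := Subgroup.orderOf_dvd_natCard _ hg
      rw [Nat.card_zpowers, hx] at h7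
      have := Nat.dvd_gcd h6 h7
      exact hg1 (by simpa using this)
    have h6 : ∑ y ∈ ({1, g, g⁻¹} : Finset G), ‖χ y‖ ^ 2 ≤ ∑ g, ‖χ g‖ ^ 2 :=
      Finset.sum_le_sum_of_subset_of_nonneg (Finset.subset_univ _) (fun _ _ _ => by positivity)
    rw [Finset.sum_insert (by simp [hg1.symm, hg1]), Finset.sum_pair hgi, hsum,
      Char.char_apply_inv (Char.irr_isCharacter hχ), Complex.norm_conj, h5, hχ1] at h6
    norm_num at h6
  let f : G → ℂ := fun g => if g ∈ Subgroup.zpowers x then 1 else 0
  have hf : IsClassFunction G f := by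
    intro g y
    simp only [f]
    congr 1
    exact propext ⟨fun h => by simpa [mul_assoc] using hNn.conj_mem _ h y⁻¹,
      fun h => hNn.conj_mem _ h y⟩
  have hx1 : x ≠ 1 := Local.ne_one_of_orderOf_eq_prime (by norm_num) hx
  have key := Char.irr_conv hχ hf x
  rw [hzero x (Subgroup.mem_zpowers x) hx1, mul_zero, Finset.sum_eq_single x⁻¹] at key
  · simp [f, hχ1] at key
  · intro g _ hg
    simp only [f]
    split_ifs with h
    · rw [hzero _ (Subgroup.mul_mem _ h (Subgroup.mem_zpowers x))
        (fun hh => hg (eq_inv_of_mul_eq_one_left hh)), mul_zero]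
    · simp
  · simp


/-- The character degree graph of a finite group has as vertices the primes dividing some irreducible complex character degree, two distinct primes being joined when their product divides some irreducible character degree; two groups have the same character degree graph when they have the same vertices and the same joined pairs. A finite group of order 60 with the same character degree graph as the alternating group A₅ (whose character degrees are 1, 3, 4, 5, so the graph has vertices 2, 3, 5 and no edges) is isomorphic to A₅. -/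
theorem result {G : Type*} [Group G] [Finite G] (hcard : Nat.card G = 60)
    (hΓ : Cfsg.degreePrimes G = Cfsg.degreePrimes (alternatingGroup (Fin 5)) ∧ Cfsg.degreeGraph G = Cfsg.degreeGraph (alternatingGroup (Fin 5))) : Nonempty (G ≃* alternatingGroup (Fin 5)) := by
  apply Pres.equiv_alt5_of_card_60 hcard
  intro hs
  have h5 := five_mem
  rw [← hΓ.1] at h5
  obtain ⟨-, d, ⟨χ, rfl⟩, hd⟩ := h5
  obtain ⟨n, hn, hχ1⟩ := Char.irr_apply_one χ.2
  have hdeg : charDegree (χ : G → ℂ) = n := by simp [charDegree, hχ1]
  rw [hdeg] at hd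
  exact no_degree_five hcard hs χ.2 hn hχ1 hd

end Cfsg.Agent.S3669
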