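import Cfsg.Statements.S3670
import Cfsg.Agent.Comp.U33.Spec

set_option autoImplicit false
open Cfsg

namespace Cfsg.Agent.S3670

/-- The character degree graph of a finite group has as vertices the primes dividing some irreducible complex character degree, two distinct primes being joined when their product divides some irreducible character degree; two groups have the same character degree graph when they have the same vertices and the same joined pairs. Let F be the field with 9 elements and L = PSU(3,3) realised over F (order 6048). There is a finite solvable group of order 6048 with the same character degree graph as L; so L is not determined by its order together with its character degree graph. -/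
theorem result {F : Type*} [Field F] [Fintype F] (hF : Fintype.card F = 9) :
    ∃ (H : Type) (_ : Group H) (_ : Fintype H), Group.IsSolvable H ∧ Nat.card H = 6048 ∧ Cfsg.degreePrimes H = Cfsg.degreePrimes (Cfsg.PSU 3 F 3) ∧ Cfsg.degreeGraph H = Cfsg.degreeGraph (Cfsg.PSU 3 F 3) := by
  obtain ⟨H, _, _, h1, h2, h3⟩ := Comp.H3024.exists_group
  have hc := Comp.U33.card_PSU33 hF
  have : Finite (PSU 3 F 3) := Nat.finite_of_card_ne_zero (by rw [hc]; norm_num)
  obtain ⟨a, b, c⟩ := Comp.U33.deg_PSU33 hF
  have e1 := Comp.deg_complete h2.dvd ⟨42, h3, by norm_num⟩ ⟨42, h3, by norm_num⟩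
    ⟨42, h3, by norm_num⟩
  have e2 := Comp.deg_complete hc.dvd a ⟨14, b, dvd_rfl⟩ ⟨21, c, dvd_rfl⟩
  refine ⟨H, inferInstance, inferInstance, h1, h2, e1.1.trans e2.1.symm, ?_⟩
  ext p q
  rw [e1.2, e2.2]

end Cfsg.Agent.S3670
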