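import Cfsg.Statements.S3678
import Cfsg.Agent.Spec.SL2Aff

set_option autoImplicit false
open Cfsg

namespace Cfsg.Agent.S3678

/-- The prime graph of a finite group has the prime divisors of its order as vertices, two distinct primes p, q being joined when the group has an element of order pq; two groups have the same prime graph when they have the same prime divisors and the same joined pairs. Let F be the field with 7 elements. There are finite groups of arbitrarily large order with the same prime graph as PSL(2,F) (the graph on {2, 3, 7} with no edges, which is also the prime graph of PSL(2,8)). -/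
theorem result {F : Type*} [Field F] [Fintype F] (hF : Fintype.card F = 7) (N : ℕ) :
    ∃ (H : Type) (_ : Group H) (_ : Finite H), N < Nat.card H ∧
      ((∀ p : ℕ, p.Prime → (p ∣ Nat.card (Matrix.ProjectiveSpecialLinearGroup (Fin 2) F) ↔ p ∣ Nat.card H)) ∧
      (∀ p q : ℕ, p.Prime → q.Prime → p ≠ q → ((∃ g : (Matrix.ProjectiveSpecialLinearGroup (Fin 2) F), orderOf g = p * q) ↔ (∃ g : H, orderOf g = p * q)))) := by
  have := Fintype.ofFinite (GaloisField 2 3)
  have hc : Fintype.card (GaloisField 2 3) = 8 := by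
    rw [← Nat.card_eq_fintype_card, GaloisField.card 2 3 three_ne_zero]
    norm_num
  have : CharP F 7 := Cfsg.Agent.Spec.charP_of_card_eq_pow (n := 1) (by norm_num) hF
  obtain ⟨H, _, _, hN, h1, h2⟩ := Cfsg.Agent.Spec.primeGraph_psl2_even (F := GaloisField 2 3) N
  have s7 := Cfsg.Agent.Spec.spec_psl2 (F := F) 7
  have s8 := Cfsg.Agent.Spec.spec_psl2 (F := GaloisField 2 3) 2
  rw [hF] at s7
  rw [hc] at s8
  norm_num only at s7 s8
  refine ⟨H, inferInstance, inferInstance, hN, ?_, ?_⟩
  · intro p hp
    rw [← h1 p hp, Cfsg.Agent.Spec.prime_dvd_card_iff hp, Cfsg.Agent.Spec.prime_dvd_card_iff hp,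
      s7, s8]
    have e4 : p ∣ 4 ↔ p ∣ 2 := by
      rw [show (4 : ℕ) = 2 * 2 from rfl, hp.dvd_mul, or_self]
    have e9 : p ∣ 9 ↔ p ∣ 3 := by
      rw [show (9 : ℕ) = 3 * 3 from rfl, hp.dvd_mul, or_self]
    simp only [Set.mem_ofPred_eq, e4, e9]
    tauto
  · intro p q hp hq hpq
    rw [← h2 p q hp hq hpq]
    have key : ∀ r k : ℕ, r.Prime → ¬ p * q ∣ r ^ k := by
      intro r k hr h
      have e1 : p = r := (Nat.prime_dvd_prime_iff_eq hp hr).1
        (hp.dvd_of_dvd_pow ((Dvd.intro _ rfl).trans h))
      have e2 : q = r := (Nat.prime_dvd_prime_iff_eq hq hr).1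
        (hq.dvd_of_dvd_pow ((Dvd.intro_left _ rfl).trans h))
      exact hpq (e1.trans e2.symm)
    have k1 := key 2 1 (by norm_num)
    have k2 := key 2 2 (by norm_num)
    have k3 := key 3 1 (by norm_num)
    have k4 := key 3 2 (by norm_num)
    have k5 := key 7 1 (by norm_num)
    norm_num only at k1 k2 k3 k4 k5
    have e7 := Set.ext_iff.1 s7 (p * q)
    have e8 := Set.ext_iff.1 s8 (p * q)
    simp only [Set.mem_ofPred_eq, Set.mem_range] at e7 e8
    rw [e7, e8]
    tauto

end Cfsg.Agent.S3678
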