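import Cfsg.Statements.S3680
import Cfsg.Agent.Perm2.SoclePerm

set_option autoImplicit false
open Cfsg

namespace Cfsg.Agent.S3680

open Cfsg.Agent.Perm2 MulAction Subgroup


/-- The socle of a finite primitive permutation group. Let a finite group G act faithfully and primitively on a set Ω, and let N be the subgroup generated by the minimal normal subgroups of G. Then either N is an elementary abelian p-group for some prime p and acts regularly on Ω (transitively with trivial point stabilizers), or N is isomorphic to a direct product of m ≥ 1 copies of a non-abelian simple group. -/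
theorem result {G Ω : Type*} [Group G] [Finite G] [MulAction G Ω] [FaithfulSMul G Ω] [Finite Ω]
    (hprim : MulAction.IsPreprimitive G Ω) (N : Subgroup G)
    (hN : N = sSup {V : Subgroup G | V.Normal ∧ V ≠ ⊥ ∧ ∀ M : Subgroup G, M.Normal → M ≤ V → M = ⊥ ∨ M = V}) :
    (∃ p : ℕ, p.Prime ∧ IsMulCommutative N ∧ (∀ x : N, x ^ p = 1) ∧
      MulAction.IsPretransitive N Ω ∧ ∀ ω : Ω, MulAction.stabilizer N ω = ⊥) ∨
    (∃ (T : Type) (_ : Group T) (m : ℕ), 1 ≤ m ∧ IsSimpleGroup T ∧ ¬ IsMulCommutative T ∧ Nonempty (N ≃* (Fin m → T))) := by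
  change N = sSup {V : Subgroup G | IsMinNormal V} at hN
  by_cases hab : ∃ V : Subgroup G, IsMinNormal V ∧ ∃ p : ℕ, p.Prime ∧
      (∀ x ∈ V, ∀ y ∈ V, x * y = y * x) ∧ ∀ x ∈ V, x ^ p = 1
  · left
    obtain ⟨V, hV, p, hp, h1, h2⟩ := hab
    have htr := exists_smul_eq_of_normal hprim hV.1 hV.2.1
    have := nontrivial_of_ne_bot (Ω := Ω) hV.2.1
    obtain ⟨a⟩ : Nonempty Ω := inferInstance
    have hNV : N = V := by
      rw [hN]
      refine le_antisymm (sSup_le fun W hW => ?_) (le_sSup hV)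
      by_cases h : V = W
      · exact h.ge
      · exact fun c hc => mem_of_commute_transitive (htr a) h1 fun n hn => hV.commute_of_ne hW h hn hc
    subst hNV
    refine ⟨p, hp, isMulCommutative_iff_forall.mpr h1, fun x => Subtype.ext (h2 x x.2), ⟨fun x y => ?_⟩,
      fun ω => ?_⟩
    · obtain ⟨n, hn, h⟩ := htr x y
      exact ⟨⟨n, hn⟩, h⟩
    · rw [eq_bot_iff]
      intro n hn
      exact Subtype.ext (eq_one_of_commute_transitive (htr ω) hn fun m hm => h1 m hm n n.2)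
  by_cases hex : ∃ V : Subgroup G, IsMinNormal V
  swap
  · left
    have htop : (⊤ : Subgroup G) = ⊥ := by
      by_contra h
      obtain ⟨V, hV, -⟩ := exists_isMinNormal_le (X := (⊤ : Subgroup G)) inferInstance h
      exact hex ⟨V, hV⟩
    have h1 : ∀ g : G, g = 1 := fun g => mem_bot.mp (htop ▸ mem_top g)
    refine ⟨2, Nat.prime_two, ⟨⟨fun x y => Subtype.ext (by rw [h1 (x * y : N), h1 (y * x : N)])⟩⟩,
      fun x => Subtype.ext (h1 _), ⟨fun x y => ?_⟩, fun ω => ?_⟩
    · obtain ⟨g, hg⟩ := exists_smul_eq G x y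
      exact ⟨1, by rw [← hg, h1 g, one_smul, one_smul]⟩
    · rw [eq_bot_iff]
      intro n _
      exact Subtype.ext (h1 _)
  right
  obtain ⟨V₀, hV₀⟩ := hex
  obtain ⟨T₀, hT₀, hTV₀⟩ := hV₀.structure.resolve_left fun h => hab ⟨V₀, hV₀, h⟩
  have := nontrivial_of_ne_bot (Ω := Ω) hV₀.2.1
  obtain ⟨a⟩ : Nonempty Ω := inferInstance
  have hVN : ∀ V, IsMinNormal V → ∀ T, NormalIn T V → NormalIn T N := by
    intro V hV T hT
    refine ⟨hT.1.trans (hN ▸ le_sSup hV), hN ▸ sSup_le fun W hW => ?_⟩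
    by_cases h : V = W
    · exact h ▸ hT.2
    · refine le_trans ?_ (centralizer_le_normalizer _)
      exact fun c hc => mem_centralizer_iff.mpr fun n hn => hV.commute_of_ne hW h (hT.1 hn) hc
  have hfac : ∀ V : Subgroup G, IsMinNormal V → ∃ T : Subgroup G, SimpleNA T ∧ NormalIn T V ∧ Nonempty (T ≃* T₀) := by
    intro V hV
    by_cases h : V₀ = V
    · exact ⟨T₀, hT₀, h ▸ hTV₀, ⟨MulEquiv.refl _⟩⟩
    obtain ⟨f, hf, hfr, -⟩ := exists_hom_of_commute_transitive
      (exists_smul_eq_of_normal hprim hV₀.1 hV₀.2.1 a) (exists_smul_eq_of_normal hprim hV.1 hV.2.1 a)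
      (fun x hx y hy => hV₀.commute_of_ne hV h hx hy)
    have e := ((T₀.subgroupOf V₀).equivMapOfInjective f hf).symm.trans (subgroupOfEquivOfLe hTV₀.1)
    refine ⟨(T₀.subgroupOf V₀).map f, hT₀.of_equiv e.symm, ?_, ⟨e⟩⟩
    have := (normalIn_top_iff.mpr hTV₀.normal_subgroupOf).map f
    rwa [← MonoidHom.range_eq_map, hfr] at this
  let S : Set (Subgroup G) := {T | SimpleNA T ∧ NormalIn T N ∧ Nonempty (T ≃* Shrink.{0} T₀)}
  have hNS : N = sSup S := by
    refine le_antisymm ?_ (sSup_le fun T hT => hT.2.1.1)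
    nth_rewrite 1 [hN]
    refine sSup_le fun V hV => ?_
    obtain ⟨T, h1, h2, ⟨e⟩⟩ := hfac V hV
    have hVn := hV.1
    rw [IsMinNormal.eq_iSup_conj hV h1.ne_bot h2.1]
    refine iSup_le fun g => le_sSup (s := S) ⟨h1.conj g, hVN V hV _ (h2.conj_of_normal g), ⟨?_⟩⟩
    exact ((T.equivMapOfInjective _ (MulAut.conj g).injective).symm.trans e).trans Shrink.mulEquiv.symm
  have hSne : Nonempty S := ⟨⟨T₀, hT₀, hVN V₀ hV₀ _ hTV₀, ⟨Shrink.mulEquiv.symm⟩⟩⟩
  have hs := hT₀.1
  refine ⟨Shrink.{0} T₀, inferInstance, Nat.card S, Nat.card_pos, Shrink.mulEquiv.isSimpleGroup,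
    fun hc => hT₀.2 ⟨⟨fun x y => Shrink.mulEquiv.{0}.symm.injective ?_⟩⟩,
    nonempty_mulEquiv_pi S hNS (fun T hT => ⟨hT.1, hT.2.1⟩) _ (fun T hT => hT.2.2)⟩
  rw [map_mul, map_mul, hc.is_comm.comm]

end Cfsg.Agent.S3680
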