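import Cfsg.Statements.S3681
import Cfsg.Agent.Perm2.Basic

set_option autoImplicit false
open Cfsg

namespace Cfsg.Agent.S3681

open Cfsg.Agent.Perm2 MulAction Subgroup

theorem app_inv {Ω : Type*} (x : Equiv.Perm Ω) (z : Ω) : x (x⁻¹ z) = z := x.apply_symm_apply z

theorem inv_app {Ω : Type*} (x : Equiv.Perm Ω) (z : Ω) : x⁻¹ (x z) = z := x.symm_apply_apply z

theorem isThreeCycle_commutator {Ω : Type*} [Fintype Ω] [DecidableEq Ω] (x y : Equiv.Perm Ω) (α : Ω)
    (hx : x α ≠ α) (hy : y α ≠ α) (h : ∀ z, z ≠ α → x z = z ∨ y z = z) :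
    (x * y * x⁻¹ * y⁻¹).IsThreeCycle := by
  have hxi : ∀ z, x z = z → x⁻¹ z = z := fun z hz => by
    rw [Equiv.Perm.inv_eq_iff_eq, hz]
  have hyi : ∀ z, y z = z → y⁻¹ z = z := fun z hz => by
    rw [Equiv.Perm.inv_eq_iff_eq, hz]
  have hyβ : y (x α) = x α := (h _ hx).resolve_left (fun h' => hx (x.injective h'))
  have hxγ : x (y α) = y α := (h _ hy).resolve_right (fun h' => hy (y.injective h'))
  have hβγ : x α ≠ y α := fun h' => hy (x.injective (by rw [hxγ, h']))
  have hxα : x⁻¹ α ≠ α := fun h' => hx (by rw [Equiv.Perm.inv_eq_iff_eq] at h'; exact h'.symm)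
  have hyα : y⁻¹ α ≠ α := fun h' => hy (by rw [Equiv.Perm.inv_eq_iff_eq] at h'; exact h'.symm)
  have h1 : y (x⁻¹ α) = x⁻¹ α := (h _ hxα).resolve_left (fun h' => hxα (by
    rw [app_inv] at h'; exact h'.symm))
  have h2 : x (y⁻¹ α) = y⁻¹ α := (h _ hyα).resolve_right (fun h' => hyα (by
    rw [app_inv] at h'; exact h'.symm))
  have cγ : (x * y * x⁻¹ * y⁻¹) (y α) = α := by
    simp only [Equiv.Perm.mul_apply, inv_app, h1, app_inv]
  have cα : (x * y * x⁻¹ * y⁻¹) α = x α := by
    simp only [Equiv.Perm.mul_apply, hxi _ h2, app_inv]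
  have cβ : (x * y * x⁻¹ * y⁻¹) (x α) = y α := by
    simp only [Equiv.Perm.mul_apply, hyi _ hyβ, inv_app, hxγ]
  rw [← card_support_eq_three_iff]
  have hsupp : (x * y * x⁻¹ * y⁻¹).support = {α, x α, y α} := by
    ext z
    simp only [Equiv.Perm.mem_support, Finset.mem_insert, Finset.mem_singleton]
    constructor
    · intro hz
      by_contra hcon
      push Not at hcon
      obtain ⟨hz1, hz2, hz3⟩ := hcon
      apply hz
      simp only [Equiv.Perm.mul_apply]
      by_cases hyz : y z = z
      · rw [hyi z hyz]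
        have hu : x⁻¹ z ≠ α := fun h' => hz2 (by rw [← h', app_inv])
        rcases h _ hu with h3 | h3
        · rw [app_inv] at h3
          rw [← h3, hyz]
          nth_rewrite 1 [h3]
          rw [app_inv]
        · rw [h3, app_inv]
      · have hxz : x z = z := (h z hz1).resolve_right hyz
        have hw : y⁻¹ z ≠ α := fun h' => hz3 (by rw [← h', app_inv])
        have hw2 : x (y⁻¹ z) = y⁻¹ z := (h _ hw).resolve_right (fun h' => hyz (by
          rw [app_inv] at h'
          nth_rewrite 1 [h']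
          rw [app_inv]))
        rw [hxi _ hw2, app_inv, hxz]
    · rintro (rfl | rfl | rfl)
      · rw [cα]; exact hx
      · rw [cβ]; exact hβγ.symm
      · rw [cγ]; exact hy.symm
  rw [hsupp]
  exact Finset.card_eq_three.mpr ⟨α, x α, y α, hx.symm, hy.symm, hβγ, rfl⟩


/-- Bochert's bound for primitive groups. Let a finite group G act faithfully and primitively on a finite set Ω with n elements, and suppose the image of G in the symmetric group of Ω does not contain the alternating group of Ω. Then |G| · ⌊(n + 1)/2⌋! ≤ n!, that is, the index of G in the symmetric group is at least ⌊(n + 1)/2⌋!. -/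
theorem result {G Ω : Type*} [Group G] [Finite G] [MulAction G Ω] [FaithfulSMul G Ω] [Fintype Ω] [DecidableEq Ω]
    (hprim : MulAction.IsPreprimitive G Ω) (hA : ¬ alternatingGroup Ω ≤ (MulAction.toPermHom G Ω).range) :
    Nat.card G * Nat.factorial ((Fintype.card Ω + 1) / 2) ≤ Nat.factorial (Fintype.card Ω) := by
  classical
  let B : Finset Ω → Prop := fun Δ => ∀ g : G, (∀ z ∈ Δ, g • z = z) → g = 1
  have hex : ∃ k, ∃ Δ, B Δ ∧ Δ.card = k :=
    ⟨_, Finset.univ, fun g hg => eq_one_of_fix_all (Ω := Ω) fun z => hg z (Finset.mem_univ z), rfl⟩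
  obtain ⟨Δ, hΔ, hk⟩ := Nat.find_spec hex
  have hmin : ∀ Δ', Δ'.card < Δ.card → ¬ B Δ' := fun Δ' h hB =>
    Nat.find_min hex (hk ▸ h) ⟨Δ', hB, rfl⟩
  have hle : Δ.card ≤ Fintype.card Ω := Finset.card_le_univ Δ
  have h2 : 2 * Δ.card ≤ Fintype.card Ω := by
    by_contra hcon
    have h1 : ¬ B Δᶜ := hmin _ (by rw [Finset.card_compl]; omega)
    simp only [B, not_forall] at h1
    obtain ⟨x, hx, hx1⟩ := h1
    have : ∃ α : Ω, x • α ≠ α := by
      by_contra h
      push Not at h
      exact hx1 (eq_one_of_fix_all h)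
    obtain ⟨α, hα⟩ := this
    have hαΔ : α ∈ Δ := by
      by_contra h
      exact hα (hx α (Finset.mem_compl.mpr h))
    have h3 : ¬ B (Δ.erase α) := hmin _ (Finset.card_erase_lt_of_mem hαΔ)
    simp only [B, not_forall] at h3
    obtain ⟨y, hy, hy1⟩ := h3
    have hyα : y • α ≠ α := by
      intro h
      apply hy1
      apply hΔ
      intro z hz
      by_cases hzα : z = α
      · rw [hzα, h]
      · exact hy z (Finset.mem_erase.mpr ⟨hzα, hz⟩)
    have h4 := isThreeCycle_commutator (toPermHom G Ω x) (toPermHom G Ω y) α hα hyα (fun z hz => by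
      by_cases hzΔ : z ∈ Δ
      · exact Or.inr (hy z (Finset.mem_erase.mpr ⟨hz, hzΔ⟩))
      · exact Or.inl (hx z (Finset.mem_compl.mpr hzΔ)))
    apply hA
    have hpr : IsPreprimitive (toPermHom G Ω).range Ω := by
      let f : Ω →ₑ[(toPermHom G Ω).rangeRestrict] Ω :=
        { toFun := id
          map_smul' := fun _ _ => rfl }
      exact IsPreprimitive.of_surjective (f := f) Function.surjective_id
    refine Equiv.Perm.alternatingGroup_le_of_isPreprimitive_of_isThreeCycle_mem hpr h4 ?_
    exact ⟨x * y * x⁻¹ * y⁻¹, by simp only [map_mul, map_inv]⟩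
  have h3 : Nat.card G ≤ (Fintype.card Ω).descFactorial Δ.card := by
    let f : G → (Δ ↪ Ω) := fun g => ⟨fun z => g • (z : Ω), fun z w h =>
      Subtype.ext (smul_left_cancel g h)⟩
    have hf : Function.Injective f := by
      intro g h hgh
      have : h⁻¹ * g = 1 := hΔ _ fun z hz => by
        have h5 : g • z = h • z := DFunLike.congr_fun hgh ⟨z, hz⟩
        rw [mul_smul, h5, inv_smul_smul]
      exact (inv_mul_eq_one.mp this).symm
    have := Nat.card_le_card_of_injective f hf
    rwa [Nat.card_eq_fintype_card (α := Δ ↪ Ω), Fintype.card_embedding_eq, Fintype.card_coe] at this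
  calc Nat.card G * Nat.factorial ((Fintype.card Ω + 1) / 2)
      ≤ (Fintype.card Ω).descFactorial Δ.card * Nat.factorial (Fintype.card Ω - Δ.card) :=
        Nat.mul_le_mul h3 (Nat.factorial_le (by omega))
    _ = Nat.factorial (Fintype.card Ω) := by
        rw [mul_comm, Nat.factorial_mul_descFactorial hle]

end Cfsg.Agent.S3681
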