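import Cfsg.Statements.S3682
import Cfsg.Agent.Perm2.TWPerm

set_option autoImplicit false
open Cfsg

namespace Cfsg.Agent.S3682

open Cfsg.Agent.Perm2 MulAction Subgroup


/-- Wielandt's bound toward the Sims conjecture. Let a finite group G act faithfully and primitively on a set Ω, let a and b be points, and suppose the orbit of b under the stabilizer of a has length d ≥ 2. Then there are a prime p and a normal p-subgroup P of the stabilizer of a, all of whose elements fix b, such that the index of P in the stabilizer of a divides d! · ((d - 1)!)^d. -/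
theorem result {G Ω : Type*} [Group G] [Finite G] [MulAction G Ω] [FaithfulSMul G Ω] [Finite Ω]
    (hprim : MulAction.IsPreprimitive G Ω) (a b : Ω) (d : ℕ) (hd : Nat.card (MulAction.orbit (MulAction.stabilizer G a) b) = d) (h2 : 2 ≤ d) :
    ∃ p : ℕ, p.Prime ∧ ∃ P : Subgroup (MulAction.stabilizer G a), P.Normal ∧ IsPGroup p P ∧ (∀ g : P, ((g : MulAction.stabilizer G a) : G) • b = b) ∧
      P.index ∣ Nat.factorial d * (Nat.factorial (d - 1)) ^ d := by
  subst hd
  obtain ⟨p, hp, h⟩ := thompson_wielandt hprim (stab_ne_of_two_le_card h2)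
  have : Fact p.Prime := ⟨hp⟩
  have hn : NormalIn (Op p (Ker G a b)) (stabilizer G a) := (Ker_normalIn a b).Op_normalIn p
  refine ⟨p, hp, (Op p (Ker G a b)).subgroupOf (stabilizer G a), hn.normal_subgroupOf,
    (Op_isPGroup p _).comap_subtype, fun g => Ker_le_right a b (Op_le p _ g.2), ?_⟩
  rcases h with h | h
  · refine (relIndex_dvd_of_le_left _ (le_Op ?_ h)).trans (relIndex_Ker2_dvd a b)
    exact (Ker2_normalIn a b).of_le (Ker2_le a b) (Ker_le_left a b)
  · have h1 : Ker2 G b a ≤ Op p (Ker G a b) :=
      le_Op ((Ker2_normalIn b a).of_le (Ker2_le_swap b a) (Ker_le_right a b)) h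
    refine (relIndex_dvd_of_le_left _ h1).trans ?_
    have h3 := card_mul_relIndex_of_le ((Ker2_le_swap (G := G) b a).trans (Ker_le_left a b))
    have h4 := card_mul_relIndex_of_le (Ker2_normalIn (G := G) b a).1
    rw [← card_stabilizer_eq a b, ← h3] at h4
    rw [← Nat.eq_of_mul_eq_mul_left Nat.card_pos h4, card_suborbit_symm a b]
    exact relIndex_Ker2_dvd b a

end Cfsg.Agent.S3682
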