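import Cfsg.Statements.S3683
import Cfsg.Agent.Perm2.Basic

set_option autoImplicit false
open Cfsg

namespace Cfsg.Agent.S3683

open Cfsg.Agent.Perm2 MulAction Subgroup


/-- Let a finite group G act faithfully and primitively on a set Ω, and suppose the stabilizer of a point a fixes a second point b ≠ a (a suborbit of length 1 other than {a}). Then the stabilizer of a is trivial and G is cyclic of prime order. -/
theorem result {G Ω : Type*} [Group G] [Finite G] [MulAction G Ω] [FaithfulSMul G Ω] [Finite Ω]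
    (hprim : MulAction.IsPreprimitive G Ω) (a b : Ω) (hab : a ≠ b) (hfix : ∀ g : G, g • a = a → g • b = b) :
    MulAction.stabilizer G a = ⊥ ∧ IsCyclic G ∧ (Nat.card G).Prime := by
  have : Nontrivial Ω := ⟨⟨a, b, hab⟩⟩
  have h1 : stabilizer G a = ⊥ := by
    by_contra hne
    obtain ⟨g, hg, hgb⟩ := exists_stab_smul_ne hprim hab hne
    exact hgb (hfix g hg)
  have hco := isCoatom_stab hprim a
  rw [h1] at hco
  have hnt : Nontrivial G := by
    obtain ⟨g, hg⟩ := exists_smul_eq G a b
    refine ⟨⟨g, 1, ?_⟩⟩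
    rintro rfl
    exact hab (by simpa using hg)
  have hlt : 1 < Nat.card G := Finite.one_lt_card
  have hp : (Nat.card G).minFac.Prime := Nat.minFac_prime hlt.ne'
  have : Fact (Nat.card G).minFac.Prime := ⟨hp⟩
  obtain ⟨g, hg⟩ := exists_prime_orderOf_dvd_card' (G := G) (Nat.card G).minFac (Nat.minFac_dvd _)
  have hg1 : g ≠ 1 := by
    rintro rfl
    rw [orderOf_one] at hg
    exact hp.one_lt.ne hg
  have htop : zpowers g = ⊤ := hco.2 _ (bot_lt_iff_ne_bot.mpr (zpowers_ne_bot.mpr hg1))
  have hcard : Nat.card G = (Nat.card G).minFac := by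
    rw [← hg, ← Nat.card_zpowers, htop, card_top]
  refine ⟨h1, isCyclic_of_prime_card hcard, ?_⟩
  rw [hcard]
  exact hp

end Cfsg.Agent.S3683
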