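import Cfsg.Statements.S3684
import Cfsg.Agent.Perm2.Basic
import Cfsg.Agent.Perm2.Dihedral

set_option autoImplicit false
open Cfsg

namespace Cfsg.Agent.S3684

open Cfsg.Agent.Perm2 MulAction Subgroup

theorem le_normalizer_of_relIndex_two {G : Type*} [Group G] {D H : Subgroup G} (hle : D ≤ H)
    (h : D.relIndex H = 2) : H ≤ normalizer (D : Set G) := by
  have : (D.subgroupOf H).Normal := Subgroup.normal_of_index_eq_two h
  exact le_normalizer_of_normal_subgroupOf hle

theorem exists_eq_zpowers_of_card_two {G : Type*} [Group G] {H : Subgroup G} (h : Nat.card H = 2) :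
    ∃ s : G, s ≠ 1 ∧ s * s = 1 ∧ H = zpowers s ∧ ∀ x ∈ H, x = 1 ∨ x = s := by
  have : Finite H := Nat.finite_of_card_ne_zero (by omega)
  obtain ⟨x, y, hxy, huniv⟩ := Nat.card_eq_two_iff.mp h
  have hall : ∀ z : H, z = x ∨ z = y := by
    intro z
    have : z ∈ ({x, y} : Set H) := huniv ▸ Set.mem_univ z
    simpa using this
  have key : ∃ s : H, s ≠ 1 ∧ ∀ z : H, z = 1 ∨ z = s := by
    rcases hall 1 with h1 | h1
    · exact ⟨y, fun hy => hxy (h1 ▸ hy.symm), fun z => h1 ▸ hall z⟩
    · exact ⟨x, fun hx => hxy (h1 ▸ hx), fun z => h1 ▸ (hall z).symm⟩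
  obtain ⟨s, hs1, hs⟩ := key
  have hss : s * s = 1 := by
    rcases hs (s * s) with h2 | h2
    · exact h2
    · exact absurd (mul_eq_left.mp h2) hs1
  have hx : ∀ x ∈ H, x = 1 ∨ x = (s : G) := by
    intro x hx
    rcases hs ⟨x, hx⟩ with h2 | h2
    · left; exact congrArg Subtype.val h2
    · right; exact congrArg Subtype.val h2
  refine ⟨s, fun h2 => hs1 (Subtype.ext h2), congrArg Subtype.val hss, ?_, hx⟩
  apply le_antisymm
  · intro x hx'
    rcases hx x hx' with rfl | rfl
    · exact one_mem _
    · exact mem_zpowers _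
  · exact zpowers_le.mpr s.2


/-- Let a finite group G act faithfully and primitively on a set Ω, and suppose the stabilizer of a point a has an orbit of length 2. Then the stabilizer of a has order 2 and G is isomorphic to the dihedral group of order 2p for some prime p. -/
theorem result {G Ω : Type*} [Group G] [Finite G] [MulAction G Ω] [FaithfulSMul G Ω] [Finite Ω]
    (hprim : MulAction.IsPreprimitive G Ω) (a b : Ω) (h2 : Nat.card (MulAction.orbit (MulAction.stabilizer G a) b) = 2) :
    Nat.card (MulAction.stabilizer G a) = 2 ∧ ∃ p : ℕ, p.Prime ∧ Nonempty (G ≃* DihedralGroup p) := by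
  have hab : a ≠ b := by
    rintro rfl
    rw [card_suborbit, relIndex_self] at h2
    omega
  have h2' : Nat.card (orbit (stabilizer G b) a) = 2 := by rw [← card_suborbit_symm, h2]
  have hD : (stabilizer G a ⊓ stabilizer G b : Subgroup G) = ⊥ := by
    apply eq_bot_of_normalized_two hprim hab inf_le_left
    · apply le_normalizer_of_relIndex_two inf_le_left
      rw [inf_relIndex_left, ← card_suborbit, h2]
    · apply le_normalizer_of_relIndex_two inf_le_right
      rw [inf_relIndex_right, ← card_suborbit, h2']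
  have hca : Nat.card (stabilizer G a) = 2 := by
    rw [← card_inf_mul_card_suborbit a b, hD, h2, card_bot]
  have hcb : Nat.card (stabilizer G b) = 2 := by rw [← card_stabilizer_eq a b, hca]
  refine ⟨hca, ?_⟩
  obtain ⟨s, hs1, hss, hsa, hsa'⟩ := exists_eq_zpowers_of_card_two hca
  obtain ⟨t, ht1, htt, htb, -⟩ := exists_eq_zpowers_of_card_two hcb
  have hsm : s ∈ stabilizer G a := hsa ▸ mem_zpowers s
  have htm : t ∈ stabilizer G b := htb ▸ mem_zpowers t
  have hta : t • a ≠ a := by
    intro h
    have : t ∈ (stabilizer G a ⊓ stabilizer G b : Subgroup G) := ⟨h, htm⟩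
    rw [hD, mem_bot] at this
    exact ht1 this
  have hsinv : s⁻¹ = s := inv_eq_of_mul_eq_one_right hss
  have htinv : t⁻¹ = t := inv_eq_of_mul_eq_one_right htt
  set r := s * t with hr
  have hsr : s * r * s = r⁻¹ := by
    rw [hr, mul_inv_rev, hsinv, htinv, ← mul_assoc, hss, one_mul]
  have hts : t = s * r := by rw [hr, ← mul_assoc, hss, one_mul]
  have hgen : closure ({r, s} : Set G) = ⊤ := by
    apply eq_top_of_stab_le hprim (a := a) (g := t) _ _ hta
    · rw [hsa, zpowers_le]
      exact subset_closure (by simp)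
    · rw [hts]
      exact mul_mem (subset_closure (by simp)) (subset_closure (by simp))
  have hnot : s ∉ zpowers r := by
    intro hmem
    have hnormal : (stabilizer G a).Normal := by
      have hcomm : ∀ g : G, g * s = s * g := by
        intro g
        have hg : g ∈ zpowers r := by
          have : closure ({r, s} : Set G) ≤ zpowers r := by
            rw [closure_le]
            rintro x (rfl | rfl)
            · exact mem_zpowers _
            · exact hmem
          exact this (hgen ▸ mem_top g)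
        obtain ⟨i, hi⟩ := mem_zpowers_iff.mp hg
        obtain ⟨j, hj⟩ := mem_zpowers_iff.mp hmem
        rw [← hi, ← hj]
        exact (zpow_mul_comm _ _ _)
      constructor
      intro x hx g
      rcases hsa' x hx with rfl | rfl
      · simp
      · rw [hcomm, mul_inv_cancel_right]
        exact hx
    have := eq_bot_of_normal_of_le_stabilizer hnormal (le_refl (stabilizer G a))
    rw [this, mem_bot] at hsm
    exact hs1 hsm
  have hn : 0 < orderOf r := orderOf_pos r
  refine ⟨orderOf r, ?_, nonempty_mulEquiv_dihedral _ hn r s rfl hss hsr hnot hgen⟩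
  have hr1 : r ≠ 1 := by
    intro h
    rw [h, mul_one] at hts
    exact hta (hts ▸ hsm)
  have hn1 : orderOf r ≠ 1 := fun h => hr1 (orderOf_eq_one_iff.mp h)
  have hp := Nat.minFac_prime hn1
  set p := (orderOf r).minFac with hpdef
  by_contra hnp
  -- the element `u = r ^ p` is not trivial and `⟨u, s⟩` is a proper overgroup of `⟨s⟩`
  have hlt : p < orderOf r := by
    refine lt_of_le_of_ne (Nat.minFac_le hn) (fun h => hnp (h ▸ hp))
  have hu1 : r ^ p ≠ 1 := pow_ne_one_of_lt_orderOf hp.ne_zero hlt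
  have hua : (r ^ p) • a ≠ a := by
    intro h
    rcases hsa' _ h with h3 | h3
    · exact hu1 h3
    · exact hnot (h3 ▸ pow_mem (mem_zpowers r) p)
  have hconj : ∀ k : ℤ, s * r ^ k * s = r ^ (-k) := by
    intro k
    have : s * r ^ k * s⁻¹ = (s * r * s⁻¹) ^ k := (conj_zpow).symm
    rw [hsinv, hsr] at this
    rw [this, inv_zpow']
  let Y : Subgroup G :=
    { carrier := {x | ∃ k : ℤ, x = r ^ (p * k : ℤ) ∨ x = s * r ^ (p * k : ℤ)}
      one_mem' := ⟨0, Or.inl (by simp)⟩
      mul_mem' := by
        have hc : ∀ k : ℤ, r ^ k * s = s * r ^ (-k) := by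
          intro k
          rw [← hconj, ← mul_assoc, ← mul_assoc, hss, one_mul]
        rintro x y ⟨i, rfl | rfl⟩ ⟨j, rfl | rfl⟩
        · exact ⟨i + j, Or.inl (by rw [mul_add, zpow_add])⟩
        · exact ⟨-i + j, Or.inr (by rw [← mul_assoc, hc, mul_assoc, ← zpow_add, mul_add, mul_neg])⟩
        · exact ⟨i + j, Or.inr (by rw [mul_assoc, ← zpow_add, mul_add])⟩
        · refine ⟨-i + j, Or.inl ?_⟩
          rw [← mul_assoc, hconj, ← zpow_add, mul_add, mul_neg]
      inv_mem' := by
        rintro x ⟨i, rfl | rfl⟩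
        · exact ⟨-i, Or.inl (by rw [mul_neg, zpow_neg])⟩
        · refine ⟨i, Or.inr ?_⟩
          rw [mul_inv_rev, hsinv, ← zpow_neg, ← hconj, mul_assoc, hss, mul_one] }
  have hY : Y = ⊤ := by
    apply eq_top_of_stab_le hprim (a := a) (g := r ^ p) _ _ hua
    · rw [hsa, zpowers_le]
      exact ⟨0, Or.inr (by simp)⟩
    · exact ⟨1, Or.inl (by simp)⟩
  have hrY : r ∈ Y := hY ▸ mem_top r
  obtain ⟨k, hk | hk⟩ := hrY
  · have h3 : r ^ (p * k - 1 : ℤ) = 1 := by rw [zpow_sub, ← hk, zpow_one, mul_inv_cancel]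
    have h4 : ((orderOf r : ℕ) : ℤ) ∣ p * k - 1 := orderOf_dvd_iff_zpow_eq_one.mpr h3
    have h5 : (p : ℤ) ∣ p * k - 1 := (Int.natCast_dvd_natCast.mpr (Nat.minFac_dvd _)).trans h4
    have h6 : (p : ℤ) ∣ 1 := by
      have := dvd_sub (dvd_mul_right (p : ℤ) k) h5
      simpa using this
    have h7 : p ∣ 1 := by exact_mod_cast h6
    exact hp.one_lt.ne' (Nat.dvd_one.mp h7)
  · apply hnot
    have : s = r * (r ^ (p * k : ℤ))⁻¹ := by rw [eq_mul_inv_iff_mul_eq, ← hk]
    rw [this]
    exact mul_mem (mem_zpowers r) (inv_mem (zpow_mem (mem_zpowers r) _))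

end Cfsg.Agent.S3684
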