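import Cfsg.Statements.S3688
import Cfsg.Agent.Perm2.TWPerm

set_option autoImplicit false
open Cfsg

namespace Cfsg.Agent.S3688

open Cfsg.Agent.Perm2 MulAction Subgroup


/-- Let a finite group G act faithfully and primitively on a set Ω, let a and b be points such that the orbit of b under the stabilizer H of a has length d ≥ 2, and suppose that H is not strongly constrained: for no prime p does the generalized Fitting subgroup of H coincide with the largest normal p-subgroup of H. Then the order of H divides d! · ((d - 1)!)^d. -/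
theorem result {G Ω : Type*} [Group G] [Finite G] [MulAction G Ω] [FaithfulSMul G Ω] [Finite Ω]
    (hprim : MulAction.IsPreprimitive G Ω) (a b : Ω) (d : ℕ) (hd : Nat.card (MulAction.orbit (MulAction.stabilizer G a) b) = d) (h2 : 2 ≤ d)
    (hnc : ∀ p : ℕ, p.Prime → Cfsg.generalizedFittingSubgroup (MulAction.stabilizer G a) ≠ Cfsg.pCore p (MulAction.stabilizer G a)) :
    Nat.card (MulAction.stabilizer G a) ∣ Nat.factorial d * (Nat.factorial (d - 1)) ^ d := by
  subst hd
  apply card_stab_dvd_of_Ker2_eq_bot
  by_contra hcon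
  push Not at hcon
  have d := twData hprim (stab_ne_of_two_le_card h2)
  obtain ⟨p, hp, h⟩ := d.exists_prime_Op_eq_bot (Ker2_normalIn a b) (Ker2_le_swap a b) hcon.1
    (Ker2_normalIn b a) (Ker2_le_swap b a) hcon.2
  have : Fact p.Prime := ⟨hp⟩
  apply hnc p hp
  have h1 : layer (stabilizer G a) = ⊥ := by
    rw [layer, sSup_eq_bot]
    rintro K ⟨hK1, hK2⟩
    exact absurd (QS_map_subtype hK2) (d.not_QS (Ker2_normalIn a b) (Ker2_le_swap a b) hcon.1
      (Ker2_normalIn b a) (Ker2_le_swap b a) hcon.2 (subnIn_map_subtype hK1))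
  rw [generalizedFittingSubgroup, h1, bot_sup_eq]
  apply le_antisymm
  · refine sSup_le ?_
    rintro X ⟨hX1, hX2⟩
    apply le_sSup
    refine ⟨hX1, ?_⟩
    have h3 := isPGroup_of_nilpotent (normalIn_map_subtype X)
      (Group.nilpotent_of_mulEquiv (X.equivMapOfInjective _ (stabilizer G a).subtype_injective)) p h
    exact h3.of_equiv (X.equivMapOfInjective _ (stabilizer G a).subtype_injective).symm
  · refine sSup_le ?_
    rintro X ⟨hX1, hX2⟩
    exact le_sSup ⟨hX1, hX2.isNilpotent⟩

end Cfsg.Agent.S3688
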