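import Cfsg.Statements.S3693
import Cfsg.Agent.Perm2.Knapp0

set_option autoImplicit false
open Cfsg

namespace Cfsg.Agent.S3693

open Cfsg.Agent.Perm2 MulAction Subgroup


/-- Let a finite group G act faithfully and primitively on a set Ω, let a and b be points such that the orbit Δ of b under the stabilizer H of a has length d ≥ 2, and consider the permutation group induced on Δ by the elements of H fixing b. If that induced group has trivial Fitting subgroup (no non-trivial nilpotent normal subgroup), then the two-point stabilizer of a and b has trivial Fitting subgroup and the order of H divides d! · ((d - 1)!)^d. -/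
theorem result {G Ω : Type*} [Group G] [Finite G] [MulAction G Ω] [FaithfulSMul G Ω] [Finite Ω]
    (hprim : MulAction.IsPreprimitive G Ω) (a b : Ω) (d : ℕ) (hd : Nat.card (MulAction.orbit (MulAction.stabilizer G a) b) = d) (h2 : 2 ≤ d)
    (hF : Cfsg.fittingSubgroup ↥(((MulAction.stabilizer G b).subgroupOf (MulAction.stabilizer G a)).map (MulAction.toPermHom (MulAction.stabilizer G a) (MulAction.orbit (MulAction.stabilizer G a) b))) = ⊥) :
    Cfsg.fittingSubgroup ↥(MulAction.stabilizer G a ⊓ MulAction.stabilizer G b) = ⊥ ∧
      Nat.card (MulAction.stabilizer G a) ∣ Nat.factorial d * (Nat.factorial (d - 1)) ^ d := by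
  subst hd
  have hne := stab_ne_of_two_le_card h2
  have hab : a ≠ b := fun h => hne (by rw [h])
  have key : ∀ p : ℕ, p.Prime → Op p (stabilizer G a ⊓ stabilizer G b) = ⊥ := by
    intro p hp
    have : Fact p.Prime := ⟨hp⟩
    have : Finite (orbit (stabilizer G a) b) := (Set.finite_range _).to_subtype
    apply Op_inf_eq_bot hprim hab
    set φ := toPermHom (stabilizer G a) (orbit (stabilizer G a) b) with hφ
    set D := (stabilizer G b).subgroupOf (stabilizer G a) with hD
    set R := Op p (stabilizer G a ⊓ stabilizer G b) with hR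
    have hRn : NormalIn R (stabilizer G a ⊓ stabilizer G b) := Op_normalIn p _
    have h1 : NormalIn (R.subgroupOf (stabilizer G a)) D := by
      refine ⟨fun x hx => (hRn.1 hx).2, ?_⟩
      rw [le_normalizer_iff]
      intro g hg x hx
      exact hRn.conj_mem (g := g) ⟨g.2, hg⟩ hx
    have h3 := h1.map φ
    have h4 : IsPGroup p (((R.subgroupOf (stabilizer G a)).map φ).subgroupOf (D.map φ)) :=
      (((Op_isPGroup p _).comap_subtype).map φ).comap_subtype
    have h5 : ((R.subgroupOf (stabilizer G a)).map φ).subgroupOf (D.map φ) ≤ fittingSubgroup (D.map φ) :=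
      le_sSup ⟨h3.normal_subgroupOf, h4.isNilpotent⟩
    rw [hF, le_bot_iff, subgroupOf_eq_bot, disjoint_iff, inf_eq_left.mpr h3.1,
      Subgroup.map_eq_bot_iff, hφ, ← Ker_subgroupOf] at h5
    intro x hx
    exact h5 (x := ⟨x, (hRn.1 hx).1⟩) hx
  exact ⟨fittingSubgroup_eq_bot_of_Op key,
    card_stab_dvd_of_Ker2_eq_bot (Ker2_eq_bot_of_Op_eq_bot hprim hne key)⟩

end Cfsg.Agent.S3693
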