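import Cfsg.Statements.S3696

set_option autoImplicit false
open Cfsg

namespace Cfsg.Agent.S3696

open MulAction

theorem amgm (a b r s : ℕ) (hr : 1 ≤ r) :
    a ^ r * b ^ s * (r + s) ^ (r + s) ≤ (a + b) ^ (r + s) * (r ^ r * s ^ s) := by
  rcases Nat.eq_zero_or_pos s with rfl | hs
  · simp only [pow_zero, mul_one, add_zero]
    exact Nat.mul_le_mul_right _ (Nat.pow_le_pow_left (Nat.le_add_right a b) r)
  have hr' : (0 : ℝ) < r := by exact_mod_cast hr
  have hs' : (0 : ℝ) < s := by exact_mod_cast hs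
  have hk : (0 : ℝ) < (r : ℝ) + s := by positivity
  have h := Real.geom_mean_le_arith_mean2_weighted (w₁ := r / (r + s)) (w₂ := s / (r + s))
    (p₁ := a / r) (p₂ := b / s) (by positivity) (by positivity) (by positivity) (by positivity)
    (by field_simp)
  have h2 : ((a : ℝ) / r) ^ r * ((b : ℝ) / s) ^ s ≤ (((a : ℝ) + b) / (r + s)) ^ (r + s) := by
    have e1 : (r : ℝ) / (r + s) * (a / r) + s / (r + s) * (b / s) = ((a : ℝ) + b) / (r + s) := by
      field_simp
    rw [e1] at h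
    have h3 := pow_le_pow_left₀ (by positivity) h (r + s)
    rw [mul_pow, ← Real.rpow_natCast, ← Real.rpow_natCast (_ ^ ((s : ℝ) / (r + s))),
      ← Real.rpow_mul (by positivity), ← Real.rpow_mul (by positivity)] at h3
    have e2 : (r : ℝ) / (r + s) * ((r + s : ℕ) : ℝ) = r := by push_cast; field_simp
    have e3 : (s : ℝ) / (r + s) * ((r + s : ℕ) : ℝ) = s := by push_cast; field_simp
    rw [e2, e3, Real.rpow_natCast, Real.rpow_natCast] at h3
    exact h3
  rw [div_pow, div_pow, div_pow, div_mul_div_comm, div_le_div_iff₀ (by positivity) (by positivity)] at h2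
  exact_mod_cast h2

theorem card_orbit_sub {Γ X : Type*} [Group Γ] [MulAction Γ X] (L : Subgroup Γ) (x : X) :
    Nat.card (orbit L x) * Nat.card ↥(L ⊓ stabilizer Γ x) = Nat.card L := by
  have h1 : Nat.card (orbit L x) = (stabilizer Γ x).relIndex L := by
    rw [Nat.card_coe_set_eq, ← index_stabilizer]
    rfl
  rw [h1, ← Subgroup.inf_relIndex_left, Subgroup.relIndex,
    ← Nat.card_congr (Subgroup.subgroupOfEquivOfLe (inf_le_left : L ⊓ stabilizer Γ x ≤ L)).toEquiv,
    Subgroup.index_mul_card]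

theorem main {A Ω : Type*} [CommGroup A] [Finite A] [MulAction A Ω] (p : ℕ) (hp : p.Prime)
    (hA : IsPGroup p A) (n : ℕ) : ∀ (S : Finset Ω), S.card = n → ∀ B : Subgroup A,
      (∀ b ∈ B, ∀ x ∈ S, b • x ∈ S) → (∀ b ∈ B, (∀ x ∈ S, b • x = x) → b = 1) →
      ∀ k : ℕ, Nat.card ↥(B ⊓ (powMonoidHom p : A →* A).ker) = p ^ k → Nat.card B * k ^ k ≤ n ^ k := by
  classical
  have := Fact.mk hp
  induction n using Nat.strong_induction_on with
  | _ n ih =>
  intro S hS B hinv hfaith k hk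
  set E := (powMonoidHom p : A →* A).ker with hE
  by_cases hBE : B ⊓ E = ⊥
  · rw [hBE, Subgroup.card_bot, eq_comm, Nat.pow_eq_one] at hk
    have hk0 : k = 0 := hk.resolve_left hp.one_lt.ne'
    subst hk0
    have hB : Nat.card B = 1 := by
      by_contra hne
      obtain ⟨j, hj⟩ := (hA.to_subgroup B).exists_card_eq
      have hpd : p ∣ Nat.card B := by
        rw [hj]; apply dvd_pow_self
        rintro rfl; exact hne (by simpa using hj)
      obtain ⟨c, hc⟩ := exists_prime_orderOf_dvd_card' p hpd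
      have hcG : orderOf (c : A) = p := by rw [Subgroup.orderOf_coe, hc]
      have : (c : A) ∈ B ⊓ E := ⟨c.2, by
        rw [hE]; change (c : A) ^ p = 1; rw [← hcG, pow_orderOf_eq_one]⟩
      rw [hBE, Subgroup.mem_bot] at this
      rw [this, orderOf_one] at hcG
      exact hp.one_lt.ne hcG
    simp [hB]
  obtain ⟨x, hx, hx1⟩ : ∃ x ∈ B ⊓ E, x ≠ 1 := by
    by_contra hcon
    push Not at hcon
    exact hBE ((Subgroup.eq_bot_iff_forall _).mpr hcon)
  obtain ⟨ω, hωS, hω⟩ : ∃ ω ∈ S, x • ω ≠ ω := by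
    by_contra hcon
    push Not at hcon
    exact hx1 (hfaith x hx.1 hcon)
  set O := S.filter (fun y => y ∈ orbit B ω) with hO
  have hOcard : O.card = Nat.card (orbit B ω) := by
    rw [Nat.card_coe_set_eq, ← Set.ncard_coe_finset]
    congr 1
    ext y
    simp only [hO, Finset.coe_filter, Set.mem_ofPred_eq, and_iff_right_iff_imp]
    rintro ⟨b, rfl⟩
    exact hinv b b.2 ω hωS
  set m := O.card with hm
  have hOS : O ⊆ S := Finset.filter_subset _ _
  have hmn : m ≤ n := hS ▸ Finset.card_le_card hOS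
  have hm0 : 0 < m := Finset.card_pos.mpr ⟨ω, by simp [hO, hωS]⟩
  set B' := B ⊓ stabilizer A ω with hB'
  obtain ⟨k', hk'⟩ := (hA.to_subgroup (B' ⊓ E)).exists_card_eq
  have hIH := ih (n - m) (by omega) (S \ O) (by rw [Finset.card_sdiff_of_subset hOS, hS]) B' (by
      intro b hb y hy
      rw [Finset.mem_sdiff] at hy ⊢
      refine ⟨hinv b hb.1 y hy.1, fun hc => hy.2 ?_⟩
      simp only [hO, Finset.mem_filter] at hc ⊢
      refine ⟨hy.1, ?_⟩
      obtain ⟨c, hc⟩ := hc.2
      refine ⟨(⟨b, hb.1⟩ : B)⁻¹ * c, ?_⟩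
      have hc' : (c : A) • ω = b • y := hc
      change (b⁻¹ * (c : A)) • ω = y
      rw [mul_smul, hc', inv_smul_smul]) (by
      intro b hb hfix
      apply hfaith b hb.1
      intro y hy
      by_cases hyO : y ∈ O
      · simp only [hO, Finset.mem_filter] at hyO
        obtain ⟨c, rfl⟩ := hyO.2
        change b • (c : A) • ω = (c : A) • ω
        rw [← mul_smul, mul_comm, mul_smul, show b • ω = ω from hb.2]
      · exact hfix y (Finset.mem_sdiff.mpr ⟨hy, hyO⟩)) k' hk'
  have h1 := card_orbit_sub B ω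
  rw [← hOcard, ← hB'] at h1
  have h2 := card_orbit_sub (B ⊓ E) ω
  have e1 : B ⊓ E ⊓ stabilizer A ω = B' ⊓ E := by rw [hB', inf_right_comm]
  rw [e1, hk, hk'] at h2
  have h3 : Nat.card (orbit ↥(B ⊓ E) ω) ≤ m := by
    rw [hOcard]
    have : Finite (orbit B ω) := (Set.finite_range _).to_subtype
    apply Nat.card_mono (Set.toFinite _)
    rintro _ ⟨c, rfl⟩
    exact ⟨⟨c, c.2.1⟩, rfl⟩
  have h4 : 1 < Nat.card (orbit ↥(B ⊓ E) ω) := by
    have : Finite (orbit ↥(B ⊓ E) ω) := (Set.finite_range _).to_subtype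
    rw [Finite.one_lt_card_iff_nontrivial]
    exact ⟨⟨⟨x • ω, ⟨⟨x, hx⟩, rfl⟩⟩, ⟨ω, mem_orbit_self ω⟩, fun h => hω (congrArg Subtype.val h)⟩⟩
  have hkk : k' < k := by
    rw [← Nat.pow_lt_pow_iff_right hp.one_lt, ← h2]
    have : 0 < p ^ k' := pow_pos hp.pos _
    nlinarith
  obtain ⟨r, rfl⟩ : ∃ r, k = r + k' := ⟨k - k', by omega⟩
  have hr : 1 ≤ r := by omega
  rw [pow_add] at h2
  have h5 := Nat.eq_of_mul_eq_mul_right (pow_pos hp.pos _) h2
  rw [h5] at h3
  have h6 : m * r ^ r ≤ m ^ r := by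
    obtain ⟨t, rfl⟩ : ∃ t, r = t + 1 := ⟨r - 1, by omega⟩
    rw [pow_succ' m]
    apply Nat.mul_le_mul_left
    have h7 : t + 1 ≤ 2 ^ t := Nat.lt_two_pow_self
    calc (t + 1) ^ (t + 1) ≤ (2 ^ t) ^ (t + 1) := Nat.pow_le_pow_left h7 _
      _ = (2 ^ (t + 1)) ^ t := by rw [← pow_mul, ← pow_mul, mul_comm]
      _ ≤ m ^ t := Nat.pow_le_pow_left ((Nat.pow_le_pow_left hp.two_le _).trans h3) _
  have h8 := amgm m (n - m) r k' hr
  rw [Nat.add_sub_cancel' hmn] at h8
  have hpos : 0 < r ^ r * k' ^ k' := Nat.mul_pos (pow_pos hr _) (Nat.pow_self_pos)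
  apply Nat.le_of_mul_le_mul_right _ hpos
  calc Nat.card B * (r + k') ^ (r + k') * (r ^ r * k' ^ k')
      = (m * r ^ r) * (Nat.card B' * k' ^ k') * (r + k') ^ (r + k') := by rw [← h1]; ring
    _ ≤ m ^ r * (n - m) ^ k' * (r + k') ^ (r + k') :=
        Nat.mul_le_mul_right _ (Nat.mul_le_mul h6 hIH)
    _ ≤ _ := h8


/-- Let p be a prime, Ω a finite set with n ≥ p elements, and A an abelian p-subgroup of the symmetric group on Ω whose elements of order dividing p number p^k (so k is the rank of A). Then |A| · k^k ≤ n^k, that is, |A| ≤ (n/k)^k. -/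
theorem result {Ω : Type*} [Fintype Ω] [DecidableEq Ω]
    (p : ℕ) (hp : p.Prime) (hn : p ≤ Fintype.card Ω) (A : Subgroup (Equiv.Perm Ω)) (hA : IsPGroup p A) (hab : IsMulCommutative A)
    (k : ℕ) (hk : Nat.card {x : A // x ^ p = 1} = p ^ k) :
    Nat.card A * k ^ k ≤ Fintype.card Ω ^ k := by
  letI : CommGroup A := { (inferInstance : Group A) with mul_comm := hab.is_comm.comm }
  have := main (A := A) (Ω := Ω) p hp hA (Fintype.card Ω) Finset.univ Finset.card_univ ⊤ (by simp) (by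
    intro b _ hb
    apply Subtype.ext
    ext x
    exact hb x (Finset.mem_univ x)) k (by
    rw [top_inf_eq, ← hk]
    rfl)
  rwa [Subgroup.card_top] at this

end Cfsg.Agent.S3696
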