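import Cfsg.Statements.S3701
import Cfsg.Agent.Char.TwentySeven

set_option autoImplicit false
open Cfsg

namespace Cfsg.Agent.S3701

open Char Subgroup

def c1 : Equiv.Perm (Fin 9) := Equiv.swap (0 : Fin 9) 1 * Equiv.swap 1 2
def c2 : Equiv.Perm (Fin 9) := Equiv.swap (3 : Fin 9) 4 * Equiv.swap 4 5
def c3 : Equiv.Perm (Fin 9) := Equiv.swap (6 : Fin 9) 7 * Equiv.swap 7 8
def v1 : Equiv.Perm (Fin 9) := Equiv.swap (0 : Fin 9) 1 * Equiv.swap 3 4
def v2 : Equiv.Perm (Fin 9) := Equiv.swap (0 : Fin 9) 1 * Equiv.swap 6 7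
def gens : Set (Equiv.Perm (Fin 9)) := {c1, c2, c3, v1, v2}
def pe (v : V27) : Equiv.Perm (Fin 9) := c1 ^ v.1.val * c2 ^ v.2.1.val * c3 ^ v.2.2.val
def pv (i : Bool × Bool) : Equiv.Perm (Fin 9) := (if i.1 then v1 else 1) * (if i.2 then v2 else 1)
def pf (x : V27 × Bool × Bool) : Equiv.Perm (Fin 9) := pe x.1 * pv x.2
def sg (i : Bool × Bool) (v : V27) : V27 :=
  (if i.1 = i.2 then v.1 else -v.1, if i.1 then -v.2.1 else v.2.1, if i.2 then -v.2.2 else v.2.2)
def pinv (g : Equiv.Perm (Fin 9)) : V27 × Bool × Bool :=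
  ((((g 2).val + 1 : ℕ), ((g 5).val + 1 : ℕ), ((g 8).val + 1 : ℕ)),
    decide ((g 4).val % 3 ≠ ((g 3).val + 1) % 3), decide ((g 7).val % 3 ≠ ((g 6).val + 1) % 3))

theorem pe_add : ∀ u v, pe (u + v) = pe u * pe v := by decide +kernel
theorem pinv_pf : ∀ x, pinv (pf x) = x := by decide +kernel
theorem pv_conj : ∀ i v, pv i * pe v = pe (sg i v) * pv i := by decide +kernel
theorem cls_sg : ∀ i v, cls8 (sg i v) = cls8 v := by decide +kernel
theorem sg_of_cls : ∀ u v, cls8 u = cls8 v → ∃ i, sg i u = v := by decide +kernel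
theorem gens_mul : ∀ x, pf (pinv (c1 * pf x)) = c1 * pf x ∧ pf (pinv (c2 * pf x)) = c2 * pf x ∧
    pf (pinv (c3 * pf x)) = c3 * pf x ∧ pf (pinv (v1 * pf x)) = v1 * pf x ∧
    pf (pinv (v2 * pf x)) = v2 * pf x := by decide +kernel
theorem pf_six : ∀ x, pf x ^ 6 = 1 ∧ (pf x ^ 3 = 1 → x.2 = (false, false)) := by decide +kernel
theorem pf_pe (v : V27) : pf (v, false, false) = pe v := by simp [pf, pv]
theorem pf_pv (i : Bool × Bool) : pf (0, i) = pv i := by simp [pf, pe]

theorem pf_mem (x : V27 × Bool × Bool) : pf x ∈ closure gens := by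
  have h1 : c1 ∈ closure gens := subset_closure (by simp [gens])
  have h2 : c2 ∈ closure gens := subset_closure (by simp [gens])
  have h3 : c3 ∈ closure gens := subset_closure (by simp [gens])
  have h4 : v1 ∈ closure gens := subset_closure (by simp [gens])
  have h5 : v2 ∈ closure gens := subset_closure (by simp [gens])
  refine mul_mem (mul_mem (mul_mem (pow_mem h1 _) (pow_mem h2 _)) (pow_mem h3 _)) (mul_mem ?_ ?_)
  · split_ifs
    exacts [h4, one_mem _]
  · split_ifs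
    exacts [h5, one_mem _]

theorem mem_gens (g : Equiv.Perm (Fin 9)) : g ∈ closure gens ↔ ∃ x, pf x = g := by
  refine mem_closure_iff_of_param gens pf ⟨(0, false, false), by decide⟩ (fun g hg x => ?_) pf_mem g
  obtain ⟨h1, h2, h3, h4, h5⟩ := gens_mul x
  rcases hg with rfl | rfl | rfl | rfl | rfl
  exacts [⟨_, h1⟩, ⟨_, h2⟩, ⟨_, h3⟩, ⟨_, h4⟩, ⟨_, h5⟩]


/-- Let H₀ ≤ Sym(9) be generated by the 3-cycles (1 2 3), (4 5 6), (7 8 9) and the involutions (1 2)(4 5), (1 2)(7 8) (a group of order 108, elementary abelian of order 27 extended by a four-group). Let G be a finite group with a subgroup H ≅ H₀, and T ≤ H of order 27 (a Sylow 3-subgroup of H) with N_G(T) = H and C_G(t) ≤ H for every t ≠ 1 in T. Then G = H. -/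
theorem result {G : Type*} [Group G] [Finite G] (H : Subgroup G)
    (hH : Nonempty (↥H ≃* ↥(Subgroup.closure ({Equiv.swap (0 : Fin 9) 1 * Equiv.swap 1 2, Equiv.swap (3 : Fin 9) 4 * Equiv.swap 4 5, Equiv.swap (6 : Fin 9) 7 * Equiv.swap 7 8,
        Equiv.swap (0 : Fin 9) 1 * Equiv.swap 3 4, Equiv.swap (0 : Fin 9) 1 * Equiv.swap 6 7} : Set (Equiv.Perm (Fin 9))))))
    (T : Subgroup G) (hTH : T ≤ H) (hT : Nat.card T = 27) (hN : Subgroup.normalizer (T : Set G) = H)
    (hC : ∀ t ∈ T, t ≠ 1 → Subgroup.centralizer ({t} : Set G) ≤ H) : H = ⊤ := by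
  change Nonempty (H ≃* closure gens) at hH
  obtain ⟨ι⟩ := hH
  have : Fact (Nat.Prime 3) := ⟨Nat.prime_three⟩
  let φ : closure gens →* G := H.subtype.comp ι.symm.toMonoidHom
  have hφ : Function.Injective φ := H.subtype_injective.comp ι.symm.injective
  let F : V27 × Bool × Bool → G := fun x => φ ⟨pf x, pf_mem x⟩
  have hF : Function.Injective F := fun x y h => by
    rw [← pinv_pf x, ← pinv_pf y, show pf x = pf y from congrArg Subtype.val (hφ h)]
  have hFH : ∀ g, g ∈ H ↔ ∃ x, F x = g := fun g => by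
    refine ⟨fun hg => ?_, fun ⟨x, hx⟩ => hx ▸ (ι.symm ⟨pf x, pf_mem x⟩).2⟩
    obtain ⟨x, hx⟩ := (mem_gens _).mp (ι ⟨g, hg⟩).2
    refine ⟨x, ?_⟩
    change ((ι.symm ⟨pf x, _⟩ : H) : G) = g
    rw [show (⟨pf x, pf_mem x⟩ : closure gens) = ι ⟨g, hg⟩ from Subtype.ext hx]
    simp
  have hHc : Nat.card H = 108 := by
    rw [← show Nat.card (V27 × Bool × Bool) = 108 by simp]
    exact (Nat.card_congr (Equiv.ofBijective (fun x => (⟨F x, (hFH _).mpr ⟨x, rfl⟩⟩ : H))
      ⟨fun x y h => hF (congrArg Subtype.val h), fun ⟨g, hg⟩ => by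
        obtain ⟨x, rfl⟩ := (hFH g).mp hg
        exact ⟨x, rfl⟩⟩)).symm
  let e : V27 → G := fun v => F (v, false, false)
  have h3 : ∀ g ∈ H, (∃ k, g ^ 3 ^ k = 1) → ∃ v, e v = g := by
    rintro g hg ⟨k, hk⟩
    obtain ⟨⟨v, i⟩, rfl⟩ := (hFH g).mp hg
    have h6 : F (v, i) ^ 6 = 1 := by
      rw [← map_pow, ← map_one φ]
      exact congrArg φ (Subtype.ext (pf_six _).1)
    have h7 : F (v, i) ^ 3 = 1 := by
      rw [← orderOf_dvd_iff_pow_eq_one] at h6 hk ⊢
      exact ((Nat.Coprime.pow_right k (by norm_num : Nat.Coprime 2 3)).coprime_dvd_right hk).symm.dvd_of_dvd_mul_left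
        (k := orderOf (F (v, i))) (n := 3) (m := 2) h6
    rw [← map_pow, ← map_one φ] at h7
    obtain rfl : i = (false, false) := (pf_six (v, i)).2 (congrArg Subtype.val (hφ h7))
    exact ⟨v, rfl⟩
  have hT3 : IsPGroup 3 T := IsPGroup.of_card (n := 3) hT
  have hp : Param T e := param_of_surj (fun u v => by
      rw [← map_mul]
      exact congrArg φ (Subtype.ext (by simp [pf_pe, pe_add])))
    (fun u v h => congrArg Prod.fst (hF h)) (fun g hg => h3 g (hTH hg) (by
      obtain ⟨k, hk⟩ := hT3 ⟨g, hg⟩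
      exact ⟨k, congrArg Subtype.val hk⟩)) (by simp [hT])
  obtain ⟨P, rfl⟩ := exists_sylow_eq hT3 (fun x hx h => (hp.mem x).mpr (h3 x (hN ▸ hx) h))
  have hsc := sc3_of_sylow P hp.comm (hN ▸ hC)
  have hconj : ∀ i v, F (0, i) * e v * (F (0, i))⁻¹ = e (sg i v) := fun i v => by
    rw [mul_inv_eq_iff_eq_mul, ← map_mul, ← map_mul]
    exact congrArg φ (Subtype.ext (by simp [pf_pe, pf_pv, pv_conj]))
  have hcls : ∀ u v, IsConj (e u) (e v) ↔ cls8 u = cls8 v := by
    intro u v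
    constructor
    · intro h
      by_cases hu : u = 0
      · subst hu
        rw [hp.zero, isConj_one_right, ← hp.zero] at h
        rw [hp.inj h]
      obtain ⟨g, hg⟩ := isConj_iff.mp h
      have h1 := hsc.mem_normalizer (hp.mem' u) (hp.ne_one hu) (hg ▸ hp.mem' v)
      rw [hN] at h1
      obtain ⟨⟨w, i⟩, rfl⟩ := (hFH g).mp h1
      have h2 : F (w, i) = e w * F (0, i) := by
        rw [← map_mul]
        exact congrArg φ (Subtype.ext (by simp [pf, pv, pe]))
      have h4 : e (sg i u) = e v := by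
        rw [← hg, h2]
        calc _ = e w * e (sg i u) * (e w)⁻¹ := by
              rw [hp.comm _ (hp.mem' w) _ (hp.mem' _)]; group
          _ = _ := by rw [← hconj]; group
      rw [← hp.inj h4, cls_sg]
    · intro h
      obtain ⟨i, rfl⟩ := sg_of_cls u v h
      exact isConj_iff.mpr ⟨_, hconj i u⟩
  have h1 := card_le_243 hsc hp hcls (hN ▸ hHc)
  have h2 := hsc.index_modEq le_rfl
  rw [hN, hT] at h2
  have h4 := H.card_mul_index
  rw [hHc] at h4
  unfold Nat.ModEq at h2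
  exact index_eq_one.mp (by omega)

end Cfsg.Agent.S3701
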