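import Cfsg.Statements.S3703
import Cfsg.Agent.Local.FPF

set_option autoImplicit false
open Cfsg

namespace Cfsg.Agent.S3703

open Cfsg.Agent.Local

/-- Let N be a normal subgroup of the finite group G such that G/N is a Frobenius group with kernel F and cyclic complement H, where the order of F is coprime to that of N and F is not contained in the image of C_G(N) in G/N. Then G has an element of order p·#H for some prime p dividing the order of N. (A standard tool in recognising groups by their element orders.) -/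
theorem result {G : Type*} [Group G] [Finite G] (N : Subgroup G) [N.Normal]
    (Fb Hb : Subgroup (G ⧸ N)) [Fb.Normal] (hHb : Cfsg.IsFrobeniusComplement Hb) (hker : Cfsg.frobeniusKernel Hb = (Fb : Set (G ⧸ N)))
    (hcyc : IsCyclic Hb) (hcop : (Nat.card Fb).Coprime (Nat.card N))
    (hnot : ¬ Fb ≤ (Subgroup.centralizer (N : Set G)).map (QuotientGroup.mk' N)) :
    ∃ p : ℕ, p.Prime ∧ p ∣ Nat.card N ∧ ∃ g : G, orderOf g = p * Nat.card Hb := by
  by_contra hcon
  push Not at hcon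
  set π := QuotientGroup.mk' N with hπ
  have hπs : Function.Surjective π := QuotientGroup.mk'_surjective N
  have hπN : ∀ g, π g = 1 ↔ g ∈ N := fun g => QuotientGroup.eq_one_iff g
  obtain ⟨hb, hhb⟩ := (Subgroup.isCyclic_iff_exists_zpowers_eq_top Hb).1 hcyc
  have hn : orderOf hb = Nat.card Hb := by rw [← hhb, Nat.card_zpowers]
  have step0 : ∀ g : G, π g = hb → g ^ Nat.card Hb = 1 := by
    intro g hg
    by_contra h1
    have hmem : g ^ Nat.card Hb ∈ N := by
      rw [← hπN, map_pow, hg, ← hn, pow_orderOf_eq_one]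
    obtain ⟨p, hp, hpd⟩ := Nat.exists_prime_and_dvd (mt orderOf_eq_one_iff.1 h1)
    have hd : Nat.card Hb ∣ orderOf g := by rw [← hn, ← hg]; exact orderOf_map_dvd π g
    obtain ⟨y, hy⟩ := exists_orderOf_eq_of_dvd_orderOf (x := g) (m := p * Nat.card Hb) (by
      rw [orderOf_pow, Nat.gcd_eq_right hd] at hpd
      exact (dvd_of_eq (mul_comm _ _)).trans (Nat.mul_dvd_of_dvd_div hd hpd))
    exact hcon p hp (hpd.trans (orderOf_dvd_card_of_mem hmem)) y hy
  have hfpf : ∀ c ∈ Hb, c ≠ 1 → ∀ y ∈ Fb, c * y = y * c → y = 1 := by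
    intro c hc hc1 y hy hcy
    exact frobeniusKernel_inf_eq_one (H := Hb) (by rw [hker]; exact hy)
      (frob_mem_of_commute hHb hc hc1 hcy)
  have hHF : Hb ≤ Subgroup.normalizer (Fb : Set (G ⧸ N)) := Subgroup.le_normalizer_of_normal
  obtain ⟨s, hs, hsF, Sb, hSb, hHS, hSC⟩ : ∃ s : ℕ, s.Prime ∧ s ∣ Nat.card Fb ∧ ∃ Sb,
      IsSylowIn s Sb Fb ∧ Hb ≤ Subgroup.normalizer (Sb : Set (G ⧸ N)) ∧
      ¬ Sb ≤ (Subgroup.centralizer (N : Set G)).map π := by
    by_contra h
    push Not at h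
    refine hnot (le_of_forall_exists_isSylowIn_le fun s hs hsF => ?_)
    have := Fact.mk hs
    obtain ⟨Sb, h1, h2⟩ := exists_invariant_isSylowIn hHF (coprime_card_of_fpf hHF hfpf)
      (Or.inl (isSolvable_of_isMulCommutative hcyc.isMulCommutative)) s
    exact ⟨Sb, h1, h s hs hsF Sb h1 h2⟩
  have := Fact.mk hs
  obtain ⟨S₁, hS₁⟩ := exists_isSylowIn s (Sb.comap π)
  have hmap : S₁.map π = Sb := by
    have h1 := hS₁.map π
    rw [Subgroup.map_comap_eq_self_of_surjective hπs] at h1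
    exact (h1.eq_of_le hSb.isPGroup h1.le le_rfl).symm
  have hcopS : (Nat.card S₁).Coprime (Nat.card N) := by
    obtain ⟨k, hk⟩ := IsPGroup.iff_card.1 hS₁.isPGroup
    rw [hk]
    exact Nat.Coprime.pow_left _ (hcop.coprime_dvd_left hsF)
  obtain ⟨p, hp, P, hP, hSP, hPC⟩ : ∃ p : ℕ, p.Prime ∧ ∃ P, IsSylowIn p P N ∧
      S₁ ≤ Subgroup.normalizer (P : Set G) ∧ ¬ P ≤ Subgroup.centralizer (S₁ : Set G) := by
    by_contra h
    push Not at h
    apply hSC
    rw [← hmap]
    apply Subgroup.map_mono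
    rw [Subgroup.le_centralizer_iff]
    refine le_of_forall_exists_isSylowIn_le fun p hp _ => ?_
    have := Fact.mk hp
    obtain ⟨P, h1, h2⟩ := exists_invariant_isSylowIn (A := S₁) (N := N)
      Subgroup.le_normalizer_of_normal hcopS (Or.inl (isSolvable_of_isPGroup hS₁.isPGroup)) p
    exact ⟨P, h1, h p hp P h1 h2⟩
  have := Fact.mk hp
  obtain ⟨h, hh, hhP, hhS⟩ : ∃ h : G, π h = hb ∧ h ∈ Subgroup.normalizer (P : Set G) ∧
      h ∈ Subgroup.normalizer (S₁ : Set G) := by
    obtain ⟨h₀, hh₀⟩ := hπs hb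
    obtain ⟨n, hnN, h1⟩ := hP.frattini (g := h₀)
      (Subgroup.le_normalizer_of_normal (K := ⊤) (Subgroup.mem_top _))
    have e1 : π (n⁻¹ * h₀) = hb := by rw [map_mul, map_inv, (hπN n).2 hnN, hh₀]; simp
    have h2 : n⁻¹ * h₀ ∈ Subgroup.normalizer ((Sb.comap π : Subgroup G) : Set G) := by
      apply Subgroup.le_normalizer_comap
      rw [Subgroup.mem_comap, e1]
      exact hHS (hhb ▸ Subgroup.mem_zpowers hb)
    obtain ⟨t, ht, h3⟩ := (hS₁.of_le (le_inf hS₁.le hSP) inf_le_left).frattini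
      (Subgroup.inf_normalizer_le_normalizer_inf ⟨h2, Subgroup.le_normalizer h1⟩)
    have ht1 : π t ∈ S₁.map π := by rw [hmap]; exact ht.1
    obtain ⟨s', hs', hs't⟩ := ht1
    refine ⟨s' * (t⁻¹ * (n⁻¹ * h₀)), ?_, ?_, ?_⟩
    · rw [map_mul, map_mul, e1, map_inv, hs't, mul_inv_cancel_left]
    · exact Subgroup.mul_mem _ (hSP hs') (Subgroup.mul_mem _ (Subgroup.inv_mem _ ht.2) h1)
    · exact Subgroup.mul_mem _ (Subgroup.le_normalizer hs') h3
  have hoh : orderOf h = Nat.card Hb := by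
    refine Nat.dvd_antisymm (orderOf_dvd_of_pow_eq_one (step0 h hh)) ?_
    rw [← hn, ← hh]; exact orderOf_map_dvd π h
  apply hPC
  rw [Subgroup.le_centralizer_iff]
  refine le_centralizer_of_frobenius_of_pow_eq_one (isSolvable_of_isPGroup hP.isPGroup) hSP hhP hhS
    ?_ (hcopS.coprime_dvd_right (Subgroup.card_dvd_of_le hP.le)) ?_
  · rintro _ ⟨i, rfl⟩ hc1 y hy hcy
    have e : π (h ^ i) = hb ^ i := by rw [map_zpow, hh]
    have h1 : π y = 1 := by
      refine hfpf (hb ^ i) (hhb ▸ Subgroup.zpow_mem_zpowers hb i) (fun h2 => hc1 ?_) (π y)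
        (hSb.le (hmap ▸ Subgroup.mem_map_of_mem π hy)) (by rw [← e, ← map_mul, ← map_mul]; exact congrArg π hcy)
      rw [← orderOf_dvd_iff_zpow_eq_one, hn, ← hoh, orderOf_dvd_iff_zpow_eq_one] at h2
      exact h2
    exact eq_one_of_mem_of_coprime hcopS hy ((hπN y).1 h1)
  · intro k hk
    rw [hoh]
    apply step0
    rw [map_mul, (hπN k).2 (hP.le hk), hh, one_mul]

end Cfsg.Agent.S3703
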