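import Cfsg.Statements.S3708
import Cfsg.Agent.Amalg.UStd

set_option autoImplicit false
open Cfsg

namespace Cfsg.Agent.S3708

/-- Phan's recognition of unitary groups. Let F be a finite field with q² elements, q > 4, and n ≥ 2. Let G be a group generated by subgroups U_0, …, U_{n−1}, each isomorphic to the special unitary group SU(2, q²) (determinant-one isometries of the standard Hermitian form in two variables over F), and let D_i ≤ U_i be cyclic subgroups of order q + 1. Suppose that U_i and U_j commute elementwise whenever the indices differ by at least 2, that the subgroup generated by U_i and U_{i+1} is isomorphic to SU(3, q²) for each i, and that D_i and D_j commute elementwise for all i, j. Then G is a homomorphic image of SU(n+1, q²). (Generation of G by the U_i is part of the hypothesis; G is not assumed finite.) -/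
theorem result {G : Type*} [Group G] (n : ℕ) (hn : 2 ≤ n)
    (F : Type*) [Field F] [Fintype F] (q : ℕ) (hq : 4 < q) (hF : Fintype.card F = q ^ 2)
    (U : Fin n → Subgroup G) (e : ∀ i, ↥(Cfsg.SU 2 F q) ≃* ↥(U i)) (hgen : ⨆ i, U i = ⊤)
    (D : Fin n → Subgroup G) (hD : ∀ i, D i ≤ U i ∧ IsCyclic ↥(D i) ∧ Nat.card ↥(D i) = q + 1)
    (h1 : ∀ i j : Fin n, (i : ℕ) + 2 ≤ j → ∀ x ∈ U i, ∀ y ∈ U j, x * y = y * x)
    (h2 : ∀ i j : Fin n, (i : ℕ) + 1 = j → Nonempty (↥(U i ⊔ U j) ≃* ↥(Cfsg.SU 3 F q)))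
    (h3 : ∀ i j : Fin n, i ≠ j → ∀ x ∈ D i, ∀ y ∈ D j, x * y = y * x) :
    ∃ f : ↥(Cfsg.SU (n + 1) F q) →* G, Function.Surjective f := by
  classical
  haveI : Fact (Fintype.card F = q ^ 2) := ⟨hF⟩
  have hd : ∀ i, ∃ d ∈ D i, d ≠ 1 ∧ d ^ (q + 1) = 1 := by
    intro i
    have hc := (hD i).2.2
    haveI : Finite (D i) := Nat.finite_of_card_ne_zero (by omega)
    haveI : Nontrivial (D i) := Finite.one_lt_card_iff_nontrivial.1 (by omega)
    obtain ⟨d, hd⟩ := exists_ne (1 : D i)
    refine ⟨d, d.2, fun h => hd (Subtype.ext h), ?_⟩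
    have := pow_card_eq_one' (x := d)
    rw [hc] at this
    exact congrArg Subtype.val this
  have hP : ∀ i j : Fin n, (i : ℕ) + 1 = j →
      ∃ φ : SU 3 F q →* G, Amalg.PhanHom (U i ⊔ U j) (U i) (U j) φ := by
    intro i j hij
    obtain ⟨d, d1, d2, d3⟩ := hd i
    obtain ⟨d', d1', d2', d3'⟩ := hd j
    obtain ⟨e3⟩ := h2 i j hij
    exact Amalg.phanHom_of_tori (by omega) (e i) (e j) e3 ((hD i).1 d1) ((hD j).1 d1') d2 d2' d3 d3'
      (h3 i j (fun h => by rw [h] at hij; omega) d d1 d' d1')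
  obtain ⟨Φ, hΦ⟩ := Amalg.phan_main (F := F) (q := q) (by omega) (n := n) (by omega)
    (fun i => if h : i < n then U ⟨i, h⟩ else ⊥)
    (fun i => if h : i + 1 < n then U ⟨i, by omega⟩ ⊔ U ⟨i + 1, h⟩ else ⊥)
    (fun i hi => by
      simp only [dif_pos (show i < n by omega), dif_pos (show i + 1 < n by omega)]
      exact hP _ _ rfl)
    (fun i j hij hj => by
      simp only [dif_pos (show i < n by omega), dif_pos hj]
      exact h1 _ _ hij)
  have hV : ∀ i j : Fin n, (i : ℕ) + 1 = j → U i ⊔ U j ≤ Φ.range := by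
    intro i j hij
    have := hΦ i (by omega)
    simp only [dif_pos (show (i : ℕ) + 1 < n by omega)] at this
    rwa [show j = ⟨i + 1, by omega⟩ from Fin.ext hij.symm]
  refine ⟨Φ, MonoidHom.range_eq_top.1 ?_⟩
  rw [eq_top_iff, ← hgen]
  refine iSup_le fun i => ?_
  by_cases hi : (i : ℕ) + 1 < n
  · exact le_sup_left.trans (hV i ⟨i + 1, hi⟩ rfl)
  · have hj : ((⟨i - 1, by omega⟩ : Fin n) : ℕ) + 1 = i := by
      have := i.2
      simp only
      omega
    exact le_sup_right.trans (hV _ i hj)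

end Cfsg.Agent.S3708
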