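import Cfsg.Statements.S3709
import Cfsg.Agent.Amalg.UGlue

set_option autoImplicit false
open Cfsg

namespace Cfsg.Agent.S3709

/-- Recognition of unitary groups from a weak Phan system. Let F be a finite field with q² elements, q > 3, and n ≥ 3. Let G be a group with subgroups U_0, …, U_{n−1}, each isomorphic to SU(2, q²), and, for each pair of consecutive indices, a subgroup V_{i,i+1} in which U_i and U_{i+1} form a standard pair (some isomorphism from SU(3, q²), or from its central quotient PSU(3, q²), onto V_{i,i+1} carries the two block-diagonal SU(2, q²) subgroups, or their images, onto U_i and U_{i+1}). Suppose that U_i and U_j commute elementwise whenever the indices differ by at least 2, and that G is generated by the U_i together with the V_{i,i+1}. Then G is a homomorphic image of SU(n+1, q²). (G is not assumed finite.) -/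
theorem result {G : Type*} [Group G] (n : ℕ) (hn : 3 ≤ n)
    (F : Type*) [Field F] [Fintype F] (q : ℕ) (hq : 3 < q) (hF : Fintype.card F = q ^ 2)
    (U : Fin n → Subgroup G) (e : ∀ i, ↥(Cfsg.SU 2 F q) ≃* ↥(U i))
    (V : Fin n → Fin n → Subgroup G)
    (h1 : ∀ i j : Fin n, (i : ℕ) + 2 ≤ j → ∀ x ∈ U i, ∀ y ∈ U j, x * y = y * x)
    (h2 : ∀ i j : Fin n, (i : ℕ) + 1 = j → Cfsg.IsStandardUnitaryPair (V i j) (U i) (U j) F q)
    (hgen : (⨆ i, U i) ⊔ (⨆ (i : Fin n) (j : Fin n) (_ : (i : ℕ) + 1 = j), V i j) = ⊤) :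
    ∃ f : ↥(Cfsg.SU (n + 1) F q) →* G, Function.Surjective f := by
  classical
  haveI : Fact (Fintype.card F = q ^ 2) := ⟨hF⟩
  obtain ⟨Φ, hΦ⟩ := Amalg.phan_main (F := F) (q := q) (by omega) (n := n) (by omega)
    (fun i => if h : i < n then U ⟨i, h⟩ else ⊥)
    (fun i => if h : i + 1 < n then V ⟨i, by omega⟩ ⟨i + 1, h⟩ else ⊥)
    (fun i hi => by
      simp only [dif_pos (show i < n by omega), dif_pos (show i + 1 < n by omega)]
      exact Amalg.phanHom_of_standard (h2 _ _ rfl))
    (fun i j hij hj => by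
      simp only [dif_pos (show i < n by omega), dif_pos hj]
      exact h1 _ _ hij)
  have hV : ∀ i j : Fin n, (i : ℕ) + 1 = j → V i j ≤ Φ.range := by
    intro i j hij
    have := hΦ i (by omega)
    simp only [dif_pos (show (i : ℕ) + 1 < n by omega)] at this
    rwa [show j = ⟨i + 1, by omega⟩ from Fin.ext hij.symm]
  refine ⟨Φ, MonoidHom.range_eq_top.1 ?_⟩
  rw [eq_top_iff, ← hgen]
  refine sup_le (iSup_le fun i => ?_) (iSup_le fun i => iSup_le fun j => iSup_le fun h => hV i j h)
  by_cases hi : (i : ℕ) + 1 < n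
  · obtain ⟨φ, hφ⟩ := Amalg.phanHom_of_standard (h2 i ⟨i + 1, hi⟩ rfl)
    refine le_trans ?_ (hV i ⟨i + 1, hi⟩ rfl)
    rw [← hφ.left, ← hφ.range]
    rintro _ ⟨x, rfl⟩
    exact ⟨_, rfl⟩
  · have hj : ((⟨i - 1, by omega⟩ : Fin n) : ℕ) + 1 = i := by
      have := i.2
      simp only
      omega
    obtain ⟨φ, hφ⟩ := Amalg.phanHom_of_standard (h2 _ i hj)
    refine le_trans ?_ (hV _ i hj)
    rw [← hφ.right, ← hφ.range]
    rintro _ ⟨x, rfl⟩
    exact ⟨_, rfl⟩

end Cfsg.Agent.S3709
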