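import Cfsg.Statements.S3710
import Cfsg.Agent.Amalg.URec3b

set_option autoImplicit false
open Cfsg

namespace Cfsg.Agent.S3710

/-- Recognition of unitary groups over the field with 9 elements from a weak Phan system. Let F be a field with 9 elements and n ≥ 4. Let G be a group with subgroups U_0, …, U_{n−1}, each isomorphic to SU(2, 9), and, for consecutive indices, subgroups V_{i,i+1} in which U_i and U_{i+1} form a standard pair (via an isomorphism from SU(3, 9) or PSU(3, 9) carrying the block-diagonal subgroups, or their images, onto U_i and U_{i+1}); suppose U_i and U_j commute elementwise whenever the indices differ by at least 2, that G is generated by the U_i and the V_{i,i+1}, and moreover that for each i the subgroup generated by V_{i,i+1} and V_{i+1,i+2} is a homomorphic image of SU(4, 9). Then G is a homomorphic image of SU(n+1, 9). (G is not assumed finite.) -/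
theorem result {G : Type*} [Group G] (n : ℕ) (hn : 4 ≤ n)
    (F : Type*) [Field F] [Fintype F] (hF : Fintype.card F = 9)
    (U : Fin n → Subgroup G) (e : ∀ i, ↥(Cfsg.SU 2 F 3) ≃* ↥(U i))
    (V : Fin n → Fin n → Subgroup G)
    (h1 : ∀ i j : Fin n, (i : ℕ) + 2 ≤ j → ∀ x ∈ U i, ∀ y ∈ U j, x * y = y * x)
    (h2 : ∀ i j : Fin n, (i : ℕ) + 1 = j → Cfsg.IsStandardUnitaryPair (V i j) (U i) (U j) F 3)
    (hgen : (⨆ i, U i) ⊔ (⨆ (i : Fin n) (j : Fin n) (_ : (i : ℕ) + 1 = j), V i j) = ⊤)
    (h4 : ∀ i j k : Fin n, (i : ℕ) + 1 = j → (j : ℕ) + 1 = k →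
      ∃ g : ↥(Cfsg.SU 4 F 3) →* ↥(V i j ⊔ V j k), Function.Surjective g) :
    ∃ f : ↥(Cfsg.SU (n + 1) F 3) →* G, Function.Surjective f := by
  classical
  haveI : Fact (Fintype.card F = 3 ^ 2) := ⟨hF⟩
  obtain ⟨g, hg⟩ := h4 ⟨n - 3, by omega⟩ ⟨n - 3 + 1, by omega⟩ ⟨n - 3 + 1 + 1, by omega⟩ rfl rfl
  obtain ⟨Φ, hΦ⟩ := Amalg.phan_main3 (F := F) (n := n) (by omega)
    (fun i => if h : i < n then U ⟨i, h⟩ else ⊥)
    (fun i => if h : i + 1 < n then V ⟨i, by omega⟩ ⟨i + 1, h⟩ else ⊥)
    (fun i hi => by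
      simp only [dif_pos (show i < n by omega), dif_pos (show i + 1 < n by omega)]
      exact Amalg.phanHom_of_standard (h2 _ _ rfl))
    (fun i j hij hj => by
      simp only [dif_pos (show i < n by omega), dif_pos hj]
      exact h1 _ _ hij) ((Subgroup.subtype _).comp g) (by
      simp only [dif_pos (show n - 3 + 1 < n by omega), dif_pos (show n - 3 + 1 + 1 < n by omega)]
      rw [MonoidHom.range_comp, MonoidHom.range_eq_top.2 hg, ← MonoidHom.range_eq_map,
        Subgroup.range_subtype])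
  have hV : ∀ i j : Fin n, (i : ℕ) + 1 = j → V i j ≤ Φ.range := by
    intro i j hij
    have := hΦ i (by omega)
    simp only [dif_pos (show (i : ℕ) + 1 < n by omega)] at this
    rwa [show j = ⟨i + 1, by omega⟩ from Fin.ext hij.symm]
  refine ⟨Φ, MonoidHom.range_eq_top.1 ?_⟩
  rw [eq_top_iff, ← hgen]
  refine sup_le (iSup_le fun i => ?_) (iSup_le fun i => iSup_le fun j => iSup_le fun h => hV i j h)
  by_cases hi : (i : ℕ) + 1 < n
  · obtain ⟨φ, hφ⟩ := Amalg.phanHom_of_standard (h2 i ⟨i + 1, hi⟩ rfl)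
    refine le_trans ?_ (hV i ⟨i + 1, hi⟩ rfl)
    rw [← hφ.left, ← hφ.range]
    rintro _ ⟨x, rfl⟩
    exact ⟨_, rfl⟩
  · have hj : ((⟨i - 1, by omega⟩ : Fin n) : ℕ) + 1 = i := by
      have := i.2
      simp only
      omega
    obtain ⟨φ, hφ⟩ := Amalg.phanHom_of_standard (h2 _ i hj)
    refine le_trans ?_ (hV _ i hj)
    rw [← hφ.right, ← hφ.range]
    rintro _ ⟨x, rfl⟩
    exact ⟨_, rfl⟩

end Cfsg.Agent.S3710
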