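import Cfsg.Statements.S3713
import Cfsg.Agent.Amalg.SpAmalg

set_option autoImplicit false
open Cfsg

namespace Cfsg.Agent.S3713

open Cfsg.Agent.Amalg

/-- Compatibility of two partial homomorphisms. -/
def Cmp {Γ H : Type*} [Group Γ] [Group H] (X : Subgroup Γ) (f : Γ → H) (Y : Subgroup Γ)
    (g : Γ → H) : Prop :=
  ∃ Ψ, HomOn (X ⊔ Y) Ψ ∧ (∀ x ∈ X, Ψ x = f x) ∧ ∀ x ∈ Y, Ψ x = g x

theorem Cmp.symm {Γ H : Type*} [Group Γ] [Group H] {X Y : Subgroup Γ} {f g : Γ → H}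
    (h : Cmp X f Y g) : Cmp Y g X f := by
  obtain ⟨Ψ, h1, h2, h3⟩ := h
  exact ⟨Ψ, sup_comm X Y ▸ h1, h3, h2⟩

theorem Cmp.mono {Γ H : Type*} [Group Γ] [Group H] {X Y X' Y' : Subgroup Γ} {f g : Γ → H}
    (h : Cmp X f Y g) (hX : X' ≤ X) (hY : Y' ≤ Y) : Cmp X' f Y' g := by
  obtain ⟨Ψ, h1, h2, h3⟩ := h
  exact ⟨Ψ, h1.mono (sup_le_sup hX hY), fun x hx => h2 x (hX hx), fun x hx => h3 x (hY hx)⟩

theorem cmp_self {Γ H : Type*} [Group Γ] [Group H] {X : Subgroup Γ} (f : X →* H) :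
    Cmp X (extOne f) X (extOne f) :=
  ⟨extOne f, by rw [sup_idem]; exact homOn_extOne f, fun _ _ => rfl, fun _ _ => rfl⟩

theorem cmp_of {Γ H : Type*} [Group Γ] [Group H] {X Y : Subgroup Γ} (f : X →* H) (g : Y →* H)
    (h : ∃ Ψ : ↥(X ⊔ Y) →* H, (∀ (x : Γ) (hx : x ∈ X), Ψ ⟨x, Subgroup.mem_sup_left hx⟩ = f ⟨x, hx⟩) ∧
      ∀ (x : Γ) (hx : x ∈ Y), Ψ ⟨x, Subgroup.mem_sup_right hx⟩ = g ⟨x, hx⟩) :
    Cmp X (extOne f) Y (extOne g) := by
  obtain ⟨Ψ, h1, h2⟩ := h
  refine ⟨extOne Ψ, homOn_extOne Ψ, fun x hx => ?_, fun x hx => ?_⟩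
  · rw [extOne_apply _ (Subgroup.mem_sup_left hx), extOne_apply _ hx, h1]
  · rw [extOne_apply _ (Subgroup.mem_sup_right hx), extOne_apply _ hx, h2]

/-- A presentation of the symplectic group as the universal completion of an amalgam of small subgroups. Let F be a field with more than two elements, n ≥ 2, and Sp the group of 2n × 2n matrices over F preserving the standard alternating form, acting on column vectors; write e_k, f_k for the standard basis vectors of the two halves (a hyperbolic basis). For each k let S_k be the subgroup of Sp fixing e_l and f_l for all l ≠ k (a copy of SL(2, F) on the plane of e_k, f_k), and for each i with i + 1 < n let M_i be the subgroup fixing every e_l and fixing f_l for all l other than i, i+1 (an abelian group isomorphic to the additive group of F³). Then Sp is the universal completion of the amalgam formed by the S_k, the M_i and the subgroups generated by two of them: for every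 group H and homomorphisms σ_k : S_k → H, μ_i : M_i → H such that for each pair of these subgroups some homomorphism on the subgroup they generate restricts to the given ones, there is exactly one homomorphism Sp → H restricting to every σ_k and μ_i. -/
theorem result
    (F : Type*) [Field F] (hF : ∃ a : F, a ≠ 0 ∧ a ≠ 1) (n : ℕ) (hn : 2 ≤ n)
    (S M : Fin n → Subgroup ↥(Matrix.symplecticGroup (Fin n) F))
    (hS : ∀ j : Fin n, S j = Subgroup.closure {A : ↥(Matrix.symplecticGroup (Fin n) F) | ∀ k : Fin n, k ≠ j →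
      ((A : ↥(Matrix.symplecticGroup (Fin n) F)) : Matrix (Fin n ⊕ Fin n) (Fin n ⊕ Fin n) F).mulVec (Pi.single (Sum.inl k) (1 : F)) = (Pi.single (Sum.inl k) (1 : F)) ∧ ((A : ↥(Matrix.symplecticGroup (Fin n) F)) : Matrix (Fin n ⊕ Fin n) (Fin n ⊕ Fin n) F).mulVec (Pi.single (Sum.inr k) (1 : F)) = (Pi.single (Sum.inr k) (1 : F))})
    (hM : ∀ i : Fin n, (i : ℕ) + 1 < n → M i = Subgroup.closure {A : ↥(Matrix.symplecticGroup (Fin n) F) |
      (∀ k : Fin n, ((A : ↥(Matrix.symplecticGroup (Fin n) F)) : Matrix (Fin n ⊕ Fin n) (Fin n ⊕ Fin n) F).mulVec (Pi.single (Sum.inl k) (1 : F)) = (Pi.single (Sum.inl k) (1 : F))) ∧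
        ∀ k : Fin n, (k : ℕ) ≠ i → (k : ℕ) ≠ (i : ℕ) + 1 → ((A : ↥(Matrix.symplecticGroup (Fin n) F)) : Matrix (Fin n ⊕ Fin n) (Fin n ⊕ Fin n) F).mulVec (Pi.single (Sum.inr k) (1 : F)) = (Pi.single (Sum.inr k) (1 : F))})
    {H : Type*} [Group H] (σ : ∀ j : Fin n, ↥(S j) →* H) (μ : ∀ i : Fin n, ↥(M i) →* H)
    (hSS : ∀ j l : Fin n, j ≠ l → ∃ Ψ : ↥(S j ⊔ S l) →* H,
      (∀ (g : ↥(Matrix.symplecticGroup (Fin n) F)) (hg : g ∈ S j), Ψ ⟨g, Subgroup.mem_sup_left hg⟩ = σ j ⟨g, hg⟩) ∧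
        (∀ (g : ↥(Matrix.symplecticGroup (Fin n) F)) (hg : g ∈ S l), Ψ ⟨g, Subgroup.mem_sup_right hg⟩ = σ l ⟨g, hg⟩))
    (hMM : ∀ i i' : Fin n, i ≠ i' → (i : ℕ) + 1 < n → (i' : ℕ) + 1 < n → ∃ Ψ : ↥(M i ⊔ M i') →* H,
      (∀ (g : ↥(Matrix.symplecticGroup (Fin n) F)) (hg : g ∈ M i), Ψ ⟨g, Subgroup.mem_sup_left hg⟩ = μ i ⟨g, hg⟩) ∧
        (∀ (g : ↥(Matrix.symplecticGroup (Fin n) F)) (hg : g ∈ M i'), Ψ ⟨g, Subgroup.mem_sup_right hg⟩ = μ i' ⟨g, hg⟩))
    (hMS : ∀ i j : Fin n, (i : ℕ) + 1 < n → ∃ Ψ : ↥(M i ⊔ S j) →* H,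
      (∀ (g : ↥(Matrix.symplecticGroup (Fin n) F)) (hg : g ∈ M i), Ψ ⟨g, Subgroup.mem_sup_left hg⟩ = μ i ⟨g, hg⟩) ∧
        (∀ (g : ↥(Matrix.symplecticGroup (Fin n) F)) (hg : g ∈ S j), Ψ ⟨g, Subgroup.mem_sup_right hg⟩ = σ j ⟨g, hg⟩)) :
    ∃! Φ : ↥(Matrix.symplecticGroup (Fin n) F) →* H,
      (∀ (j : Fin n) (g : ↥(Matrix.symplecticGroup (Fin n) F)) (hg : g ∈ S j), Φ g = σ j ⟨g, hg⟩) ∧
        (∀ (i : Fin n), (i : ℕ) + 1 < n → ∀ (g : ↥(Matrix.symplecticGroup (Fin n) F)) (hg : g ∈ M i), Φ g = μ i ⟨g, hg⟩) := by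
  classical
  have hS' : ∀ j, S j = spFix F {j} := by
    intro j
    rw [hS j]
    exact Subgroup.closure_eq (spFix F {j})
  have hM' : ∀ i : Fin n, (i : ℕ) + 1 < n → M i = spM F (pairS i) := by
    intro i hi
    rw [hM i hi, ← Subgroup.closure_eq (spM F (pairS i))]
    congr 1
    ext A
    refine and_congr Iff.rfl (forall_congr' fun k => ?_)
    simp only [pairS, Set.mem_setOf_eq, not_or, Fin.ext_iff, and_imp]
    rfl
  let B : Fin n ⊕ Fin n → Subgroup (SpG n F) :=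
    Sum.elim S fun i => if (i : ℕ) + 1 < n then M i else S i
  let α : Fin n ⊕ Fin n → SpG n F → H :=
    Sum.elim (fun j => extOne (σ j)) fun i =>
      if (i : ℕ) + 1 < n then extOne (μ i) else extOne (σ i)
  have hAB : ∀ a, spA F a ≤ B a := by
    rintro (j | i)
    · exact (hS' j).ge
    · by_cases hi : (i : ℕ) + 1 < n
      · simp only [B, Sum.elim_inr, if_pos hi]
        exact (hM' i hi).ge
      · simp only [B, Sum.elim_inr, if_neg hi]
        rw [hS']
        refine (spM_le_spFix _).trans (spFix_mono ?_)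
        rintro l (rfl | hl)
        · rfl
        · omega
  have cSS : ∀ j l, Cmp (S j) (extOne (σ j)) (S l) (extOne (σ l)) := by
    intro j l
    by_cases h : j = l
    · subst h; exact cmp_self _
    · exact cmp_of _ _ (hSS j l h)
  have cMS : ∀ i j : Fin n, (i : ℕ) + 1 < n → Cmp (M i) (extOne (μ i)) (S j) (extOne (σ j)) :=
    fun i j hi => cmp_of _ _ (hMS i j hi)
  have cMM : ∀ i j : Fin n, (i : ℕ) + 1 < n → (j : ℕ) + 1 < n →
      Cmp (M i) (extOne (μ i)) (M j) (extOne (μ j)) := by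
    intro i j hi hj
    by_cases h : i = j
    · subst h; exact cmp_self _
    · exact cmp_of _ _ (hMM i j h hi hj)
  have hα : SpPairs α := by
    intro a b
    refine Cmp.mono (X := B a) (Y := B b) ?_ (hAB a) (hAB b)
    rcases a with j | i <;> rcases b with j' | i'
    · exact cSS j j'
    · by_cases hi : (i' : ℕ) + 1 < n
      · simpa only [B, α, Sum.elim_inr, Sum.elim_inl, if_pos hi] using (cMS i' j hi).symm
      · simpa only [B, α, Sum.elim_inr, Sum.elim_inl, if_neg hi] using cSS j i'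
    · by_cases hi : (i : ℕ) + 1 < n
      · simpa only [B, α, Sum.elim_inr, Sum.elim_inl, if_pos hi] using cMS i j' hi
      · simpa only [B, α, Sum.elim_inr, Sum.elim_inl, if_neg hi] using cSS i j'
    · by_cases hi : (i : ℕ) + 1 < n <;> by_cases hi' : (i' : ℕ) + 1 < n
      · simpa only [B, α, Sum.elim_inr, if_pos hi, if_pos hi'] using cMM i i' hi hi'
      · simpa only [B, α, Sum.elim_inr, if_pos hi, if_neg hi'] using cMS i i' hi
      · simpa only [B, α, Sum.elim_inr, if_neg hi, if_pos hi'] using (cMS i' i hi').symm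
      · simpa only [B, α, Sum.elim_inr, if_neg hi, if_neg hi'] using cSS i i'
  obtain ⟨Φ, hΦ⟩ := sp_exists hF (by omega) hα
  have hΦS : ∀ (j : Fin n) (g : SpG n F) (hg : g ∈ S j), Φ g = σ j ⟨g, hg⟩ := by
    intro j g hg
    rw [hΦ (Sum.inl j) g ((hS' j).le hg)]
    exact extOne_apply _ hg
  have hΦM : ∀ (i : Fin n), (i : ℕ) + 1 < n → ∀ (g : SpG n F) (hg : g ∈ M i),
      Φ g = μ i ⟨g, hg⟩ := by
    intro i hi g hg
    rw [hΦ (Sum.inr i) g ((hM' i hi).le hg)]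
    simp only [α, Sum.elim_inr, if_pos hi]
    exact extOne_apply _ hg
  refine ⟨Φ, ⟨hΦS, hΦM⟩, fun Φ' h' => ?_⟩
  have := sp_gen_top (Φ'.eqLocus Φ) (fun a g hg => by
    have hg' := hAB a hg
    change Φ' g = Φ g
    rcases a with j | i
    · rw [h'.1 j g hg', hΦS j g hg']
    · by_cases hi : (i : ℕ) + 1 < n
      · simp only [B, Sum.elim_inr, if_pos hi] at hg'
        rw [h'.2 i hi g hg', hΦM i hi g hg']
      · simp only [B, Sum.elim_inr, if_neg hi] at hg'
        rw [h'.1 i g hg', hΦS i g hg'])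
  ext g
  have hg : g ∈ Φ'.eqLocus Φ := this ▸ Subgroup.mem_top g
  exact hg

end Cfsg.Agent.S3713
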