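import Cfsg.Statements.S3716
import Cfsg.Agent.Char.D8

set_option autoImplicit false
open Cfsg

namespace Cfsg.Agent.S3716

/-- Let G be a finite group with an elementary abelian Sylow 3-subgroup M of order 9 which is self-centralizing (C_G(M) = M), let N = N_G(M), and suppose C_G(g) ≤ N for every nonidentity g ∈ M. If the Sylow 2-subgroups of N are dihedral of order 8, then G is not simple. -/
theorem result {G : Type*} [Group G] [Finite G] (M : Sylow 3 G) (hM9 : Nat.card ↥(M : Subgroup G) = 9)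
    (hMel : ∀ m ∈ (M : Subgroup G), m ^ 3 = 1)
    (hCM : Subgroup.centralizer ((M : Subgroup G) : Set G) = (M : Subgroup G))
    (N : Subgroup G) (hN : N = Subgroup.normalizer ((M : Subgroup G) : Set G))
    (hCg : ∀ g ∈ (M : Subgroup G), g ≠ 1 → Subgroup.centralizer ({g} : Set G) ≤ N)
    (hS : ∀ S : Sylow 2 ↥N, Nonempty (↥(S : Subgroup ↥N) ≃* DihedralGroup 4)) :
    ¬ IsSimpleGroup G := by
  subst hN
  intro hsimple
  have : Fact (Nat.Prime 2) := ⟨Nat.prime_two⟩
  obtain ⟨Q⟩ : Nonempty (Sylow 2 (Subgroup.normalizer ((M : Subgroup G) : Set G))) := inferInstance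
  obtain ⟨ι⟩ := hS Q
  have hcomm : ∀ a ∈ (M : Subgroup G), ∀ b ∈ (M : Subgroup G), a * b = b * a := fun a ha b hb => by
    rw [← hCM] at hb; exact hb a ha
  obtain ⟨e, hp⟩ := Char.exists_param_e9 hM9 hMel hcomm
  have hN : Nat.card (Subgroup.normalizer ((M : Subgroup G) : Set G)) = 72 := by
    have : Fact (Nat.Prime 3) := ⟨Nat.prime_three⟩
    have h1 := Q.not_dvd_index
    have h2 := (Q : Subgroup (Subgroup.normalizer ((M : Subgroup G) : Set G))).card_mul_index
    rw [Nat.card_congr ι.toEquiv, DihedralGroup.nat_card] at h2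
    have h3 := M.not_dvd_index
    have h4 := (M : Subgroup G).card_mul_index
    have h5 := (Subgroup.normalizer ((M : Subgroup G) : Set G)).card_mul_index
    have h6 := Subgroup.card_dvd_of_le (Subgroup.le_normalizer (H := (M : Subgroup G)))
    rw [hM9] at h4 h6
    obtain ⟨m, hm⟩ : 72 ∣ Nat.card (Subgroup.normalizer ((M : Subgroup G) : Set G)) :=
      Nat.Coprime.mul_dvd_of_dvd_of_dvd (m := 8) (n := 9) (by norm_num) ⟨_, h2.symm⟩ h6
    by_contra hne
    obtain ⟨p, hp', hpm⟩ := Nat.exists_prime_and_dvd (show m ≠ 1 by rintro rfl; exact hne hm)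
    obtain ⟨k, rfl⟩ := hpm
    rcases Char.card_normalizer_nine hp hCM hp' (hm ▸ (dvd_mul_right p k).mul_left _) with rfl | rfl
    · exact h1 ⟨9 * k, by omega⟩
    · refine h3 ⟨8 * k * (Subgroup.normalizer ((M : Subgroup G) : Set G)).index, ?_⟩
      rw [hm] at h5
      linarith
  obtain ⟨a, b, ρ, f, hp, -, -, -, -, f1, -, -, t, -, f2⟩ := Char.d8_main M hM9 hMel hCM hCg hN
    (((Subgroup.normalizer ((M : Subgroup G) : Set G)).subtype.comp (Subgroup.subtype _)).comp
      ι.symm.toMonoidHom)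
    ((Subgroup.subtype_injective _).comp ((Subgroup.subtype_injective _).comp ι.symm.injective))
    (fun x => (ι.symm x).1.2)
  rcases (MonoidHom.normal_ker f.toHomUnits).eq_bot_or_eq_top with h | h
  · have h1 : a ∈ f.toHomUnits.ker := by rw [MonoidHom.mem_ker, Units.ext_iff]; exact f1
    rw [h, Subgroup.mem_bot, ← Char.e9_one_zero a b] at h1
    exact hp.ne_one (by decide) h1
  · have h1 : t ∈ f.toHomUnits.ker := h ▸ Subgroup.mem_top t
    rw [MonoidHom.mem_ker, Units.ext_iff] at h1
    have h2 : f t = 1 := h1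
    rw [f2] at h2
    norm_num at h2

end Cfsg.Agent.S3716
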