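import Cfsg.Statements.S3726
import Cfsg.Agent.Fix2T.Main
import Cfsg.Agent.FT.Final

set_option autoImplicit false
open Cfsg

namespace Cfsg.Agent.S3726

/-- Let a finite group G act faithfully and 2-transitively on a finite set Ω, and suppose there is an involution t of G, fixing exactly i points, such that every non-identity element of the centralizer of t also fixes exactly i points. Then G is isomorphic to PSL₂(q) for some finite field of order q, or to a Suzuki group Sz(q) (q = 2^(2m+1) ≥ 8), or G has a normal subgroup acting regularly on Ω. -/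
theorem result {G Ω : Type*} [Group G] [Finite G] [Fintype Ω] [MulAction G Ω] [FaithfulSMul G Ω]
    (h2 : MulAction.IsMultiplyPretransitive G Ω 2) (i : ℕ) (t : G) (ht : orderOf t = 2)
    (hti : Nat.card {x : Ω // t • x = x} = i)
    (hC : ∀ g : G, Commute g t → g ≠ 1 → Nat.card {x : Ω // g • x = x} = i) :
    (∃ (F : Type) (_ : Field F) (_ : Fintype F), Nonempty (G ≃* Matrix.ProjectiveSpecialLinearGroup (Fin 2) F)) ∨
    Cfsg.Lie.IsoSuzuki G ∨
    (∃ R : Subgroup G, R.Normal ∧ (∀ x y : Ω, ∃ r ∈ R, r • x = y) ∧ ∀ x : Ω, ∀ r ∈ R, r • x = x → r = 1) := by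
  let e := equivShrink.{u_1} Ω
  let _ : MulAction G (Shrink.{u_1} Ω) := e.symm.mulAction G
  have he : ∀ (g : G) (x : Shrink.{u_1} Ω), g • x = e (g • e.symm x) := fun _ _ => rfl
  have : Finite (Shrink.{u_1} Ω) := Finite.of_equiv _ e
  have : FaithfulSMul G (Shrink.{u_1} Ω) := ⟨fun {g h} hg => eq_of_smul_eq_smul fun x : Ω => by
    simpa [he] using hg (e x)⟩
  have h3 : MulAction.IsMultiplyPretransitive G (Shrink.{u_1} Ω) 2 := by
    rw [MulAction.is_two_pretransitive_iff] at h2 ⊢
    intro a b c d hab hcd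
    obtain ⟨g, h3, h4⟩ := h2 (e.symm.injective.ne hab) (e.symm.injective.ne hcd)
    exact ⟨g, by simp [he, h3], by simp [he, h4]⟩
  refine (Fix2T.hyp_of (i := i) h3 (t := t) (by rintro rfl; simp at ht) (Block.mul_self_of_orderOf ht)
    fun g g1 hg => ?_).main FT.oddOrder |>.imp_right (Or.imp_right fun ⟨R, h4, h5, h6⟩ =>
      ⟨R, h4, fun x y => ?_, fun x r hr h => h6 (e x) r hr (by simp [he, h])⟩)
  · rw [← hC g hg g1]
    exact (Nat.card_congr (e.subtypeEquiv fun x => by simp [he])).symm
  · simpa [he] using h5 (e x) (e y)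

end Cfsg.Agent.S3726
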