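import Cfsg.Statements.S3727
import Cfsg.Agent.Hir.M22

set_option autoImplicit false
open Cfsg

namespace Cfsg.Agent.S3727

open Cfsg.Agent.Hir Subgroup MulAction

theorem ker_comp {A B G : Type*} [Group A] [Group B] [Group G] (σ : A ≃* B) {φ : B →* G}
    (h : ∀ b, φ b = 1 ↔ b ∈ center B) (x : A) : φ.comp σ.toMonoidHom x = 1 ↔ x ∈ center A := by
  refine (h (σ x)).trans ?_
  simp only [mem_center_iff, σ.surjective.forall, ← map_mul, σ.injective.eq_iff]

/-- Let a finite group G act faithfully and 2-transitively on a finite set Ω of even size, and suppose the stabilizer of a point a has a normal subgroup N isomorphic to PSL₃(q) with q = 2ⁿ, n ≥ 1. Then N is transitive on the remaining points, and either G has a normal subgroup of order q³ acting regularly on Ω and n is odd, or Ω has 22 points, q = 4, and G is isomorphic to the Mathieu group M₂₂ or has a subgroup of index 2 isomorphic to M₂₂. -/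
theorem result {G Ω : Type*} [Group G] [Finite G] [Fintype Ω] [MulAction G Ω] [FaithfulSMul G Ω]
    (h2 : MulAction.IsMultiplyPretransitive G Ω 2) (hev : Even (Fintype.card Ω)) (a : Ω) (N : Subgroup G)
    (hNle : N ≤ MulAction.stabilizer G a) (hNnormal : ∀ g ∈ MulAction.stabilizer G a, ∀ x ∈ N, g * x * g⁻¹ ∈ N)
    (n : ℕ) (hn : 1 ≤ n)
    (hN : ∃ (F : Type) (_ : Field F) (_ : Fintype F), Fintype.card F = 2 ^ n ∧
      Nonempty (↥N ≃* Matrix.ProjectiveSpecialLinearGroup (Fin 3) F)) :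
    (∀ x y : Ω, x ≠ a → y ≠ a → ∃ g ∈ N, g • x = y) ∧
    ((Odd n ∧ ∃ E : Subgroup G, E.Normal ∧ Nat.card E = (2 ^ n) ^ 3 ∧ (∀ x y : Ω, ∃ r ∈ E, r • x = y) ∧
        ∀ x : Ω, ∀ r ∈ E, r • x = x → r = 1) ∨
     (Fintype.card Ω = 22 ∧ n = 2 ∧ (Cfsg.Spor.IsoM22 G ∨ ∃ H : Subgroup G, H.index = 2 ∧ Cfsg.Spor.IsoM22 ↥H))) := by
  obtain ⟨F, _, _, hF, ⟨e⟩⟩ := hN
  haveI : CharP F 2 := charP_of_card_eq_prime_pow hF
  have two : ∀ x y x' y' : Ω, x ≠ y → x' ≠ y' → ∃ g : G, g • x = x' ∧ g • y = y' := fun _ _ _ _ =>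
    is_two_pretransitive_iff.1 h2
  have tr : ∀ x : Ω, ∃ g : G, g • a = x := fun x => by
    by_cases h : a = x
    · exact ⟨1, by simpa using h⟩
    · exact (two a x x a h (Ne.symm h)).imp fun _ h => h.1
  choose t ht using tr
  have h1 : ∀ g : G, g • a = a → g • N = N := fun g hg => cj_eq_of_le (hNnormal g hg)
  let φ : S3 F →* G := N.subtype.comp (e.symm.toMonoidHom.comp (QuotientGroup.mk' _))
  have h3 : ∀ A, φ A = 1 ↔ A ∈ center (S3 F) := fun A =>
    (OneMemClass.coe_eq_one.trans (map_eq_one_iff e.symm e.symm.injective)).trans (QuotientGroup.eq_one_iff A)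
  have h4 : φ.range = N := le_antisymm (by rintro _ ⟨A, rfl⟩; exact (e.symm _).2) fun x hx => by
    obtain ⟨A, hA⟩ := QuotientGroup.mk'_surjective _ (e ⟨x, hx⟩)
    exact ⟨A, congrArg Subtype.val (e.symm_apply_eq.2 hA)⟩
  have h5 : ∀ x : Ω, ∃ ty, Pl (Nat.card F) (t x • N) ty := fun x => by
    have h5 := (du_io (φ := (MulAut.conj (t x)).toMonoidHom.comp φ) fun A =>
      (map_eq_one_iff _ (MulAut.conj (t x)).injective).trans (h3 A)).pl
    rw [show ((MulAut.conj (t x)).toMonoidHom.comp φ).range = t x • N from Subgroup.ext fun y => ⟨by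
      rintro ⟨A, rfl⟩
      exact cj_mem.2 (h4.le ⟨A, rfl⟩), fun hy => by
      obtain ⟨A, hA⟩ := h4.ge hy
      exact ⟨A, by simp [hA, mul_assoc]⟩⟩] at h5
    exact ⟨_, h5⟩
  choose ty hty using h5
  have c : Ctx (Nat.card F) (fun x => t x • N) ty := ⟨hty, fun g x => by
      rw [← mul_smul, ← inv_smul_eq_iff, ← mul_smul, h1 _ (by rw [mul_smul, ht, inv_smul_eq_iff, mul_smul, ht])],
    fun x => by simpa only [ht] using (le_stab_smul (g := t x)).2 hNle, two,
    fun g hg => eq_of_smul_eq_smul (α := Ω) fun x => by rw [hg, one_smul],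
    by rw [Nat.card_eq_fintype_card]; exact hev.two_dvd⟩
  have h6 : t a • N = N := h1 _ (ht a)
  obtain ⟨φ', ψ', h⟩ : ∃ φ' ψ' : S3 F →* G, Co (fun x => t x • N) ty a φ' ψ' :=
    (exists_co c (du_io h3) (h6.trans h4.symm)).elim (fun h => ⟨_, _, h⟩) fun h => ⟨_, _, h⟩
  obtain ⟨h7, h8⟩ := h.core hn (Nat.card_eq_fintype_card.trans hF)
  refine ⟨by simpa only [h6] using h7, h8.imp_right fun ⟨h9, h10, h11⟩ => ⟨Nat.card_eq_fintype_card.symm.trans h10, h9, ?_⟩⟩
  have h12 : Fintype.card F4 = Fintype.card F := by rw [hF, h9, F4.card]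
  let r := FiniteField.ringEquivOfCardEq h12
  let σ : S3 F4 ≃* S3 F := MonoidHom.toMulEquiv (Matrix.SpecialLinearGroup.map r.toRingHom)
    (Matrix.SpecialLinearGroup.map r.symm.toRingHom) (by ext; simp) (by ext; simp)
  have h13 : Nat.card F = Nat.card F4 := by simp only [Nat.card_eq_fintype_card, h12]
  rw [h13] at c h11
  exact (exists_co c (du_io (ker_comp σ h3)) (h6.trans (h4.symm.trans (by
    rw [MonoidHom.range_comp φ, (MonoidHom.range_eq_top (f := σ.toMonoidHom)).2 σ.surjective,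
      ← MonoidHom.range_eq_map])))).elim
    (fun h => h.m22 h11 h10 h7) fun h => h.m22 h11 h10 h7

end Cfsg.Agent.S3727
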