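import Cfsg.Statements.S3730
import Cfsg.Agent.FT.Final
import Cfsg.Agent.BSW.Ext

set_option autoImplicit false
open Cfsg

namespace Cfsg.Agent.S3730

/-- Let G be a nontrivial finite group with no nontrivial solvable normal subgroup, such that for every cyclic subgroup X of even order and every nontrivial subgroup Y of X one has N_G(X) = N_G(Y) (every nontrivial subgroup of a cyclic subgroup of even order has the same normalizer as the whole cyclic subgroup). Then G is isomorphic to PSL(2, q) or to PGL(2, q) for some prime power q > 3. -/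
theorem result
    {G : Type*} [Group G] [Finite G] [Nontrivial G]
    (hss : ∀ N : Subgroup G, N.Normal → Group.IsSolvable ↥N → N = ⊥)
    (hii : ∀ X : Subgroup G, IsCyclic ↥X → Even (Nat.card ↥X) → ∀ Y : Subgroup G, Y ≤ X → Y ≠ ⊥ →
      Subgroup.normalizer (X : Set G) = Subgroup.normalizer (Y : Set G)) :
    ∃ (F : Type) (_ : Field F) (_ : Fintype F), 3 < Fintype.card F ∧
      (Nonempty (G ≃* Matrix.ProjectiveSpecialLinearGroup (Fin 2) F) ∨
        Nonempty (G ≃* Matrix.ProjGenLinGroup (Fin 2) F)) := by
  exact BSW.recog_of_hii FT.oddOrder hss hii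

end Cfsg.Agent.S3730
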